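import Cfsg.Agent.H37.S2B
import Cfsg.Agent.H37.Tab

/-! Certificates that a multiset of eigenvalues is not a sum of weight multisets of `SL₂(3^f)`. -/

set_option autoImplicit false

namespace Cfsg.Agent.H37.S2

open Finset Polynomial

theorem count_eq_of_prod_eq {K : Type*} [Field K] [Infinite K] {ζ : K} {m : ℕ} (hζ : IsPrimitiveRoot ζ m)
    {A B : List ℕ} (hA : ∀ a ∈ A, a < m) (hB : ∀ a ∈ B, a < m)
    (h : ∀ x, (A.map fun a => x - ζ ^ a).prod = (B.map fun a => x - ζ ^ a).prod) (y : ℕ) : A.count y = B.count y := by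
  classical
  have h1 : ∀ A : List ℕ, ∀ x, (A.map fun a => x - ζ ^ a).prod =
      ((((A.map (ζ ^ ·) : List K) : Multiset K).map fun a => X - C a).prod).eval x := fun A x => by
    simp [eval_list_prod, Function.comp_def]
  have h2 := congrArg roots (Polynomial.funext fun x => (h1 A x).symm.trans ((h x).trans (h1 B x)))
  rw [roots_multiset_prod_X_sub_C, roots_multiset_prod_X_sub_C, Multiset.coe_eq_coe] at h2
  by_cases hy : y < m
  · have h3 : ∀ A : List ℕ, (∀ a ∈ A, a < m) → (A.map (ζ ^ ·)).count (ζ ^ y) = A.count y := fun A hA => by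
      rw [List.count_eq_countP, List.countP_map, List.count_eq_countP]
      exact List.countP_congr fun a ha => by
        simpa using ⟨fun e => hζ.pow_inj (hA a ha) hy e, fun e => by rw [e]⟩
    rw [← h3 A hA, ← h3 B hB, h2.count_eq]
  · rw [List.count_eq_zero_of_not_mem fun e => hy (hA y e), List.count_eq_zero_of_not_mem fun e => hy (hB y e)]

/-- a list of exponents as one number -/
def enc (l : List ℕ) : ℕ := (l.map fun e => 1024 ^ e).sum

theorem enc_split (l : List ℕ) : enc l = l.count 0 + 1024 * enc ((l.filter (· ≠ 0)).map (· - 1)) := by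
  induction l with
  | nil => rfl
  | cons a l ih =>
    rw [enc, List.map_cons, List.sum_cons, ← enc, ih]
    cases a with
    | zero => simp; omega
    | succ a => simp [enc, pow_succ]; omega

theorem fld_enc (x : ℕ) : ∀ l : List ℕ, l.length < 1024 → fld (enc l) 10 1024 x = l.count x := by
  induction x with
  | zero =>
      intro l hl
      have := List.count_le_length (a := 0) (l := l)
      change enc l >>> 0 % 1024 = _
      rw [Nat.shiftRight_zero, enc_split]; omega
  | succ x ih =>
      intro l hl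
      have h1 := List.count_le_length (a := 0) (l := l)
      have h2 := ih ((l.filter (· ≠ 0)).map (· - 1)) (by
        rw [List.length_map]; exact (List.length_filter_le _ _).trans_lt hl)
      change enc _ >>> (10 * x) % 1024 = _ at h2
      change enc l >>> (10 * (x + 1)) % 1024 = _
      rw [mul_add, add_comm, Nat.shiftRight_add, enc_split, Nat.shiftRight_eq_div_pow _ (10 * 1),
        show (l.count 0 + 1024 * enc ((l.filter (· ≠ 0)).map (· - 1))) / 2 ^ (10 * 1) =
          enc ((l.filter (· ≠ 0)).map (· - 1)) by omega, h2, List.count_eq_countP, List.countP_map,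
        List.countP_filter, List.count_eq_countP]
      exact List.countP_congr fun a _ => by simp; omega

/-- digit test -/
noncomputable def okD (f : ℕ) : ℕ → ℕ → Bool :=
  @Nat.rec (fun _ => ℕ → ℕ → Bool) (fun _ _ => true)
    (fun _ ih l k => band (Nat.ble (Nat.mod k (nat_lit 3)) (Nat.mod l (nat_lit 3)))
      (ih (Nat.div l (nat_lit 3)) (Nat.div k (nat_lit 3)))) f

theorem okD_iff (f : ℕ) : ∀ l k, l < 3 ^ f → k < 3 ^ f → (okD f l k = true ↔ ¬ 3 ∣ l.choose k) := by
  induction f with
  | zero => intro l k hl hk; obtain rfl : l = 0 := by omega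
            obtain rfl : k = 0 := by omega
            exact ⟨fun _ => by decide, fun _ => rfl⟩
  | succ f ih =>
    intro l k hl hk
    have : Fact (Nat.Prime 3) := ⟨Nat.prime_three⟩
    have h1 : ∀ a < 3, ∀ b < 3, (b ≤ a ↔ ¬ 3 ∣ a.choose b) := by decide
    change band (Nat.ble (k % 3) (l % 3)) (okD f (l / 3) (k / 3)) = true ↔ _
    rw [band_eq_true, ih _ _ (by omega) (by omega), Nat.ble_eq, h1 _ (by omega) _ (by omega),
      (Choose.choose_modEq_choose_mod_mul_choose_div_nat (p := 3) (n := l) (k := k)).dvd_iff dvd_rfl, Nat.prime_three.dvd_mul, not_or]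

/-- the weights of the module with highest weight `l`, modulo `m` -/
noncomputable def wl (f m l : ℕ) : List ℕ :=
  ((List.range (l + 1)).filter (okD f l)).map fun k => (k + (m - 1) * (l - k)) % m

theorem prod_ex {K : Type*} [Field K] {ζ : K} {m : ℕ} (hm : 0 < m) (hζ : ζ ^ m = 1) {f l : ℕ} (hl : l < 3 ^ f) (x : K) :
    ∏ k ∈ ex 3 l, (x - ζ ^ k * ζ⁻¹ ^ (l - k)) = ((wl f m l).map fun a => x - ζ ^ a).prod := by
  have h1 : ζ⁻¹ = ζ ^ (m - 1) := inv_eq_of_mul_eq_one_left (by rw [← pow_succ, Nat.sub_add_cancel hm, hζ])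
  rw [wl, List.map_map, ← List.prod_toFinset _ (List.nodup_range.filter _)]
  refine prod_congr (Finset.ext fun k => ?_) fun k _ => ?_
  · simp only [ex, mem_filter, mem_range, List.mem_toFinset, List.mem_filter, List.mem_range]
    exact and_congr_right fun hk => (okD_iff f l k hl (by omega)).symm
  · rw [h1, ← pow_mul, ← pow_add, Function.comp_apply, ← pow_eq_pow_mod _ hζ]

/-- fast encoding of the weights -/
noncomputable def encW (f m l : ℕ) : ℕ :=
  @Nat.rec (fun _ => ℕ) 0 (fun k s => @Bool.rec (fun _ => ℕ) s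
    (Nat.add s (Nat.pow 1024 (Nat.mod (Nat.add k (Nat.mul (Nat.sub m 1) (Nat.sub l k))) m))) (okD f l k)) (Nat.succ l)

theorem encW_eq (f m l : ℕ) : encW f m l = enc (wl f m l) := by
  rw [encW, wl, Nat.succ_eq_add_one]
  induction l + 1 with
  | zero => rfl
  | succ n ih =>
    rw [List.range_succ, List.filter_append, List.map_append, enc, List.map_append, List.sum_append, ← enc, ← ih]
    cases h : okD f l n <;> simp [h]
    rfl

theorem length_wl (f m l : ℕ) : (wl f m l).length ≤ l + 1 := by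
  rw [wl, List.length_map]; simpa using List.length_filter_le _ (List.range (l + 1))

theorem lt_of_mem_wl {f m l : ℕ} (hm : 0 < m) : ∀ a ∈ wl f m l, a < m := fun a ha => by
  obtain ⟨k, -, rfl⟩ := List.mem_map.1 ha
  exact Nat.mod_lt _ hm

/-- evaluate the argument first -/
noncomputable def frc (n : ℕ) (k : ℕ → Bool) : Bool := @Nat.rec (fun _ => Bool) (k 0) (fun n _ => k (Nat.succ n)) n

theorem frc_eq (n : ℕ) (k : ℕ → Bool) : frc n k = k n := by cases n <;> rfl

/-- field of ten bits -/
def fl (e x : ℕ) : ℕ := Nat.mod (Nat.shiftRight e (Nat.mul (nat_lit 10) x)) (nat_lit 1024)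

theorem fl_enc (x : ℕ) {l : List ℕ} (h : l.length < 1024) : fl (enc l) x = l.count x := fld_enc x l h

/-- value of a linear form on a packed vector -/
noncomputable def lin (h : ℕ) (F : ℕ → ℕ) (e : ℕ) : ℕ :=
  @Nat.rec (fun _ => ℕ) (nat_lit 0) (fun x s => Nat.add s (Nat.mul (F x) (fl e x))) h

theorem lin_eq (h : ℕ) (F : ℕ → ℕ) (e : ℕ) : lin h F e = ∑ x ∈ range h, F x * fl e x := by
  induction h with
  | zero => rfl
  | succ n ih => rw [sum_range_succ, ← ih]; rfl

/-- all the even weights either do not fit or are nonnegative for the linear forms -/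
noncomputable def certOK (f m h : ℕ) (C : List (ℕ × ℕ × ℕ)) : Bool :=
  allLt (Nat.pow 3 f) fun l => bimp (Nat.beq (Nat.mod l 2) 0) <| frc (encW f m l) fun e =>
    frc (fl (encW f 4 l) 2) fun n => frc (Nat.add (lin h (fun _ => nat_lit 512) e) (Nat.mul 512 n)) fun o =>
      allL C fun c => bimp (allLt h fun x => Nat.ble (fl e x) (fl c.1 x))
        (Nat.ble o (Nat.add (lin h (fl c.2.1) e) (Nat.mul c.2.2 n)))

/-- every vector in the list is negative for one of the linear forms -/
noncomputable def covOK (h : ℕ) (C : List (ℕ × ℕ × ℕ)) (N : ℕ) (W : List ℕ) : Bool :=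
  W.all fun e => C.any fun c => Nat.beq c.1 e &&
    decide (lin h (fl c.2.1) e + c.2.2 * N < lin h (fun _ => nat_lit 512) e + 512 * N)

theorem not_mem_of_cert {f m h N : ℕ} (hf : 3 ^ f < 1024) {C : List (ℕ × ℕ × ℕ)} {W : List ℕ}
    (h1 : certOK f m h C = true) (h2 : covOK h C N W = true) {L : List ℕ} (hL : ∀ l ∈ L, l < 3 ^ f ∧ l % 2 = 0)
    {E : List ℕ} (hE : E.length < 1024) (h3 : ∀ y, (L.flatMap (wl f m)).count y = E.count y)
    (h4 : (L.flatMap (wl f 4)).count 2 = N) : enc E ∉ W := fun h0 => by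
  obtain ⟨c, hc, h5⟩ := List.any_eq_true.1 (List.all_eq_true.1 h2 _ h0)
  rw [Bool.and_eq_true, Nat.beq_eq, decide_eq_true_eq] at h5
  have h6 : ∀ l ∈ L, ∑ x ∈ range h, 512 * (wl f m l).count x + 512 * (wl f 4 l).count 2 ≤
      ∑ x ∈ range h, fl c.2.1 x * (wl f m l).count x + c.2.2 * (wl f 4 l).count 2 := fun l hl => by
    have h7 := bimp_spec (allLt_spec h1 l (hL l hl).1) (Nat.beq_eq ▸ (hL l hl).2)
    have h8 := (hL l hl).1
    rw [frc_eq, frc_eq, frc_eq] at h7
    have h9 := Nat.le_of_ble_eq_true (bimp_spec (allL_spec h7 c hc) (allLt_iff.2 fun x _ => by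
      rw [Nat.ble_eq, h5.1, encW_eq, fl_enc _ (by have := length_wl f m l; omega), fl_enc _ hE, ← h3]
      exact (List.sublist_flatten_of_mem (List.mem_map_of_mem hl)).count_le _))
    simp only [lin_eq, encW_eq, fl_enc _ (show (wl f m l).length < 1024 by have := length_wl f m l; omega),
      fl_enc _ (show (wl f 4 l).length < 1024 by have := length_wl f 4 l; omega)] at h9
    exact h9
  have h7 : ∀ L : List ℕ, (∀ l ∈ L, ∑ x ∈ range h, 512 * (wl f m l).count x + 512 * (wl f 4 l).count 2 ≤
      ∑ x ∈ range h, fl c.2.1 x * (wl f m l).count x + c.2.2 * (wl f 4 l).count 2) →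
      ∑ x ∈ range h, 512 * (L.flatMap (wl f m)).count x + 512 * (L.flatMap (wl f 4)).count 2 ≤
      ∑ x ∈ range h, fl c.2.1 x * (L.flatMap (wl f m)).count x + c.2.2 * (L.flatMap (wl f 4)).count 2 := fun L hL => by
    induction L with
    | nil => simp
    | cons l L ih =>
      have := add_le_add (hL l (by simp)) (ih fun l hl => hL l (by simp [hl]))
      simp only [List.flatMap_cons, List.count_append, mul_add, sum_add_distrib]
      omega
  refine (h7 L h6).not_gt ?_
  simp only [lin_eq, fl_enc _ hE, h3, h4] at h5 ⊢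
  exact h5.2

/-- the exponents on a torus of rank two -/
def el (m : ℕ) (AB : List (ℕ × ℕ)) (a b : ℕ) : List ℕ :=
  List.replicate 8 0 ++ AB.map fun c => (a * c.1 + b * c.2) % m

/-- fast encoding -/
noncomputable def encE (m : ℕ) (AB : List (ℕ × ℕ)) (a b : ℕ) : ℕ :=
  @List.rec _ (fun _ => ℕ) 8 (fun c _ s => Nat.add s (Nat.pow (nat_lit 1024) (Nat.mod (Nat.add (Nat.mul a c.1) (Nat.mul b c.2)) m))) AB

theorem encE_eq (m : ℕ) (AB : List (ℕ × ℕ)) (a b : ℕ) : encE m AB a b = enc (el m AB a b) := by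
  rw [el, enc, List.map_append, List.sum_append]
  induction AB with
  | nil => rfl
  | cons c AB ih =>
    change encE m AB a b + _ = _
    rw [ih, List.map_cons, List.map_cons, List.sum_cons, add_assoc, add_comm (List.sum (List.map _ (List.map _ AB)))]
    rfl

/-- all nontrivial elements of the torus are listed (or regular, if allowed) -/
noncomputable def pairOK (m : ℕ) (AB : List (ℕ × ℕ)) (reg : Bool) (W : List ℕ) (a : ℕ) : Bool :=
  allLt m fun b => frc (encE m AB a b) fun e => @List.rec _ (fun _ => Bool)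
    (band (Nat.beq a 0) (Nat.beq b 0) || band reg (Nat.beq (fl e 0) 8))
    (fun w _ s => @Bool.rec (fun _ => Bool) s true (Nat.beq w e)) W

theorem pairOK_spec {m : ℕ} {AB : List (ℕ × ℕ)} (hAB : AB.length < 1000) {reg : Bool} {W : List ℕ} {a b : ℕ}
    (h : pairOK m AB reg W a = true) (hb : b < m) : (a = 0 ∧ b = 0) ∨
      (reg = true ∧ ∀ c ∈ AB, (a * c.1 + b * c.2) % m ≠ 0) ∨ enc (el m AB a b) ∈ W := by
  have h1 := allLt_spec h b hb
  rw [frc_eq, encE_eq] at h1
  clear h
  induction W with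
  | nil =>
    simp only [Bool.or_eq_true, band_eq_true, Nat.beq_eq] at h1
    refine h1.imp_right fun h2 => .inl ⟨h2.1, fun c hc e => ?_⟩
    have h3 := h2.2
    rw [fl_enc _ (by simp [el]; omega), el, List.count_append, List.count_replicate_self, Nat.add_eq_left,
      List.count_eq_zero] at h3
    exact h3 (List.mem_map.2 ⟨c, hc, e⟩)
  | cons w W ih =>
    cases h2 : Nat.beq w (enc (el m AB a b))
    · simp only [h2] at h1
      exact (ih h1).imp_right (Or.imp_right (List.mem_cons_of_mem _))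
    · exact .inr (.inr (Nat.eq_of_beq_eq_true h2 ▸ List.mem_cons_self))

theorem pairs_spec {m s n : ℕ} {AB : List (ℕ × ℕ)} (hAB : AB.length < 1000) {reg : Bool} {W R : List ℕ}
    (h : allL R (pairOK m AB reg W) = true) (hs : m.Coprime s)
    (h1 : (AB.map fun c => (s * c.1 % m, s * c.2 % m)).Perm AB) (h2 : ∀ a < m, ∃ k < n, s ^ k * a % m ∈ R)
    (h3 : ∀ c ∈ AB, c.1 < m ∧ c.2 < m) {a b : ℕ} (ha : a < m) (hb : b < m) : (a = 0 ∧ b = 0) ∨
      (reg = true ∧ ∀ c ∈ AB, (a * c.1 + b * c.2) % m ≠ 0) ∨ enc (el m AB a b) ∈ W := by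
  obtain ⟨k, -, hk⟩ := h2 a ha
  have h4 : ∀ k, (AB.map fun c => (s ^ k * c.1 % m, s ^ k * c.2 % m)).Perm AB := fun k => by
    induction k with
    | zero =>
      rw [List.map_congr_left (g := id) fun c hc => by
        simp [Nat.mod_eq_of_lt (h3 c hc).1, Nat.mod_eq_of_lt (h3 c hc).2], List.map_id]
    | succ k ih =>
      refine .trans (.of_eq ?_) ((ih.map _).trans h1)
      simp [List.map_map, Function.comp_def, pow_succ', mul_assoc]
  have h5 : (AB.map fun c => (s ^ k * a % m * c.1 + s ^ k * b % m * c.2) % m).Perm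
      (AB.map fun c => (a * c.1 + b * c.2) % m) := by
    refine .trans (.of_eq ?_) ((h4 k).map _)
    rw [List.map_map]
    refine List.map_congr_left fun c _ => ?_
    rw [Function.comp_apply, Nat.add_mod, Nat.mod_mul_mod, Nat.mod_mul_mod, Nat.add_mod (a * _), Nat.mul_mod_mod,
      Nat.mul_mod_mod, mul_comm (s ^ k) a, mul_comm (s ^ k) b, mul_assoc, mul_assoc]
  have h6 : ∀ a < m, s ^ k * a % m = 0 → a = 0 := fun a ha e =>
    Nat.eq_zero_of_dvd_of_lt ((hs.pow_right k).dvd_of_dvd_mul_left (Nat.dvd_of_mod_eq_zero e)) ha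
  refine (pairOK_spec hAB (allL_spec h _ hk) (Nat.mod_lt (s ^ k * b) (by omega))).imp
    (fun e => ⟨h6 a ha e.1, h6 b hb e.2⟩) (Or.imp (And.imp_right fun e c hc e' => ?_) fun e => ?_)
  · obtain ⟨d, hd, e''⟩ := List.mem_map.1 (h5.mem_iff.2 (List.mem_map.2 ⟨c, hc, e'⟩))
    exact e d hd e''
  · rwa [enc, el, ((h5.append_left _).map _).sum_eq] at e

end Cfsg.Agent.H37.S2
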