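import Cfsg.Agent.H37.EvA
import Cfsg.Agent.H37.EvB

/-! Homomorphisms from `SL₂(3^f)` to `E₈(3)`: eigenvalues in the adjoint representation. -/

set_option autoImplicit false

namespace Cfsg.Agent.H37.S2

open Cfsg.Lie Cfsg.Agent.H38 Cfsg.Agent.H39 Matrix Finset MatrixGroups

section eig

variable {K F : Type*} [Field K] [Field F] {j : F →+* K}

theorem exists_eig {a : K} (h0 : a ≠ 0) (h1 : a ^ 2 ≠ 1) (h : a + a⁻¹ ∈ j.range) : ∃ g, Eig j g a a⁻¹ := by
  obtain ⟨τ, hτ⟩ := h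
  have h2 : IsUnit (det !![1, 1; -a, -a⁻¹]) := Ne.isUnit fun e => h1 (by
    rw [det_fin_two_of] at e
    field_simp at e
    linear_combination e)
  refine ⟨⟨!![0, -1; 1, τ], by simp [det_fin_two]⟩, _, _, mul_nonsing_inv _ h2, ?_⟩
  ext i k
  fin_cases i <;> fin_cases k <;> simp [Matrix.mul_apply, Fin.sum_univ_two, hτ] <;> field_simp <;> ring

theorem Eig.pow {g : SL(2, F)} {a b : K} (h : Eig j g a b) (n : ℕ) : Eig j (g ^ n) (a ^ n) (b ^ n) := by
  obtain ⟨P, Q, h1, h2⟩ := h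
  refine ⟨P, Q, h1, ?_⟩
  have h3 : SemiconjBy P (diagonal ![a, b]) (j.mapMatrix g.1) := h2.symm
  have := (h3.pow_right n).eq
  rw [← map_pow, diagonal_pow] at this
  exact this.symm.trans (congrArg (P * diagonal ·) (funext fun i => by fin_cases i <;> rfl))

theorem Eig.eq_one_iff {g : SL(2, F)} {a b : K} (h : Eig j g a b) : g = 1 ↔ a = 1 ∧ b = 1 := by
  obtain ⟨P, Q, h1, h2⟩ := h
  constructor
  · rintro rfl
    have h3 := congrArg (Q * ·) h2
    rw [show (1 : SL(2, F)).1 = 1 from rfl, Matrix.map_one j j.map_zero j.map_one, Matrix.one_mul] at h3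
    simp only [← Matrix.mul_assoc, mul_eq_one_comm.1 h1, Matrix.one_mul] at h3
    exact ⟨by simpa using (congrFun₂ h3 0 0).symm, by simpa using (congrFun₂ h3 1 1).symm⟩
  · rintro ⟨rfl, rfl⟩
    have h3 := congrArg (· * Q) h2
    rw [show diagonal ![(1 : K), 1] = 1 by ext i k; fin_cases i <;> fin_cases k <;> simp] at h3
    simp only [Matrix.mul_assoc, h1, Matrix.mul_one] at h3
    exact Subtype.ext (Matrix.map_injective j.injective (h3.trans (Matrix.map_one j j.map_zero j.map_one).symm))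

end eig

theorem prod_exp {K : Type*} [Field K] {ζ : Kˣ} {m n : ℕ} (hζ : ζ ^ m = 1) (z : Fin n → ℤ)
    (e : ℕ → ℕ) (h : ∀ s : Fin n, (e s : ℤ) ≡ z s [ZMOD m]) (t : K) :
    (t - 1) ^ 8 * ∏ s : Fin n, (t - (ζ ^ z s : Kˣ)) =
      ((List.replicate 8 0 ++ (List.range n).map e).map fun a => t - (ζ : K) ^ a).prod := by
  rw [List.map_append, List.prod_append, List.map_replicate, List.prod_replicate, pow_zero, List.map_map,
    ← List.prod_toFinset _ List.nodup_range, List.toFinset_range, prod_range]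
  refine congrArg _ (prod_congr rfl fun s _ => ?_)
  rw [zpow_eq_zpow_emod' (z s) hζ, ← h s, ← zpow_eq_zpow_emod' _ hζ, zpow_natCast, Units.val_pow_eq_pow_val]; rfl

/-- the exponents of a torus of rank two -/
def abL (T : Tab) (m : ℕ) (u v : List ℤ) : List (ℕ × ℕ) := (List.range T.n).map fun s =>
  ((sumLT T.l (fun i => u.getD i 0 * T.car i s) % m).toNat, (sumLT T.l (fun i => v.getD i 0 * T.car i s) % m).toNat)

/-- certificate for a torus of rank two -/
def torOK (D : ChevalleyDatum) (T : Tab) (m : ℕ) (l : List ℕ) (M N : List (List ℤ)) (u v : List ℤ)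
    (AB : List (ℕ × ℕ)) : Prop :=
  (∀ i ∈ l, i < T.l) ∧ (u.getD 0 0 = 1 ∧ u.getD 1 0 = 0 ∧ v.getD 0 0 = 0 ∧ v.getD 1 0 = 1) ∧ AB = abL T m u v ∧
    ∀ i < T.l, (m : ℤ) ∣ sumLT T.l (fun k => u.getD k 0 * (3 * gl M k i - if k = i then 1 else 0)) ∧
      (m : ℤ) ∣ sumLT T.l (fun k => v.getD k 0 * (3 * gl M k i - if k = i then 1 else 0)) ∧
      ∀ j < T.l, T.co (wF T l (D.simple i)) j = gl M i j ∧
        sumLT T.l (fun k => (3 * gl M i k - if i = k then 1 else 0) * gl N k j) = if i = j then m else 0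

noncomputable instance (D : ChevalleyDatum) (T : Tab) (m : ℕ) (l : List ℕ) (M N : List (List ℤ)) (u v : List ℤ)
    (AB : List (ℕ × ℕ)) : Decidable (torOK D T m l M N u v AB) := by unfold torOK; infer_instance

/-- An embedding of `E₈(3)` in a matrix group over the algebraic closure, with the eigenvalues of some semisimple
elements. -/
theorem exists_rep {D : ChevalleyDatum} (hD : IsChev D) (h8 : D.rank = 8) (h0 : H64.HasInv D 1) {T : Tab}
    (hT : Checked D T) :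
    ∃ ρ : Representation (AlgebraicClosure (ZMod 3)) (D.group (ZMod 3)) (D.Idx → AlgebraicClosure (ZMod 3)),
    (∀ x ≠ 1, x ^ 2 = 1 → ∀ ζ, IsPrimitiveRoot ζ 4 → ∃ b : Fin D.rank → ℤ, (∀ i, 0 ≤ b i ∧ b i < 2) ∧ b ≠ 0 ∧
      ∀ t : AlgebraicClosure (ZMod 3), LinearMap.det (t • (1 : Module.End _ _) - ρ x) = ((List.replicate 8 0 ++
        (List.range D.nroots).map fun s => ((2 * ∑ i, b i * D.cartan i s) % 4).toNat).map fun a => t - ζ ^ a).prod) ∧
    ∀ (r n : ℕ) l M N u v AB, r.Prime → (Nat.card (D.group (ZMod 3))).factorization r = n * 2 →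
      torOK D T (r ^ n) l M N u v AB → ∀ x ≠ 1, x ^ r ^ n = 1 → ∀ ζ, IsPrimitiveRoot ζ (r ^ n) →
      ∃ a < r ^ n, ∃ b < r ^ n, ¬ (a = 0 ∧ b = 0) ∧
        ((∀ c ∈ AB, (a * c.1 + b * c.2) % r ^ n ≠ 0) → ∀ z, Commute z x → z ^ r ^ n = 1) ∧
        ∀ t : AlgebraicClosure (ZMod 3), LinearMap.det (t • (1 : Module.End _ _) - ρ x) =
          ((el (r ^ n) AB a b).map fun a => t - ζ ^ a).prod := by
  obtain ⟨_⟩ := nonempty_chev hD
  have h0 := centT_eq_bot_of (k := AlgebraicClosure (ZMod 3)) h0 fun c h => by simpa using h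
  have hA := (adjCov hD _).sc_of_centT h0
  obtain ⟨Φ, f, μ, hΦ, -⟩ := exists_split_adj hD (ZMod 3) 3 h0
  let ρ : Representation (AlgebraicClosure (ZMod 3)) (D.group (ZMod 3)) _ :=
    ((Matrix.toLinAlgEquiv' (n := D.Idx)).toMonoidHom.comp (Units.coeHom _)).comp ((adjCov hD _).θ.comp μ.ι)
  have e1 : ∀ x (t : AlgebraicClosure (ZMod 3)), LinearMap.det (t • (1 : Module.End _ _) - ρ x) =
      (adjCov hD _).chi (μ.ι x) t := fun x t => by
    rw [Cov.chi, ← LinearMap.det_toLin', map_sub Matrix.toLin', map_smul Matrix.toLin', Matrix.toLin'_one]; rfl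
  refine ⟨ρ, fun x h1 h2 ζ hζ => ?_, fun r n l M N u v AB hr hc h x h1 h2 ζ hζ => ?_⟩
  · have hζ' := hζ.isUnit_unit (by norm_num)
    obtain ⟨b, h3, h4, h5⟩ := Cov.exists_chi hA 3 (adjCov_hasField hD _) (algClosure_alg _ 3) (m := 2) (by norm_num)
      (s := μ.ι x) (by rw [← map_pow, h2, map_one]) (hζ'.pow (a := 2) (by norm_num) rfl)
    refine ⟨b, h3, fun e => h1 (μ.inj ((h4 e).trans (map_one _).symm)), fun t => ?_⟩
    rw [e1, h5, congrArg ((t - 1) ^ ·) h8]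
    simp only [show ∀ (u : (AlgebraicClosure (ZMod 3))ˣ) (z : ℤ), (u ^ 2) ^ z = u ^ (2 * z) from fun u z => by
      rw [_root_.zpow_mul, zpow_ofNat]]
    refine prod_exp hζ'.pow_eq_one (fun s => 2 * pr s b) _ (fun s => ?_) t
    rw [Int.toNat_of_nonneg (by omega)]
    exact Int.mod_modEq _ _
  · have : Fact r.Prime := ⟨hr⟩
    have hm : 0 < r ^ n := pow_pos hr.pos n
    have hζ' := hζ.isUnit_unit hm.ne'
    obtain ⟨h3, h4, rfl, h5⟩ := h
    rw [hT.l_eq] at h3 h5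
    obtain ⟨w, hw, e2⟩ := hT.exists_wF l h3
    replace e2 : wM w = Matrix.of fun i j : Fin D.rank => gl M i j := Matrix.ext fun i j => by
      rw [wM, cv, ← hT.agree.co_eq _ (Fin.is_lt _) _ j.2, e2]; exact ((h5 i i.2).2.2 j j.2).1
    have e3 : ∀ y : List ℤ, ∀ i : Fin D.rank, ((fun k : Fin D.rank => y.getD k 0) ᵥ* ((3 : ℤ) • wM w - 1)) i =
        sumLT D.rank fun k => y.getD k 0 * (3 * gl M k i - if k = i then 1 else 0) := fun y i => by
      simp [sumLT_eq, sum_range, e2, vecMul, dotProduct, one_apply, Fin.ext_iff]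
    obtain ⟨a, ha, b, hb, h6, h7, h9⟩ := μ.exists_chi_two hA (q := 3) (by simpa using hΦ.M_eq) hw hc
      (u := fun k => u.getD k 0) (v := fun k => v.getD k 0) (i := ⟨0, by omega⟩) (j := ⟨1, by omega⟩) h4
      (fun i => e3 u i ▸ (h5 i i.2).1) (fun i => e3 v i ▸ (h5 i i.2).2.1) (N := Matrix.of fun i j => gl N i j)
      (e := (r ^ n : ℕ)) (Matrix.ext fun i j => by
        simpa [sumLT_eq, sum_range, e2, mul_apply, one_apply, Fin.ext_iff] using ((h5 i i.2).2.2 j j.2).2) hζ' h2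
    have e4 : ∀ s : Fin D.nroots, (((a * (sumLT T.l (fun i => u.getD i 0 * T.car i s) %
        (r ^ n : ℕ)).toNat + b * (sumLT T.l (fun i => v.getD i 0 * T.car i s) % (r ^ n : ℕ)).toNat) %
        r ^ n : ℕ) : ℤ) ≡ pr s ((a : ℤ) • (fun k : Fin D.rank => u.getD k 0) + (b : ℤ) • fun k : Fin D.rank => v.getD k 0)
          [ZMOD (r ^ n : ℕ)] :=
      fun s => by
        have h9 := fun y : ℤ => Int.toNat_of_nonneg (Int.emod_nonneg y (Int.natCast_ne_zero.2 hm.ne'))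
        rw [map_add, map_smul, map_smul, pr_apply, pr_apply, Int.natCast_mod, Nat.cast_add, Nat.cast_mul, Nat.cast_mul,
          h9, h9, sumLT_eq, sumLT_eq, hT.l_eq, sum_range, sum_range]
        simp only [hT.agree.car_eq _ (Fin.is_lt _) _ s.2]
        exact (Int.mod_modEq _ _).trans (((Int.mod_modEq _ _).mul_left _).add ((Int.mod_modEq _ _).mul_left _))
    refine ⟨a, ha, b, hb, fun e => h1 (h6 e.1 e.2), fun e z hz => ?_, fun t => ?_⟩
    · rw [← zpow_natCast]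
      refine h7 (fun s hs => e _ (List.mem_map.2 ⟨s, List.mem_range.2 (s.2.trans_eq hT.n_eq.symm), rfl⟩) ?_) z hz
      exact Nat.eq_zero_of_dvd_of_lt (Int.natCast_dvd_natCast.1 ((e4 s).dvd_iff.2 hs)) (Nat.mod_lt _ hm)
    · rw [e1, h9, el, abL, List.map_map, hT.n_eq, congrArg ((t - 1) ^ ·) h8]
      exact prod_exp hζ'.pow_eq_one _ _ e4 t

/-- No homomorphism of `SL₂(3^f)` with kernel `±1`. -/
theorem no_hom {D : ChevalleyDatum} (hD : IsChev D) (h8 : D.rank = 8) (h0 : H64.HasInv D 1) {T : Tab} (hT' : Checked D T)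
    (hI : ∀ b : Fin D.rank → ℤ, (∀ i, 0 ≤ b i ∧ b i < 2) → b ≠ 0 → ∀ N, ((List.range D.nroots).map fun s =>
      ((2 * ∑ i, b i * D.cartan i s) % 4).toNat).count 2 = N → N = 112 ∨ N = 128)
    {F : Type*} [Field F] [Fintype F] {f : ℕ} (hF : Fintype.card F = 3 ^ f) (hf : 3 ^ f < 1024)
    {r n d h : ℕ} (hr : r.Prime) (hc : (Nat.card (D.group (ZMod 3))).factorization r = n * 2)
    {l : List ℕ} {M N : List (List ℤ)} {u v : List ℤ} {AB : List (ℕ × ℕ)} (hT : torOK D T (r ^ n) l M N u v AB)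
    (hAB : AB.length < 1000) {C : List (ℕ × ℕ × ℕ)} {W : List ℕ} (h1 : certOK f (r ^ n) h C = true)
    (h2 : covOK h C 112 W = true ∧ covOK h C 128 W = true)
    (h3 : ∀ a < r ^ n, ∀ b < r ^ n, (a = 0 ∧ b = 0) ∨
      (¬ d ∣ 2 ∧ ∀ c ∈ AB, (a * c.1 + b * c.2) % r ^ n ≠ 0) ∨ enc (el (r ^ n) AB a b) ∈ W)
    (h4 : r ^ n * d ∣ 3 ^ f - 1 ∨ r ^ n * d ∣ 3 ^ f + 1) (h5 : ¬ r ^ n ∣ 2) (hf0 : f ≠ 0)
    (φ : SL(2, F) →* D.group (ZMod 3)) (e1 : φ (nn ^ 2) = 1) (e2 : ∀ g, φ g = 1 → g ^ 2 = 1) : False := by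
  obtain ⟨ρ, hρ, hρ'⟩ := exists_rep hD h8 h0 hT'
  have : CharP F 3 := charP_of_card_eq_prime_pow hF
  let := ZMod.algebra F 3
  let j : F →+* AlgebraicClosure (ZMod 3) := (IsAlgClosed.lift (R := ZMod 3) (S := F)).toRingHom
  obtain ⟨L, hL, e⟩ := exists_factors j 3 _ (ρ.comp φ) rfl
  rw [hF] at hL
  have e3 : ∀ g m (ζ : AlgebraicClosure (ZMod 3)), 0 < m → IsPrimitiveRoot ζ m → Eig j g ζ ζ⁻¹ → ∀ E : List ℕ,
      (∀ a ∈ E, a < m) → (∀ t, LinearMap.det (t • (1 : Module.End _ _) - ρ (φ g)) = (E.map fun a => t - ζ ^ a).prod) →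
      ∀ y, (L.flatMap (wl f m)).count y = E.count y := fun g m ζ hm hζ hg E hE h y =>
    count_eq_of_prod_eq hζ (fun a ha => by
      obtain ⟨l, -, hl⟩ := List.mem_flatMap.1 ha; exact lt_of_mem_wl hm a hl) hE (fun t => by
      rw [← h, show ρ (φ g) = (ρ.comp φ) g from rfl, e g _ _ hg, List.map_flatMap, List.flatMap_def, List.prod_flatten,
        List.map_map]
      exact congrArg _ (List.map_congr_left fun l hl => (prod_ex hm hζ.pow_eq_one (hL l hl) t).symm)) y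
  have e4 : ∀ m, ¬ 3 ∣ m → ∃ ζ : AlgebraicClosure (ZMod 3), IsPrimitiveRoot ζ m := fun m hm => by
    have : NeZero (m : AlgebraicClosure (ZMod 3)) := ⟨fun h => hm ((CharP.cast_eq_zero_iff _ 3 _).1 h)⟩
    exact HasEnoughRootsOfUnity.exists_primitiveRoot _ m
  have e5 : ∀ {g a b}, Eig j g a b → φ g = 1 → a ^ 2 = 1 := fun hg h => ((hg.pow 2).eq_one_iff.1 (e2 _ h)).1
  obtain ⟨i, hi⟩ := e4 4 (by norm_num)
  have i2 : i ^ 2 = -1 := (hi.pow (a := 2) (by norm_num) rfl).eq_neg_one_of_two_right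
  have i3 : i⁻¹ = -i := inv_eq_of_mul_eq_one_right (by linear_combination -i2)
  have : Fact (2 < 3) := ⟨by norm_num⟩
  have i4 : (-1 : AlgebraicClosure (ZMod 3)) ≠ 1 := CharP.neg_one_ne_one _ 3
  have e6 : Eig j nn i i⁻¹ := by
    have h2 : IsUnit (det !![1, 1; -i, i]) := Ne.isUnit fun e => i4 (by
      rw [det_fin_two_of] at e
      linear_combination i * e - 2 * i2)
    refine ⟨_, _, mul_nonsing_inv _ h2, ?_⟩
    ext a k
    fin_cases a <;> fin_cases k <;> simp [Matrix.mul_apply, Fin.sum_univ_two, nn_coe, i3, ← pow_two, i2]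
  have e7 : ∀ l ∈ L, l < 3 ^ f ∧ l % 2 = 0 := fun l hl => ⟨hL l hl, by
    have h6 := e _ _ _ (e6.pow 2) ((-1) ^ l)
    rw [List.prod_eq_zero (List.mem_map.2 ⟨l, hl, prod_eq_zero (i := 0) (by simp [ex]) (by simp [i3, i2])⟩),
      MonoidHom.comp_apply, e1, map_one, ← one_smul (AlgebraicClosure (ZMod 3)) (1 : Module.End _ _), smul_smul,
      ← sub_smul, LinearMap.det_smul, map_one, mul_one, mul_one] at h6
    exact Nat.even_iff.1 ((neg_one_pow_eq_one_iff_even i4).1 (sub_eq_zero.1 (pow_eq_zero_iff'.1 h6).1))⟩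
  obtain ⟨b, b1, b2, b3⟩ := hρ (φ nn) (fun h => i4 (i2 ▸ e5 e6 h)) (by rw [← map_pow, e1]) i hi
  have e8 := e3 _ _ _ (by norm_num) hi e6 _ (fun a ha => by
    rcases List.mem_append.1 ha with ha | ha
    · rw [List.eq_of_mem_replicate ha]; norm_num
    · obtain ⟨s, -, rfl⟩ := List.mem_map.1 ha; omega) b3 2
  rw [List.count_append, List.count_replicate, if_neg (by simp), zero_add] at e8
  have h6 : ¬ 3 ∣ r ^ n * d := fun h => by
    have h7 := dvd_pow_self 3 hf0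
    have h9 := Nat.one_le_pow f 3 (by norm_num)
    rcases h4 with h' | h' <;> have := h.trans h' <;> omega
  obtain ⟨μ, hμ⟩ := e4 _ h6
  have hm : 0 < r ^ n := pow_pos hr.pos n
  have hd : 0 < d := Nat.pos_of_ne_zero (by rintro rfl; simp at h6)
  have hμ0 := hμ.ne_zero (Nat.mul_pos hm hd).ne'
  have hζ := hμ.pow (a := d) (Nat.mul_pos hm hd) (mul_comm _ _)
  have h7 : (μ ^ d) ^ 2 ≠ 1 := fun h => h5 (hζ.dvd_of_pow_eq_one _ h)
  obtain ⟨g, hg⟩ := exists_eig (j := j) hμ0 (fun h => h7 (by rw [← pow_mul, mul_comm, pow_mul, h, one_pow])) (by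
    rw [← frob_fix_iff (p := 3) j hf0 (Nat.card_eq_fintype_card.trans hF), map_add, map_inv₀, iterateFrobenius_def]
    rcases h4 with h' | h'
    · rw [← Nat.sub_add_cancel (Nat.one_le_pow f 3 (by norm_num)), pow_succ, (hμ.pow_eq_one_iff_dvd _).2 h', one_mul]
    · rw [eq_inv_of_mul_eq_one_left ((pow_succ μ _).symm.trans ((hμ.pow_eq_one_iff_dvd _).2 h')), inv_inv, add_comm])
  have h9 := hg.pow d
  rw [inv_pow] at h9
  obtain ⟨a, ha, b, hb, c1, c2, c3⟩ := hρ' r n l M N u v AB hr hc hT (φ (g ^ d)) (fun h => h7 (e5 h9 h)) (by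
    rw [← map_pow, (h9.pow _).eq_one_iff.2 ⟨hζ.pow_eq_one, by rw [inv_pow, hζ.pow_eq_one, inv_one]⟩, map_one]) _ hζ
  have c4 := e3 _ _ _ hm hζ h9 _ (fun a ha => by
    rcases List.mem_append.1 ha with ha | ha
    · rwa [List.eq_of_mem_replicate ha]
    · obtain ⟨s, -, rfl⟩ := List.mem_map.1 ha; exact Nat.mod_lt _ hm) c3
  rcases (h3 a ha b hb).resolve_left c1 with c5 | c5
  · have := e5 (hg.pow (r ^ n)) ((map_pow φ _ _).trans (c2 c5.2 _ (((Commute.refl g).pow_right d).map φ)))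
    exact c5.1 (Nat.dvd_of_mul_dvd_mul_left hm (hμ.dvd_of_pow_eq_one _ (by rwa [pow_mul])))
  · rcases hI _ b1 b2 _ e8.symm with h | h
    · exact not_mem_of_cert hf h1 h2.1 e7 (by simp [el]; omega) c4 h c5
    · exact not_mem_of_cert hf h1 h2.2 e7 (by simp [el]; omega) c4 h c5

end Cfsg.Agent.H37.S2
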