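import Cfsg.Agent.H37.EvC
import Cfsg.Agent.H37.EvD
import Cfsg.Agent.H37.OkE8
import Cfsg.Agent.S1065

/-! `E₈(3)` contains neither `PSL₂(243)` nor `PSL₂(729)`. -/

set_option autoImplicit false

namespace Cfsg.Agent.H37.S2

open Cfsg.Lie Cfsg.Agent.H38 Cfsg.Agent.H39 Matrix Finset MatrixGroups

/-- parities of the Cartan integers -/
def par : List ℕ := [nat_lit 0x2fff800000000fffffbfff81f80000001f81fffdfffff000000001fff40, nat_lit 0x783003ffffc00003ff000ffdf7c00003efbff000ffc00003ffffc00c1e0, nat_lit 0x780ffc00003ffffc00c00ffdf7c00003efbff003003ffffc00003ff01e0, nat_lit 0xcc183fc00fff003fc180ff061fbc003df860ff0183fc00fff003fc18330, nat_lit 0x1860c61f87e07e1f86307e18c30fb81df0c3187e0c61f87e07e1f8630618, nat_lit 0x30306331ec79e378cc61e3318618f66f18618cc786331ec79e378cc60c0c, nat_lit 0x6018319b36cf36cd98c336630c319db98c30c66cc319b36cf36cd98c1806, nat_lit 0xc00c18cde379ec7b3181ecc61863366cc6186337818cde379ec7b3183003]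

theorem par_ok : allLt 8 (fun i => allLt 240 fun s =>
    (par.getD i 0).testBit s == decide (E8.car i s % 2 = 1)) = true := by decide +kernel

/-- sums of the parity vectors -/
def msk (B : ℕ) : ℕ → ℕ
  | 0 => 0
  | i + 1 => if B >>> i % 2 = 1 then msk B i ^^^ par.getD i 0 else msk B i

/-- numbers of eigenvalues `-1` of the involutions -/
theorem inv_ok : allLt 256 (fun B => Nat.beq B 0 || frc (msk B 8) fun M => frc ((List.range 240).countP M.testBit)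
    fun n => Nat.beq n 112 || Nat.beq n 128) = true := by
  decide +kernel

theorem testBit_msk (B : ℕ) {s : ℕ} (hs : s < 240) (n : ℕ) (hn : n ≤ 8) : (msk B n).testBit s =
    decide ((∑ i ∈ range n, ((B >>> i % 2 : ℕ) : ℤ) * E8.car i s) % 2 = 1) := by
  induction n with
  | zero => simp [msk]
  | succ n ih =>
    have h1 := beq_iff_eq.1 (allLt_spec (allLt_spec par_ok n hn) s hs)
    rw [msk, sum_range_succ]
    split_ifs with h
    · rw [Nat.testBit_xor, ih (by omega), h1, h, Nat.cast_one, one_mul]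
      generalize (∑ i ∈ range n, ((B >>> i % 2 : ℕ) : ℤ) * E8.car i s) = x
      generalize E8.car n s = y
      by_cases hx : x % 2 = 1 <;> by_cases hy : y % 2 = 1 <;> simp [hx, hy] <;> omega
    · rw [ih (by omega), show B >>> n % 2 = 0 by omega, Nat.cast_zero, zero_mul, add_zero]

theorem card_E8_three {r a : ℕ} (hr : r.Prime)
    (h1 : r ^ a ∣ 3 ^ 120 * (3 ^ 2 - 1) * (3 ^ 8 - 1) * (3 ^ 12 - 1) * (3 ^ 14 - 1) * (3 ^ 18 - 1) * (3 ^ 20 - 1) *
      (3 ^ 24 - 1) * (3 ^ 30 - 1))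
    (h2 : ¬ r ^ (a + 1) ∣ 3 ^ 120 * (3 ^ 2 - 1) * (3 ^ 8 - 1) * (3 ^ 12 - 1) * (3 ^ 14 - 1) * (3 ^ 18 - 1) *
      (3 ^ 20 - 1) * (3 ^ 24 - 1) * (3 ^ 30 - 1)) : (Nat.card (chevE8.group (ZMod 3))).factorization r = a := by
  rw [← S1065.result (F := ZMod 3) (ZMod.card 3), hr.pow_dvd_iff_le_factorization Nat.card_pos.ne'] at h1 h2
  omega

theorem torA : torOK chevE8 E8.tab (11 ^ 2) [0, 1, 2, 3, 4, 5, 6, 7, 0, 1, 2, 3, 4, 5, 6, 7, 0, 1, 2, 3, 4, 5, 6, 7, 0, 1, 2, 3, 4, 5, 6, 7, 0, 1, 2, 3, 4, 5, 6, 7, 0, 1, 2, 3, 4, 5, 6, 7]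
    [[1, 1, 2, 2, 2, 1, 1, 1], [1, 1, 2, 3, 2, 1, 1, 0], [0, 1, 1, 2, 1, 1, 0, 0], [0, 0, -1, -1, 0, 0, 0, 0], [0, -1, 0, -1, -1, 0, 0, 0], [-1, 0, -1, -1, -1, -1, 0, 0], [0, -1, -1, -1, -1, -1, -1, 0], [-1, -1, -1, -2, -1, -1, -1, -1]]
    [[-52, -39, -87, -87, -87, -75, -39, -39], [-48, -88, -87, -135, -123, -84, -75, -36], [0, -48, -52, -87, -48, -48, -36, 0], [0, 36, 39, 35, 36, 36, 27, 0], [36, 39, 36, 75, 35, 36, 36, 27], [12, 9, 48, 48, 48, 8, 9, 9], [0, 39, 12, 48, 39, 39, -1, 0], [39, 12, 39, 51, 48, 39, 39, -1]]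
    [1, 0, 41, 31, 94, 10, 38, 31] [0, 1, 112, 85, 1, 1, 31, 0] abA := by
  decide +kernel

theorem torB : torOK chevE8 E8.tab (73 ^ 1) [1, 3, 4, 1, 2, 0, 3, 5, 1, 6, 2, 4, 3, 2, 6, 0, 1, 5, 6, 5, 0, 7, 1, 6, 4, 0]
    [[0, -1, -1, -2, -2, -1, 0, 0], [1, 1, 1, 2, 1, 1, 0, 0], [0, 0, 0, 1, 1, 0, 0, 0], [0, 1, 1, 1, 1, 1, 1, 0], [-1, -2, -2, -3, -2, -1, -1, 0], [1, 2, 2, 3, 2, 1, 1, 1], [0, -1, 0, -1, -1, -1, -1, -1], [0, 0, -1, -1, 0, 0, 0, 0]]
    [[35, 39, 39, 51, 51, 48, 36, 36], [-39, -40, -75, -87, -75, -48, -45, -9], [9, 9, 17, 42, 33, 27, 27, 0], [-9, -12, -21, -49, -48, -39, -30, -27], [12, 15, 51, 63, 59, 48, 39, 27], [-12, 12, -15, 0, 3, -13, -12, -3], [36, 12, 36, 39, 12, 12, 11, 3], [0, 9, 12, 21, 45, 36, 9, 8]]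
    [1, 0, 33, 51, 23, 72, 2, 64] [0, 1, 50, 51, 5, 4, 1, 9] abB := by
  decide +kernel

theorem inv_spec (b : Fin chevE8.rank → ℤ) (h : ∀ i, 0 ≤ b i ∧ b i < 2) (h0 : b ≠ 0) (N : ℕ)
    (hN : ((List.range chevE8.nroots).map fun s => ((2 * ∑ i, b i * chevE8.cartan i s) % 4).toNat).count 2 = N) :
    N = 112 ∨ N = 128 := by
  let b' : Fin 8 → Fin 2 := fun i => ⟨(b i).toNat, by have := h i; omega⟩
  have h6 : ∀ i : Fin 8, ((finFunctionFinEquiv b' : ℕ) >>> (i : ℕ) % 2 : ℕ) = b i := fun i => by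
    rw [Nat.shiftRight_eq_div_pow, ← finFunctionFinEquiv_symm_apply_val, Equiv.symm_apply_apply]
    exact Int.toNat_of_nonneg (h i).1
  have h7 := allLt_spec inv_ok _ (finFunctionFinEquiv b').2
  generalize (finFunctionFinEquiv b' : ℕ) = B at h6 h7
  rw [Bool.or_eq_true, Nat.beq_eq, frc_eq, frc_eq, Bool.or_eq_true, Nat.beq_eq, Nat.beq_eq,
    List.countP_congr (q := (· == 2) ∘ fun s => ((2 * ∑ i, b i * chevE8.cartan i s) % 4).toNat) fun s hs => by
      have h8 : ∑ i : Fin 8, ((B >>> (i : ℕ) % 2 : ℕ) : ℤ) * E8.car i s = ∑ i : Fin 8, b i * chevE8.cartan i s :=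
        sum_congr rfl fun i _ => by rw [h6, ← E8.checked.agree.car_eq _ i.2 _ (List.mem_range.1 hs)]; rfl
      rw [testBit_msk B (List.mem_range.1 hs) 8 le_rfl, sum_range, h8]
      simp only [decide_eq_true_eq, Function.comp_apply, beq_iff_eq]
      change _ ↔ ((2 * ∑ i : Fin 8, b i * chevE8.cartan i s) % 4).toNat = 2
      omega, ← List.countP_map, ← List.count_eq_countP] at h7
  exact hN ▸ h7.resolve_left fun e => h0 (funext fun i => (h6 i).symm.trans (by simp [e]))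

theorem no_psl {F : Type*} [Field F] [Fintype F] (hF : Fintype.card F = 243 ∨ Fintype.card F = 729)
    (H : Subgroup (chevE8.group (ZMod 3))) : IsEmpty (H ≃* ProjectiveSpecialLinearGroup (Fin 2) F) := ⟨fun e => by
  let φ : SL(2, F) →* chevE8.group (ZMod 3) := H.subtype.comp (e.symm.toMonoidHom.comp (QuotientGroup.mk' _))
  have h1 : ∀ g, φ g = 1 ↔ g ∈ Subgroup.center SL(2, F) := fun g => by simp [φ]
  have h2 : φ (nn ^ 2) = 1 := (h1 _).2 (Matrix.SpecialLinearGroup.mem_center_iff.2 ⟨-1, by simp,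
    Matrix.ext fun i k => by fin_cases i <;> fin_cases k <;> simp [pow_two, mul_ap, nn_coe]⟩)
  have h3 : ∀ g, φ g = 1 → g ^ 2 = 1 := fun g hg => by
    obtain ⟨r, h4, h5⟩ := Matrix.SpecialLinearGroup.mem_center_iff.1 ((h1 g).1 hg)
    refine Subtype.ext (show g.1 ^ 2 = 1 from ?_)
    rw [← h5, ← map_pow, show r ^ 2 = 1 by simpa using h4, map_one]
  rcases hF with hF | hF
  · exact no_hom (by simp) rfl H64.hasInv_E8 E8.checked inv_spec (f := 5) hF (by norm_num) (d := 1) (by norm_num)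
      (card_E8_three (by norm_num) (by norm_num) (by norm_num)) torA (by decide +kernel) certA covA
      (fun a ha b hb => (pairsA ha hb).imp_right (Or.imp_left fun h => by simp at h)) (by norm_num) (by norm_num)
      (by norm_num) φ h2 h3
  · exact no_hom (by simp) rfl H64.hasInv_E8 E8.checked inv_spec (f := 6) hF (by norm_num) (d := 5) (by norm_num)
      (card_E8_three (by norm_num) (by norm_num) (by norm_num)) torB (by decide +kernel) certB covB
      (fun a ha b hb => (pairsB ha hb).imp_right (Or.imp_left fun h => ⟨by norm_num, h.2⟩)) (by norm_num) (by norm_num)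
      (by norm_num) φ h2 h3⟩

end Cfsg.Agent.H37.S2
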