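import Cfsg.Agent.H37.EvC
import Cfsg.Agent.H37.EwA

/-! Eigenvalues of semisimple elements: alcove coordinates, cyclic Sylow subgroups. -/

set_option autoImplicit false

namespace Cfsg.Agent.H37

open Cfsg.Lie Cfsg.Agent.H38 Cfsg.Agent.H39 Matrix Finset

variable {D : ChevalleyDatum} [Chev D] {hD : IsChev D} {k : Type*} [Field k] {Γ : Type*} [Group Γ]

theorem exists_alcove {m : ℤ} (hm : 0 < m) (y : Fin D.rank → ℤ) : ∃ z : Fin D.rank → ℤ,
    (∃ w : Equiv.Perm (Fin D.nroots), ∀ r, pr r z ≡ pr (w r) y [ZMOD m]) ∧ (∀ i, 0 ≤ pr ((rs D).sp i) z) ∧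
      ∀ r, pr r z ≤ m := by
  induction hn : (bf y y).toNat using Nat.strong_induction_on generalizing y with
  | _ n ih =>
    obtain ⟨v, hv, h1⟩ := exists_dominant y
    by_cases h : ∀ r, pr r (y ᵥ* wM v) ≤ m
    · exact ⟨_, ⟨v⁻¹, fun r => by rw [pr_wM' hv]⟩, h1, h⟩
    push Not at h
    obtain ⟨s, hs⟩ := h
    obtain ⟨z, ⟨w, h2⟩, h3⟩ := ih _ (by
      have e1 := bf_sub_smul (y ᵥ* wM v) (cv s) (pr s (y ᵥ* wM v) - m)
      have e2 := bf_nonneg (y ᵥ* wM v - (pr s (y ᵥ* wM v) - m) • cv s)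
      have e3 := mul_pos (mul_pos (sub_pos.2 hs) hm) (bf_pos (cv_ne s))
      have e4 := two_bf_cv s (y ᵥ* wM v)
      have : bf (y ᵥ* wM v - (pr s (y ᵥ* wM v) - m) • cv s) (y ᵥ* wM v - (pr s (y ᵥ* wM v) - m) • cv s) < bf y y := by
        rw [← bf_wM hv y y]
        linear_combination e1 - (pr s (y ᵥ* wM v) - m) * e4 + e3
      omega) (y ᵥ* wM v - (pr s (y ᵥ* wM v) - m) • cv s) rfl
    refine ⟨z, ⟨v⁻¹ * reflPerm D s * w, fun r => (h2 r).trans ?_⟩, h3⟩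
    rw [Equiv.Perm.mul_apply, Equiv.Perm.mul_apply, ← pr_wM' hv, pr_refl, map_sub, map_smul, pr_cv]
    exact Int.modEq_iff_dvd.2 ⟨-D.pairing s (w r), by rw [smul_eq_mul]; ring⟩

namespace Cov

variable {A : Cov hD k Γ} [IsAlgClosed k] (hA : A.SC) (p : ℕ) [Fact p.Prime] [CharP k p]
include hA p

theorem exists_chi_alc (hF : A.HasField) (hk : ∀ t : k, ∃ n, n ≠ 0 ∧ t ^ p ^ n = t) {m : ℕ} (hm : m.Coprime p) {s : Γ}
    (hs : s ^ m = 1) {ζ : kˣ} (hζ : IsPrimitiveRoot ζ m) : ∃ z : Fin D.rank → ℤ, (∀ i, 0 ≤ pr ((rs D).sp i) z) ∧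
      (∀ r, pr r z ≤ m) ∧ ∀ (e : ℕ) t, A.chi (s ^ e) t = (t - 1) ^ D.rank * ∏ r : Fin D.nroots, (t - (ζ ^ (e * pr r z) : kˣ)) := by
  obtain ⟨g, hg⟩ := conj_H hA hF p hk hm hs
  obtain ⟨c, hc⟩ := A.mem_H_iff.1 hg
  have : NeZero m := ⟨by rintro rfl; exact (Fact.out : p.Prime).one_lt.ne' (by simpa using hm)⟩
  have h1 : c ^ m = 1 := hA (by
    rw [map_pow, map_one, hc, show g⁻¹ * s * g = g⁻¹ * s * g⁻¹⁻¹ by rw [inv_inv], conj_pow, hs]; simp)
  choose b h2 h3 using fun i => hζ.eq_pow_of_mem_rootsOfUnity (ξ := c i) (congrFun h1 i)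
  have h4 : expY ζ (fun i => (b i : ℤ)) = c := funext fun i => (zpow_natCast _ _).trans (h3 i)
  obtain ⟨z, ⟨w, h5⟩, h6⟩ := exists_alcove (D := D) (Int.natCast_pos.2 (NeZero.pos m)) fun i => (b i : ℤ)
  refine ⟨z, h6.1, h6.2, fun e t => ?_⟩
  rw [← A.chi_conj _ g, show g⁻¹ * s ^ e * g = (g⁻¹ * s * g) ^ e by simpa using (conj_pow (a := g⁻¹) (b := s)).symm, ← hc,
    ← h4, ← map_pow, ← zpow_natCast, ← expY_zpow, ← expY_smul, chi_T, ← Equiv.prod_comp w]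
  refine congrArg _ (prod_congr rfl fun r _ => congrArg (t - Units.val ·) ?_)
  rw [map_smul, zpow_eq_zpow_iff_modEq, ← hζ.eq_orderOf]
  exact ((h5 r).mul_left _).symm

omit p in
/-- Elements of a Sylow subgroup of prime order. -/
theorem Frob.Model.exists_chi_one {Φ : A.Frob} {G : Type*} [Group G] [Finite G] (μ : Φ.Model G) {q : ℤ}
    (hM : Φ.M = q • 1) {w : Equiv.Perm (Fin D.nroots)} (hw : w ∈ (rs D).W) {r : ℕ} [Fact r.Prime]
    (hc : (Nat.card G).factorization r = 1) {u : Fin D.rank → ℤ} {i : Fin D.rank}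
    (h1 : u i = 1) (hu : ∀ l, (r : ℤ) ∣ (u ᵥ* (q • wM w - 1)) l) {ζ : kˣ} (hζ : IsPrimitiveRoot ζ r) {x : G}
    (hx : x ^ r = 1) : ∃ a < r, (a = 0 → x = 1) ∧ ∀ t, A.chi (μ.ι x) t =
        (t - 1) ^ D.rank * ∏ s : Fin D.nroots, (t - (ζ ^ pr s ((a : ℤ) • u) : kˣ)) := by
  classical
  obtain ⟨m, hm⟩ := A.X.exists_rep hw
  obtain ⟨g, hg⟩ := Φ.lang m
  let μ' := μ.twist hm hg
  have e1 : (Φ.twist hm).M = q • wM w := by rw [twist_M, hM, Matrix.smul_mul, one_mul]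
  obtain ⟨x₁, e2⟩ : ∃ x, μ'.ι x = A.T (expY ζ u) := (μ'.fix_iff _).1 (by
    rw [σ_T, e1, (zact_sub_one _ _).1]
    rw [MonoidHom.mem_ker, zact_expY]
    exact funext fun l => (hζ.zpow_eq_one_iff_dvd _).2 (hu l))
  have e3 : orderOf x₁ = r := orderOf_eq_prime (μ'.inj (by
    rw [map_pow, e2, ← map_pow, ← zpow_natCast, ← expY_zpow, zpow_natCast, hζ.pow_eq_one, map_one,
      show expY 1 u = 1 from funext fun _ => _root_.one_zpow _, map_one])) fun h => by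
    rw [h, map_one, ← map_one A.T] at e2
    exact hζ.ne_one (Fact.out : r.Prime).one_lt (by simpa [expY, h1] using (congrFun (hA e2) i).symm)
  let P : Sylow r G := Sylow.ofCard (Subgroup.zpowers x₁) (by rw [Nat.card_zpowers, e3, hc, pow_one])
  obtain ⟨Q, hQ⟩ := (IsPGroup.of_card_dvd_pow (p := r) (G := Subgroup.zpowers x) (n := 1)
    (by rw [Nat.card_zpowers, pow_one]; exact orderOf_dvd_of_pow_eq_one hx)).exists_le_sylow
  obtain ⟨y, rfl⟩ := MulAction.exists_smul_eq G P Q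
  obtain ⟨x', h3, rfl⟩ := hQ (Subgroup.mem_zpowers x)
  obtain ⟨a, ha, rfl⟩ := Finset.mem_image.1 ((mem_zpowers_iff_mem_range_orderOf (x := x₁)).1 h3)
  refine ⟨a, e3 ▸ mem_range.1 ha, fun h => by simp [h], fun t => ?_⟩
  rw [← A.chi_T, expY_smul, expY_zpow, zpow_natCast, map_pow, ← e2, ← map_pow, μ.twist_ι, chi_conj, ← A.chi_conj _ (μ.ι y),
    ← map_inv, ← map_mul, ← map_mul]
  generalize x₁ ^ a = x
  exact congrArg (fun z => A.chi (μ.ι z) t) (by simp [mul_assoc])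

end Cov

namespace S2

open Ew

/-- certificate for a torus -/
def torOK' (D : ChevalleyDatum) (T : Tab) (m : ℕ) (l : List ℕ) (M : List (List ℤ)) (u v : List ℤ)
    (AB : List (ℕ × ℕ)) : Prop :=
  (∀ i ∈ l, i < T.l) ∧ u.getD 0 0 = 1 ∧ AB = abL T m u v ∧
    ∀ i < T.l, (m : ℤ) ∣ sumLT T.l (fun k => u.getD k 0 * (3 * gl M k i - if k = i then 1 else 0)) ∧
      (m : ℤ) ∣ sumLT T.l (fun k => v.getD k 0 * (3 * gl M k i - if k = i then 1 else 0)) ∧
      ∀ j < T.l, T.co (wF T l (D.simple i)) j = gl M i j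

noncomputable instance (D : ChevalleyDatum) (T : Tab) (m : ℕ) (l : List ℕ) (M : List (List ℤ)) (u v : List ℤ)
    (AB : List (ℕ × ℕ)) : Decidable (torOK' D T m l M u v AB) := by unfold torOK'; infer_instance

theorem lt_of_mem_el {m : ℕ} (hm : 0 < m) (AB : List (ℕ × ℕ)) (a b : ℕ) : ∀ c ∈ el m AB a b, c < m := fun c hc => by
  rcases List.mem_append.1 hc with hc | hc
  · rwa [List.eq_of_mem_replicate hc]
  · obtain ⟨s, -, rfl⟩ := List.mem_map.1 hc; exact Nat.mod_lt _ hm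

/-- The adjoint representation over the algebraic closure. -/
theorem exists_rep' {D : ChevalleyDatum} (hD : IsChev D) (h8 : D.rank = 8) (h0 : H64.HasInv D 1) {T : Tab}
    (hT : Checked D T) :
    ∃ ρ : Representation (AlgebraicClosure (ZMod 3)) (D.group (ZMod 3)) (D.Idx → AlgebraicClosure (ZMod 3)),
    Function.Injective ρ ∧ (∀ g, ∃ M : Matrix D.Idx D.Idx _,
      M.map (frobeniusEquiv (AlgebraicClosure (ZMod 3)) 3) = M ∧ ρ g = Matrix.toLin' M) ∧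
    (∀ m x, m.Coprime 3 → x ^ m = 1 → ∀ ζ, IsPrimitiveRoot ζ m → ∃ a : ℕ → ℕ,
      (∀ s < D.nroots, ∑ j ∈ range 8, T.vec s j * a j ≤ m) ∧ ∀ E : ℕ → ℕ, (∀ s < D.nroots, (E s : ℤ) ≡ ∑ j ∈ range 8,
        T.vec s j * a j [ZMOD m]) → ∀ e, ∀ y < m, dm ⊤ (ρ (x ^ e)) (ζ ^ y) =
          (el m ((List.range D.nroots).map fun s => (E s, 0)) e 0).count y) ∧
    ∀ (r n : ℕ) l M u v AB, r.Prime → r ≠ 3 → torOK' D T (r ^ n) l M u v AB → ∀ x ≠ 1, x ^ r ^ n = 1 →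
      ∀ ζ, IsPrimitiveRoot ζ (r ^ n) → ((Nat.card (D.group (ZMod 3))).factorization r = n * 2 ∧ u.getD 1 0 = 0 ∧
        v.getD 0 0 = 0 ∧ v.getD 1 0 = 1) ∨ ((Nat.card (D.group (ZMod 3))).factorization r = 1 ∧ n = 1 ∧ v = []) →
      ∃ a < r ^ n, ∃ b < r ^ n, ¬ (a = 0 ∧ b = 0) ∧ (v = [] → b = 0) ∧
        ∀ y < r ^ n, dm ⊤ (ρ x) (ζ ^ y) = (el (r ^ n) AB a b).count y := by
  obtain ⟨_⟩ := nonempty_chev hD
  have h0 := centT_eq_bot_of (k := AlgebraicClosure (ZMod 3)) h0 fun c h => by simpa using h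
  have hA := (adjCov hD _).sc_of_centT h0
  obtain ⟨Φ, f, μ, hΦ, hι⟩ := Cov.exists_split 3 hA (adjCov_hasField hD _) (A₀ := adjCov hD (ZMod 3))
    (ι := groupMap D (algebraMap (ZMod 3) (AlgebraicClosure (ZMod 3)))) fun r t =>
    Subtype.ext (by rw [adjCov_x, ← glm_mg_x, ← adjCov_x]; rfl)
  let ρ : Representation (AlgebraicClosure (ZMod 3)) (D.group (ZMod 3)) _ :=
    ((Matrix.toLinAlgEquiv' (n := D.Idx)).toMonoidHom.comp (Units.coeHom _)).comp ((adjCov hD _).θ.comp μ.ι)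
  have e1 : ∀ x (t : AlgebraicClosure (ZMod 3)), LinearMap.det (t • (1 : Module.End _ _) - ρ x) =
      (adjCov hD _).chi (μ.ι x) t := fun x t => by
    rw [Cov.chi, ← LinearMap.det_toLin', map_sub Matrix.toLin', map_smul Matrix.toLin', Matrix.toLin'_one]; rfl
  have e0 : ∀ {m : ℕ}, m.Coprime 3 → (m : AlgebraicClosure (ZMod 3)) ≠ 0 := fun h e =>
    absurd (h.symm.eq_one_of_dvd ((CharP.cast_eq_zero_iff _ 3 _).1 e)) (by norm_num)
  refine ⟨ρ, fun x y h => μ.inj (Subtype.ext (Units.ext (Matrix.toLinAlgEquiv'.injective h))), fun g =>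
    ⟨_, ?_, rfl⟩, fun m x hm hx ζ hζ => ?_, fun r n l M u v AB hr h3 h x h1 h2 ζ hζ hc => ?_⟩
  · change ((μ.ι g).1.1).map _ = (μ.ι g).1.1
    rw [hι, groupMap_coe, Matrix.map_map]
    refine congrArg _ (funext fun a => ?_)
    rw [Function.comp_apply, frobeniusEquiv_apply, frobenius_def, ← map_pow, ZMod.pow_card]
  · have hm0 : 0 < m := Nat.pos_of_ne_zero (by rintro rfl; simp at hm)
    have hζ' := hζ.isUnit_unit hm0.ne'
    obtain ⟨z, h1, h2, h3⟩ := Cov.exists_chi_alc hA 3 (adjCov_hasField hD _) (algClosure_alg _ 3) hm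
      (s := μ.ι x) (by rw [← map_pow, hx, map_one]) hζ'
    have h4 : ∀ s : Fin D.nroots, ∑ j ∈ range 8, T.vec s j *
        (if h : j < D.rank then (pr ((rs D).sp ⟨j, h⟩) z).toNat else 0 : ℕ) = pr s z := fun s => by
      simp only [← h8, sum_range, Fin.is_lt, dif_pos, Fin.eta, Int.toNat_of_nonneg (h1 _)]
      simp only [pr_apply, mul_sum]
      rw [sum_comm]
      refine sum_congr rfl fun i _ => ?_
      rw [hT.cartan_eq i.2 s.2, sum_range, mul_sum]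
      exact sum_congr rfl fun j _ => by rw [rs_sp_val]; ring
    refine ⟨_, fun s hs => (h4 ⟨s, hs⟩).trans_le (h2 _), fun E hE e y hy => dm_eq_count (e0 hm) (by
      rw [← map_pow, ← pow_mul, mul_comm, pow_mul, hx, one_pow, map_one]) hζ (lt_of_mem_el hm0 _ _ _) (fun t => ?_) hy⟩
    rw [e1, map_pow, h3, el, List.map_map, congrArg ((t - 1) ^ ·) h8]
    refine prod_exp hζ'.pow_eq_one _ _ (fun s => ?_) t
    simp only [Function.comp_apply, zero_mul, add_zero, Int.natCast_mod, Nat.cast_mul]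
    exact (Int.mod_modEq _ _).trans ((h4 s ▸ hE s s.2).mul_left _)
  · have : Fact r.Prime := ⟨hr⟩
    have hm : 0 < r ^ n := pow_pos hr.pos n
    have hζ' := hζ.isUnit_unit hm.ne'
    obtain ⟨h3', h4, rfl, h5⟩ := h
    rw [hT.l_eq] at h3' h5
    obtain ⟨w, hw, e2⟩ := hT.exists_wF l h3'
    replace e2 : wM w = Matrix.of fun i j : Fin D.rank => gl M i j := Matrix.ext fun i j => by
      rw [wM, cv, ← hT.agree.co_eq _ (Fin.is_lt _) _ j.2, e2]; exact (h5 i i.2).2.2 j j.2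
    have e3 : ∀ y : List ℤ, ∀ i : Fin D.rank, ((fun k : Fin D.rank => y.getD k 0) ᵥ* ((3 : ℤ) • wM w - 1)) i =
        sumLT D.rank fun k => y.getD k 0 * (3 * gl M k i - if k = i then 1 else 0) := fun y i => by
      simp [sumLT_eq, sum_range, e2, vecMul, dotProduct, one_apply, Fin.ext_iff]
    obtain ⟨a, ha, b, hb, h6, h7, h9⟩ : ∃ a < r ^ n, ∃ b < r ^ n, (a = 0 → b = 0 → x = 1) ∧ (v = [] → b = 0) ∧
        ∀ t, (adjCov hD _).chi (μ.ι x) t = (t - 1) ^ D.rank * ∏ s : Fin D.nroots, (t - Units.val ((hζ.isUnit hm.ne').unit ^ pr s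
          ((a : ℤ) • (fun k : Fin D.rank => u.getD k 0) + (b : ℤ) • fun k : Fin D.rank => v.getD k 0))) := by
      rcases hc with hc | ⟨hc, rfl, rfl⟩
      · obtain ⟨a, ha, b, hb, h6, -, h9⟩ := μ.exists_chi_two hA (q := 3) (by simpa using hΦ.M_eq) hw hc.1
          (u := fun k => u.getD k 0) (v := fun k => v.getD k 0) (i := ⟨0, by omega⟩) (j := ⟨1, by omega⟩) ⟨h4, hc.2⟩
          (fun i => e3 u i ▸ (h5 i i.2).1) (fun i => e3 v i ▸ (h5 i i.2).2.1) (N := 0) (e := 0) (by simp) hζ' h2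
        exact ⟨a, ha, b, hb, h6, fun e => by simp [e] at hc, h9⟩
      · obtain ⟨a, ha, h6, h9⟩ := μ.exists_chi_one hA (q := 3) (by simpa using hΦ.M_eq) hw hc
          (u := fun k => u.getD k 0) (i := ⟨0, by omega⟩) h4 (fun i => by rw [e3]; simpa using (h5 i i.2).1)
          (ζ := (hζ.isUnit hm.ne').unit) (by simpa only [pow_one] using hζ') (pow_one r ▸ h2)
        exact ⟨a, by rwa [pow_one], 0, hm, fun e _ => h6 e, fun _ => rfl, fun t => by simpa using h9 t⟩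
    refine ⟨a, ha, b, hb, fun e => h1 (h6 e.1 e.2), h7, fun y hy => dm_eq_count
      (e0 (((Nat.coprime_primes hr Nat.prime_three).2 h3).pow_left n)) (by rw [← map_pow, h2, map_one]) hζ
      (lt_of_mem_el hm _ _ _) (fun t => ?_) hy⟩
    rw [e1, h9, el, abL, List.map_map, hT.n_eq, congrArg ((t - 1) ^ ·) h8]
    refine prod_exp hζ'.pow_eq_one _ _ (fun s => ?_) t
    have h9 := fun y : ℤ => Int.toNat_of_nonneg (Int.emod_nonneg y (Int.natCast_ne_zero.2 hm.ne'))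
    rw [map_add, map_smul, map_smul, pr_apply, pr_apply, Function.comp_apply, Int.natCast_mod, Nat.cast_add, Nat.cast_mul,
      Nat.cast_mul, h9, h9, sumLT_eq, sumLT_eq, hT.l_eq, sum_range, sum_range]
    simp only [hT.agree.car_eq _ (Fin.is_lt _) _ s.2]
    exact (Int.mod_modEq _ _).trans (((Int.mod_modEq _ _).mul_left _).add ((Int.mod_modEq _ _).mul_left _))

end S2

end Cfsg.Agent.H37
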