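import Cfsg.Agent.H37.S2A

/-! The irreducible representations of `SL₂(q)` in the defining characteristic, and the eigenvalues of the
semisimple elements in an arbitrary representation. -/

set_option autoImplicit false

namespace Cfsg.Agent.H37.S2

open Matrix Finset MatrixGroups

variable {K : Type*} [Field K] {F : Type*} [Field F]

/-- upper unitriangular -/
def ux (a : F) : SL(2, F) := ⟨!![1, a; 0, 1], by simp [det_fin_two]⟩
/-- lower unitriangular -/
def ly (a : F) : SL(2, F) := ⟨!![1, 0; a, 1], by simp [det_fin_two]⟩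
/-- diagonal -/
def dg (t : Fˣ) : SL(2, F) := ⟨!![(t⁻¹ : Fˣ), 0; 0, t], by simp [det_fin_two]⟩
/-- Weyl element -/
def nn : SL(2, F) := ⟨!![0, -1; 1, 0], by simp [det_fin_two]⟩

theorem ux_coe (a : F) : (ux a).1 = !![1, a; 0, 1] := rfl
theorem ly_coe (a : F) : (ly a).1 = !![1, 0; a, 1] := rfl
theorem dg_coe (t : Fˣ) : (dg t).1 = !![((t⁻¹ : Fˣ) : F), 0; 0, t] := rfl
theorem nn_coe : (nn : SL(2, F)).1 = !![0, -1; 1, 0] := rfl

theorem mul_ap (g h : SL(2, F)) (i k : Fin 2) : (g * h).1 i k = g.1 i 0 * h.1 0 k + g.1 i 1 * h.1 1 k :=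
  (Matrix.mul_apply (M := g.1) (N := h.1)).trans (Fin.sum_univ_two _)

theorem ux_add (a b : F) : ux (a + b) = ux a * ux b := by
  ext i k; fin_cases i <;> fin_cases k <;> simp [ux_coe, mul_ap, add_comm]

theorem ly_add (a b : F) : ly (a + b) = ly a * ly b := by
  ext i k; fin_cases i <;> fin_cases k <;> simp [ly_coe, mul_ap]

theorem pow_char {G : Type*} [Group G] (p : ℕ) [CharP F p] {u : F → G} (h : ∀ a b, u (a + b) = u a * u b) (a : F) :
    u a ^ p = 1 := by
  have h0 : u 0 = 1 := by simpa using h 0 0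
  have : ∀ n : ℕ, u a ^ n = u (n * a) := fun n => by
    induction n with
    | zero => simp [h0]
    | succ n ih => rw [pow_succ, ih, ← h, Nat.cast_succ, add_one_mul]
  rw [this, CharP.cast_eq_zero, zero_mul, h0]

theorem eq_ux_dg {b : SL(2, F)} (h : b 1 0 = 0) : ∃ (a : F) (t : Fˣ), (t : F) = b 1 1 ∧ b = ux a * dg t := by
  have h1 := b.det_coe
  rw [det_fin_two, show b.1 1 0 = 0 from h, mul_zero, sub_zero] at h1
  have h2 : b 1 1 ≠ 0 := right_ne_zero_of_mul_eq_one h1
  refine ⟨b 0 1 / b 1 1, Units.mk0 _ h2, rfl, ?_⟩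
  ext i k
  fin_cases i <;> fin_cases k <;> simp [ux_coe, dg_coe, mul_ap, h, h2]
  exact eq_inv_of_mul_eq_one_left h1

variable [Fintype F] (j : F →+* K) (p : ℕ) [Fact p.Prime] [CharP K p]
  {S : Type*} [AddCommGroup S] [Module K S] [FiniteDimensional K S] (ρ : Representation K SL(2, F) S)

include p in
theorem exists_functional [Nontrivial S] : ∃ (φ : S →ₗ[K] K) (c : ℕ), φ ≠ 0 ∧ 0 < c ∧ c < Fintype.card F ∧
    ∀ b : SL(2, F), b 1 0 = 0 → ∀ s, φ (ρ b s) = j (b 1 1) ^ c * φ s := by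
  classical
  have : CharP F p := RingHom.charP j j.injective p
  obtain ⟨φ, h0, h⟩ := exists_fixed p ρ.dual ux (fun a b => by rw [Commute, SemiconjBy, ← ux_add, ← ux_add, add_comm])
    (pow_char p ux_add)
  have h1 : ∀ a s, φ (ρ (ux a) s) = φ s := fun a s => by
    have := DFunLike.congr_fun (h a) (ρ (ux a) s)
    rw [Representation.dual_apply, Module.Dual.transpose_apply, LinearMap.comp_apply, ← Module.End.mul_apply, ← map_mul,
      inv_mul_cancel, map_one] at this
    exact this.symm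
  have h2 : ∀ (b : SL(2, F)) (t : Fˣ), b 1 0 = 0 → (t : F) = b 1 1 → ∀ s, φ (ρ b s) = φ (ρ (dg t) s) :=
    fun b t hb ht s => by
      obtain ⟨a, t', h3, rfl⟩ := eq_ux_dg hb
      rw [map_mul, Module.End.mul_apply, h1, Units.ext (ht.trans h3.symm)]
  let ψ : ℕ → S →ₗ[K] K := fun c => ∑ t : Fˣ, j (t⁻¹ : Fˣ) ^ (c + 1) • φ ∘ₗ ρ (dg t)
  have h3 : ∑ c ∈ range (Fintype.card F - 1), ψ c = -φ := by
    rw [sum_comm, sum_eq_single 1 (fun t _ ht => ?_) (by simp)]
    · have : (dg 1 : SL(2, F)) = 1 := by ext i k; fin_cases i <;> fin_cases k <;> simp [dg_coe]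
      rw [← sum_smul, this, map_one]
      simp only [inv_one, Units.val_one, map_one, one_pow, sum_const, card_range, nsmul_eq_mul, mul_one]
      rw [Nat.cast_sub Fintype.card_pos, ← map_natCast j, Nat.cast_card_eq_zero]
      ext; simp
    · have h4 := mul_geom_sum (j (t⁻¹ : Fˣ)) (Fintype.card F - 1)
      rw [← map_pow, FiniteField.pow_card_sub_one_eq_one _ (Units.ne_zero _), map_one, sub_self, mul_eq_zero,
        sub_eq_zero, ← map_one j, j.injective.eq_iff, Units.val_eq_one, inv_eq_one] at h4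
      simp only [← sum_smul, pow_succ, ← sum_mul, h4.resolve_left ht, zero_mul, zero_smul]
  obtain ⟨c, hc, h4⟩ := exists_ne_zero_of_sum_ne_zero (h3.trans_ne (neg_ne_zero.2 h0))
  refine ⟨ψ c, c + 1, h4, c.succ_pos, by have := mem_range.1 hc; omega, fun b hb s => ?_⟩
  obtain ⟨-, u, hu, -⟩ := eq_ux_dg hb
  simp only [ψ, LinearMap.sum_apply, LinearMap.smul_apply, LinearMap.comp_apply, smul_eq_mul, mul_sum]
  rw [← Equiv.sum_comp (Equiv.mulRight u) fun t => j (b 1 1) ^ (c + 1) * (j (t⁻¹ : Fˣ) ^ (c + 1) * φ (ρ (dg t) s))]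
  refine sum_congr rfl fun t _ => ?_
  rw [← Module.End.mul_apply, ← map_mul, h2 (dg t * b) (t * u) (by simp [dg_coe, mul_ap, hb])
    (by simp [dg_coe, mul_ap, hu]), ← mul_assoc, ← mul_pow, ← map_mul, ← hu]
  simp

include p in
omit [FiniteDimensional K S] in
theorem exists_pow_mem [Nontrivial S] {φ : S →ₗ[K] K} {c : ℕ} (h0 : 0 < c) (hc : c < Fintype.card F)
    (h : ∀ b : SL(2, F), b 1 0 = 0 → ∀ s, φ (ρ b s) = j (b 1 1) ^ c * φ s)
    (hinj : ∀ s, (∀ g, φ (ρ g s) = 0) → s = 0) :
    ∃ l < Fintype.card F, ∃ s, ∀ g : SL(2, F), φ (ρ g s) = j (g 1 1) ^ l := by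
  classical
  have : CharP F p := RingHom.charP j j.injective p
  obtain ⟨v, hv, h1⟩ := exists_fixed p ρ ly (fun a b => by rw [Commute, SemiconjBy, ← ly_add, ← ly_add, add_comm])
    (pow_char p ly_add)
  have h2 : ∀ g : SL(2, F), φ (ρ g v) = j (g 1 1) ^ c * φ v +
      if g 1 1 = 0 then j (g 1 0) ^ c * φ (ρ nn v) else 0 := fun g => by
    split_ifs with hg
    · have := h (g * nn⁻¹) (by simp [nn_coe, mul_ap, hg]) (ρ nn v)
      rw [← Module.End.mul_apply, ← map_mul, inv_mul_cancel_right] at this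
      rw [this, hg, map_zero, zero_pow h0.ne', zero_mul, zero_add]
      simp [nn_coe, mul_ap]
    · have := h (g * ly (-(g 1 0 / g 1 1))) (by simp [ly_coe, mul_ap, hg, mul_div_cancel₀]) v
      rw [map_mul, Module.End.mul_apply, h1] at this
      rw [this, add_zero]
      simp [ly_coe, mul_ap]
  have key : ∀ (s : S) (a : K), a ≠ 0 → (∀ g : SL(2, F), φ (ρ g s) = j (g 1 1) ^ c * a) →
      ∃ l < Fintype.card F, ∃ s, ∀ g : SL(2, F), φ (ρ g s) = j (g 1 1) ^ l := fun s a ha e =>
    ⟨c, hc, a⁻¹ • s, fun g => by rw [map_smul, map_smul, e, smul_eq_mul]; field_simp⟩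
  have h3 : ∀ g : SL(2, F), φ (ρ g (∑ a, ρ (ly a * nn) v)) =
      (if g 1 1 = 0 then 0 else ∑ t : F, j t ^ c) * φ v + j (g 1 1) ^ c * φ (ρ nn v) := fun g => by
    simp only [map_sum, ← Module.End.mul_apply, ← map_mul, h2 (g * _), sum_add_distrib, ← sum_mul]
    have e1 : ∀ a, (g * (ly a * nn)).1 1 1 = -(g 1 0 + a * g 1 1) := fun a => by
      simp [ly_coe, nn_coe, mul_ap, mul_comm, add_comm]
    have e2 : ∀ a, (g * (ly a * nn)).1 1 0 = g 1 1 := fun a => by simp [ly_coe, nn_coe, mul_ap]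
    simp only [e1, e2]
    split_ifs with hg
    · simp only [hg, mul_zero, add_zero, sum_const, card_univ, nsmul_eq_mul, ← map_natCast j, Nat.cast_card_eq_zero,
        map_zero, zero_mul, zero_pow h0.ne']
    · rw [sum_eq_single (-(g 1 0 / g 1 1)) (fun a _ ha => if_neg fun e => ha (by field_simp; linear_combination -e))
        (by simp), if_pos (by field_simp; ring)]
      congr 2
      exact Equiv.sum_comp ((Equiv.mulRight₀ _ hg).trans ((Equiv.addLeft (g 1 0)).trans (Equiv.neg F))) fun t => j t ^ c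
  by_cases hb : φ (ρ nn v) = 0
  · refine key v (φ v) (fun e => hv (hinj v fun g => ?_)) fun g => ?_
    · rw [h2, hb, e]; simp
    · rw [h2, hb]; simp
  by_cases hc' : c < Fintype.card F - 1
  · refine key _ _ hb fun g => (h3 g).trans ?_
    simp only [← map_pow, ← map_sum, FiniteField.sum_pow_lt_card_sub_one F c hc', map_zero, ite_self, zero_mul, zero_add]
  obtain rfl : c = Fintype.card F - 1 := by omega
  have h4 : ∀ t : F, j t ^ (Fintype.card F - 1) = if t = 0 then 0 else 1 := fun t => by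
    split_ifs with ht
    · rw [ht, map_zero, zero_pow h0.ne']
    · rw [← map_pow, FiniteField.pow_card_sub_one_eq_one _ ht, map_one]
  by_cases he : φ (ρ nn v) = φ v
  · refine ⟨0, Fintype.card_pos, (φ v)⁻¹ • v, fun g => ?_⟩
    rw [map_smul, map_smul, h2, he, h4, h4, smul_eq_mul, pow_zero, inv_mul_eq_one₀ (he ▸ hb)]
    split_ifs with e1 e2
    · have := g.det_coe
      rw [det_fin_two, show g.1 1 0 = 0 from e2, show g.1 1 1 = 0 from e1] at this
      simp at this
    · simp
    · simp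
  · refine key _ _ (sub_ne_zero.2 he) fun g => (h3 g).trans ?_
    have h5 : ∑ t : F, (if t = 0 then 0 else 1 : K) = -1 := by
      rw [← add_sum_erase _ _ (mem_univ 0), if_pos rfl, zero_add,
        sum_congr rfl (g := fun _ => 1) fun t ht => if_neg (ne_of_mem_erase ht), sum_const, card_erase_of_mem (mem_univ _),
        card_univ, nsmul_eq_mul, Nat.cast_sub Fintype.card_pos, ← map_natCast j, Nat.cast_card_eq_zero]
      simp
    simp only [h4, h5]
    split_ifs <;> ring

/-- `g` is diagonalisable with eigenvalues `a, b` -/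
def Eig (g : SL(2, F)) (a b : K) : Prop :=
  ∃ P Q : Matrix (Fin 2) (Fin 2) K, P * Q = 1 ∧ g.1.map j * P = P * diagonal ![a, b]

theorem exists_of_irreducible [Nontrivial S]
    (hirr : ∀ W : Submodule K S, (∀ g, W ≤ W.comap (ρ g)) → W = ⊥ ∨ W = ⊤) :
    ∃ l < Fintype.card F, ∀ g a b, Eig j g a b → ∀ x : K,
      LinearMap.det (x • (1 : Module.End K S) - ρ g) = ∏ k ∈ ex p l, (x - a ^ k * b ^ (l - k)) := by
  classical
  obtain ⟨φ, c, h0, h1, h2, h3⟩ := exists_functional j p ρ
  let Φ : S →ₗ[K] SL(2, F) → K := LinearMap.pi fun g => φ ∘ₗ ρ g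
  have e1 : ∀ g s h, Φ (ρ g s) h = Φ s (h * g) := fun g s h => by simp [Φ]
  have h4 : Function.Injective Φ := LinearMap.ker_eq_bot.1 ((hirr (LinearMap.ker Φ) fun g s hs =>
    show Φ (ρ g s) = 0 from funext fun h => (e1 g s h).trans (congrFun hs _)).resolve_right fun e => h0 (LinearMap.ext fun s => by
      simpa [Φ] using congrFun (show Φ s = 0 from (e ▸ Submodule.mem_top : s ∈ LinearMap.ker Φ)) 1))
  obtain ⟨l, hl, v, hv⟩ := exists_pow_mem j p ρ h1 h2 h3 fun s hs => h4 (by rw [map_zero]; exact funext hs)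
  let res : ((Fin 2 → K) → K) →ₗ[K] SL(2, F) → K := LinearMap.funLeft K K fun g i => j (g.1 1 i)
  have e2 : ∀ (g : SL(2, F)) f h, res (act (g.1.map j) f) h = res f (h * g) := fun g f h =>
    congrArg f (funext fun i => by simp [vecMul, dotProduct, mul_ap])
  have e3 : ∀ a : F, res (fun v => (j a * v 0 + v 1) ^ l) = Φ (ρ (ux a) v) := fun a => funext fun h => by
    rw [e1]
    exact Eq.trans (by simp [res, LinearMap.funLeft_apply, mul_ap, ux_coe, mul_comm]) (hv _).symm
  have h5 : LinearMap.range Φ = (LinearMap.range (mon K p l)).map res := by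
    refine le_antisymm ?_ ?_
    · rw [LinearMap.range_le_iff_comap]
      refine (hirr _ ?_).resolve_left fun e => ?_
      · rintro g s ⟨_, ⟨c, rfl⟩, hc⟩
        exact ⟨_, act_mem p j hl (g.1.map j) c, funext fun h => by rw [e2, hc, e1]⟩
      · have : ρ (ux 0) v ∈ (⊥ : Submodule K S) := e ▸ ⟨_, by simpa using pw_mem p l (j 0) 1, e3 0⟩
        have h6 := hv (ux 0)
        rw [(Submodule.mem_bot K).1 this] at h6
        simp [ux_coe] at h6
    · rintro _ ⟨_, ⟨c, rfl⟩, rfl⟩
      refine (Submodule.span_le (p := (LinearMap.range Φ).comap res)).2 ?_ (mon_mem p j hl c)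
      rintro _ ⟨a, rfl⟩
      exact ⟨_, (e3 a).symm⟩
  refine ⟨l, hl, ?_⟩
  rintro g a b ⟨P, Q, h6, h7⟩ x
  have h8 : Function.Injective (res ∘ₗ act P ∘ₗ mon K p l) := (injective_iff_map_eq_zero _).2 fun c hc => by
    obtain ⟨d, hd⟩ := act_mem p j hl P c
    have h9 : d = 0 := mon_eq_zero p j hl fun a => by
      have := congrFun hc (ly a)
      rw [hd]
      refine Eq.trans (congrArg _ (funext fun i => ?_)) this
      fin_cases i <;> simp [ly_coe]
    refine mon_eq_zero p j hl fun a => ?_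
    rw [← act_one (mon K p l c), ← mul_eq_one_comm.1 h6, act_mul, ← hd, h9, map_zero, map_zero]; rfl
  rw [det_eq_of_intertwine h4 h8 (h5.trans ?_) (R := fun f h => f (h * g))
    (f' := Matrix.toLin' (diagonal fun k : ex p l => a ^ k.1 * b ^ (l - k))) (fun s => funext (e1 g s)) fun c => ?_]
  · rw [← Module.End.one_eq_id.symm.trans rfl, ← Matrix.toLin'_one, ← map_smul, ← map_sub, LinearMap.det_toLin',
      smul_one_eq_diagonal, diagonal_sub, det_diagonal]
    exact prod_coe_sort (ex p l) fun k => x - a ^ k * b ^ (l - k)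
  · rw [LinearMap.range_comp, LinearMap.range_comp]
    congr 1
    refine le_antisymm ?_ ?_
    · rintro _ ⟨c, rfl⟩
      exact ⟨_, act_mem p j hl Q c, by rw [← act_mul, h6, act_one]⟩
    · rintro _ ⟨_, ⟨c, rfl⟩, rfl⟩
      exact act_mem p j hl P c
  · funext h
    simp only [LinearMap.comp_apply]
    rw [← act_diag, ← act_mul, ← h7, act_mul, e2]

omit ρ in
/-- **Composition factors**: the eigenvalues of the semisimple elements of `SL₂(q)` in any representation. -/
theorem exists_factors (n : ℕ) : ∀ {V : Type*} [AddCommGroup V] [Module K V] [FiniteDimensional K V]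
    (ρ : Representation K SL(2, F) V), Module.finrank K V = n → ∃ L : List ℕ, (∀ l ∈ L, l < Fintype.card F) ∧
      ∀ g a b, Eig j g a b → ∀ x : K, LinearMap.det (x • (1 : Module.End K V) - ρ g) =
        (L.map fun l => ∏ k ∈ ex p l, (x - a ^ k * b ^ (l - k))).prod := by
  induction n using Nat.strong_induction_on with
  | _ n ih =>
  intro V _ _ _ ρ hn
  rcases subsingleton_or_nontrivial V with h | h
  · exact ⟨[], by simp, fun g a b _ x => by simp [LinearMap.det_eq_one_of_subsingleton]⟩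
  by_cases hirr : ∀ W : Submodule K V, (∀ g, W ≤ W.comap (ρ g)) → W = ⊥ ∨ W = ⊤
  · obtain ⟨l, hl, e⟩ := exists_of_irreducible j p ρ hirr
    exact ⟨[l], by simpa using hl, fun g a b hg x => by simp [e g a b hg]⟩
  push Not at hirr
  obtain ⟨W, hW, h1, h2⟩ := hirr
  have h3 := W.finrank_quotient_add_finrank
  have h4 := Submodule.finrank_lt h2
  have h5 : Module.finrank K W ≠ 0 := fun e => h1 (Submodule.finrank_eq_zero.1 e)
  obtain ⟨L, hL, e⟩ := ih _ (by omega) (ρ.subrepresentation W hW) rfl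
  obtain ⟨L', hL', e'⟩ := ih _ (by omega) (ρ.quotient W hW) rfl
  refine ⟨L ++ L', fun l hl => (List.mem_append.1 hl).elim (hL l) (hL' l), fun g a b hg x => ?_⟩
  rw [List.map_append, List.prod_append, ← e g a b hg, ← e' g a b hg, LinearMap.det_eq_det_mul_det W (x • 1 - ρ g)
    (fun s hs => W.sub_mem (W.smul_mem x hs) (hW g hs))]
  congr 2
  ext; simp

end Cfsg.Agent.H37.S2
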