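import Cfsg.Agent.H37.EwA
import Cfsg.Agent.H37.S2B
import Cfsg.Agent.H11.FxGK

/-! Modules for `SL₂(32)` in characteristic three. -/

set_option autoImplicit false

namespace Cfsg.Agent.H37.Ew

open Module Matrix MatrixGroups S2 H11.Fx QuadraticAlgebra

universe v

theorem CS.of_comm {Γ : Type*} [Group Γ] {l : List Γ} (h : ∀ g ∈ l, g * g = 1 ∧ ∀ h ∈ l, g * h = h * g) :
    ∀ N, CS N l := by
  induction l with
  | nil => intro; trivial
  | cons g l ih =>
    exact fun N => ⟨(h g List.mem_cons_self).1 ▸ one_mem N, fun x hx => by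
      rw [(h g List.mem_cons_self).2 x (List.mem_cons_of_mem _ hx)]; simp [one_mem],
      ih (fun x hx => ⟨(h x (List.mem_cons_of_mem _ hx)).1, fun y hy =>
        (h x (List.mem_cons_of_mem _ hx)).2 y (List.mem_cons_of_mem _ hy)⟩) _⟩

theorem length_prods {M : Type*} (mul : M → M → M) (one : M) (l : List M) : (prods mul one l).length = 2 ^ l.length := by
  induction l with
  | nil => rfl
  | cons g l ih => simp [prods, ih, pow_succ, mul_two]

theorem dm_top {K V : Type*} [Field K] [AddCommGroup V] [Module K V] (T : End K V) (c : K) :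
    dm ⊤ T c = finrank K (T.eigenspace c) := by rw [dm, top_inf_eq]

theorem dm_one {K V : Type*} [Field K] [AddCommGroup V] [Module K V] (W : Submodule K V) :
    dm W (1 : End K V) 1 = finrank K W := by
  rw [dm, inf_eq_left.2 fun v _ => by simp]

/-- an antiautomorphism -/
def sg {F : Type*} [Field F] (g : SL(2, F)) : SL(2, F) := ⟨!![g.1 0 0, -g.1 1 0; -g.1 0 1, g.1 1 1], by
  have := g.det_coe
  rw [det_fin_two] at this
  rw [det_fin_two_of]; linear_combination this⟩

theorem sg_coe {F : Type*} [Field F] (g : SL(2, F)) : (sg g).1 = !![g.1 0 0, -g.1 1 0; -g.1 0 1, g.1 1 1] := rfl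

variable {K F : Type*} [Field K] [Field F] [Fintype F] (hF : Fintype.card F = 32)
include hF

theorem char32 : CharP F 2 := charP_of_card_eq_prime_pow (f := 5) hF

theorem unip (h2 : (2 : K) ≠ 0) {V : Type*} [AddCommGroup V] [Module K V] [FiniteDimensional K V]
    (ρ : Representation K SL(2, F) V) : ∃ W : Submodule K V, (∀ v, v ∈ W ↔ ∀ a, ρ (ux a) v = v) ∧
      (32 * finrank K W : ℤ) = 62 * dm ⊤ (ρ (ux 1)) 1 - 30 * finrank K V := by
  classical
  have := char32 hF
  let := ZMod.algebra F 2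
  have h1 : finrank (ZMod 2) F = 5 := Nat.pow_right_injective (le_refl 2) (by
    have := Module.card_eq_pow_finrank (K := ZMod 2) (V := F); rw [hF, ZMod.card] at this; exact this.symm)
  let b := Module.finBasisOfFinrankEq (ZMod 2) F h1
  have h0 : ux (0 : F) = 1 := by simpa using ux_add (0 : F) 0
  have h3 : ∀ l : List F, prods (· * ·) 1 (l.map ux) = (prods (· + ·) 0 l).map ux := fun l => by
    induction l with
    | nil => simp [prods, h0]
    | cons g l ih => simp [prods, ih, ux_add]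
  have h4 : ∀ l : List F, ∀ c ∈ Submodule.span (ZMod 2) {x | x ∈ l}, c ∈ prods (· + ·) 0 l := fun l => by
    induction l with
    | nil => simp [prods]
    | cons g l ih =>
      intro c hc
      rw [show {x | x ∈ g :: l} = insert g {x | x ∈ l} from Set.ext fun _ => List.mem_cons, Submodule.mem_span_insert] at hc
      obtain ⟨r, c, hc, rfl⟩ := hc
      rcases (by decide : ∀ r : ZMod 2, r = 0 ∨ r = 1) r with rfl | rfl
      · exact List.mem_append_left _ (by simpa using ih c hc)
      · exact List.mem_append_right _ (List.mem_map.2 ⟨c, ih c hc, by simp⟩)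
  have h5 : ∀ c, c ∈ prods (· + ·) 0 (List.ofFn b) := fun c => h4 _ c (by
    rw [show {x | x ∈ List.ofFn b} = Set.range b from Set.ext fun x => List.mem_ofFn, b.span_eq]; trivial)
  have h6 : (prods (· + ·) 0 (List.ofFn b)).toFinset = Finset.univ := Finset.eq_univ_of_forall fun c =>
    List.mem_toFinset.2 (h5 c)
  have h7 := fix_eq h2 ρ (CS.of_comm (l := (List.ofFn b).map ux) (fun g hg => by
    obtain ⟨a, -, rfl⟩ := List.mem_map.1 hg
    refine ⟨by rw [← ux_add, CharTwo.add_self_eq_zero, h0], fun g hg => ?_⟩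
    obtain ⟨c, -, rfl⟩ := List.mem_map.1 hg
    rw [← ux_add, ← ux_add, add_comm]) _)
  rw [h3, List.map_map, ← List.sum_toFinset _ (Multiset.coe_nodup.1 (Multiset.toFinset_card_eq_card_iff_nodup.1 (by
    rw [List.toFinset_coe, h6, Finset.card_univ, hF, Multiset.coe_card, length_prods]; simp))), h6,
    ← Finset.add_sum_erase _ _ (Finset.mem_univ 0), Finset.sum_congr rfl
      (g := fun _ => (2 * dm ⊤ (ρ (ux 1)) 1 - finrank K V : ℤ)) fun c hc => by
      obtain ⟨s, rfl⟩ := FiniteField.isSquare_of_char_two (ringChar.eq F 2) c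
      have hs : s ≠ 0 := fun e => by simp [e] at hc
      rw [Function.comp_apply, ← ux_add, CharTwo.add_self_eq_zero, h0, map_one, dm_one, finrank_top,
        dm_conj ρ (b := ux 1) (g := dg (Units.mk0 s hs)⁻¹) (by
          ext i k; fin_cases i <;> fin_cases k <;> simp [ux_coe, dg_coe, mul_ap, hs])],
    Finset.sum_const, Finset.card_erase_of_mem (Finset.mem_univ _), Finset.card_univ, hF] at h7
  refine ⟨_, fun v => ⟨fun h a => ?_, fun h => mem_Fix.2 fun g hg => ?_⟩, by
    simp only [Function.comp_apply, h0, mul_one, map_one, dm_one, finrank_top, List.length_map, List.length_ofFn] at h7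
    simp only [nsmul_eq_mul] at h7
    push_cast at h7
    linear_combination h7⟩
  · exact prods_mem ⟨⟨{g | ρ g v = v}, fun {a b} ha hb => by
      rw [Set.mem_setOf_eq, map_mul, End.mul_apply, hb, ha]⟩, by simp⟩ (mem_Fix.1 h) _ (h3 _ ▸ List.mem_map_of_mem (h5 a))
  · obtain ⟨a, -, rfl⟩ := List.mem_map.1 hg; exact h a

theorem exists_torus32 : ∃ s : SL(2, F), s ^ 33 = 1 ∧ s ^ 3 ≠ 1 ∧
    ∀ α β : F, α ≠ 0 ∨ β ≠ 0 → ∃ (n : ℕ) (c : F), c ≠ 0 ∧ !![α, -β; β, α - β] = c • (s ^ n).1 := by
  have := char32 hF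
  have h31 : ∀ r : F, r ≠ 0 → r ^ 31 = 1 := fun r h => by
    simpa [hF] using FiniteField.pow_card_sub_one_eq_one r h
  have : Fact (∀ r : F, r ^ 2 ≠ -1 + (-1) * r) := ⟨fun r e => by
    have h1 : r ^ 3 = 1 := by linear_combination (r - 1) * e
    have h2 := h31 r fun h => by simp [h] at h1
    rw [show 31 = 3 * 10 + 1 from rfl, pow_succ, pow_mul, h1, one_pow, one_mul] at h2
    simp [h2, CharTwo.neg_eq] at e⟩
  have : Fintype (QuadraticAlgebra F (-1) (-1)) := Fintype.ofEquiv _ (equivProd (-1 : F) (-1)).symm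
  have hE : Fintype.card (QuadraticAlgebra F (-1) (-1)) = 1024 := by
    rw [Fintype.card_congr (equivProd (-1 : F) (-1)), Fintype.card_prod, hF]
  have : CharP (QuadraticAlgebra F (-1) (-1)) 2 := charP_of_injective_algebraMap (algebraMap F _).injective 2
  obtain ⟨γ, hγ⟩ := IsCyclic.exists_monoid_generator (α := (QuadraticAlgebra F (-1) (-1))ˣ)
  have h0 : orderOf γ = 1023 := by
    classical
    rw [orderOf_eq_card_of_forall_mem_powers hγ, Nat.card_eq_fintype_card, Fintype.card_units, hE]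
  have h1 : (γ : QuadraticAlgebra F (-1) (-1)) ^ 1023 = 1 := by rw [← Units.val_pow_eq_pow_val, ← h0, pow_orderOf_eq_one]; rfl
  let s : SL(2, F) := ⟨regM F (γ ^ 31), by
    rw [map_pow, det_pow]
    exact h31 _ ((γ.isUnit.map (regM F)).map detMonoidHom).ne_zero⟩
  have h2 : ∀ n, (s ^ n).1 = regM F (γ ^ (31 * n)) := fun n => by rw [pow_mul, map_pow]; rfl
  refine ⟨s, Subtype.ext (by rw [h2, h1, map_one]; rfl), fun e => ?_, fun α β h => ?_⟩
  · have h3 := (h2 3).symm.trans (congrArg Subtype.val e)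
    have : γ ^ (31 * 3) = 1 := Units.ext (QuadraticAlgebra.ext (congrFun₂ h3 0 0) (congrFun₂ h3 1 0))
    exact absurd (h0 ▸ orderOf_dvd_of_pow_eq_one this) (by norm_num)
  · have h3 : (⟨α, β⟩ : QuadraticAlgebra F (-1) (-1)) ≠ 0 := fun e => by
      rcases h with h | h
      exacts [h (congrArg re e), h (congrArg im e)]
    obtain ⟨n, hn⟩ := hγ (Units.mk0 _ h3)
    obtain ⟨e, he⟩ : ∃ e : QuadraticAlgebra F (-1) (-1), e = γ ^ (33 * (16 * n)) := ⟨_, rfl⟩
    have ep : e ^ 2 ^ 5 = e := by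
      rw [show 2 ^ 5 = 31 + 1 from rfl, pow_succ, he, ← pow_mul, mul_right_comm, pow_mul, show 33 * 31 = 1023 from rfl, h1,
        one_pow, one_mul]
    have w2 : (ω : QuadraticAlgebra F (-1) (-1)) ^ 2 = -1 - ω := by ext <;> simp [pow_two]
    have eim : e.im = 0 := by
      have a : e = algebraMap F _ e.re + algebraMap F _ e.im * ω := by ext <;> simp
      have b : (ω : QuadraticAlgebra F (-1) (-1)) ^ 2 ^ 5 = -1 - ω := by
        rw [show 2 ^ 5 = 3 * 10 + 2 from rfl, pow_add, pow_mul, w2,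
          show (ω : QuadraticAlgebra F (-1) (-1)) ^ 3 = 1 by linear_combination (ω - 1) * w2, one_pow, one_mul]
      rw [a, add_pow_char_pow, mul_pow, ← map_pow, ← map_pow, b, show 2 ^ 5 = Fintype.card F from hF.symm,
        FiniteField.pow_card, FiniteField.pow_card] at ep
      simpa using congrArg re ep
    have h4 : (⟨α, β⟩ : QuadraticAlgebra F (-1) (-1)) = e * γ ^ (31 * (16 * n)) := by
      rw [he, ← pow_add, show 33 * (16 * n) + 31 * (16 * n) = (1023 + 1) * n by ring, pow_mul, pow_succ, h1, one_mul]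
      exact (congrArg Units.val hn).symm
    refine ⟨16 * n, e.re, fun h5 => h3 (by rw [h4, show e = 0 from QuadraticAlgebra.ext h5 eim, zero_mul]), ?_⟩
    rw [h2, show !![α, -β; β, α - β] = regM F ⟨α, β⟩ from rfl, h4, map_mul, ← smul_one_mul]
    congr 1
    ext i k; fin_cases i <;> fin_cases k <;> simp [regM, eim]

theorem no32 [IsAlgClosed K] [CharP K 3] {V : Type v} [AddCommGroup V] [Module K V] [FiniteDimensional K V]
    (ρ : Representation K SL(2, F) V) (h0 : finrank K V = 248)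
    (h1 : ∀ x ≠ 1, x ^ 2 = 1 → dm ⊤ (ρ x) 1 = 120 ∨ dm ⊤ (ρ x) 1 = 136)
    (h11 : ∀ x ≠ 1, x ^ 11 = 1 → dm ⊤ (ρ x) 1 = 28) (h31 : ∀ x ≠ 1, x ^ 31 = 1 → dm ⊤ (ρ x) 1 = 8) : False := by
  have := char32 hF
  have h2 : (2 : K) ≠ 0 := fun e => by
    have := (CharP.cast_eq_zero_iff K 3 2).1 (by simpa using e); omega
  obtain ⟨s, s1, s2, s3⟩ := exists_torus32 hF
  have e1 : ∀ {V : Type v} [AddCommGroup V] [Module K V] (ρ : Representation K SL(2, F) V),
      wrk ρ [(31, MonoidAlgebra.of K _ (s ^ 3) - 1), (93, ∑ a : F, MonoidAlgebra.of K _ (ux a))] =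
        31 * rk (ρ (s ^ 3) - 1) + 93 * rk (∑ a : F, ρ (ux a)) := fun ρ => by
    simp [wrk, map_sum]
  have e2 := le_wrk_of_irr 28 _ (fun V _ _ _ _ ρ hi => by
    have h3 := nul_pow_sub_le _ (hi.gk sg (fun g h => by
        ext i k; fin_cases i <;> fin_cases k <;> simp [sg_coe, mul_ap] <;> ring)
      (fun g => ⟨sg g, by ext i k; fin_cases i <;> fin_cases k <;> simp [sg_coe]⟩) s fun g => by
        by_cases h : g 1 1 - g 0 0 + g 1 0 ≠ 0 ∨ g 0 1 + g 1 0 ≠ 0
        · obtain ⟨n, c, hc, hn⟩ := s3 _ _ h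
          refine ⟨n, Subtype.ext (smul_right_injective _ hc ?_)⟩
          change c • ((sg g).1 * (s ^ n).1) = c • ((s ^ n).1 * g.1)
          rw [← Matrix.mul_smul, ← Matrix.smul_mul, ← hn]
          ext a b
          fin_cases a <;> fin_cases b <;> simp [sg_coe, Matrix.mul_apply, Fin.sum_univ_two] <;> ring
        · push Not at h
          refine ⟨0, ?_⟩
          rw [pow_zero, mul_one, one_mul]
          ext a b
          fin_cases a <;> fin_cases b <;> simp [sg_coe]
          · linear_combination -h.2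
          · linear_combination -h.2) (n := 3) (by norm_num) 1
    rw [map_one, ← map_pow] at h3
    have h4 := rk_add_nul (ρ (s ^ 3) - 1)
    rw [e1]
    rcases Nat.eq_zero_or_pos (rk (∑ a : F, ρ (ux a))) with h | h
    · obtain ⟨W, h5, h6⟩ := unip hF h2 ρ
      rw [rk, Submodule.finrank_eq_zero, LinearMap.range_eq_bot] at h
      rw [show W = ⊥ from eq_bot_iff.2 fun v hv => by
        have := congr($h v)
        rw [LinearMap.sum_apply, Finset.sum_congr rfl fun a _ => (h5 v).1 hv a, Finset.sum_const, Finset.card_univ, hF,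
          ← Nat.cast_smul_eq_nsmul K, LinearMap.zero_apply, smul_eq_zero] at this
        exact this.resolve_left (by simpa using pow_ne_zero 5 h2 ∘ fun e => by linear_combination e), finrank_bot] at h6
      have := finrank_pos (R := K) (M := V)
      omega
    · omega) V ρ
  obtain ⟨a, ha⟩ := IsCyclic.exists_ofOrder_eq_natCard (α := Fˣ)
  rw [Nat.card_units, Nat.card_eq_fintype_card, hF, show 32 - 1 = 31 from rfl] at ha
  have e3 : ∀ n : ℕ, dg a ^ n = dg (a ^ n) := fun n => by
    induction n with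
    | zero => ext i k; fin_cases i <;> fin_cases k <;> simp [dg_coe]
    | succ n ih => rw [pow_succ, ih]; ext i k; fin_cases i <;> fin_cases k <;> simp [dg_coe, mul_ap, pow_succ, mul_comm]
  have e4 := h31 (dg (a ^ 2)) (fun e => by
    exact absurd (ha ▸ orderOf_dvd_of_pow_eq_one (Units.ext (by simpa [dg_coe] using congrArg (·.1 1 1) e) : a ^ 2 = 1))
      (by norm_num)) (by rw [← e3, ← pow_mul, mul_comm, pow_mul, e3, ← ha, pow_orderOf_eq_one, ← pow_zero a, ← e3, pow_zero, one_pow])
  have e5 := finrank_add_le_inf (End.eigenspace (ρ nn) 1) (End.eigenspace (ρ (nn * dg (a ^ 2))) 1)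
  have e6 : finrank K ↥(End.eigenspace (ρ nn) 1 ⊓ End.eigenspace (ρ (nn * dg (a ^ 2))) 1) ≤ dm ⊤ (ρ (dg (a ^ 2))) 1 :=
    Submodule.finrank_mono fun v hv => ⟨trivial, by
      have h3 := hv.2
      rw [SetLike.mem_coe, End.mem_eigenspace_iff, map_mul, End.mul_apply, ← End.mem_eigenspace_iff.1 hv.1] at h3
      simpa using ((End.isUnit_iff _).1 (isUnit_rep ρ nn)).1 h3⟩
  have e7 := dm_conj ρ (a := nn) (b := nn * dg (a ^ 2)) (g := dg a) (by
    ext i k; fin_cases i <;> fin_cases k <;> simp [nn_coe, dg_coe, mul_ap, pow_two]) 1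
  have e8 := dm_conj ρ (a := nn) (b := ux 1) (g := ly 1) (by
    ext i k; fin_cases i <;> fin_cases k <;> simp [nn_coe, ux_coe, ly_coe, mul_ap, CharTwo.neg_eq, CharTwo.add_self_eq_zero]) 1
  have e9 := h1 (ux 1) (fun e => by simpa [ux_coe] using congrArg (·.1 0 1) e) (pow_char 2 ux_add 1)
  obtain ⟨W, h5, h6⟩ := unip hF h2 ρ
  have e10 : rk (∑ a : F, ρ (ux a)) ≤ finrank K W := Submodule.finrank_mono (by
    rintro _ ⟨v, rfl⟩
    refine (h5 _).2 fun b => ?_
    simp only [LinearMap.sum_apply, map_sum, ← End.mul_apply, ← map_mul, ← ux_add]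
    exact Equiv.sum_comp (Equiv.addLeft b) fun c => ρ (ux c) v)
  have e11 := h11 _ s2 (by rw [← pow_mul, s1])
  have e12 := rk_add_nul (ρ (s ^ 3) - 1)
  rw [e1] at e2
  simp only [dm_top] at e4 e6 e7 e8 e9 e11 h6
  rw [End.eigenspace_def, one_smul] at e11
  rw [nul, e11] at e12
  omega

end Cfsg.Agent.H37.Ew
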