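import Cfsg.Agent.H37.EwA
import Cfsg.Agent.H37.EvB

/-! Coded groups and matrices: certificates for the fixed spaces of explicit 2-subgroups. -/

set_option autoImplicit false

namespace Cfsg.Agent.H37.Ew

open Module Finset S2

/-- a group some of whose elements have codes -/
structure Cod (Γ : Type*) [Group Γ] where
  mul : ℕ → ℕ → ℕ
  one : ℕ
  good : ℕ → Bool
  R : Γ → ℕ → Prop
  R_one : R 1 one
  R_mul : ∀ {x y a b}, R x a → R y b → R (x * y) (mul a b)
  R_inj : ∀ {x y a}, R x a → R y a → x = y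
  ex : ∀ {a}, good a = true → ∃ x, R x a

/-- product of a list of codes -/
def evW (mul : ℕ → ℕ → ℕ) (one : ℕ) (w : List ℕ) : ℕ := w.foldr mul one

/-- conjugacy modulo the kernel -/
noncomputable def cjOK (mul : ℕ → ℕ → ℕ) (one : ℕ) (good : ℕ → Bool) (Z : List ℕ) (a : ℕ) (w : List ℕ) (b : ℕ) : Bool :=
  band (allL w good) <| frc (evW mul one w) fun g => frc (mul a g) fun u => frc (mul g b) fun v =>
    Z.any fun s => Nat.beq u (mul s v)

/-- central series -/
noncomputable def csOK (mul : ℕ → ℕ → ℕ) (l : List ℕ) : List ℕ → Bool :=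
  @List.rec ℕ (fun _ => List ℕ → Bool) (fun _ => true) (fun g l ih Z =>
    band (frc (mul g g) fun u => Z.any (Nat.beq u)) <| band (allL l fun h => frc (mul g h) fun u => frc (mul h g) fun v =>
      Z.any fun s => Nat.beq u (mul s v)) (ih (Z ++ Z.map (mul g)))) l

/-- classes of the elements of a list -/
noncomputable def clOK (f : ℕ → List ℕ → ℕ → Bool) : List ℕ → List (List ℕ) → List ℕ → Bool
  | [], _, ks => ks.isEmpty
  | a :: l, w :: ws, k :: ks => band (frc a fun a => f a w k) (clOK f l ws ks)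
  | _, _, _ => false

namespace Cod

variable {Γ K V : Type*} [Group Γ] (C : Cod Γ) [Field K] [AddCommGroup V] [Module K V]

theorem exW {w : List ℕ} (h : allL w C.good = true) : ∃ x, C.R x (evW C.mul C.one w) := by
  induction w with
  | nil => exact ⟨1, C.R_one⟩
  | cons a w ih =>
    obtain ⟨x, hx⟩ := C.ex (band_eq_true.1 h).1
    obtain ⟨y, hy⟩ := ih (band_eq_true.1 h).2
    exact ⟨_, C.R_mul hx hy⟩

theorem cs {xs : List Γ} {l : List ℕ} (h : List.Forall₂ C.R xs l) : ∀ {Z : List ℕ} {N : Subgroup Γ},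
    (∀ s ∈ Z, ∃ x ∈ N, C.R x s) → csOK C.mul l Z = true → CS N xs := by
  induction h with
  | nil => intros; trivial
  | @cons x g xs l h1 h2 ih =>
    intro Z N hZ h
    obtain ⟨h3, h4, h5⟩ : _ ∧ _ ∧ _ := (band_eq_true.1 h).imp_right band_eq_true.1
    simp only [frc_eq, List.any_eq_true, Nat.beq_eq] at h3
    refine ⟨?_, fun y hy => ?_, ih (fun s hs => ?_) h5⟩
    · obtain ⟨s, hs, e⟩ := h3
      obtain ⟨z, hz, e'⟩ := hZ s hs
      exact C.R_inj (e ▸ e') (C.R_mul h1 h1) ▸ hz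
    · obtain ⟨i, hi, rfl⟩ := List.mem_iff_getElem.1 hy
      have h6 := (List.forall₂_iff_get.1 h2).2 i hi (h2.length_eq ▸ hi)
      have h7 := allL_spec h4 _ (List.get_mem _ ⟨i, h2.length_eq ▸ hi⟩)
      simp only [frc_eq, List.any_eq_true, Nat.beq_eq] at h7
      obtain ⟨s, hs, e⟩ := h7
      obtain ⟨z, hz, e'⟩ := hZ s hs
      have := C.R_inj (C.R_mul h1 h6) (e ▸ C.R_mul e' (C.R_mul h6 h1))
      rw [List.get_eq_getElem] at this
      rwa [this, show ∀ a b : Γ, z * (a * b) * b⁻¹ * a⁻¹ = z from fun a b => by group]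
    · rcases List.mem_append.1 hs with hs | hs
      · exact (hZ s hs).imp fun _ e => ⟨Subgroup.mem_sup_left e.1, e.2⟩
      · obtain ⟨t, ht, rfl⟩ := List.mem_map.1 hs
        obtain ⟨z, hz, e⟩ := hZ t ht
        exact ⟨_, mul_mem (Subgroup.mem_sup_right (Subgroup.mem_zpowers x)) (Subgroup.mem_sup_left hz), C.R_mul h1 e⟩

theorem prods_rel {xs : List Γ} {l : List ℕ} (h : List.Forall₂ C.R xs l) :
    List.Forall₂ C.R (prods (· * ·) 1 xs) (prods C.mul C.one l) := by
  induction h with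
  | nil => exact .cons C.R_one .nil
  | cons h _ ih => exact List.rel_append ih (List.rel_map (fun _ _ e => C.R_mul h e) ih)

variable (ρ : Representation K Γ V) {Z : List ℕ} (hZ : ∀ s ∈ Z, ∃ x ∈ ρ.ker, C.R x s)
include hZ

theorem cj {x y : Γ} {a b : ℕ} {w : List ℕ} (hx : C.R x a) (hy : C.R y b)
    (h : cjOK C.mul C.one C.good Z a w b = true) :
    dm ⊤ (ρ x) 1 = dm ⊤ (ρ y) 1 ∧ dm ⊤ (ρ (x * x)) 1 = dm ⊤ (ρ (y * y)) 1 := by
  obtain ⟨h1, h2⟩ := band_eq_true.1 h
  obtain ⟨g, hg⟩ := C.exW h1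
  simp only [frc_eq, List.any_eq_true, Nat.beq_eq] at h2
  obtain ⟨s, hs, e⟩ := h2
  obtain ⟨z, hz, e'⟩ := hZ s hs
  have h3 : z⁻¹ * x * g = g * y := by
    rw [mul_assoc, C.R_inj (C.R_mul hx hg) (e ▸ C.R_mul e' (C.R_mul hg hy)), inv_mul_cancel_left]
  have h4 : ρ (z⁻¹ * x) = ρ x := by rw [map_mul, MonoidHom.mem_ker.1 (inv_mem hz), one_mul]
  refine ⟨h4 ▸ dm_conj ρ h3 1, ?_⟩
  rw [map_mul, ← h4, ← map_mul]
  exact dm_conj ρ (g := g) (by rw [mul_assoc, h3, ← mul_assoc, h3, mul_assoc]) 1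

theorem fix [FiniteDimensional K V] (h2 : (2 : K) ≠ 0) {y : ℕ → Γ} {r : ℕ → ℕ} (hy : ∀ k, C.R (y k) (r k))
    {xs : List Γ} {l : List ℕ} (h : List.Forall₂ C.R xs l) (h1 : csOK C.mul l Z = true) {ws : List (List ℕ)}
    {ks : List ℕ} (h3 : clOK (fun a w k => cjOK C.mul C.one C.good Z a w (r k)) (prods C.mul C.one l) ws ks = true) :
    (2 ^ l.length * finrank K (Fix ρ xs) : ℤ) =
      (ks.map fun k => (2 * dm ⊤ (ρ (y k)) 1 : ℤ) - dm ⊤ (ρ (y k * y k)) 1).sum := by
  rw [← h.length_eq, fix_eq h2 ρ (C.cs h hZ h1)]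
  have h4 := C.prods_rel h
  generalize prods (· * ·) 1 xs = L, prods C.mul C.one l = M at h3 h4
  induction h4 generalizing ws ks with
  | nil => rw [List.isEmpty_iff.1 h3]; rfl
  | cons h4 _ ih =>
    rcases ws with _ | ⟨w, ws⟩
    · cases h3
    rcases ks with _ | ⟨k, ks⟩
    · cases h3
    obtain ⟨h5, h6⟩ := band_eq_true.1 h3
    rw [frc_eq] at h5
    have := C.cj ρ hZ h4 (hy k) h5
    rw [List.map_cons, List.map_cons, List.sum_cons, List.sum_cons, ih h6, this.1, this.2]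

end Cod

/-- packing fields of four bits -/
noncomputable def pk (f : ℕ → ℕ) (m : ℕ) : ℕ → ℕ :=
  @Nat.rec (fun _ => ℕ → ℕ) (fun _ => 0) (fun _ ih k => Nat.add (f k) (Nat.mul 16 (ih (Nat.succ k)))) m

theorem fld_pk {f : ℕ → ℕ} (h : ∀ k, f k < 16) (m : ℕ) : ∀ k j, j < m → fld (pk f m k) 4 16 j = f (k + j) := by
  induction m with
  | zero => intros; omega
  | succ m ih =>
    intro k j hj
    have := h k
    change (f k + 16 * pk f m (k + 1)) >>> (4 * j) % 16 = _
    cases j with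
    | zero => simp; omega
    | succ j =>
      rw [mul_add, add_comm (4 * j), Nat.shiftRight_add, Nat.shiftRight_eq_div_pow _ (4 * 1),
        show (f k + 16 * pk f m (k + 1)) / 2 ^ (4 * 1) = pk f m (k + 1) by omega, show k + (j + 1) = k + 1 + j by omega]
      exact ih _ _ (by omega)

theorem dv (a b : ℕ) : Nat.div a b = a / b := rfl
theorem md (a b : ℕ) : Nat.mod a b = a % b := rfl

/-- an entry -/
def ent (n A i j : ℕ) : ℕ := fld A 4 16 (Nat.add (Nat.mul n i) j)

/-- a reduced code -/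
def red (a b : ℕ) : ℕ := Nat.add (Nat.mod a 3) (Nat.mul 4 (Nat.mod b 3))

/-- a coded matrix -/
noncomputable def mk (n : ℕ) (f g : ℕ → ℕ → ℕ) : ℕ :=
  pk (fun k => red (f (Nat.div k n) (Nat.mod k n)) (g (Nat.div k n) (Nat.mod k n))) (Nat.mul n n) 0

/-- sum -/
noncomputable def sm (n : ℕ) (f : ℕ → ℕ) : ℕ := @Nat.rec (fun _ => ℕ) 0 (fun k s => Nat.add s (f k)) n

theorem sm_eq (n : ℕ) (f : ℕ → ℕ) : sm n f = ∑ k ∈ range n, f k := by
  induction n with
  | zero => rfl
  | succ n ih => rw [sum_range_succ, ← ih]; rfl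

/-- product of coded matrices -/
noncomputable def mulM (n δ A B : ℕ) : ℕ :=
  mk n (fun i j => sm n fun k => Nat.add (Nat.mul (Nat.mod (ent n A i k) 4) (Nat.mod (ent n B k j) 4))
      (Nat.mul δ (Nat.mul (Nat.div (ent n A i k) 4) (Nat.div (ent n B k j) 4))))
    fun i j => sm n fun k => Nat.add (Nat.mul (Nat.mod (ent n A i k) 4) (Nat.div (ent n B k j) 4))
      (Nat.mul (Nat.div (ent n A i k) 4) (Nat.mod (ent n B k j) 4))

/-- transpose, the imaginary part being multiplied by `c` -/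
noncomputable def trM (n c A : ℕ) : ℕ :=
  mk n (fun i j => Nat.mod (ent n A j i) 4) fun i j => Nat.mul c (Nat.div (ent n A j i) 4)

section mat

variable {F ι : Type*} [CommRing F] (z : F) {n : ℕ} (e : ι ≃ Fin n)

/-- value of a code -/
def ev (c : ℕ) : F := (c % 4 : ℕ) + (c / 4 : ℕ) * z

/-- the matrix with a given code -/
def mat (A : ℕ) : Matrix ι ι F := fun i j => ev z (ent n A (e i) (e j))

variable [CharP F 3]

theorem mat_mk (f g : ℕ → ℕ → ℕ) (i j : ι) : mat z e (mk n f g) i j = f (e i) (e j) + g (e i) (e j) * z := by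
  have h1 := (e i).2
  have h2 := (e j).2
  have h3 : ∀ a b, ev z (red a b) = a + b * z := fun a b => by
    rw [ev, CharP.cast_eq_mod F 3 a, CharP.cast_eq_mod F 3 b,
      show red a b % 4 = a % 3 by change (a % 3 + 4 * (b % 3)) % 4 = _; omega,
      show red a b / 4 = b % 3 by change (a % 3 + 4 * (b % 3)) / 4 = _; omega]
  rw [mat, ent, mk, fld_pk (fun k => by change _ % 3 + 4 * (_ % 3) < 16; omega) _ _ _ (by
    change n * e i + e j < n * n; nlinarith), h3]
  simp only [Nat.add_eq, Nat.mul_eq, zero_add, dv, md]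
  rw [Nat.mul_add_div (by omega), Nat.mul_add_mod, Nat.div_eq_of_lt h2, Nat.mod_eq_of_lt h2, add_zero]

theorem mat_mul [Fintype ι] {δ : ℕ} (h : z * z = δ) (A B : ℕ) : mat z e (mulM n δ A B) = mat z e A * mat z e B := by
  ext i j
  rw [mulM, mat_mk, sm_eq, sm_eq, Matrix.mul_apply, ← e.symm.sum_comp, sum_range, sum_range, Nat.cast_sum, Nat.cast_sum,
    sum_mul, ← sum_add_distrib]
  refine sum_congr rfl fun k _ => ?_
  simp only [mat, ev, Nat.add_eq, Nat.mul_eq, dv, md, e.apply_symm_apply, Nat.cast_add,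
    Nat.cast_mul, ← h]
  ring

theorem mat_tr (c A : ℕ) (i j : ι) : mat z e (trM n c A) i j = ev (c * z) (ent n A (e j) (e i)) := by
  rw [trM, mat_mk, ev]
  simp only [Nat.mul_eq, dv, md, Nat.cast_mul]
  ring

end mat

end Cfsg.Agent.H37.Ew
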