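import Cfsg.Agent.H37.EwC
import Cfsg.Agent.H37.EwD
import Cfsg.Agent.H37.EwE

/-! `E₈(3)` has no subgroup `L₂(41)`, `L₂(32)` or `PSp₆(3)`. -/

set_option autoImplicit false

namespace Cfsg.Agent.H37.Ew

open Cfsg.Lie Module Matrix MatrixGroups S2

theorem exists_rho {Γ : Type*} [Group Γ] {H : Subgroup (chevE8.group (ZMod 3))} (e : H ≃* Γ ⧸ Subgroup.center Γ) :
    ∃ ρ : Representation (AlgebraicClosure (ZMod 3)) Γ (chevE8.Idx → AlgebraicClosure (ZMod 3)),
    ρ.ker = Subgroup.center Γ ∧ (∀ g, dm ⊤ (ρ g) 1 = 248 ↔ g ∈ ρ.ker) ∧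
    (∀ l g c, dm (Fix ρ l) (ρ g) (c ^ 3) = dm (Fix ρ l) (ρ g) c) ∧
    (∀ x, x ^ 8 ∈ ρ.ker → (dm ⊤ (ρ x) 1, dm ⊤ (ρ (x ^ 2)) 1, dm ⊤ (ρ (x ^ 4)) 1) ∈ T8) ∧
    (∀ x ∉ ρ.ker, x ^ 11 = 1 → dm ⊤ (ρ x) 1 = 28) ∧ (∀ x ∉ ρ.ker, x ^ 31 = 1 → dm ⊤ (ρ x) 1 = 8) ∧
    ∀ x ∉ ρ.ker, x ^ 41 = 1 → ∀ g, x ^ 4 * g ≠ g * x := by
  obtain ⟨ρ, h1, h2, h3, h4, h5, h6⟩ := exists_E8
  let φ : Γ →* chevE8.group (ZMod 3) := H.subtype.comp (e.symm.toMonoidHom.comp (QuotientGroup.mk' _))
  have h7 : ∀ g, g ∈ (ρ.comp φ).ker ↔ φ g = 1 := fun g => map_eq_one_iff ρ h1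
  have h8 : ∀ l, Fix (ρ.comp φ) l = Fix ρ (l.map φ) := fun l => Submodule.ext fun v => by simp [mem_Fix]
  refine ⟨ρ.comp φ, Subgroup.ext fun g => (h7 g).trans (by simp [φ]), fun g => ?_, fun l g c => h8 l ▸ h2 _ _ c,
    fun x hx => by simpa using h3 (φ x) (by rw [← map_pow, (h7 _).1 hx]),
    fun x hx h => h4 _ (mt (h7 x).2 hx) (by rw [← map_pow, h, map_one]),
    fun x hx h => h5 _ (mt (h7 x).2 hx) (by rw [← map_pow, h, map_one]),
    fun x hx h g hg => h6 _ (mt (h7 x).2 hx) (by rw [← map_pow, h, map_one]) (φ g) (by
      rw [← map_pow, ← map_mul, hg, map_mul])⟩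
  have h0 : finrank (AlgebraicClosure (ZMod 3)) (chevE8.Idx → AlgebraicClosure (ZMod 3)) = 248 := by simp; rfl
  rw [dm_top, ← h0]
  refine ⟨fun h => LinearMap.ext fun v => ?_, fun h => by rw [MonoidHom.mem_ker.1 h, ← dm_top, dm_one, finrank_top]⟩
  simpa using End.mem_eigenspace_iff.1 ((Submodule.eq_top_of_finrank_eq h).ge (Submodule.mem_top (x := v)))

theorem ux_not_mem {F : Type*} [Field F] : ux (1 : F) ∉ Subgroup.center SL(2, F) := fun h => by
  obtain ⟨r, -, h⟩ := Matrix.SpecialLinearGroup.mem_center_iff.1 h
  simpa [ux_coe] using congrFun₂ h 0 1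

theorem no_psl41 {F : Type*} [Field F] [Fintype F] (hF : Fintype.card F = 41)
    (H : Subgroup (chevE8.group (ZMod 3))) : IsEmpty (H ≃* ProjectiveSpecialLinearGroup (Fin 2) F) := ⟨fun e => by
  obtain ⟨ρ, h1, -, -, -, -, -, h2⟩ := exists_rho e
  have : Fact (Nat.Prime 41) := ⟨by norm_num⟩
  have : CharP F 41 := charP_of_card_eq_prime hF
  have h3 : (2 : F) ≠ 0 := fun h => by have := (CharP.cast_eq_zero_iff F 41 2).1 (by simpa using h); omega
  refine h2 (ux 1) (h1 ▸ ux_not_mem) (pow_char 41 ux_add 1) (dg (Units.mk0 2 h3)⁻¹) ?_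
  rw [show ux (1 : F) ^ 4 = ux (1 + 1 + 1 + 1) by simp only [ux_add, pow_succ, pow_zero, one_mul]]
  ext i k; fin_cases i <;> fin_cases k <;> simp [mul_ap, ux_coe, dg_coe]
  field_simp; norm_num⟩

theorem no_psl32 {F : Type*} [Field F] [Fintype F] (hF : Fintype.card F = 32)
    (H : Subgroup (chevE8.group (ZMod 3))) : IsEmpty (H ≃* ProjectiveSpecialLinearGroup (Fin 2) F) := ⟨fun e => by
  obtain ⟨ρ, h1, h2, -, h3, h4, h5, -⟩ := exists_rho e
  have := char32 hF
  have h6 : ∀ x, x ∈ ρ.ker ↔ x = 1 := fun x => ⟨fun h => by
    obtain ⟨r, h7, h8⟩ := Matrix.SpecialLinearGroup.mem_center_iff.1 (h1 ▸ h)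
    have h9 : r = 1 := by
      rwa [Fintype.card_fin, sq_eq_one_iff, CharTwo.neg_eq, or_self] at h7
    exact Subtype.ext (by rw [← h8, h9, map_one]; rfl), fun h => h ▸ one_mem _⟩
  refine no32 hF ρ (by simp; rfl) (fun x hx h => ?_) (fun x hx => h4 x (mt (h6 x).1 hx)) fun x hx => h5 x (mt (h6 x).1 hx)
  have h7 := h3 x (by rw [show 8 = 2 * 4 from rfl, pow_mul, h, one_pow]; exact one_mem _)
  rw [show 4 = 2 * 2 from rfl, pow_mul, h, one_pow, (h2 1).2 (one_mem _)] at h7
  exact (by decide : ∀ a ∈ T8, a.2.1 = 248 → a.1 ≠ 248 → a.1 = 120 ∨ a.1 = 136) _ h7 rfl (mt (h2 x).1 (mt (h6 x).1 hx))⟩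

theorem two_ne : (2 : AlgebraicClosure (ZMod 3)) ≠ 0 := fun e => by
  have := (CharP.cast_eq_zero_iff (AlgebraicClosure (ZMod 3)) 3 2).1 (by simpa using e); omega

theorem sum_ks (f : ℕ → ℤ) {ks : List ℕ} (h : ∀ k ∈ ks, k < 5) : (ks.map f).sum =
    ks.count 0 * f 0 + ks.count 1 * f 1 + ks.count 2 * f 2 + ks.count 3 * f 3 + ks.count 4 * f 4 := by
  induction ks with
  | nil => simp
  | cons k ks ih =>
    have := h k List.mem_cons_self
    rw [List.map_cons, List.sum_cons, ih fun k hk => h k (List.mem_cons_of_mem _ hk)]
    interval_cases k <;> simp [List.count_cons] <;> ring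

namespace Cod

variable {Γ : Type*} [Group Γ] (C : Cod Γ)

theorem exL {ws : List (List ℕ)} (h : allL ws (allL · C.good) = true) :
    ∃ xs, List.Forall₂ C.R xs (ws.map (evW C.mul C.one)) := by
  induction ws with
  | nil => exact ⟨[], .nil⟩
  | cons a w ih =>
    obtain ⟨x, hx⟩ := C.exW (band_eq_true.1 h).1
    obtain ⟨y, hy⟩ := ih (band_eq_true.1 h).2
    exact ⟨_, .cons hx hy⟩

theorem getD {xs : List Γ} {l : List ℕ} (h : List.Forall₂ C.R xs l) (k : ℕ) : C.R (xs.getD k 1) (l.getD k C.one) := by
  induction h generalizing k with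
  | nil => exact C.R_one
  | cons h _ ih => cases k; exacts [h, ih _]

end Cod

/-- codes for `Sp₆(3)` -/
noncomputable def cSp : Cod (symplecticGroup (Fin 3) (ZMod 3)) where
  mul := mulM 6 0
  one := 0x100000010000001000000100000010000001
  good A := frc (trM 6 0 A) fun B => frc (mulM 6 0 A 0x100000010000001200000020000002000) fun C => Nat.beq (mulM 6 0 C B) 0x100000010000001200000020000002000
  R x A := x.1 = mat 0 finSumFinEquiv A
  R_one := by decide +kernel
  R_mul h1 h2 := by rw [mat_mul _ _ (by simp), ← h1, ← h2]; rfl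
  R_inj h1 h2 := Subtype.ext (h1.trans h2.symm)
  ex {A} h := ⟨⟨_, by
    simp only [frc_eq, Nat.beq_eq] at h
    have h1 := congrArg (mat (0 : ZMod 3) (finSumFinEquiv (m := 3) (n := 3))) h
    rw [mat_mul _ _ (by simp), mat_mul _ _ (by simp), show mat _ _ 0x100000010000001200000020000002000 = J (Fin 3) (ZMod 3) by decide +kernel,
      show mat _ _ (trM 6 0 A) = (mat _ _ A)ᵀ from Matrix.ext fun i j => by rw [mat_tr, mul_zero]; rfl] at h1
    exact h1⟩, rfl⟩

/-- generators of a subgroup of order `128` of `PSp₆(3)` -/
def lSp : List ℕ := [0x200000010000001000000200000010000001, 0x100000020000001000000100000020000001, 0x100000000020000002000100010000001000, 0x200010000000002100000000010001000, 0x100000020010002001000100010010001001, 0x100000000002000020000100001000010000, 0x200200002001000020200100001001010000]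

/-- conjugating elements -/
def wSp : List (List ℕ) := [[],
  [],
  [0x100011001021001200000021020011010],
  [0x20001100100021022021011200000002010],
  [0x100022001021002200200002012001011],
  [0x100001000000020200000000001010000],
  [0x200200002011012010200100010021011001],
  [],
  [0x1020000100012022022012200200002020],
  [0x100100020010001001000100020000000001],
  [0x100000001002010000100100000001010010],
  [0x20021200000022001011020100200002012],
  [0x222022012120010001102121122022001022],
  [0x100100001001020010000100000001020000],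
  [0x100200000020000002000100010020001002],
  [0x20021022001200000011020002012100200],
  [0x100000010010000002100100020000001002],
  [0x100020000000002200000000020001000],
  [0x21022112122121111002021022210011220],
  [0x21110022202111002102121122211202110],
  [0x200100022010012020100100012001022001],
  [0x200200020020001000200100020010000001],
  [0x100200020012012010200200002011011001],
  [0x20001001020100000021011021022100100],
  [0x10001020001100100021022011012000100],
  [0x200100002000010000200000001002020010],
  [0x100000000010002002100100020010001000],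
  [0x110112000121102111011102211110022210],
  [0x201212010001211011222022001022012120],
  [0x200000001020010100100002002020000],
  [0x100020010000002200100000020001002],
  [0x201020212012122220121211220102000121],
  [0x22020200200012010001011000200001021],
  [0x100000000020000002000100010000001000],
  [0x1012212222011120021022022110112122],
  [0x12022100100001020020001200000021022],
  [0x100100002022022001000100021002002012],
  [0x100200020020000002200200020010001000],
  [0x10020110221011120011002201002112122],
  [0x201212111002211122021110202110022202],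
  [0x10001100100020001021022000100011012],
  [0x200000001002010000100200001000020010],
  [0x200200010020002002100000000010001000],
  [0x22010200000001021020021100200022001],
  [0x12220110202002011210102101112010001],
  [0x100100000001010000000100002002020010],
  [0x100200010010002002000100020000001000],
  [0x20021001021200100011020022001200000],
  [0x100200001000010000000100001001010010],
  [0x100000020001000200000010000000001],
  [0x100000021001012010000100011010011001],
  [0x201212022202101220021110122211111002],
  [0x200200011002022010200100012020012001],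
  [0x200200020010000002200100010010001000],
  [0x11002102001011120020010110221112122],
  [0x20001021022100100021011002010200000],
  [0x10001001010200100021022012022200000],
  [0x200100001002020010200000001000020000],
  [0x100000010010000002100100020000001002],
  [0x22201000121011120110112211110102111],
  [0x222022002011211011102121010001012120],
  [0x200002002010000100100000002020010],
  [0x100010000002002200100010010001000],
  [0x110112011120122220011102102111000121],
  [],
  [0x100000020000001000000100000020000001],
  [0x100011010012010200000012002011001],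
  [0x12022100000021022020001100100002010],
  [0x100002022001021200200021002022001],
  [0x100200020010001000200200010010000001],
  [0x200200001022012010200100020012011001],
  [0x21110101220211122102121111002022202],
  [0x10001200100001010021022200000012022],
  [0x200000002000020010100200001002020000],
  [0x200200020000000002100000020020001002],
  [0x22010200100022001020021200000002012],
  [0x222022211011002011102121012120010001],
  [0x100100002002020010000100000002020000],
  [0x100200000010000002000100020010001002],
  [0x22010022001200100020021002012200000],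
  [0x100000001000010020100100001001000010],
  [0x100010000000002200000000010001000],
  [0x21022011220011120002021212222112122],
  [0x210102100012101220111011111110111002],
  [0x200100011002021002100100012020022010],
  [0x200200010010001000200100010020000001],
  [0x100200010021012010200200001022011001],
  [0x12022001020100100020001021022200000],
  [0x1020020001200100022012011012200000],
  [0x200100001000010000200000002001020010],
  [0x100000000020002002100100010020001000],
  [0x201020122102011120121211211022102111],
  [0x210102022010211011021110021021012120],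
  [0x200000002020010100100001001020000],
  [0x100010020000002200100000010001002],
  [0x22201102111122220110112022210000121],
  [0x22020002012000100001011012010200200],
  [0x100000000010000002000100020000001000],
  [0x1012121111011120021022011220112122],
  [0x20001100000001020021011100100021022],
  [0x100100021002001021000100001011022001],
  [0x100200010010000002200200010020001000],
  [0x10020220112011120011002102001112122],
  [0x210102121111211122111011010112022202],
  [0x1020200100020001022012200000011012],
  [0x200000002001010000100200002000020010],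
  [0x200200020010002002100000000020001000],
  [0x20021200100001021011020200000022001],
  [0x201212012120002011222022122022010001],
  [0x100100000002010000000100001001020010],
  [0x100200020020002002000100010000001000],
  [0x22010001021200000020021022001100200],
  [0x100200002001010020000100000002000010],
  [0x100000010001000200000020000000001],
  [0x100000012002012010000100022020011001],
  [0x21110211122101220102121022202111002],
  [],
  [0x200200010020000002200100020020001000],
  [0x11002201002011120020010220112112122],
  [0x12022021022100000020001002010100100],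
  [0x1020001010100100022012012022000100],
  [0x200100002001020010200000002000020000],
  [0x100000020020000002100100010000001002],
  [0x110112122220011120011102000121102111],
  [0x12220021021211011210102011020012120],
  [0x200001001010000100100000001020010],
  [0x100020000002002200100020020001000],
  [0x212122220102122220201020121021000121]]

/-- classes -/
def kSp : List ℕ := [0, 4, 3, 3, 3, 4, 3, 2, 3, 4, 4, 3, 2, 4, 4, 3, 3, 4, 1, 2, 3, 4, 3, 3, 3, 4, 4, 2, 2, 4, 4, 2, 1, 4, 1, 3, 3, 4, 1, 2, 3, 4, 4, 3, 2, 4, 4, 3, 3, 4, 3, 2, 3, 4, 1, 3, 3, 4, 4, 2, 2, 4, 4, 2, 1, 4, 3, 3, 3, 4, 3, 2, 3, 4, 4, 3, 2, 4, 4, 3, 3, 4, 1, 2, 3, 4, 3, 3, 3, 4, 4, 2, 2, 4, 4, 2, 1, 4, 1, 3, 3, 4, 1, 2, 3, 4, 4, 3, 2, 4, 4, 3, 3, 4, 3, 2, 3, 4, 1, 3, 3, 4, 4, 2, 2, 4, 4, 2]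

theorem okSp : csOK cSp.mul lSp [0x100000010000001000000100000010000001, 0x200000020000002000000200000020000002] = true ∧ clOK (fun a w k => cjOK cSp.mul cSp.one cSp.good [0x100000010000001000000100000010000001, 0x200000020000002000000200000020000002] a w
    ([0x100000010000001000000100000010000001, 0x100000020000002000000100000020000002, 0x200200010020000002200100020020001000, 0x200000010010002002000200010020002001, 0x200200002001000020200100001001010000].getD k cSp.one)) (prods cSp.mul cSp.one lSp) wSp kSp = true := by decide +kernel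

theorem no_psp (H : Subgroup (chevE8.group (ZMod 3))) : IsEmpty (H ≃* PSp 3 (ZMod 3)) := ⟨fun e => by
  obtain ⟨ρ, h1, h2, -, h3, -⟩ := exists_rho e
  have hZ : ∀ s ∈ [0x100000010000001000000100000010000001, 0x200000020000002000000200000020000002], ∃ x ∈ ρ.ker, cSp.R x s := by
    simp only [List.forall_mem_cons, List.not_mem_nil, false_imp_iff, implies_true, and_true]
    exact ⟨⟨1, one_mem _, cSp.R_one⟩, ⟨-1, SymplecticGroup.neg_mem (one_mem _)⟩,
      h1 ▸ Subgroup.mem_center_iff.2 fun g => Subtype.ext (by simp),
      (by decide +kernel : (-1 : Matrix _ _ (ZMod 3)) = mat 0 finSumFinEquiv _)⟩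
  have hk : ∀ x s, cSp.R x s → s ∈ [0x100000010000001000000100000010000001, 0x200000020000002000000200000020000002] → x ∈ ρ.ker := fun x s h hs => by
    obtain ⟨y, h4, h5⟩ := hZ s hs; exact cSp.R_inj h5 h ▸ h4
  obtain ⟨xs, hx⟩ := cSp.exL (ws := lSp.map fun a => [a]) (by decide +kernel)
  rw [show List.map _ _ = lSp by decide +kernel] at hx
  obtain ⟨x, x1⟩ := cSp.ex (a := 0x200200002001000020200100001001010000) (by decide +kernel)
  obtain ⟨y, y1⟩ := cSp.ex (a := 0x200200010020000002200100020020001000) (by decide +kernel)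
  obtain ⟨z, z1⟩ := cSp.ex (a := 0x1000010000100000000001000010000100) (by decide +kernel)
  have x2 : cSp.R (x ^ 2) 0x200000010010002002000200010020002001 := (by decide +kernel : cSp.mul 0x200200002001000020200100001001010000 0x200200002001000020200100001001010000 = 0x200000010010002002000200010020002001) ▸ pow_two x ▸ cSp.R_mul x1 x1
  have x4 : cSp.R (x ^ 4) 0x100000020000002000000100000020000002 := (by decide +kernel : cSp.mul 0x200000010010002002000200010020002001 0x200000010010002002000200010020002001 = 0x100000020000002000000100000020000002) ▸ pow_add x 2 2 ▸ cSp.R_mul x2 x2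
  have x8 := hk _ _ (cSp.R_mul x4 x4) (by decide +kernel)
  have y2 := hk _ _ (cSp.R_mul y1 y1) (by decide +kernel)
  have hn : ∀ g a, cSp.R g a → mat (0 : ZMod 3) (finSumFinEquiv (m := 3) (n := 3)) (cSp.mul 0x1000010000100000000001000010000100 a) ≠
      mat 0 finSumFinEquiv (cSp.mul a 0x1000010000100000000001000010000100) → dm ⊤ (ρ g) 1 ≠ 248 := fun g a h h' e => h' <|
    (cSp.R_mul z1 h).symm.trans (Subgroup.mem_center_iff.1 (h1 ▸ (h2 g).1 e) z ▸ cSp.R_mul h z1)
  have h4 := cSp.fix ρ hZ two_ne (cSp.getD (.cons cSp.R_one (.cons x4 (.cons y1 (.cons x2 (.cons x1 .nil))))))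
    hx okSp.1 okSp.2
  obtain ⟨k0, k1, k2, k3, k4, k5, k6⟩ : kSp.count 0 = 1 ∧ kSp.count 1 = 11 ∧ kSp.count 2 = 24 ∧ kSp.count 3 = 44 ∧
    kSp.count 4 = 48 ∧ lSp.length = 7 ∧ ∀ k ∈ kSp, k < 5 := by decide +kernel
  rw [sum_ks _ k6, k0, k1, k2, k3, k4, k5] at h4
  simp only [List.getD_cons_zero, List.getD_cons_succ, (h2 _).2 x8, (h2 _).2 y2, mul_one, (h2 1).2 (one_mem _)] at h4
  rw [← pow_add, ← pow_two] at h4
  have h5 := h3 y (by rw [show 8 = 2 * 4 from rfl, pow_mul, pow_two]; exact pow_mem y2 4)
  rw [pow_two, (h2 _).2 y2] at h5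
  exact (by decide +kernel : ∀ a ∈ T8, ∀ b ∈ T8, b.2.1 = 248 → a.2.2 ≠ 248 → b.1 ≠ 248 → ¬ (128 : ℤ) ∣
    248 + 11 * (2 * a.2.2 - 248) + 24 * (2 * b.1 - 248) + 44 * (2 * a.2.1 - a.2.2) + 48 * (2 * a.1 - a.2.1))
    _ (h3 x (pow_add x 4 4 ▸ x8)) _ h5 rfl (hn _ _ x4 (by decide +kernel)) (hn _ _ y1 (by decide +kernel))
    ⟨_, by push_cast at h4; exact h4.symm⟩⟩

end Cfsg.Agent.H37.Ew
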