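import Cfsg.Agent.H37.EwF

/-! The subgroup `2⁴ : A₆` of `U₄(3)`: a four-dimensional representation of `SL₂(9)` and modules for `SL₂(9)`. -/

set_option autoImplicit false

namespace Cfsg.Agent.H37.Ew

open Module Matrix MatrixGroups S2 Finset

theorem sum_rg {n : ℕ} (f : ℕ → ℕ) {ks : List ℕ} (h : ∀ k ∈ ks, k < n) :
    (ks.map f).sum = ∑ k ∈ range n, ks.count k * f k := by
  rw [Finset.sum_list_map_count]
  exact sum_subset (fun k hk => mem_range.2 (h k (List.mem_toFinset.1 hk))) fun k _ hk => by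
    rw [List.count_eq_zero.2 (mt List.mem_toFinset.2 hk), zero_smul]

theorem sl2_top {F : Type*} [Field F] (S : Submonoid SL(2, F)) (h1 : ∀ a, ux a ∈ S) (h2 : ∀ a, ly a ∈ S) (g : SL(2, F)) :
    g ∈ S := by
  have h : ∀ g : SL(2, F), g.1 1 0 ≠ 0 → g ∈ S := fun g h => by
    have h3 := g.det_coe
    rw [det_fin_two] at h3
    rw [show g = ux ((g.1 0 0 - 1) / g.1 1 0) * ly (g.1 1 0) * ux ((g.1 1 1 - 1) / g.1 1 0) by
      ext i k; fin_cases i <;> fin_cases k <;> simp [mul_ap, ux_coe, ly_coe] <;> field_simp <;> grind]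
    exact mul_mem (mul_mem (h1 _) (h2 _)) (h1 _)
  by_cases h3 : g.1 1 0 = 0
  · rw [show g = ly (-1) * (ly 1 * g) by rw [← mul_assoc, ← ly_add]; ext i k; fin_cases i <;> fin_cases k <;>
      simp [mul_ap, ly_coe]]
    refine mul_mem (h2 _) (h _ fun e => ?_)
    have h4 := g.det_coe
    rw [det_fin_two] at h4
    simp [mul_ap, ly_coe, h3] at e h4
    simp [e] at h4
  · exact h g h3

section psi

variable {F : Type*} [Field F] [CharP F 3]

/-- first cocycle -/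
def c1 (g : Matrix (Fin 2) (Fin 2) F) : Matrix (Fin 2) (Fin 2) F :=
  !![g 0 0 ^ 2 * g 0 1, -(g 0 0 * g 0 1 ^ 2); g 1 0 ^ 2 * g 1 1, -(g 1 0 * g 1 1 ^ 2)]

/-- second cocycle -/
def c2 (g : Matrix (Fin 2) (Fin 2) F) : Matrix (Fin 2) (Fin 2) F :=
  !![-(g 0 0 ^ 2 * g 1 0), -(g 0 1 ^ 2 * g 1 1); g 0 0 * g 1 0 ^ 2, g 0 1 * g 1 1 ^ 2]

theorem c1_mul (g h : SL(2, F)) : c1 (g.1 * h.1) = g.1.map (frobenius F 3) * c1 h.1 + c1 g.1 * h.1 := by
  have h3 : (3 : F) = 0 := CharP.cast_eq_zero F 3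
  have h1 := h.det_coe
  rw [det_fin_two] at h1
  ext i j; fin_cases i <;> fin_cases j <;>
    simp [c1, mul_apply, Fin.sum_univ_two, frobenius_def, vecMul, dotProduct] <;> grind

theorem c2_mul (g h : SL(2, F)) : c2 (g.1 * h.1) = g.1 * c2 h.1 + c2 g.1 * h.1.map (frobenius F 3) := by
  have h3 : (3 : F) = 0 := CharP.cast_eq_zero F 3
  have h1 := g.det_coe
  rw [det_fin_two] at h1
  ext i j; fin_cases i <;> fin_cases j <;>
    simp [c2, mul_apply, Fin.sum_univ_two, frobenius_def, vecMul, dotProduct] <;> grind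

/-- a non-split extension of the natural module by its twist -/
noncomputable def psi (h9 : ∀ a : F, a ^ 9 = a) : SL(2, F) →* Matrix (Fin 2 ⊕ Fin 2) (Fin 2 ⊕ Fin 2) F where
  toFun g := fromBlocks (g.1.map (frobenius F 3)) (c1 g.1 + (c2 g.1).map (frobenius F 3)) 0 g.1
  map_one' := by ext (i | i) (j | j) <;> fin_cases i <;> fin_cases j <;> simp [c1, c2]
  map_mul' g h := by
    have : (h.1.map (frobenius F 3)).map (frobenius F 3) = h.1 := by
      ext i j; simp [frobenius_def, ← pow_mul, h9]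
    rw [show (g * h).1 = g.1 * h.1 from rfl]
    simp only [fromBlocks_multiply, c1_mul, c2_mul, Matrix.map_mul,
      Matrix.map_add _ (map_add (frobenius F 3)), this, Matrix.mul_add, Matrix.add_mul, Matrix.mul_zero, Matrix.zero_mul,
      add_zero, zero_add]
    congr 1; rw [add_add_add_comm]

end psi

theorem sl9 {K V F : Type*} [Field K] [IsAlgClosed K] [CharP K 3] [AddCommGroup V] [Module K V] [FiniteDimensional K V]
    [Field F] [Fintype F] (hF : Fintype.card F = 9) (j : F →+* K) (ρ : Representation K SL(2, F) V) {t : Fˣ}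
    (ht : (t : F) ^ 4 = -1) (h1 : ρ (dg t ^ 4) = 1) (h2 : ∀ g c, dm ⊤ (ρ g) (c ^ 3) = dm ⊤ (ρ g) c) :
    ∃ a b c d : ℕ, finrank K V = a + 6 * b + 4 * c + 9 * d ∧ dm ⊤ (ρ (dg t ^ 2)) 1 = a + 2 * b + 2 * c + 5 * d ∧
      dm ⊤ (ρ (dg t)) 1 = a + 2 * b + 3 * d := by
  have : CharP F 3 := charP_of_card_eq_prime_pow (f := 2) hF
  obtain ⟨L, hL, e⟩ := exists_factors j 3 _ ρ rfl
  rw [hF] at hL
  have e1 : ∀ g m (ζ : K), IsPrimitiveRoot ζ m → Eig j g ζ ζ⁻¹ → ∀ y < m, ¬ 3 ∣ m →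
      dm ⊤ (ρ g) (ζ ^ y) = ∑ l ∈ range 9, L.count l * (wl 2 m l).count y := fun g m ζ hζ hg y hy hm => by
    refine Eq.trans ?_ (List.count_flatMap.trans (sum_rg _ hL))
    refine dm_eq_count (fun h => hm ((CharP.cast_eq_zero_iff K 3 m).1 h)) (by
      rw [← map_pow, (hg.pow _).eq_one_iff.2 ⟨hζ.pow_eq_one, by rw [inv_pow, hζ.pow_eq_one, inv_one]⟩, map_one]) hζ
      (fun a ha => by obtain ⟨l, -, hl⟩ := List.mem_flatMap.1 ha; exact lt_of_mem_wl (by omega) a hl) (fun t => ?_) hy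
    rw [e g _ _ hg, List.map_flatMap, List.flatMap_def, List.prod_flatten, List.map_map]
    exact congrArg _ (List.map_congr_left fun l hl => prod_ex (f := 2) (by omega) hζ.pow_eq_one (hL l hl) t)
  have i4 : (-1 : K) ≠ 1 := have : Fact (2 < 3) := ⟨by norm_num⟩; CharP.neg_one_ne_one _ 3
  have e2 : (j t)⁻¹ ^ 4 = -1 := by rw [inv_pow, ← map_pow, ht]; simp
  have e3 : IsPrimitiveRoot (j t)⁻¹ 8 := by
    have := IsPrimitiveRoot.orderOf (j t)⁻¹
    rwa [orderOf_eq_prime_pow (p := 2) (n := 2) (by rw [show 2 ^ 2 = 4 from rfl, e2]; exact i4) (by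
      rw [show 2 ^ (2 + 1) = 4 * 2 from rfl, pow_mul, e2]; simp)] at this
  have e4 : Eig j (dg t) (j t)⁻¹ (j t)⁻¹⁻¹ := ⟨1, 1, mul_one _, by
    ext i k; fin_cases i <;> fin_cases k <;> simp [dg_coe]⟩
  obtain ⟨μ, hμ⟩ : ∃ μ : K, IsPrimitiveRoot μ 5 :=
    have : NeZero ((5 : ℕ) : K) := ⟨fun h => by have := (CharP.cast_eq_zero_iff _ 3 _).1 h; omega⟩
    HasEnoughRootsOfUnity.exists_primitiveRoot _ 5
  obtain ⟨g, hg⟩ := exists_eig (j := j) (hμ.ne_zero (by norm_num)) (hμ.pow_ne_one_of_pos_of_lt (by norm_num) (by norm_num)) (by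
    rw [← frob_fix_iff (p := 3) (n := 2) j (by norm_num) (Nat.card_eq_fintype_card.trans hF), map_add, map_inv₀,
      iterateFrobenius_def, eq_inv_of_mul_eq_one_left ((pow_succ μ _).symm.trans ((hμ.pow_eq_one_iff_dvd _).2 (by norm_num))),
      inv_inv, add_comm])
  have a1 := e1 _ _ _ e3 e4 0 (by norm_num) (by norm_num)
  have a2 := e1 _ 4 _ (e3.pow (a := 2) (by norm_num) rfl) (inv_pow (j t)⁻¹ 2 ▸ e4.pow 2) 0 (by norm_num) (by norm_num)
  have a3 := fun y => e1 _ 2 _ (e3.pow (a := 4) (by norm_num) rfl) (inv_pow (j t)⁻¹ 4 ▸ e4.pow 4) y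
  have a4 := a3 0 (by norm_num) (by norm_num)
  have a5 := a3 1 (by norm_num) (by norm_num)
  have a6 := (e1 _ _ _ hμ hg 3 (by norm_num) (by norm_num)).symm.trans ((h2 g μ).trans
    (pow_one μ ▸ e1 _ _ _ hμ hg 1 (by norm_num) (by norm_num)))
  have a7 := split (K := K) (fun h => i4 (by linear_combination -h)) (X := (⊤ : Submodule K V)) (z := 1) (by simp)
  rw [pow_zero] at a1 a2 a4
  rw [pow_one, e2] at a5
  rw [h1] at a4 a5
  rw [dm_one] at a4 a7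
  have b : ∀ m y (c : List ℕ), (List.range 9).map (fun l => (wl 2 m l).count y) = c →
      ∑ l ∈ range 9, L.count l * (wl 2 m l).count y = ∑ l ∈ range 9, L.count l * c.getD l 0 := by
    rintro m y _ rfl
    exact sum_congr rfl fun l hl => by simp [mem_range.1 hl]
  rw [b _ _ [1, 0, 1, 0, 0, 0, 1, 0, 3] (by decide +kernel)] at a1
  rw [b _ _ [1, 0, 1, 0, 2, 0, 1, 0, 5] (by decide +kernel)] at a2
  rw [b _ _ [1, 0, 3, 0, 4, 0, 3, 0, 9] (by decide +kernel)] at a4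
  rw [b _ _ [0, 2, 0, 2, 0, 6, 0, 6, 0] (by decide +kernel)] at a5
  rw [b _ 3 [0, 0, 1, 1, 1, 1, 0, 1, 2] (by decide +kernel), b _ 1 [0, 1, 0, 0, 1, 1, 1, 1, 2] (by decide +kernel)] at a6
  simp only [sum_range_succ, sum_range_zero, List.getD_cons_zero, List.getD_cons_succ, finrank_top] at a1 a2 a4 a5 a6 a7
  exact ⟨L.count 0, L.count 2, L.count 4, L.count 8, by omega, by omega, by omega⟩

theorem fin43 {d8 d4 d2 dB a b c d : ℕ} (h1 : (d8, d4, d2) ∈ T8) (h2 : (dB, d2, 248) ∈ T8) (h3 : d2 ≠ 248)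
    (h4 : (16 * (a + 6 * b + 4 * c + 9 * d : ℕ) : ℤ) = 248 + 15 * (2 * d2 - 248))
    (h5 : (32 * (a + 2 * b + 2 * c + 5 * d : ℕ) : ℤ) = 248 + 19 * (2 * d2 - 248) + 4 * (2 * d4 - d2) + 8 * (2 * dB - d2))
    (h6 : (64 * (a + 2 * b + 3 * d : ℕ) : ℤ) = 248 + 19 * (2 * d2 - 248) + 4 * (2 * d4 - d2) + 24 * (2 * dB - d2) +
      16 * (2 * d8 - d4)) : False := by
  have := (by decide +kernel : ∀ a ∈ T8, ∀ b ∈ T8, b.2 = (a.2.2, 248) → a.2.2 ≠ 248 → (16 : ℤ) ∣ 248 + 15 * (2 * a.2.2 - 248) →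
    (32 : ℤ) ∣ 248 + 19 * (2 * a.2.2 - 248) + 4 * (2 * a.2.1 - a.2.2) + 8 * (2 * b.1 - a.2.2) →
    (64 : ℤ) ∣ 248 + 19 * (2 * a.2.2 - 248) + 4 * (2 * a.2.1 - a.2.2) + 24 * (2 * b.1 - a.2.2) + 16 * (2 * a.1 - a.2.1) →
    (a.1 = 32 ∧ a.2.1 = 64 ∧ a.2.2 = 120) ∧ (b.1 = 60 ∨ b.1 = 64 ∨ b.1 = 92)) _ h1 _ h2 rfl h3 ⟨_, h4.symm⟩ ⟨_, h5.symm⟩
    ⟨_, h6.symm⟩
  simp only at this
  omega

end Cfsg.Agent.H37.Ew
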