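import Cfsg.Agent.H37.EwG

/-! `E₈(3)` has no subgroup `U₄(3)`. -/

set_option autoImplicit false

namespace Cfsg.Agent.H37.Ew

open Cfsg.Lie Module Matrix MatrixGroups S2

theorem ex_rel {α β : Type*} {R : α → β → Prop} {xs : List α} {l : List β} (h : List.Forall₂ R xs l) :
    ∀ x ∈ xs, ∃ a ∈ l, R x a := by
  induction h with
  | nil => simp
  | cons h _ ih =>
    exact List.forall_mem_cons.2 ⟨⟨_, List.mem_cons_self, h⟩, fun x hx =>
      (ih x hx).imp fun _ e => ⟨List.mem_cons_of_mem _ e.1, e.2⟩⟩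

/-- normalising a subgroup modulo the kernel -/
noncomputable def nmOK (mul : ℕ → ℕ → ℕ) (one : ℕ) (Z l : List ℕ) (a : ℕ) : Bool :=
  allL l fun b => frc (mul b a) fun u => (prods mul one l).any fun c => frc (mul a c) fun v =>
    Z.any fun s => Nat.beq u (mul s v)

theorem Cod.inv {Γ K V : Type*} [Group Γ] (C : Cod Γ) [Field K] [AddCommGroup V] [Module K V] (ρ : Representation K Γ V)
    {Z : List ℕ} (hZ : ∀ s ∈ Z, ∃ x ∈ ρ.ker, C.R x s) {xs : List Γ} {l : List ℕ} (h : List.Forall₂ C.R xs l) {x : Γ}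
    {a : ℕ} (hx : C.R x a) (h1 : nmOK C.mul C.one Z l a = true) : ∀ v ∈ Fix ρ xs, ρ x v ∈ Fix ρ xs := fun v hv =>
  mem_Fix.2 fun g hg => by
    obtain ⟨b, hb, h2⟩ := ex_rel h g hg
    have h3 := allL_spec h1 b hb
    simp only [frc_eq, List.any_eq_true, Nat.beq_eq] at h3
    obtain ⟨c, hc, s, hs, e⟩ := h3
    obtain ⟨y, hy, h4⟩ := ex_rel (C.prods_rel h).flip c hc
    obtain ⟨z, hz, h5⟩ := hZ s hs
    let S : Submonoid Γ :=
      { carrier := {g | ρ g v = v}
        one_mem' := by simp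
        mul_mem' := fun {a b} (ha : _ = _) (hb : _ = _) => show _ = _ by rw [map_mul, End.mul_apply, hb, ha] }
    rw [← End.mul_apply, ← map_mul, C.R_inj (C.R_mul h2 hx) (e ▸ C.R_mul h5 (C.R_mul hx h4)), map_mul, map_mul,
      MonoidHom.mem_ker.1 hz, one_mul, End.mul_apply, show ρ y v = v from prods_mem S (mem_Fix.1 hv) y hy]

/-- unitary matrices of order three -/
noncomputable def gU (A : ℕ) : Bool :=
  band (Nat.beq (mulM 4 2 (trM 4 2 A) A) 0x1000010000100001) (Nat.beq (mulM 4 2 A (mulM 4 2 A A)) 0x1000010000100001)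

section

variable {F : Type*} [Field F] [CharP F 3] {z : F} (hz : z * z = (2 : ℕ))

omit [CharP F 3] in
theorem mat_one : mat z (Equiv.refl (Fin 4)) 0x1000010000100001 = 1 := by
  ext i j; fin_cases i <;> fin_cases j <;> simp [mat, ent, fld, md, ev]

/-- codes for `SU₄(3)` -/
noncomputable def cU : Cod (SU 4 F 3) where
  mul := mulM 4 2
  one := 0x1000010000100001
  good := gU
  R x A := x.1.1 = mat z (Equiv.refl _) A
  R_one := mat_one.symm
  R_mul h1 h2 := by rw [mat_mul _ _ hz, ← h1, ← h2]; rfl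
  R_inj h1 h2 := Subtype.ext (Subtype.ext (h1.trans h2.symm))
  ex {A} h := by
    have h3 : (3 : F) = 0 := CharP.cast_eq_zero F 3
    obtain ⟨h1, h2⟩ := (band_eq_true.1 h).imp (fun h => congrArg (mat z (Equiv.refl (Fin 4))) (Nat.eq_of_beq_eq_true h))
      fun h => congrArg (fun A => det (mat z (Equiv.refl (Fin 4)) A)) (Nat.eq_of_beq_eq_true h)
    simp only [mat_mul _ _ hz, mat_one, det_mul, det_one] at h1 h2
    rw [show mat z _ (trM 4 2 A) = ((mat z _ A).map (frobenius F 3))ᵀ from Matrix.ext fun i j => by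
      rw [mat_tr, transpose_apply, map_apply, mat, ev, ev, map_add, map_mul, map_natCast, map_natCast, frobenius_def,
        pow_succ, pow_two, hz]] at h1
    refine ⟨⟨⟨mat z (Equiv.refl _) A, sub_eq_zero.1 ((pow_eq_zero_iff (n := 3) (by norm_num)).1 (by grind))⟩,
      fun u v => ?_⟩, rfl⟩
    change (mat z _ A *ᵥ u) ⬝ᵥ (frobenius F 3 ∘ (mat z _ A *ᵥ v)) = u ⬝ᵥ (frobenius F 3 ∘ v)
    rw [show _ ∘ _ = _ from funext (RingHom.map_mulVec (frobenius F 3) _ v), dotProduct_mulVec, ← mulVec_transpose,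
      mulVec_mulVec, h1, one_mulVec]

include hz in
theorem mem_of_add (h9 : ∀ a : F, a ^ 9 = a) {G : Type*} [Monoid G] {u : F → G} (h : ∀ a b, u (a + b) = u a * u b)
    {S : Submonoid G} (h1 : u 1 ∈ S) (h2 : u z ∈ S) (a : F) : u a ∈ S := by
  have h3 : (3 : F) = 0 := CharP.cast_eq_zero F 3
  have h4 := h9 a
  have h5 : (a - (1 + 1 + 1)) * (a - 1) * (a - (1 + 1)) * (a - z) * (a - (z + z)) * (a - (1 + z)) * (a - (1 + z + z)) *
    (a - (1 + 1 + z)) * (a - (1 + 1 + z + z)) = 0 := by push_cast at hz; grind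
  simp only [mul_eq_zero, sub_eq_zero, or_assoc] at h5
  rcases h5 with e | e | e | e | e | e | e | e | e <;> simp only [e, h] <;> repeat first | assumption | apply mul_mem

/-- the representation in an orthonormal basis -/
noncomputable def psi' (h9 : ∀ a : F, a ^ 9 = a) : SL(2, F) →* Matrix (Fin 4) (Fin 4) F where
  toFun g := mat z (Equiv.refl _) 0x500520010a500110 * (psi h9 g).submatrix (finSumFinEquiv (m := 2) (n := 2)).symm
    (finSumFinEquiv (m := 2) (n := 2)).symm * mat z (Equiv.refl _) 0x9100006200929200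
  map_one' := by
    rw [map_one, submatrix_one_equiv, mul_one, ← mat_mul _ _ hz, show mulM 4 2 0x500520010a500110 0x9100006200929200 = 0x1000010000100001 by decide +kernel, mat_one]
  map_mul' g h := by
    have : mat z (Equiv.refl (Fin 4)) 0x9100006200929200 * mat z (Equiv.refl _) 0x500520010a500110 = 1 := by
      rw [← mat_mul _ _ hz, show mulM 4 2 0x9100006200929200 0x500520010a500110 = 0x1000010000100001 by decide +kernel, mat_one]
    rw [map_mul, ← submatrix_mul_equiv _ _ _ (finSumFinEquiv (m := 2) (n := 2)).symm]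
    simp only [mul_assoc]
    rw [← mul_assoc (mat z _ 0x9100006200929200), this, one_mul]

theorem psi'_eq (h9 : ∀ a : F, a ^ 9 = a) {g : SL(2, F)} {A B : ℕ} (h : psi h9 g = mat z finSumFinEquiv A)
    (h' : mulM 4 2 (mulM 4 2 0x500520010a500110 A) 0x9100006200929200 = B) : psi' hz h9 g = mat z (Equiv.refl _) B := by
  rw [← h', mat_mul _ _ hz, mat_mul _ _ hz, show mat z (Equiv.refl (Fin 4)) A = (psi h9 g).submatrix
    (finSumFinEquiv (m := 2) (n := 2)).symm (finSumFinEquiv (m := 2) (n := 2)).symm from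
    Matrix.ext fun i j => by simp [h, mat]]
  rfl

omit [CharP F 3] in
theorem mat_blk (A : ℕ) : mat z (finSumFinEquiv (m := 2) (n := 2)) A =
    fromBlocks !![ev z (fld A 4 16 0), ev z (fld A 4 16 1); ev z (fld A 4 16 4), ev z (fld A 4 16 5)]
      !![ev z (fld A 4 16 2), ev z (fld A 4 16 3); ev z (fld A 4 16 6), ev z (fld A 4 16 7)]
      !![ev z (fld A 4 16 8), ev z (fld A 4 16 9); ev z (fld A 4 16 12), ev z (fld A 4 16 13)]
      !![ev z (fld A 4 16 10), ev z (fld A 4 16 11); ev z (fld A 4 16 14), ev z (fld A 4 16 15)] := by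
  ext (i | i) (j | j) <;> fin_cases i <;> fin_cases j <;> rfl

include hz in
theorem psi_gen (h9 : ∀ a : F, a ^ 9 = a) {t : Fˣ} (h1 : (t : F) = 1 + z) (h2 : (t⁻¹ : Fˣ) = 2 + z) :
    psi h9 (ux 1) = mat z finSumFinEquiv 0x1000110010101111 ∧ psi h9 (ux z) = mat z finSumFinEquiv 0x1000410080102481 ∧
    psi h9 (ly 1) = mat z finSumFinEquiv 0x1100010022110201 ∧ psi h9 (ly z) = mat z finSumFinEquiv 0x1400010081180401 ∧
    psi h9 (dg t) = mat z finSumFinEquiv 0x500006000090000a := by
  have h3 : (3 : F) = 0 := CharP.cast_eq_zero F 3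
  push_cast at hz
  refine ⟨?_, ?_, ?_, ?_, ?_⟩ <;> rw [mat_blk] <;> refine fromBlocks_inj.2 ?_ <;>
    simp [← Matrix.ext_iff, Fin.forall_fin_two, c1, c2, ux_coe, ly_coe, dg_coe, h1, h2, -Units.val_inv_eq_inv_val,
      frobenius_def, fld, md, ev] <;> grind

end

/-- scalars -/
def zU : List ℕ := [0x1000010000100001, 0x4000040000400004, 0x2000020000200002, 0x8000080000800008]

/-- the subgroup `2⁴` -/
def lU : List ℕ := [0x1000020000100002, 0x20000820000400, 0x2000000200100200, 0x909a0900a05a060]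

/-- its generators as words -/
def eU : List (List ℕ) := [[0x1000091402910429, 0x1000051402520415, 0x1000009a05280981], [0x2089222416804184, 0x21145404828401a2],
    [0x102a010010259090, 0x2a1000021a209090], [0x1604526605114a20, 0x499942a01aa58510]]

/-- representatives of classes -/
def rU : List ℕ := [0x1000010000100001, 0x2000010000200001, 0x8000000400800800, 0xa050000850500100, 0x60a0090650900909]

/-- the test for a subgroup -/
noncomputable def tU (l : List ℕ) (ws : List (List ℕ)) (ks : List ℕ) : Bool := band (csOK (mulM 4 2) l zU)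
  (clOK (fun a w k => cjOK (mulM 4 2) 0x1000010000100001 gU zU a w (rU.getD k 0x1000010000100001)) (prods (mulM 4 2) 0x1000010000100001 l) ws ks)

/-- classes -/
def kU1 : List ℕ := [0, 1, 1, 1, 1, 1, 1, 1, 1, 1, 1, 1, 1, 1, 1, 1]

/-- classes -/
def kU2 : List ℕ := [0, 1, 1, 3, 1, 2, 1, 3, 1, 1, 1, 3, 1, 2, 1, 3, 1, 1, 1, 3, 1, 2, 1, 3, 1, 1, 1, 3, 1, 2, 1, 3]

/-- classes -/
def kU3 : List ℕ := [0, 3, 1, 3, 1, 4, 3, 4, 1, 3, 2, 3, 1, 4, 3, 4, 1, 3, 1, 3, 1, 4, 3, 4, 1, 3, 2, 3, 1, 4, 3, 4, 1, 3, 1, 3, 1, 4, 3, 4, 1, 3, 2, 3, 1, 4, 3, 4, 1, 3, 1, 3, 1, 4, 3, 4, 1, 3, 2, 3, 1, 4, 3, 4]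

theorem okU1 : tU lU [[], [0x1812851022181089], [0x909980400106804], [0x9808852001928015], [0x2421824814111422],
    [0x4144086812249102], [0x2089a06040250200], [0x9804851002924015], [], [0x8610222880264284],
    [0xa0a025140000152], [0x8284620212280864], [0x1412428424221822], [0x45101218402a8148], [0x4015010010865060],
    [0x4441920114220868]] kU1 = true := by decide +kernel

theorem okU2 : tU (lU ++ [0x8000080000400004]) [[], [0x4010010000080], [0x1812851022181089], [0x5050090960900a05, 0x2089605040250800], [0x909980400106804], [],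
    [0x9808852001928015], [0x8842a02105441241, 0x29a66a4509098884], [0x2421824814111422], [0x8414224111412142],
    [0x4144086812249102], [0x9296195aa6585985, 0x626a565456161656], [0x2089a06040250200],
    [0xa018984019655104, 0xa456864009812504], [0x9804851002924015], [0x5998a591aa548241, 0x408556496525a014], [],
    [0x8400000100100], [0x8610222880264284], [0x9a52958a68551969, 0xa49a5a92508828a0], [0xa0a025140000152],
    [0x9820892011900001, 0x45551282a6460906], [0x8284620212280864], [0x9a64995456984481, 0x681260164a91940],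
    [0x1412428424221822], [0x4428128221822242], [0x45101218402a8148], [0x958a6568859a9895, 0x4aa922a04aa68980],
    [0x4015010010865060], [0x525515996a986a89, 0x96165155265956a1], [0x4441920114220868],
    [0x169a5195aa949645, 0x5820890810920815]] kU2 = true := by decide +kernel

theorem okU3 : tU (lU ++ [0x8000080000400004, 0x400200000020080]) [[], [0x5204114204924111, 0x10920158a6681828], [0x4010010000080], [0x92a61188989958a9, 0x8656484219668a96],
    [0x1812851022181089], [], [0x5050090960900a05, 0x2089605040250800], [0x919a25a9a9519a29, 0x9048098848508805],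
    [0x909980400106804], [0x5a1999a12955a269, 0xa4a6411852aa685a], [], [0x9a52958a68551969, 0x9964a1a959194aa5],
    [0x9808852001928015], [0x500909900a50a009, 0x1888811282118121], [0x8842a02105441241, 0x29a66a4509098884],
    [0x24215600a6495994, 0x8092145008a4a986], [0x2421824814111422], [0x1996a515a29a5691, 0xa88465999491806],
    [0x8414224111412142], [0xa9912a5609844850, 0x6a51a6a296458450], [0x4144086812249102],
    [0x962a51a6195a9591, 0x16a55554961a6499], [0x9296195aa6585985, 0x626a565456161656],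
    [0x95156104201964a5, 0x4501121128814092], [0x2089a06040250200], [0x169a5195aa949645, 0x56a45110929940a1],
    [0xa018984019655104, 0xa456864009812504], [0x1000050900100a09, 0x298000024520a060], [0x9804851002924015],
    [0x95526166651915a5, 0x1aa995199296aa51], [0x5998a591aa548241, 0x408556496525a014],
    [0x1000050900100a09, 0x1000050a00100909], [], [0x5440490140920215, 0x615aa69290424450], [0x8400000100100],
    [0x5440490140920215, 0x84a050246aa891aa], [0x8610222880264284], [0x5201112401912421, 0x2045121415408248],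
    [0x9a52958a68551969, 0xa49a5a92508828a0], [0x5408492001518029, 0x104a01a249109101], [0xa0a025140000152],
    [0x952a6558169998a5, 0x2242228148182182], [0x9820892011900001, 0x45551282a6460906],
    [0x5802850100101205, 0x8946a92258019aa], [0x8284620212280864], [0x96a4552a919949a5, 0x15966a94a6265866],
    [0x9a64995456984481, 0x681260164a91940], [0x4881222444824842, 0x1811824428212812], [0x1412428424221822],
    [0x9958a9a269928111, 0x89aa4696266a1828], [0x4428128221822242], [0x9021010010942049, 0xa0120100201a4094],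
    [0x45101218402a8148], [0x5201112401912421, 0x4620824880262128], [0x958a6568859a9895, 0x4aa922a04aa68980],
    [0x1a409108401a0891, 0x4520122180262828], [0x4015010010865060], [0x1000050600100509, 0x1540605049200001],
    [0x525515996a986a89, 0x96165155265956a1], [0x5014052421904409, 0x661a042685081a56], [0x4441920114220868],
    [0x912284124145044, 0x651a94aa91081016], [0x169a5195aa949645, 0x5820890810920815],
    [0x2122122211122212, 0x2211222221121212]] kU3 = true := by decide +kernel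

theorem okU4 : ∀ a ∈ [0x505920100106201, 0x2a80605086100001, 0x1000016205050192, 0x10860100802a5060], gU a = true ∧ nmOK (mulM 4 2) 0x1000010000100001 zU lU a = true := by decide +kernel

attribute [local irreducible] mulM gU nmOK csOK cjOK clOK

theorem exU {w : List ℕ} {a : ℕ} (h : band (allL w gU) (Nat.beq (evW (mulM 4 2) 0x1000010000100001 w) a) = true) {F : Type*} [Field F]
    [CharP F 3] {z : F} (hz : z * z = (2 : ℕ)) : ∃ x, (cU hz).R x a := by
  obtain rfl := Nat.eq_of_beq_eq_true (band_eq_true.1 h).2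
  exact (cU hz).exW (band_eq_true.1 h).1

theorem no_psu {F : Type*} [Field F] [Fintype F] (hF : Fintype.card F = 9) (H : Subgroup (chevE8.group (ZMod 3))) :
    IsEmpty (H ≃* PSU 4 F 3) := ⟨fun e => by
  obtain ⟨ρ, h1, h2, h3, h4, -⟩ := exists_rho e
  have : CharP F 3 := charP_of_card_eq_prime_pow (f := 2) hF
  have c3 : (3 : F) = 0 := CharP.cast_eq_zero F 3
  have h9 : ∀ a : F, a ^ 9 = a := fun a => hF ▸ FiniteField.pow_card a
  obtain ⟨z, hz'⟩ : IsSquare (-1 : F) := FiniteField.isSquare_neg_one_iff.2 (by rw [hF]; decide)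
  have hz : z * z = (2 : ℕ) := by push_cast; linear_combination -hz' - c3
  have hm : ∀ {x y a b c}, (cU hz).R x a → (cU hz).R y b → mulM 4 2 a b = c → (cU hz).R (x * y) c :=
    fun h1 h2 e => e ▸ (cU hz).R_mul h1 h2
  obtain ⟨s, s1⟩ := exU (w := [0x452414144885204, 0x541860492a61a80, 0x8812a02821110924]) (a := 0x4000040000400004) (by decide +kernel) hz
  have s2 : s ∈ ρ.ker := h1 ▸ Subgroup.mem_center_iff.2 fun g => Subtype.ext (Subtype.ext (by
    have : s.1.1 = z • 1 := s1.trans (by ext i j; fin_cases i <;> fin_cases j <;> simp [mat, ent, fld, md, ev])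
    change g.1.1 * s.1.1 = s.1.1 * g.1.1
    simp [this]))
  have s3 := hm s1 s1 (c := 0x2000020000200002) (by decide +kernel)
  have hZ : ∀ s ∈ zU, ∃ x ∈ ρ.ker, (cU hz).R x s := by
    simp only [zU, List.forall_mem_cons, List.not_mem_nil, false_imp_iff, implies_true, and_true]
    exact ⟨⟨1, one_mem _, (cU hz).R_one⟩, ⟨s, s2, s1⟩, ⟨_, mul_mem s2 s2, s3⟩,
      _, mul_mem s2 (mul_mem s2 s2), hm s1 s3 (by decide +kernel)⟩
  have hk : ∀ {x s}, (cU hz).R x s → s ∈ zU → x ∈ ρ.ker := fun h hs => by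
    obtain ⟨y, h4, h5⟩ := hZ _ hs; exact (cU hz).R_inj h5 h ▸ h4
  obtain ⟨es, he⟩ := (cU hz).exL (ws := eU) (show allL _ (allL · gU) = true by decide +kernel)
  replace he : List.Forall₂ (cU hz).R es lU := (show eU.map (evW (mulM 4 2) 0x1000010000100001) = lU by decide +kernel) ▸ he
  let S : Submonoid SL(2, F) :=
    { carrier := {g | ∃ x : SU 4 F 3, x.1.1 = psi' hz h9 g ∧ ∀ v ∈ Fix ρ es, ρ x v ∈ Fix ρ es}
      one_mem' := ⟨1, (map_one (psi' hz h9)).symm, fun v hv => by simpa using hv⟩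
      mul_mem' := fun ⟨x, x1, x2⟩ ⟨y, y1, y2⟩ => ⟨x * y, by rw [map_mul, ← x1, ← y1]; rfl, fun v hv => by
        rw [map_mul]; exact x2 _ (y2 v hv)⟩ }
  let t : Fˣ := ⟨1 + z, 2 + z, by grind, by grind⟩
  obtain ⟨p1, p2, p3, p4, p5⟩ := psi_gen hz h9 (t := t) rfl rfl
  have h5 : ∀ g A B, psi h9 g = mat z finSumFinEquiv A → mulM 4 2 (mulM 4 2 0x500520010a500110 A) 0x9100006200929200 = B →
      B ∈ [0x505920100106201, 0x2a80605086100001, 0x1000016205050192, 0x10860100802a5060] → g ∈ S := fun g A B h h' hB => by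
    obtain ⟨x, hx⟩ := (cU hz).ex (okU4 B hB).1
    exact ⟨x, hx.trans (psi'_eq hz h9 h h').symm, (cU hz).inv ρ hZ he hx (okU4 B hB).2⟩
  choose f f1 f2 using sl2_top S
    (mem_of_add hz h9 ux_add (h5 _ _ _ p1 rfl (by decide +kernel)) (h5 _ _ _ p2 rfl (by decide +kernel)))
    (mem_of_add hz h9 ly_add (h5 _ _ _ p3 rfl (by decide +kernel)) (h5 _ _ _ p4 rfl (by decide +kernel)))
  let Ψ : SL(2, F) →* SU 4 F 3 := MonoidHom.mk' f fun g h => Subtype.ext (Subtype.ext (by
    rw [f1, map_mul, ← f1, ← f1]; rfl))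
  have x1 : (cU hz).R (Ψ (dg t)) 0x400200000020080 := (f1 _).trans (psi'_eq hz h9 p5 (by decide +kernel))
  have x2 : (cU hz).R (Ψ (dg t) ^ 2) 0x8000080000400004 := pow_two (Ψ _) ▸ hm x1 x1 (by decide +kernel)
  have x4 : Ψ (dg t) ^ 4 ∈ ρ.ker := pow_add (Ψ _) 2 2 ▸ hk (hm x2 x2 rfl) (by decide +kernel)
  have h6 : ∀ g c, dm ⊤ ((Representation.subrepresentation (ρ.comp Ψ) (Fix ρ es) f2) g) c = dm (Fix ρ es) (ρ (Ψ g)) c :=
    fun g c => dm_restrict (f2 g) c
  let := ZMod.algebra F 3
  obtain ⟨a, b, c, d, a1, a2, a3⟩ := sl9 hF (IsAlgClosed.lift (R := ZMod 3) (S := F)).toRingHom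
    (Representation.subrepresentation (ρ.comp Ψ) (Fix ρ es) f2) (t := t) (show (1 + z) ^ 4 = -1 by grind)
    (LinearMap.ext fun v => Subtype.ext (show ρ (Ψ _) v = v by rw [map_pow, MonoidHom.mem_ker.1 x4]; rfl))
    fun g c => by rw [h6, h6, h3]
  rw [h6] at a2 a3
  rw [map_pow] at a2
  obtain ⟨w, w1⟩ := exU (w := [0x5201111402922411, 0x8019448186201412]) (a := 0x60a0090650900909) (by decide +kernel) hz
  obtain ⟨u, u1⟩ := exU (w := [0x552669a119105201, 0x694692a9a0058148]) (a := 0xa050000850500100) (by decide +kernel) hz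
  have w2 : (cU hz).R (w ^ 2) 0x8000000400800800 := pow_two w ▸ hm w1 w1 (by decide +kernel)
  have w4 : (cU hz).R (w ^ 4) 0x2000010000200001 := pow_add w 2 2 ▸ hm w2 w2 (by decide +kernel)
  have w8 := hk (hm w4 w4 rfl) (by decide +kernel)
  have u2 := hm u1 u1 rfl
  have u4 : u ^ 4 ∈ ρ.ker := by
    rw [pow_add u 2 2, pow_two]; exact hk (hm u2 u2 rfl) (by decide +kernel)
  have u3 := ((cU hz).cj ρ hZ u2 w4 (w := []) (show cjOK (mulM 4 2) 0x1000010000100001 gU _ _ _ _ = true by decide +kernel)).1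
  have h7 := h4 u (by rw [show 8 = 4 * 2 from rfl, pow_mul]; exact pow_mem u4 2)
  rw [pow_two, u3, (h2 _).2 u4] at h7
  have h8 : ∀ {xs l ws ks}, List.Forall₂ (cU hz).R xs l → tU l ws ks = true → ∀ n a b c d : ℕ, l.length = n ∧ ks.count 0 = 1 ∧
      ks.count 1 = a ∧ ks.count 2 = b ∧ ks.count 3 = c ∧ ks.count 4 = d ∧ (∀ k ∈ ks, k < 5) →
      (2 ^ n * finrank (AlgebraicClosure (ZMod 3)) (Fix ρ xs) : ℤ) = 248 + a * (2 * dm ⊤ (ρ (w ^ 4)) 1 - 248) +
        b * (2 * dm ⊤ (ρ (w ^ 2)) 1 - dm ⊤ (ρ (w ^ 4)) 1) + c * (2 * dm ⊤ (ρ u) 1 - dm ⊤ (ρ (w ^ 4)) 1) +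
        d * (2 * dm ⊤ (ρ w) 1 - dm ⊤ (ρ (w ^ 2)) 1) := by
    rintro xs l ws ks h h' _ _ _ _ _ ⟨rfl, k0, rfl, rfl, rfl, rfl, k⟩
    rw [(cU hz).fix ρ hZ two_ne ((cU hz).getD (.cons (cU hz).R_one (.cons w4 (.cons w2 (.cons u1 (.cons w1 .nil)))))) h
      (band_eq_true.1 h').1 (band_eq_true.1 h').2, sum_ks _ k, k0]
    simp only [List.getD_cons_zero, List.getD_cons_succ, (h2 _).2 w8, u3, mul_one, (h2 1).2 (one_mem _)]
    rw [← pow_add, ← pow_two]
    push_cast; rfl
  have b1 := h8 he okU1 4 15 0 0 0 (by decide +kernel)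
  have b2 := h8 (List.rel_append he (.cons x2 .nil)) okU2 5 19 4 8 0 (by decide +kernel)
  have b3 := h8 (List.rel_append he (.cons x2 (.cons x1 .nil))) okU3 6 19 4 24 16 (by decide +kernel)
  rw [show Fix ρ (es ++ _) = Fix ρ es ⊓ End.eigenspace (ρ (Ψ (dg t) ^ 2)) 1 from Submodule.ext fun v => by
    simp [mem_Fix, or_imp, forall_and]] at b2
  rw [show Fix ρ (es ++ _) = Fix ρ es ⊓ End.eigenspace (ρ (Ψ (dg t))) 1 from Submodule.ext fun v => by
    simp +contextual [mem_Fix, or_imp, forall_and, pow_two]] at b3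
  rw [a1] at b1
  rw [← dm, a2] at b2
  rw [← dm, a3] at b3
  refine fin43 (h4 w (pow_add w 4 4 ▸ w8)) h7 (fun h => ?_) (by simpa using b1) (by simpa using b2) (by simpa using b3)
  obtain ⟨y, y1⟩ := (cU hz).ex (okU4 0x505920100106201 (by decide +kernel)).1
  have h10 := congrFun₂ ((hm y1 w4 (c := 0x505620100209201) (by decide +kernel)).symm.trans
    (Subgroup.mem_center_iff.1 (h1 ▸ (h2 _).1 h) y ▸ hm w4 y1 (c := 0xa0a920100206201) (by decide +kernel))) 0 3
  simp [mat, ent, fld, md, ev] at h10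
  grind⟩

end Cfsg.Agent.H37.Ew
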