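import Cfsg.Agent.H33.DefChar
import Cfsg.Agent.H38.StAbs
import Cfsg.Agent.H86.Val
import Cfsg.Agent.S0929
import Cfsg.Agent.S0840

/-!
Gow's theorem: the product of two classes of elements with centralisers of order prime to `p`
contains every non-central element of order prime to `p`.
-/

set_option autoImplicit false

namespace Cfsg.Agent.H37

open Finset
open scoped ComplexConjugate

variable {p : ℕ} [hp : Fact p.Prime] {G : Type*} [Group G] [Fintype G] {ι : Type} [Fintype ι] [DecidableEq ι]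

theorem central_mem_locMax (S : H38.StData p G ι) (hgen : Subgroup.closure {g : G | ∃ k, orderOf g = p ^ k} = ⊤)
    (hBT : H33.BT p G) {M : Ideal AlgInt} (hM : IsPModular p M) {χ : IrrCharacter G} (hχ : (χ : G → ℂ) ≠ S.St)
    {g : G} (hg : ¬ p ∣ orderOf g) (hg' : g ∉ Subgroup.center G) : MemLocalIdeal M (centralChar (χ : G → ℂ) g) := by
  have := hM.2.1
  by_contra h
  have hB := H32.isPBlock_blockOf (M := M) χ
  obtain ⟨D, hD⟩ := H34.exists_defectGroup hM hB
  obtain ⟨x, hx, hc, -⟩ := S0929.result p M hM _ hB D hD g ⟨χ, H32.mem_blockOf_self χ, h⟩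
  obtain ⟨k, rfl⟩ := isConj_iff.1 hx
  by_cases hne : D = ⊥
  · have h0 := H34.factorization_card_defectGroup hM hB hD
    rw [hne, Subgroup.card_bot, Nat.factorization_one, Finsupp.coe_zero, Pi.zero_apply, blockDefect, eq_comm,
      Nat.sub_eq_zero_iff_le] at h0
    refine hχ (S.eq_St_of_defect_zero hgen χ.2 (H32.cast_charDegree_irr χ).symm
      ((hp.out.pow_dvd_iff_le_factorization (H32.charDegree_ne_zero χ)).2 (h0.trans ?_)))
    exact Nat.sInf_le ⟨χ, H32.mem_blockOf_self χ, rfl⟩
  · have h1 := hBT.mem_center (S0955.result p M hM _ hB D hD) hne hc (by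
      rwa [show orderOf (k * g * k⁻¹) = orderOf g from
        orderOf_injective (MulAut.conj k).toMonoidHom (MulAut.conj k).injective g])
    have h2 := (Subgroup.center G).normal_of_characteristic.conj_mem _ h1 k⁻¹
    exact hg' (by simpa [mul_assoc] using h2)

theorem St_reg (S : H38.StData p G ι) {a : G} (ha : ¬ p ∣ Nat.card (Subgroup.centralizer ({a} : Set G))) :
    S.St a = 1 ∨ S.St a = -1 := by
  have := S.St_regular (s := a) fun h => ha (h.trans (Subgroup.orderOf_dvd_natCard _
    (Subgroup.mem_centralizer_singleton_iff.2 rfl)))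
  simpa [Nat.factorization_eq_zero_of_not_dvd ha] using this

theorem central_St (S : H38.StData p G ι) {g : G} (hg : ¬ p ∣ orderOf g) :
    ∃ n : ℕ, ¬ p ∣ n ∧ (centralChar S.St g = n ∨ centralChar S.St g = -n) := by
  set C := Subgroup.centralizer ({g} : Set G)
  have hi : C.index ≠ 0 := Subgroup.index_ne_zero_of_finite
  have e : (Nat.card G).factorization p = (Nat.card C).factorization p + C.index.factorization p := by
    rw [← C.card_mul_index, Nat.factorization_mul Nat.card_pos.ne' hi, Finsupp.add_apply]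
  refine ⟨C.index / p ^ C.index.factorization p, Nat.not_dvd_ordCompl hp.out hi, ?_⟩
  have h1 : (C.index : ℂ) = (p : ℂ) ^ C.index.factorization p * (C.index / p ^ C.index.factorization p : ℕ) := by
    exact_mod_cast (Nat.ordProj_mul_ordCompl_eq_self C.index p).symm
  have hp0 : (p : ℂ) ≠ 0 := by exact_mod_cast hp.out.ne_zero
  rw [centralChar, S.St_one, S.card_U, e]
  rcases S.St_regular hg with h | h
  · left; rw [h]; push_cast; rw [pow_add]; conv_lhs => rw [h1]
    field_simp; rfl
  · right; rw [h]; push_cast; rw [pow_add]; conv_lhs => rw [h1]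
    field_simp; rfl

/-- Gow's theorem -/
theorem gow (S : H38.StData p G ι) (hgen : Subgroup.closure {g : G | ∃ k, orderOf g = p ^ k} = ⊤)
    (hBT : H33.BT p G) {a b g : G} (ha : ¬ p ∣ Nat.card (Subgroup.centralizer ({a} : Set G)))
    (hb : ¬ p ∣ Nat.card (Subgroup.centralizer ({b} : Set G))) (hg : ¬ p ∣ orderOf g)
    (hg' : g ∉ Subgroup.center G) : ∃ x y, IsConj a x ∧ IsConj b y ∧ x * y = g := by
  classical
  by_contra hne
  obtain ⟨M, hM⟩ := H86.exists_isPModular hp.out
  have := hM.2.1
  haveI := Fintype.ofFinite (IrrCharacter G)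
  have h0 := S0840.result a b g
  haveI : IsEmpty {q : G × G // IsConj a q.1 ∧ IsConj b q.2 ∧ q.1 * q.2 = g} :=
    ⟨fun q => hne ⟨_, _, q.2⟩⟩
  have hc : ∀ a : G, (Nat.card {x : G // IsConj a x} : ℂ) ≠ 0 := fun a => by
    rw [H5.card_isConj_eq_index]; exact_mod_cast Subgroup.index_ne_zero_of_finite
  have hG : (Nat.card G : ℂ) ≠ 0 := by exact_mod_cast Nat.card_pos.ne'
  rw [Nat.card_of_isEmpty, Nat.cast_zero, eq_comm, mul_eq_zero, finsum_eq_sum_of_fintype] at h0
  have h1 := h0.resolve_left (div_ne_zero (mul_ne_zero (hc a) (hc b)) hG)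
  have h2 : ∑ χ : IrrCharacter G, (χ : G → ℂ) a * (χ : G → ℂ) b * centralChar (χ : G → ℂ) g⁻¹ = 0 := by
    have := congrArg (((Subgroup.centralizer ({g⁻¹} : Set G)).index : ℂ) * ·) h1
    simp only [mul_zero, mul_sum] at this
    rw [← this]
    refine sum_congr rfl fun χ _ => ?_
    rw [centralChar, H5.isIrr_apply_inv χ.2]; ring
  rw [← add_sum_erase _ _ (mem_univ ⟨S.St, S.St_irr⟩), add_eq_zero_iff_eq_neg] at h2
  have h3 : S.St a * S.St b * centralChar S.St g⁻¹ ∈ H32.locMax M := by
    rw [h2]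
    refine neg_mem (sum_mem fun χ hχ => H32.mul_mem_locMax_left (mul_mem ?_ ?_) ?_)
    · exact H32.mem_locRing_of_isIntegral (H5.isIntegral_apply (H5.isCharacter_of_isIrr χ.2) a)
    · exact H32.mem_locRing_of_isIntegral (H5.isIntegral_apply (H5.isCharacter_of_isIrr χ.2) b)
    · exact central_mem_locMax S hgen hBT hM (fun e => (mem_erase.1 hχ).1 (Subtype.ext e)) (by simpa using hg)
        (by simpa using hg')
  obtain ⟨n, hn, h4⟩ := central_St S (g := g⁻¹) (by simpa using hg)
  refine hn ((H32.natCast_mem_locMax_iff hM).1 ?_)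
  rcases St_reg S ha with e1 | e1 <;> rcases St_reg S hb with e2 | e2 <;> rcases h4 with e3 | e3 <;>
    simpa [e1, e2, e3] using h3

end Cfsg.Agent.H37
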