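import Cfsg.Agent.H65.SLa
set_option autoImplicit false

/-! Heisenberg steps and eigenspace decompositions for representations of finite groups. -/

namespace Cfsg.Agent.H37.Md

open Module
open scoped commutatorElement

variable {G V : Type*} [Group G] [AddCommGroup V] [Module ℂ V] (ρ : Representation ℂ G V)

/-- the fixed vectors of a subgroup -/
def Fix (H : Subgroup G) : Submodule ℂ V where
  carrier := {v | ∀ y ∈ H, ρ y v = v}
  add_mem' ha hb y hy := by rw [map_add, ha y hy, hb y hy]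
  zero_mem' y _ := map_zero _
  smul_mem' c v hv y hy := by rw [map_smul, hv y hy]

theorem mem_Fix {H : Subgroup G} {v : V} : v ∈ Fix ρ H ↔ ∀ y ∈ H, ρ y v = v := Iff.rfl

/-- the stabiliser of a vector -/
def Sv (v : V) : Subgroup G where
  carrier := {g | ρ g v = v}
  mul_mem' {a b} ha hb := by
    simp only [Set.mem_setOf_eq] at *
    rw [map_mul, End.mul_apply, hb, ha]
  one_mem' := by simp
  inv_mem' {a} ha := by
    simp only [Set.mem_setOf_eq] at *
    conv_lhs => rw [← ha]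
    rw [← End.mul_apply, ← map_mul, inv_mul_cancel, map_one, End.one_apply]

theorem mem_Sv {v : V} {g : G} : g ∈ Sv ρ v ↔ ρ g v = v := Iff.rfl

theorem rho_mul (a b : G) (v : V) : ρ (a * b) v = ρ a (ρ b v) := by rw [map_mul, End.mul_apply]

variable [Finite G]

/-- the stabiliser of a subspace -/
def St (W : Submodule ℂ V) : Subgroup G where
  carrier := {g | ∀ v ∈ W, ρ g v ∈ W}
  mul_mem' {a b} ha hb v hv := by rw [rho_mul]; exact ha _ (hb v hv)
  one_mem' v hv := by simpa using hv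
  inv_mem' {a} ha := by
    have h : ∀ n : ℕ, ∀ v ∈ W, ρ (a ^ n) v ∈ W := by
      intro n
      induction n with
      | zero => intro v hv; simpa using hv
      | succ n ih => intro v hv; rw [pow_succ, rho_mul]; exact ih _ (ha v hv)
    have h0 := orderOf_pos a
    have : a⁻¹ = a ^ (orderOf a - 1) := by
      rw [inv_eq_iff_mul_eq_one, ← pow_succ', Nat.sub_add_cancel h0, pow_orderOf_eq_one]
    intro v hv
    rw [this]; exact h _ v hv

theorem mem_St {W : Submodule ℂ V} {g : G} : g ∈ St ρ W ↔ ∀ v ∈ W, ρ g v ∈ W := Iff.rfl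

/-- restriction to a subspace -/
def res (W : Submodule ℂ V) : Representation ℂ (St ρ W) W :=
  Representation.subrepresentation (ρ.comp (St ρ W).subtype) W fun g v hv => g.2 v hv

theorem res_apply (W : Submodule ℂ V) (g : St ρ W) (v : W) : (res ρ W g v : V) = ρ g v := rfl

omit [Finite G] in
theorem finrank_comap (W U : Submodule ℂ V) : finrank ℂ (U.comap W.subtype) = finrank ℂ (W ⊓ U : Submodule ℂ V) := by
  rw [← Submodule.finrank_map_subtype_eq, Submodule.map_comap_subtype]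

variable [FiniteDimensional ℂ V]

/-- one Heisenberg step -/
theorem heis_step {W : Submodule ℂ V} {A : Subgroup G} (hA : A ≤ St ρ W)
    (hB : ∀ a ∈ A, a ≠ 1 → ∃ b ∈ St ρ W, ∃ c : ℂ, c ≠ 1 ∧ ∀ v ∈ W, ρ ⁅a, b⁆ v = c • v) :
    finrank ℂ W = Nat.card A * finrank ℂ (W ⊓ Fix ρ A : Submodule ℂ V) := by
  classical
  have := Fintype.ofFinite A
  let σ : Representation ℂ A W := (res ρ W).comp (Subgroup.inclusion hA)
  have hc : (Nat.card A : ℂ) ≠ 0 := Nat.cast_ne_zero.2 Nat.card_pos.ne'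
  letI := invertibleOfNonzero hc
  have h1 := σ.card_inv_mul_sum_char_eq_finrank
  have h2 : σ.invariants = (Fix ρ A).comap W.subtype := by
    ext v
    rw [Representation.mem_invariants, Submodule.mem_comap, mem_Fix]
    exact ⟨fun h y hy => congrArg Subtype.val (h ⟨y, hy⟩), fun h y => Subtype.ext (h y y.2)⟩
  have h3 : ∀ a : A, a ≠ 1 → σ.character a = 0 := by
    intro a ha
    obtain ⟨b, hb, c, hc1, hv⟩ := hB (a⁻¹ : A) (a⁻¹).2 (by simpa using ha)
    let a' : St ρ W := ⟨a, hA a.2⟩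
    let b' : St ρ W := ⟨b, hb⟩
    have e : res ρ W (b' * a' * b'⁻¹) = c • res ρ W a' := by
      refine LinearMap.ext fun v => Subtype.ext ?_
      have : (b' * a' * b'⁻¹ : St ρ W).1 = a * ⁅((a⁻¹ : A) : G), b⁆ := by
        simp [a', b', commutatorElement_def, mul_assoc]
      rw [res_apply, this, rho_mul, hv v v.2, map_smul]; rfl
    have e2 := (res ρ W).char_conj a' b'
    rw [Representation.character, e, map_smul, smul_eq_mul] at e2
    have e3 : (c - 1) * (res ρ W).character a' = 0 := by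
      rw [sub_mul, one_mul, sub_eq_zero]; exact e2
    exact (mul_eq_zero.1 e3).resolve_left (sub_ne_zero.2 hc1)
  rw [Finset.sum_eq_single 1 (fun a _ ha => h3 a ha) (by simp), Representation.char_one, h2,
    finrank_comap, inv_mul_eq_iff_eq_mul₀ hc] at h1
  exact_mod_cast h1

/-- commutators of elements stabilising a line fix it -/
theorem line_comm {W : Submodule ℂ V} (hW : finrank ℂ W = 1) {a b : G} (ha : a ∈ St ρ W) (hb : b ∈ St ρ W)
    {v : V} (hv : v ∈ W) : ρ ⁅a, b⁆ v = v := by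
  obtain ⟨u, -, hu⟩ := finrank_eq_one_iff'.1 hW
  have h : ∀ f : End ℂ W, ∃ c : ℂ, f = c • 1 := fun f => by
    obtain ⟨c, hc⟩ := hu (f u)
    refine ⟨c, LinearMap.ext fun w => ?_⟩
    obtain ⟨d, rfl⟩ := hu w
    rw [map_smul, ← hc]; simp [smul_smul, mul_comm]
  have hc : Commute (res ρ W ⟨a, ha⟩) (res ρ W ⟨b, hb⟩) := by
    obtain ⟨c, hc⟩ := h (res ρ W ⟨a, ha⟩)
    rw [hc]; exact (Commute.one_left _).smul_left c
  have : res ρ W ⁅(⟨a, ha⟩ : St ρ W), ⟨b, hb⟩⁆ = 1 := by
    rw [commutatorElement_def, map_mul, map_mul, map_mul, hc.eq, mul_assoc (res ρ W _), ← map_mul,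
      mul_inv_cancel, map_one, mul_one, ← map_mul, mul_inv_cancel, map_one]
  exact congrArg Subtype.val (LinearMap.congr_fun this ⟨v, hv⟩)

section eig
variable {F : Type*} [Field F] [Fintype F]

/-- eigenspace of a one-parameter family -/
noncomputable def Eg (x : F → G) (ψ : AddChar F ℂ) : Submodule ℂ V := H65.ws (fun t => ρ (x t)) ψ

omit [Finite G] [FiniteDimensional ℂ V] [Fintype F] in
theorem mem_Eg {x : F → G} {ψ : AddChar F ℂ} {v : V} : v ∈ Eg ρ x ψ ↔ ∀ t, ρ (x t) v = ψ t • v := H65.mem_ws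

theorem dim_decomp {x : F → G} (hx : ∀ s t, x (s + t) = x s * x t) {W : Submodule ℂ V}
    (hW : ∀ t, x t ∈ St ρ W) :
    finrank ℂ W = ∑ ψ : AddChar F ℂ, finrank ℂ (W ⊓ Eg ρ x ψ : Submodule ℂ V) := by
  classical
  let T : F → End ℂ W := fun t => res ρ W ⟨x t, hW t⟩
  have hT : ∀ a b, T (a + b) = T a * T b := fun a b => by
    simp only [T, ← map_mul]; congr 1; exact Subtype.ext (hx a b)
  have h0 : T 0 = 1 := by
    have : x 0 = 1 := by
      have := hx 0 0
      rw [add_zero] at this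
      exact left_eq_mul.1 this
    simp only [T]
    rw [← map_one (res ρ W)]; congr 1; exact Subtype.ext this
  have h1 : ∀ ψ : AddChar F ℂ, LinearMap.trace ℂ W (H65.prj T ψ) = finrank ℂ (W ⊓ Eg ρ x ψ : Submodule ℂ V) := by
    intro ψ
    rw [(H65.isProj_prj hT ψ).trace, ← finrank_comap]
    have : H65.ws T ψ = (Eg ρ x ψ).comap W.subtype := by
      ext v
      rw [H65.mem_ws, Submodule.mem_comap, mem_Eg]
      exact ⟨fun h t => congrArg Subtype.val (h t), fun h t => Subtype.ext (h t)⟩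
    rw [this]
  have h2 : ∑ ψ : AddChar F ℂ, H65.prj T ψ = 1 := by
    simp only [H65.prj, ← Finset.smul_sum]
    rw [Finset.sum_comm]
    simp only [← Finset.sum_smul, AddChar.sum_apply_eq_ite, neg_eq_zero, ite_smul, zero_smul,
      Finset.sum_ite_eq', Finset.mem_univ, if_true, h0, smul_smul]
    rw [inv_mul_cancel₀ (Nat.cast_ne_zero.2 Fintype.card_ne_zero), one_smul]
  have h3 := congrArg (LinearMap.trace ℂ W) h2
  rw [map_sum, LinearMap.trace_one] at h3
  simp only [h1] at h3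
  exact_mod_cast h3.symm

omit [Finite G] [Fintype F] in
theorem dim_Eg_le {x x' : F → G} {ψ ψ' : AddChar F ℂ} {g : G} {c : F} (hc : c ≠ 0)
    (hg : ∀ t, g * x t * g⁻¹ = x' (c * t)) (hψ : ∀ t, ψ t = ψ' (t * c)) {U U' : Submodule ℂ V}
    (hU : ∀ v ∈ U, ρ g v ∈ U') :
    finrank ℂ (U ⊓ Eg ρ x ψ : Submodule ℂ V) ≤ finrank ℂ (U' ⊓ Eg ρ x' ψ' : Submodule ℂ V) := by
  have hm : ∀ v ∈ (U ⊓ Eg ρ x ψ : Submodule ℂ V), ρ g v ∈ (U' ⊓ Eg ρ x' ψ' : Submodule ℂ V) := by
    intro v hv
    refine ⟨hU v hv.1, (mem_Eg ρ).2 fun t => ?_⟩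
    have e : x' t = g * x (c⁻¹ * t) * g⁻¹ := by rw [hg, mul_inv_cancel_left₀ hc]
    rw [e, ← rho_mul, inv_mul_cancel_right, rho_mul, (mem_Eg ρ).1 hv.2, map_smul, hψ]
    congr 2; field_simp
  refine LinearMap.finrank_le_finrank_of_injective (f := (ρ g).restrict hm) fun u v e => Subtype.ext ?_
  have e' : ρ g u = ρ g v := congrArg Subtype.val e
  have := congrArg (ρ g⁻¹) e'
  rwa [← rho_mul, ← rho_mul, inv_mul_cancel, map_one, End.one_apply, End.one_apply] at this

end eig

end Cfsg.Agent.H37.Md
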