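import Cfsg.Agent.H37.MdA
set_option autoImplicit false

/-! Long root subgroups acting on complex representations: the abstract setting. -/

namespace Cfsg.Agent.H37.Md

open Module
open scoped commutatorElement

/-- `k` is a positive combination of `r` and `s` -/
def Comb {R : Type*} (A : Submodule ℤ (R → ℤ)) (r s k : R) : Prop :=
  ∃ i j : ℤ, 0 < i ∧ 0 < j ∧ ∀ g ∈ A, g k = i * g r + j * g s

/-- root subgroups with long root subgroups parametrised by a field -/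
structure LR (R : Type*) (G : Type*) [Group G] (F : Type*) [Field F] where
  Y : R → Subgroup G
  L : R → Prop
  A : Submodule ℤ (R → ℤ)
  ip : R → R → ℤ
  st : R → R → R
  x : R → F → G
  e : R → ℕ
  x_add : ∀ {r}, L r → ∀ s t, x r (s + t) = x r s * x r t
  mem_Y : ∀ {r}, L r → ∀ y, y ∈ Y r ↔ ∃ t, x r t = y
  card_Y : ∀ r, Nat.card (Y r) = Nat.card F ^ e r
  e_pos : ∀ r, 0 < e r
  e_long : ∀ {r}, L r → e r = 1
  sep : ∀ r s, (∀ g ∈ A, g r = g s) → r = s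
  ip_mem : ∀ {r}, L r → ip r ∈ A
  ip_self : ∀ {r}, L r → ip r r = 2
  ip_le : ∀ {r}, L r → ∀ s, s ≠ r → ip r s ≤ 1
  ip_neg : ∀ {r}, L r → ∀ s, ip r s ≤ -2 → ∀ g ∈ A, g s = -g r
  ip_symm : ∀ {r s}, L r → L s → ip r s = ip s r
  st_val : ∀ {r γ}, L r → ip r γ = 1 → ∀ g ∈ A, g (st r γ) = g r - g γ
  st_e : ∀ {r γ}, L r → ip r γ = 1 → e (st r γ) = e γ
  st_long : ∀ {r γ}, L r → L γ → ip r γ = 1 → L (st r γ)
  cm : ∀ g ∈ A, ∀ {r s}, 0 < g r → 0 < g s → ∀ a ∈ Y r, ∀ b ∈ Y s,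
    ⁅a, b⁆ ∈ ⨆ k, ⨆ _ : Comb A r s k, Y k
  heis : ∀ {r γ}, L r → ip r γ = 1 → ∀ a ∈ Y γ, a ≠ 1 → ∀ t, ∃ b ∈ Y (st r γ), ⁅a, b⁆ = x r t
  tor : ∀ {r s}, L r → ¬L s → ∃ h, (∀ k, ∀ y ∈ Y k, h⁻¹ * y * h ∈ Y k) ∧ (∀ t, h⁻¹ * x r t * h = x r t) ∧
    ∀ y ∈ Y s, ∃ y' ∈ Y s, ⁅h, y'⁆ = y
  conj : ∀ {r s}, L r → L s → ip r s = 1 → ∀ c : F, c ≠ 0 → ∃ g, ∀ t, g * x r t * g⁻¹ = x s (c * t)

namespace LR

variable {R G F V : Type*} [Group G] [Field F] (D : LR R G F) [AddCommGroup V] [Module ℂ V]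
  (ρ : Representation ℂ G V)

/-- vectors fixed by a set of root groups -/
def Fx (S : Set R) : Submodule ℂ V := ⨅ k ∈ S, Fix ρ (D.Y k)

/-- eigenvectors for a long root group, fixed by a set of root groups -/
noncomputable def W (r : R) (ψ : AddChar F ℂ) (S : Set R) : Submodule ℂ V := D.Fx ρ S ⊓ Eg ρ (D.x r) ψ

/-- the root group fixes the vector -/
def Fv (k : R) (v : V) : Prop := ∀ y ∈ D.Y k, ρ y v = v

/-- commutators of two root groups fix the vector -/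
def Cm (v : V) (γ k : R) : Prop := ∀ y ∈ D.Y γ, ∀ a ∈ D.Y k, ρ ⁅y, a⁆ v = v

variable {D ρ}

theorem mem_Fx {S : Set R} {v : V} : v ∈ D.Fx ρ S ↔ ∀ k ∈ S, D.Fv ρ k v := by
  simp [Fx, Submodule.mem_iInf, mem_Fix, Fv]

theorem mem_W {r : R} {ψ : AddChar F ℂ} {S : Set R} {v : V} :
    v ∈ D.W ρ r ψ S ↔ (∀ k ∈ S, D.Fv ρ k v) ∧ ∀ t, ρ (D.x r t) v = ψ t • v := by
  rw [W, Submodule.mem_inf, mem_Fx, mem_Eg]

theorem x_mem {r : R} (hr : D.L r) (t : F) : D.x r t ∈ D.Y r := (D.mem_Y hr _).2 ⟨t, rfl⟩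

theorem cm_of {g : R → ℤ} (hg : g ∈ D.A) {γ k : R} (h1 : 0 < g γ) (h2 : 0 < g k) {v : V}
    (h : ∀ k', Comb D.A γ k k' → D.Fv ρ k' v) : D.Cm ρ v γ k := fun y hy a ha =>
  (show (⨆ k', ⨆ _ : Comb D.A γ k k', D.Y k') ≤ Sv ρ v from
    iSup₂_le fun k' hk' z hz => h k' hk' z hz) (D.cm g hg h1 h2 y hy a ha)

theorem act_comm {v : V} {y a : G} {c : ℂ} (h : ρ ⁅y⁻¹, a⁆ v = v) (ha : ρ a v = c • v) :
    ρ a (ρ y v) = c • ρ y v := by
  have : a * y = y * ⁅y⁻¹, a⁆ * a := by simp [commutatorElement_def, mul_assoc]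
  rw [← rho_mul, this, rho_mul, ha, map_smul, rho_mul, h]

theorem inv_Fx {S : Set R} {v : V} (hv : v ∈ D.Fx ρ S) {γ : R} (h : ∀ k ∈ S, D.Cm ρ v γ k) {y : G}
    (hy : y ∈ D.Y γ) : ρ y v ∈ D.Fx ρ S := mem_Fx.2 fun k hk a ha => by
  simpa using act_comm (c := 1) (h k hk _ (inv_mem hy) a ha) (by rw [one_smul]; exact mem_Fx.1 hv k hk a ha)

theorem inv_W {r : R} (hr : D.L r) {ψ : AddChar F ℂ} {S : Set R} {v : V} (hv : v ∈ D.W ρ r ψ S) {γ : R}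
    (h : ∀ k ∈ S, D.Cm ρ v γ k) (h' : D.Cm ρ v γ r) {y : G} (hy : y ∈ D.Y γ) : ρ y v ∈ D.W ρ r ψ S :=
  ⟨inv_Fx hv.1 h hy, (mem_Eg ρ).2 fun t => act_comm (h' _ (inv_mem hy) _ (x_mem hr t)) ((mem_Eg ρ).1 hv.2 t)⟩

theorem eq_of_two {r k : R} (hr : D.L r) (h : 2 ≤ D.ip r k) : k = r := by
  by_contra hk
  have := D.ip_le hr k hk
  omega

theorem ip_le_two {r : R} (hr : D.L r) (k : R) : D.ip r k ≤ 2 := by
  by_cases hk : k = r
  · rw [hk, D.ip_self hr]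
  · have := D.ip_le hr k hk
    omega

theorem ip_st {r γ : R} (hr : D.L r) (h : D.ip r γ = 1) : D.ip r (D.st r γ) = 1 := by
  rw [D.st_val hr h _ (D.ip_mem hr), D.ip_self hr, h]; rfl

theorem st_st {r γ : R} (hr : D.L r) (h : D.ip r γ = 1) : D.st r (D.st r γ) = γ :=
  D.sep _ _ fun g hg => by rw [D.st_val hr (ip_st hr h) g hg, D.st_val hr h g hg]; ring

/-- elements of the radical commute with the centre -/
theorem cm_Q_r {r γ : R} (hr : D.L r) (h : D.ip r γ = 1) (v : V) : D.Cm ρ v γ r :=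
  cm_of (D.ip_mem hr) (by omega) (by rw [D.ip_self hr]; omega) fun k ⟨i, j, hi, hj, hk⟩ => by
    have h1 := hk _ (D.ip_mem hr)
    have h2 := ip_le_two hr k
    rw [h, D.ip_self hr] at h1
    omega

theorem cm_Q_Q {r γ γ' : R} (hr : D.L r) (h : D.ip r γ = 1) (h' : D.ip r γ' = 1) (hne : γ' ≠ D.st r γ) (v : V) :
    D.Cm ρ v γ γ' :=
  cm_of (D.ip_mem hr) (by omega) (by omega) fun k ⟨i, j, hi, hj, hk⟩ => by
    have h1 := hk _ (D.ip_mem hr)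
    have h2 := ip_le_two hr k
    rw [h, h'] at h1
    obtain rfl : k = r := eq_of_two hr (by omega)
    obtain rfl : i = 1 := by omega
    obtain rfl : j = 1 := by omega
    refine absurd (D.sep _ _ fun g hg => ?_) hne
    rw [D.st_val hr h g hg, hk g hg]; ring

variable [Finite G] [FiniteDimensional ℂ V]

theorem step {r γ : R} (hr : D.L r) (h : D.ip r γ = 1) {ψ : AddChar F ℂ} (hψ : ψ ≠ 1) {U : Submodule ℂ V}
    (hU : U ≤ Eg ρ (D.x r) ψ) (h1 : D.Y γ ≤ St ρ U) (h2 : D.Y (D.st r γ) ≤ St ρ U) :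
    finrank ℂ U = Nat.card F ^ D.e γ * finrank ℂ (U ⊓ Fix ρ (D.Y γ) : Submodule ℂ V) := by
  rw [← D.card_Y]
  refine heis_step ρ h1 fun a ha ha1 => ?_
  obtain ⟨t, ht⟩ := AddChar.ne_one_iff.1 hψ
  obtain ⟨b, hb, e⟩ := D.heis hr h a ha ha1 t
  exact ⟨b, h2 hb, ψ t, ht, fun v hv => by rw [e]; exact (mem_Eg ρ).1 (hU hv) t⟩

/-- several Heisenberg steps -/
theorem hm {r : R} (hr : D.L r) {ψ : AddChar F ℂ} (hψ : ψ ≠ 1) {U : Submodule ℂ V}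
    (hU : U ≤ Eg ρ (D.x r) ψ) (T : Finset R) (hT : ∀ γ ∈ T, D.ip r γ = 1) (hT' : ∀ γ ∈ T, D.st r γ ∉ T)
    (h1 : ∀ γ ∈ T, D.Y γ ≤ St ρ U) (h2 : ∀ γ ∈ T, D.Y (D.st r γ) ≤ St ρ U) :
    finrank ℂ U = Nat.card F ^ (∑ γ ∈ T, D.e γ) * finrank ℂ (U ⊓ D.Fx ρ T : Submodule ℂ V) := by
  classical
  induction T using Finset.induction_on with
  | empty =>
    have : D.Fx ρ (∅ : Finset R) = ⊤ := by simp [Fx]
    rw [this, inf_top_eq]; simp
  | insert γ T hγ ih =>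
    have hγ1 := hT γ (Finset.mem_insert_self _ _)
    have hin : ∀ δ, D.ip r δ = 1 → D.Y δ ≤ St ρ U → D.st r δ ∉ T → D.Y δ ≤ St ρ (U ⊓ D.Fx ρ T) :=
      fun δ hδ hs hn y hy v hv => ⟨hs hy v hv.1, inv_Fx hv.2 (fun k hk => cm_Q_Q hr hδ
        (hT k (Finset.mem_insert_of_mem hk)) (fun e => hn (e ▸ hk)) v) hy⟩
    rw [ih (fun δ hδ => hT δ (Finset.mem_insert_of_mem hδ))
      (fun δ hδ h => hT' δ (Finset.mem_insert_of_mem hδ) (Finset.mem_insert_of_mem h))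
      (fun δ hδ => h1 δ (Finset.mem_insert_of_mem hδ)) (fun δ hδ => h2 δ (Finset.mem_insert_of_mem hδ)),
      step hr hγ1 hψ (inf_le_left.trans hU)
        (hin γ hγ1 (h1 γ (Finset.mem_insert_self _ _))
          fun h => hT' γ (Finset.mem_insert_self _ _) (Finset.mem_insert_of_mem h))
        (hin _ (ip_st hr hγ1) (h2 γ (Finset.mem_insert_self _ _)) (by rw [st_st hr hγ1]; exact hγ)),
      Finset.sum_insert hγ, pow_add, ← mul_assoc, mul_comm (_ ^ _)]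
    have : U ⊓ D.Fx ρ T ⊓ Fix ρ (D.Y γ) = U ⊓ D.Fx ρ (insert γ T : Finset R) := by
      rw [inf_assoc, Finset.coe_insert, Fx, Fx, iInf_insert, inf_comm (Fix ρ _)]
    rw [this]

variable [Fintype R]

variable (D) in
/-- a functional vanishing on `r` and nowhere on the radical -/
structure Gen (r : R) (g : R → ℤ) : Prop where
  mem : g ∈ D.A
  zero : g r = 0
  ne : ∀ γ, D.ip r γ = 1 → g γ ≠ 0

variable (D) in
/-- the Lagrangian of a functional -/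
def Lam (r : R) (g : R → ℤ) : Finset R := Finset.univ.filter fun γ => D.ip r γ = 1 ∧ 0 < g γ

omit [Finite G] in
theorem mem_Lam {r : R} {g : R → ℤ} {γ : R} : γ ∈ D.Lam r g ↔ D.ip r γ = 1 ∧ 0 < g γ := by simp [Lam]

omit [Finite G] in
theorem sum_Lam {r : R} (hr : D.L r) {g : R → ℤ} (hg : D.Gen r g) :
    2 * ∑ γ ∈ D.Lam r g, D.e γ = ∑ γ ∈ Finset.univ.filter fun γ => D.ip r γ = 1, D.e γ := by
  classical
  rw [← Finset.sum_filter_add_sum_filter_not (Finset.univ.filter fun γ => D.ip r γ = 1) (fun γ => 0 < g γ),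
    Finset.filter_filter, Finset.filter_filter, two_mul]
  congr 1
  refine Finset.sum_bij' (fun γ _ => D.st r γ) (fun γ _ => D.st r γ) (fun γ h => ?_) (fun γ h => ?_)
    (fun γ h => st_st hr (mem_Lam.1 h).1) (fun γ h => st_st hr (Finset.mem_filter.1 h).2.1)
    fun γ h => (D.st_e hr (mem_Lam.1 h).1).symm
  · obtain ⟨h1, h2⟩ := mem_Lam.1 h
    refine Finset.mem_filter.2 ⟨Finset.mem_univ _, ip_st hr h1, ?_⟩
    rw [D.st_val hr h1 g hg.mem, hg.zero]; omega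
  · obtain ⟨-, h1, h2⟩ := Finset.mem_filter.1 h
    refine mem_Lam.2 ⟨ip_st hr h1, ?_⟩
    have := hg.ne γ h1
    rw [D.st_val hr h1 g hg.mem, hg.zero]; omega

omit [Fintype R] [FiniteDimensional ℂ V] in
theorem Q_le_St {r γ : R} (hr : D.L r) (h : D.ip r γ = 1) (ψ : AddChar F ℂ) : D.Y γ ≤ St ρ (Eg ρ (D.x r) ψ) :=
  fun _ hy v hv => (mem_Eg ρ).2 fun t =>
    act_comm (cm_Q_r hr h v _ (inv_mem hy) _ (x_mem hr t)) ((mem_Eg ρ).1 hv t)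

theorem dim_Eg {r : R} (hr : D.L r) {ψ : AddChar F ℂ} (hψ : ψ ≠ 1) {g : R → ℤ} (hg : D.Gen r g) :
    finrank ℂ (Eg ρ (D.x r) ψ) =
      Nat.card F ^ (∑ γ ∈ D.Lam r g, D.e γ) * finrank ℂ (D.W ρ r ψ (D.Lam r g)) := by
  rw [W, inf_comm]
  refine hm hr hψ le_rfl _ (fun γ h => (mem_Lam.1 h).1) (fun γ h h' => ?_)
    (fun γ h => Q_le_St hr (mem_Lam.1 h).1 ψ) fun γ h => Q_le_St hr (ip_st hr (mem_Lam.1 h).1) ψ
  obtain ⟨h1, h2⟩ := mem_Lam.1 h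
  have := (mem_Lam.1 h').2
  rw [D.st_val hr h1 g hg.mem, hg.zero] at this
  omega

end LR

end Cfsg.Agent.H37.Md
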