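import Cfsg.Agent.H37.MdB
set_option autoImplicit false

/-! Representations of rank one: the lines fixed by Lagrangians are fixed by all positive root groups. -/

namespace Cfsg.Agent.H37.Md.LR

open Module
open scoped commutatorElement

variable {R G F V : Type*} [Group G] [Field F] {D : LR R G F} [AddCommGroup V] [Module ℂ V]
  {ρ : Representation ℂ G V} [Fintype R]

theorem exists_big (g : R → ℤ) : ∃ N : ℤ, ∀ k, g k < N ∧ -N < g k := by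
  classical
  refine ⟨∑ k, |g k| + 1, fun k => ?_⟩
  have : |g k| ≤ ∑ k, |g k| := Finset.single_le_sum (f := fun k => |g k|) (fun k _ => abs_nonneg _) (Finset.mem_univ k)
  have h1 := le_abs_self (g k)
  have h2 := neg_abs_le (g k)
  omega

omit [Fintype R] in
theorem ty_le {r : R} (hr : D.L r) {g : R → ℤ} (hg : D.Gen r g) {k : R} (hk : 0 < g k) : D.ip r k ≤ 1 :=
  D.ip_le hr k fun e => by rw [e, hg.zero] at hk; omega

omit [Fintype R] in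
theorem ty_ge {r : R} (hr : D.L r) {g : R → ℤ} (hg : D.Gen r g) {k : R} (hk : 0 < g k) : -1 ≤ D.ip r k := by
  by_contra h
  have := D.ip_neg hr k (by omega) g hg.mem
  rw [hg.zero] at this
  omega

omit [Fintype R] in
theorem ip_ge {r : R} (hr : D.L r) {g : R → ℤ} (hg : g ∈ D.A) (h : 0 < g r) {k : R} (hk : 0 < g k) :
    -1 ≤ D.ip r k := by
  by_contra h
  have := D.ip_neg hr k (by omega) g hg
  omega

omit [Fintype R] in
theorem exists_ne_one [Finite F] (k : R) : ∃ a ∈ D.Y k, a ≠ 1 := by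
  by_contra! h
  have h1 : D.Y k = ⊥ := (Subgroup.eq_bot_iff_forall _).2 h
  have h2 := D.card_Y k
  rw [h1, Subgroup.card_bot] at h2
  have h3 : 1 < Nat.card F := Finite.one_lt_card
  have := Nat.one_lt_pow (D.e_pos k).ne' h3
  omega

variable [Finite G]

/-- criterion for stabilising the line -/
theorem stab_of {r : R} (hr : D.L r) {ψ : AddChar F ℂ} {g : R → ℤ} (hg : D.Gen r g) {s : R} (hs : 0 < g s)
    (h : ∀ v ∈ D.W ρ r ψ (D.Lam r g), ∀ k, 0 < g k → (Comb D.A s r k ∨ ∃ γ ∈ D.Lam r g, Comb D.A s γ k) →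
      D.Fv ρ k v) : D.Y s ≤ St ρ (D.W ρ r ψ (D.Lam r g)) := fun y hy v hv => by
  refine inv_W hr hv (fun γ hγ => cm_of hg.mem hs (mem_Lam.1 hγ).2 fun k hk => h v hv k ?_ (.inr ⟨γ, hγ, hk⟩))
    (cm_of (add_mem (D.A.smul_mem 2 hg.mem) (D.ip_mem hr)) ?_ ?_ fun k hk => h v hv k ?_ (.inl hk)) hy
  · obtain ⟨i, j, hi, hj, e⟩ := hk
    have := (mem_Lam.1 hγ).2
    rw [e g hg.mem]; positivity
  · have := ty_ge hr hg hs
    simp only [Pi.add_apply, Pi.smul_apply, smul_eq_mul]; omega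
  · simp only [Pi.add_apply, Pi.smul_apply, smul_eq_mul, hg.zero, D.ip_self hr]; omega
  · obtain ⟨i, j, hi, hj, e⟩ := hk
    rw [e g hg.mem, hg.zero, mul_zero, add_zero]; positivity

omit [Finite G] in
theorem fv_one {r : R} (hr : D.L r) {ψ : AddChar F ℂ} {g : R → ℤ} (hg : D.Gen r g) {k : R} (hk : 0 < g k)
    (h1 : 1 ≤ D.ip r k) {v : V} (hv : v ∈ D.W ρ r ψ (D.Lam r g)) : D.Fv ρ k v :=
  (mem_W.1 hv).1 k (Finset.mem_coe.2 (mem_Lam.2 ⟨le_antisymm (ty_le hr hg hk) h1, hk⟩))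

theorem stab_zero {r : R} (hr : D.L r) {ψ : AddChar F ℂ} {g : R → ℤ} (hg : D.Gen r g) {s : R} (hs : 0 < g s)
    (h0 : D.ip r s = 0) : D.Y s ≤ St ρ (D.W ρ r ψ (D.Lam r g)) := by
  refine stab_of hr hg hs fun v hv k hk h => fv_one hr hg hk ?_ hv
  rcases h with ⟨i, j, hi, hj, e⟩ | ⟨γ, hγ, i, j, hi, hj, e⟩
  · rw [e _ (D.ip_mem hr), h0, D.ip_self hr]; omega
  · rw [e _ (D.ip_mem hr), h0, (mem_Lam.1 hγ).1]; omega

variable [FiniteDimensional ℂ V]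

theorem fv_short {r : R} (hr : D.L r) {ψ : AddChar F ℂ} {S : Set R} (h1 : finrank ℂ (D.W ρ r ψ S) = 1)
    {s : R} (hs : ¬D.L s) (hst : D.Y s ≤ St ρ (D.W ρ r ψ S)) {v : V} (hv : v ∈ D.W ρ r ψ S) : D.Fv ρ s v := by
  obtain ⟨h, hk, hx, hy⟩ := D.tor hr hs
  have hh : h ∈ St ρ (D.W ρ r ψ S) := fun u hu => by
    have e : ∀ y, y * h = h * (h⁻¹ * y * h) := fun y => by group
    refine mem_W.2 ⟨fun k hkS y hy => ?_, fun t => ?_⟩
    · rw [← rho_mul, e, rho_mul, (mem_W.1 hu).1 k hkS _ (hk k y hy)]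
    · rw [← rho_mul, e, hx, rho_mul, (mem_W.1 hu).2, map_smul]
  intro y hy'
  obtain ⟨y', h', rfl⟩ := hy y hy'
  exact line_comm ρ h1 hh (hst h') hv

theorem fv_long [Finite F] {U : Submodule ℂ V} (h1 : finrank ℂ U = 1) {s δ : R} (hs : D.L s) (hδ : D.ip s δ = 1)
    (ha : D.Y δ ≤ St ρ U) (hb : D.Y (D.st s δ) ≤ St ρ U) {v : V} (hv : v ∈ U) : D.Fv ρ s v := by
  intro y hy
  obtain ⟨t, rfl⟩ := (D.mem_Y hs y).1 hy
  obtain ⟨a, ha', ha1⟩ := exists_ne_one (D := D) δ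
  obtain ⟨b, hb', e⟩ := D.heis hs hδ a ha' ha1 t
  rw [← e]
  exact line_comm ρ h1 (ha ha') (hb hb') hv

/-- transfer between two Lagrangians -/
theorem transfer {r : R} (hr : D.L r) {ψ : AddChar F ℂ} (hψ : ψ ≠ 1) {g g' : R → ℤ} (hg : D.Gen r g)
    (hg' : D.Gen r g') (h1 : finrank ℂ (D.W ρ r ψ (D.Lam r g)) = 1) (h1' : finrank ℂ (D.W ρ r ψ (D.Lam r g')) = 1)
    {S : Set R} (hS : ∀ γ, D.ip r γ = 1 → 0 < g γ → 0 < g' γ → γ ∈ S)
    (hS' : ∀ v ∈ D.W ρ r ψ (D.Lam r g'), ∀ k ∈ S, D.Fv ρ k v)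
    (hA : ∀ γ, D.ip r γ = 1 → 0 < g γ → g' γ < 0 → ∀ k ∈ S, 0 < g k ∧ ∀ k', Comb D.A γ k k' → k' ∈ S)
    (hB : ∀ γ, D.ip r γ = 1 → g γ < 0 → 0 < g' γ → ∀ k ∈ S, 0 < g' k ∧ ∀ k', Comb D.A γ k k' → k' ∈ S)
    {v : V} (hv : v ∈ D.W ρ r ψ (D.Lam r g)) : ∀ k ∈ S, D.Fv ρ k v := by
  classical
  let T := Finset.univ.filter fun γ => D.ip r γ = 1 ∧ 0 < g γ ∧ g' γ < 0
  have hT : ∀ γ, γ ∈ T ↔ D.ip r γ = 1 ∧ 0 < g γ ∧ g' γ < 0 := fun γ => by simp [T]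
  have hd := hm (ρ := ρ) hr hψ (U := D.W ρ r ψ S) inf_le_right T (fun γ h => ((hT γ).1 h).1) (fun γ h h' => by
      obtain ⟨a, b, -⟩ := (hT γ).1 h
      have := ((hT _).1 h').2.1
      rw [D.st_val hr a g hg.mem, hg.zero] at this
      omega)
    (fun γ h y hy u hu => by
      obtain ⟨a, b, c⟩ := (hT γ).1 h
      exact inv_W hr hu (fun k hk => cm_of hg.mem b (hA γ a b c k hk).1 fun k' hk' =>
        (mem_W.1 hu).1 k' ((hA γ a b c k hk).2 k' hk')) (cm_Q_r hr a u) hy)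
    (fun γ h y hy u hu => by
      obtain ⟨a, b, c⟩ := (hT γ).1 h
      have b' : g (D.st r γ) < 0 := by rw [D.st_val hr a g hg.mem, hg.zero]; omega
      have c' : 0 < g' (D.st r γ) := by rw [D.st_val hr a g' hg'.mem, hg'.zero]; omega
      exact inv_W hr hu (fun k hk => cm_of hg'.mem c' (hB _ (ip_st hr a) b' c' k hk).1 fun k' hk' =>
        (mem_W.1 hu).1 k' ((hB _ (ip_st hr a) b' c' k hk).2 k' hk')) (cm_Q_r hr (ip_st hr a) u) hy)
  have hle : D.W ρ r ψ (D.Lam r g') ≤ D.W ρ r ψ S := fun u hu => mem_W.2 ⟨hS' u hu, (mem_W.1 hu).2⟩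
  have hpos : 0 < finrank ℂ (D.W ρ r ψ S ⊓ D.Fx ρ T : Submodule ℂ V) := by
    have := Submodule.finrank_mono hle
    rw [h1', hd] at this
    exact Nat.pos_of_mul_pos_left this
  have hle2 : D.W ρ r ψ S ⊓ D.Fx ρ T ≤ D.W ρ r ψ (D.Lam r g) := fun u hu => by
    refine mem_W.2 ⟨fun k hk => ?_, (mem_W.1 hu.1).2⟩
    obtain ⟨a, b⟩ := mem_Lam.1 (Finset.mem_coe.1 hk)
    rcases (hg'.ne k a).lt_or_gt with c | c
    · exact mem_Fx.1 hu.2 k (Finset.mem_coe.2 ((hT k).2 ⟨a, b, c⟩))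
    · exact (mem_W.1 hu.1).1 k (hS k a b c)
  have := Submodule.eq_of_le_of_finrank_le hle2 (by omega)
  rw [← this] at hv
  exact (mem_W.1 hv.1).1

variable [Finite F]

theorem fv_zero {r : R} (hr : D.L r) {ψ : AddChar F ℂ} (hψ : ψ ≠ 1)
    (h1 : ∀ g, D.Gen r g → finrank ℂ (D.W ρ r ψ (D.Lam r g)) = 1)
    (c0 : ∀ δ, D.L δ → D.ip r δ = 0 → ∃ δ', D.ip δ δ' = 1 ∧ D.ip r δ' = 0)
    {g : R → ℤ} (hg : D.Gen r g) {s : R} (hs : 0 < g s) (h0 : D.ip r s = 0) {v : V}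
    (hv : v ∈ D.W ρ r ψ (D.Lam r g)) : D.Fv ρ s v := by
  by_cases hL : D.L s
  swap
  · exact fv_short hr (h1 g hg) hL (stab_zero hr hg hs h0) hv
  obtain ⟨N, hN⟩ := exists_big g
  have hN0 : 0 < N := by have := hN s; omega
  have hsr : D.ip s r = 0 := by rw [D.ip_symm hL hr, h0]
  have hm' : N • D.ip s + g ∈ D.A := add_mem (D.A.smul_mem N (D.ip_mem hL)) hg.mem
  have hp : ∀ k, 1 ≤ D.ip s k → 0 < (N • D.ip s + g) k := fun k hk => by
    have := hN k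
    simp only [Pi.add_apply, Pi.smul_apply, smul_eq_mul]; nlinarith
  have hn : ∀ k, D.ip s k ≤ -1 → (N • D.ip s + g) k < 0 := fun k hk => by
    have := hN k
    simp only [Pi.add_apply, Pi.smul_apply, smul_eq_mul]; nlinarith
  have hz : ∀ k, D.ip s k = 0 → (N • D.ip s + g) k = g k := fun k hk => by
    simp only [Pi.add_apply, Pi.smul_apply, smul_eq_mul, hk, mul_zero, zero_add]
  have hg' : D.Gen r (N • D.ip s + g) := ⟨hm', by rw [hz r hsr, hg.zero], fun γ hγ => by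
    rcases lt_trichotomy (D.ip s γ) 0 with h | h | h
    · exact (hn γ (by omega)).ne
    · rw [hz γ h]; exact hg.ne γ hγ
    · exact (hp γ (by omega)).ne'⟩
  obtain ⟨δ, hδ, hδ0⟩ := c0 s hL h0
  refine transfer hr hψ hg hg' (h1 g hg) (h1 _ hg')
    (S := {γ | D.ip r γ = 1 ∧ 0 < g γ ∧ 0 < (N • D.ip s + g) γ} ∪ {s})
    (fun γ a b c => .inl ⟨a, b, c⟩) (fun u hu k hk => ?_) (fun γ a b c k hk => ?_) (fun γ a b c k hk => ?_) hv s
    (.inr rfl)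
  · rcases hk with ⟨a, -, c⟩ | rfl
    · exact fv_one hr hg' c a.ge hu
    · exact fv_long (h1 _ hg') hL hδ (stab_zero hr hg' (hp _ hδ.ge) hδ0)
        (stab_zero hr hg' (hp _ (ip_st hL hδ).ge) (by rw [D.st_val hL hδ _ (D.ip_mem hr), h0, hδ0]; rfl)) hu
  · rcases hk with ⟨a', b', c'⟩ | rfl
    · refine ⟨b', fun k' ⟨i, j, hi, hj, e⟩ => ?_⟩
      have e1 := e _ (D.ip_mem hr)
      have := ty_le hr hg (k := k') (by rw [e g hg.mem]; positivity)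
      rw [a, a'] at e1
      omega
    · refine ⟨hs, fun k' ⟨i, j, hi, hj, e⟩ => .inl ?_⟩
      have e1 := e _ (D.ip_mem hr)
      have e2 := e _ (D.ip_mem hL)
      have hk' : 0 < g k' := by rw [e g hg.mem]; positivity
      have := ty_le hr hg hk'
      have h3 := ip_ge hL hg.mem hs b
      rw [a, h0] at e1
      obtain rfl : i = 1 := by omega
      rw [D.ip_self hL] at e2
      exact ⟨by omega, hk', hp _ (by omega)⟩
  · have h3 : 1 ≤ D.ip s γ := by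
      rcases lt_trichotomy (D.ip s γ) 0 with h | h | h
      · have := hn γ (by omega); omega
      · rw [hz γ h] at c; omega
      · omega
    rcases hk with ⟨a', b', c'⟩ | rfl
    · refine ⟨c', fun k' ⟨i, j, hi, hj, e⟩ => ?_⟩
      have e1 := e _ (D.ip_mem hr)
      have := ty_le hr hg' (k := k') (by rw [e _ hm']; positivity)
      rw [a, a'] at e1
      omega
    · refine ⟨hp _ (by rw [D.ip_self hL]; omega), fun k' ⟨i, j, hi, hj, e⟩ => ?_⟩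
      have e2 := e _ (D.ip_mem hL)
      have := ip_le_two hL k'
      rw [D.ip_self hL] at e2
      nlinarith

theorem stab_long {r : R} (hr : D.L r) {ψ : AddChar F ℂ} (hψ : ψ ≠ 1)
    (h1 : ∀ g, D.Gen r g → finrank ℂ (D.W ρ r ψ (D.Lam r g)) = 1)
    (c0 : ∀ δ, D.L δ → D.ip r δ = 0 → ∃ δ', D.ip δ δ' = 1 ∧ D.ip r δ' = 0)
    {g : R → ℤ} (hg : D.Gen r g) {s : R} (hs : 0 < g s) (h0 : D.ip r s = -1) (hL : D.L s) :
    D.Y s ≤ St ρ (D.W ρ r ψ (D.Lam r g)) := by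
  have hsr : D.ip s r = -1 := by rw [D.ip_symm hL hr, h0]
  refine stab_of hr hg hs fun v hv k hk h => ?_
  suffices h2 : 0 ≤ D.ip r k by
    rcases h2.eq_or_lt with h2 | h2
    · exact fv_zero hr hψ h1 c0 hg hk h2.symm hv
    · exact fv_one hr hg hk h2 hv
  rcases h with ⟨i, j, hi, hj, e⟩ | ⟨γ, hγ, i, j, hi, hj, e⟩
  · have e1 := e _ (D.ip_mem hr)
    have e2 := e _ (D.ip_mem hL)
    have := ip_le_two hL k
    rw [h0, D.ip_self hr] at e1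
    rw [hsr, D.ip_self hL] at e2
    omega
  · obtain ⟨a, b⟩ := mem_Lam.1 hγ
    have e1 := e _ (D.ip_mem hr)
    have e2 := e _ (D.ip_mem hL)
    have e3 := e _ hg.mem
    have h3 := ip_ge hL hg.mem hs b
    have h4 := D.ip_le hL k fun h => by rw [h] at e3; nlinarith
    rw [h0, a] at e1
    rw [D.ip_self hL] at e2
    nlinarith

theorem fv_neg_long {r : R} (hr : D.L r) {ψ : AddChar F ℂ} (hψ : ψ ≠ 1)
    (h1 : ∀ g, D.Gen r g → finrank ℂ (D.W ρ r ψ (D.Lam r g)) = 1)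
    (c0 : ∀ δ, D.L δ → D.ip r δ = 0 → ∃ δ', D.ip δ δ' = 1 ∧ D.ip r δ' = 0)
    (c1 : ∀ s, D.L s → D.ip r s = -1 → ∃ δ, D.L δ ∧ D.ip r δ = 0 ∧ D.ip s δ = 1)
    {g : R → ℤ} (hg : D.Gen r g) {s : R} (hs : 0 < g s) (h0 : D.ip r s = -1) (hL : D.L s) {v : V}
    (hv : v ∈ D.W ρ r ψ (D.Lam r g)) : D.Fv ρ s v := by
  have hsr : D.ip s r = -1 := by rw [D.ip_symm hL hr, h0]
  have hm' : (2 : ℤ) • D.ip s + D.ip r ∈ D.A := add_mem (D.A.smul_mem 2 (D.ip_mem hL)) (D.ip_mem hr)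
  have hv' : ∀ k, ((2 : ℤ) • D.ip s + D.ip r) k = 2 * D.ip s k + D.ip r k := fun k => rfl
  have hg' : D.Gen r ((2 : ℤ) • D.ip s + D.ip r) :=
    ⟨hm', by rw [hv', hsr, D.ip_self hr]; rfl, fun γ hγ => by rw [hv', hγ]; omega⟩
  obtain ⟨δ, hδL, hδ0, hδ⟩ := c1 s hL h0
  refine transfer hr hψ hg hg' (h1 g hg) (h1 _ hg')
    (S := {γ | D.ip r γ = 1 ∧ 0 < g γ ∧ 0 ≤ D.ip s γ} ∪ {γ | D.ip r γ = 0 ∧ 0 < g γ ∧ D.ip s γ = 1} ∪ {s})
    (fun γ a b c => .inl (.inl ⟨a, b, by rw [hv', a] at c; omega⟩)) (fun u hu k hk => ?_)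
    (fun γ a b c k hk => ?_) (fun γ a b c k hk => ?_) hv s (.inr rfl)
  · rcases hk with (⟨a, -, c⟩ | ⟨a, -, c⟩) | rfl
    · exact fv_one hr hg' (by rw [hv', a]; omega) a.ge hu
    · exact fv_zero hr hψ h1 c0 hg' (by rw [hv', a, c]; omega) a hu
    · have h2 : D.ip r (D.st k δ) = -1 := by rw [D.st_val hL hδ _ (D.ip_mem hr), h0, hδ0]; rfl
      exact fv_long (h1 _ hg') hL hδ (stab_zero hr hg' (by rw [hv', hδ, hδ0]; omega) hδ0)
        (stab_long hr hψ h1 c0 hg' (by rw [hv', ip_st hL hδ, h2]; omega) h2 (D.st_long hL hδL hδ)) hu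
  · have h3 : D.ip s γ = -1 := by
      have := ip_ge hL hg.mem hs b
      rw [hv', a] at c
      omega
    have hk0 : 0 < g k := by
      rcases hk with (⟨-, h, -⟩ | ⟨-, h, -⟩) | rfl
      exacts [h, h, hs]
    refine ⟨hk0, fun k' ⟨i, j, hi, hj, e⟩ => ?_⟩
    have e1 := e _ (D.ip_mem hr)
    have e2 := e _ (D.ip_mem hL)
    have e3 := e _ hg.mem
    have hk' : 0 < g k' := by rw [e3]; positivity
    have h4 := ty_le hr hg hk'
    rw [a] at e1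
    rw [h3] at e2
    rcases hk with (⟨a', -, c'⟩ | ⟨a', -, c'⟩) | rfl
    · rw [a'] at e1; omega
    · rw [a'] at e1
      rw [c'] at e2
      exact .inl (.inl ⟨by omega, hk', by omega⟩)
    · have h5 := D.ip_le hL k' fun h => by rw [h] at e3; nlinarith
      rw [h0] at e1
      rw [D.ip_self hL] at e2
      by_cases h6 : D.ip r k' = 1
      · exact .inl (.inl ⟨h6, hk', by omega⟩)
      · exact .inl (.inr ⟨by omega, hk', by omega⟩)
  · have h3 : 0 ≤ D.ip s γ := by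
      rw [hv', a] at c
      omega
    have h3' : D.ip s γ = 0 := by
      by_contra h
      have e1 := D.st_val hr a _ (D.ip_mem hL)
      have e2 := D.ip_neg hL (D.st r γ) (by omega) g hg.mem
      rw [D.st_val hr a g hg.mem, hg.zero] at e2
      omega
    refine ⟨?_, fun k' ⟨i, j, hi, hj, e⟩ => ?_⟩
    · rw [hv']
      rcases hk with (⟨a', -, c'⟩ | ⟨a', -, c'⟩) | rfl
      · omega
      · omega
      · rw [D.ip_self hL]; omega
    have e1 := e _ (D.ip_mem hr)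
    have e2 := e _ (D.ip_mem hL)
    have h5 := ip_le_two hr k'
    have h6 := ip_le_two hL k'
    rw [a] at e1
    rw [h3'] at e2
    rcases hk with (⟨a', -, c'⟩ | ⟨a', -, c'⟩) | rfl
    · rw [a'] at e1
      obtain rfl : k' = r := eq_of_two hr (by omega)
      nlinarith
    · rw [a'] at e1
      rw [c'] at e2
      have h7 : k' ≠ r := fun h => by rw [h] at e2; omega
      have h8 := D.ip_le hr k' h7
      have h9 : D.ip r k' = 1 := by omega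
      have h10 : k' ≠ s := fun h => by rw [h] at h9; omega
      have h11 := D.ip_le hL k' h10
      have e3 := D.st_val hr h9 _ (D.ip_mem hL)
      have e4 := D.ip_neg hL (D.st r k') (by omega) g hg.mem
      rw [D.st_val hr h9 g hg.mem, hg.zero] at e4
      exact .inl (.inl ⟨h9, by omega, by omega⟩)
    · rw [D.ip_self hL] at e2
      obtain rfl : k' = k := eq_of_two hL (by omega)
      rw [h0] at e1
      omega

/-- the line of a Lagrangian is fixed by all positive root groups -/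
theorem fv_pos {r : R} (hr : D.L r) {ψ : AddChar F ℂ} (hψ : ψ ≠ 1)
    (h1 : ∀ g, D.Gen r g → finrank ℂ (D.W ρ r ψ (D.Lam r g)) = 1)
    (c0 : ∀ δ, D.L δ → D.ip r δ = 0 → ∃ δ', D.ip δ δ' = 1 ∧ D.ip r δ' = 0)
    (c1 : ∀ s, D.L s → D.ip r s = -1 → ∃ δ, D.L δ ∧ D.ip r δ = 0 ∧ D.ip s δ = 1)
    {g : R → ℤ} (hg : D.Gen r g) (s : R) (hs : 0 < g s) {v : V}
    (hv : v ∈ D.W ρ r ψ (D.Lam r g)) : D.Fv ρ s v := by
  obtain ⟨N, hN⟩ := exists_big g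
  induction hn : (N - g s).toNat using Nat.strong_induction_on generalizing s v with
  | _ n ih =>
  have h2 := ty_le hr hg hs
  have h3 := ty_ge hr hg hs
  have h01 : ∀ k, 0 < g k → 0 ≤ D.ip r k → ∀ u ∈ D.W ρ r ψ (D.Lam r g), D.Fv ρ k u := fun k hk h2 u hu => by
    rcases h2.eq_or_lt with h2 | h2
    · exact fv_zero hr hψ h1 c0 hg hk h2.symm hu
    · exact fv_one hr hg hk h2 hu
  by_cases h4 : 0 ≤ D.ip r s
  · exact h01 s hs h4 v hv
  have h0 : D.ip r s = -1 := by omega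
  by_cases hL : D.L s
  · exact fv_neg_long hr hψ h1 c0 c1 hg hs h0 hL hv
  refine fv_short hr (h1 g hg) hL (stab_of hr hg hs fun u hu k hk h => ?_) hv
  have hlt : g s < g k → D.Fv ρ k u := fun h => ih _ (by have := hN k; omega) k hk hu rfl
  rcases h with ⟨i, j, hi, hj, e⟩ | ⟨γ, hγ, i, j, hi, hj, e⟩
  · by_cases h5 : i = 1
    · have e1 := e _ (D.ip_mem hr)
      rw [h0, D.ip_self hr] at e1
      exact h01 k hk (by omega) u hu
    · refine hlt ?_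
      have : 2 ≤ i := by omega
      rw [e g hg.mem, hg.zero]; nlinarith
  · refine hlt ?_
    have := (mem_Lam.1 hγ).2
    rw [e g hg.mem]; nlinarith

omit [Finite G] [Fintype R] in
theorem dim_conj {r s : R} (hr : D.L r) (hs : D.L s) (h : D.ip r s = 1) {ψ ψ' : AddChar F ℂ} (hψ : ψ ≠ 1)
    (hψ' : ψ' ≠ 1) : finrank ℂ (Eg ρ (D.x r) ψ) = finrank ℂ (Eg ρ (D.x s) ψ') := by
  have key : ∀ {r s : R}, D.L r → D.L s → D.ip r s = 1 → ∀ {ψ ψ' : AddChar F ℂ}, ψ ≠ 1 → ψ' ≠ 1 →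
      finrank ℂ (Eg ρ (D.x r) ψ) ≤ finrank ℂ (Eg ρ (D.x s) ψ') := by
    intro r s hr hs h ψ ψ' hψ hψ'
    obtain ⟨c, hc⟩ := H65.exists_mulShift hψ' ψ
    have hc0 : c ≠ 0 := by
      rintro rfl
      exact hψ (AddChar.ext _ _ fun t => by simpa using hc t)
    obtain ⟨g, hg⟩ := D.conj hr hs h c hc0
    have := dim_Eg_le ρ hc0 hg hc (U := ⊤) (U' := ⊤) fun _ _ => trivial
    rwa [top_inf_eq, top_inf_eq] at this
  exact le_antisymm (key hr hs h hψ hψ') (key hs hr (by rw [D.ip_symm hs hr, h]) hψ' hψ)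

omit [Fintype R] in
/-- decomposition under a long root group -/
theorem dim_split {r : R} (hr : D.L r) {U : Submodule ℂ V} (hU : D.Y r ≤ St ρ U) {d : ℕ} :
    ((∀ ψ : AddChar F ℂ, ψ ≠ 1 → d ≤ finrank ℂ (U ⊓ Eg ρ (D.x r) ψ : Submodule ℂ V)) →
      finrank ℂ (U ⊓ Fix ρ (D.Y r) : Submodule ℂ V) + (Nat.card F - 1) * d ≤ finrank ℂ U) ∧
    ((∀ ψ : AddChar F ℂ, ψ ≠ 1 → finrank ℂ (U ⊓ Eg ρ (D.x r) ψ : Submodule ℂ V) = d) →
      finrank ℂ (U ⊓ Fix ρ (D.Y r) : Submodule ℂ V) + (Nat.card F - 1) * d = finrank ℂ U) := by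
  classical
  have := Fintype.ofFinite F
  have h := dim_decomp ρ (D.x_add hr) fun t => hU (x_mem hr t)
  have h1 : Eg ρ (D.x r) 1 = Fix ρ (D.Y r) := by
    ext v
    rw [mem_Eg, mem_Fix]
    refine ⟨fun h y hy => ?_, fun h t => by simpa using h _ (x_mem hr t)⟩
    obtain ⟨t, rfl⟩ := (D.mem_Y hr y).1 hy
    simpa using h t
  have hc : (Finset.univ.erase (1 : AddChar F ℂ)).card = Nat.card F - 1 := by
    rw [Finset.card_erase_of_mem (Finset.mem_univ _), Finset.card_univ, AddChar.card_eq, Nat.card_eq_fintype_card]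
  rw [← Finset.add_sum_erase _ _ (Finset.mem_univ 1), h1] at h
  rw [h, ← hc, ← smul_eq_mul, ← Finset.sum_const]
  exact ⟨fun hd => Nat.add_le_add_left (Finset.sum_le_sum fun ψ hψ => hd ψ (Finset.ne_of_mem_erase hψ)) _,
    fun hd => congrArg _ (Finset.sum_congr rfl fun ψ hψ => (hd ψ (Finset.ne_of_mem_erase hψ)).symm)⟩

variable (D) in
/-- the number of Heisenberg steps below a root -/
def dd (f : R → ℤ) (r : R) : ℕ :=
  ∑ γ ∈ Finset.univ.filter fun γ => D.ip r γ = 1 ∧ f r < 2 * f γ ∧ f γ < f r, D.e γ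

omit [Finite G] [FiniteDimensional ℂ V] [Finite F] [Fintype R] in
theorem gen_f {f : R → ℤ} (hf : f ∈ D.A) {r : R} (hr : D.L r) (hgen : ∀ γ, D.ip r γ = 1 → 2 * f γ ≠ f r) :
    D.Gen r ((2 : ℤ) • f - f r • D.ip r) :=
  ⟨sub_mem (D.A.smul_mem 2 hf) (D.A.smul_mem _ (D.ip_mem hr)), by
    simp only [Pi.sub_apply, Pi.smul_apply, smul_eq_mul, D.ip_self hr]; ring, fun γ hγ => by
    simp only [Pi.sub_apply, Pi.smul_apply, smul_eq_mul, hγ]
    have := hgen γ hγ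
    omega⟩

open Classical in
/-- the filtration by root groups -/
theorem filt {f : R → ℤ} (hf : f ∈ D.A) (hgen : ∀ r, D.L r → 0 < f r → ∀ γ, D.ip r γ = 1 → 2 * f γ ≠ f r)
    (h1 : ∀ r, D.L r → 0 < f r → ∀ ψ : AddChar F ℂ, ψ ≠ 1 → ∀ g, D.Gen r g →
      finrank ℂ (D.W ρ r ψ (D.Lam r g)) = 1)
    (c0 : ∀ r δ, D.L r → D.L δ → D.ip r δ = 0 → ∃ δ', D.ip δ δ' = 1 ∧ D.ip r δ' = 0)
    (c1 : ∀ r s, D.L r → D.L s → D.ip r s = -1 → ∃ δ, D.L δ ∧ D.ip r δ = 0 ∧ D.ip s δ = 1)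
    (T : Finset R) (hT : ∀ r ∈ T, 0 < f r) (hup : ∀ r ∈ T, ∀ s, f r < f s → s ∈ T) :
    finrank ℂ (D.Fx ρ T) + ∑ r ∈ T.filter D.L, (Nat.card F - 1) * Nat.card F ^ D.dd f r ≤ finrank ℂ V := by
  induction T using Finset.induction_on_min_value f with
  | empty => simpa using Submodule.finrank_le _
  | insert r T hrT hmin ih =>
  have hr0 := hT r (Finset.mem_insert_self _ _)
  have hup' : ∀ s, f r < f s → s ∈ T := fun s hs =>
    (Finset.mem_insert.1 (hup r (Finset.mem_insert_self _ _) s hs)).resolve_left fun e => by rw [e] at hs; omega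
  refine le_trans ?_ (ih (fun s hs => hT s (Finset.mem_insert_of_mem hs)) fun s hs k hk =>
    hup' k ((hmin s hs).trans_lt hk))
  have e : D.Fx ρ (insert r T : Finset R) = D.Fx ρ T ⊓ Fix ρ (D.Y r) := by
    rw [Finset.coe_insert, Fx, Fx, iInf_insert, inf_comm (Fix ρ _)]
  rw [e, Finset.filter_insert]
  split_ifs with hr
  swap
  · exact Nat.add_le_add_right (Submodule.finrank_mono inf_le_left) _
  rw [Finset.sum_insert (fun h => hrT (Finset.mem_filter.1 h).1), ← add_assoc]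
  refine Nat.add_le_add_right ?_ _
  have hcm : ∀ γ, 0 < f γ → ∀ v ∈ D.Fx ρ T, ∀ k, f r ≤ f k → D.Cm ρ v γ k := fun γ hγ v hv k hk =>
    cm_of hf hγ (by omega) fun k' ⟨i, j, hi, hj, e⟩ =>
      mem_Fx.1 hv k' (Finset.mem_coe.2 (hup' k' (by rw [e f hf]; nlinarith)))
  refine (dim_split hr (fun y hy v hv => inv_Fx hv (fun k hk => hcm r hr0 v hv k (hmin k hk)) hy)).1
    fun ψ hψ => ?_
  have hst : ∀ γ, 0 < f γ → D.Y γ ≤ St ρ (D.W ρ r ψ T) := fun γ hγ y hy v hv =>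
    inv_W hr hv (fun k hk => hcm γ hγ v hv.1 k (hmin k hk)) (hcm γ hγ v hv.1 r le_rfl) hy
  have hd := hm (ρ := ρ) hr hψ (U := D.W ρ r ψ T) inf_le_right
    (Finset.univ.filter fun γ => D.ip r γ = 1 ∧ f r < 2 * f γ ∧ f γ < f r)
    (fun γ h => (Finset.mem_filter.1 h).2.1) (fun γ h h' => by
      obtain ⟨a, b, c⟩ := (Finset.mem_filter.1 h).2
      have := (Finset.mem_filter.1 h').2.2.1
      rw [D.st_val hr a f hf] at this
      omega)
    (fun γ h => hst γ (by have := (Finset.mem_filter.1 h).2.2.1; omega))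
    (fun γ h => hst _ (by
      obtain ⟨a, b, c⟩ := (Finset.mem_filter.1 h).2
      rw [D.st_val hr a f hf]; omega))
  have hg := gen_f hf hr (hgen r hr hr0)
  have hle : D.W ρ r ψ (D.Lam r ((2 : ℤ) • f - f r • D.ip r)) ≤ D.W ρ r ψ T := fun u hu => by
    refine mem_W.2 ⟨fun k hk => fv_pos hr hψ (h1 r hr hr0 ψ hψ) (fun δ => c0 r δ hr) (fun s => c1 r s hr) hg k ?_ hu,
      (mem_W.1 hu).2⟩
    have a := hmin k hk
    have b := D.ip_le hr k fun e => hrT (e ▸ hk)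
    simp only [Pi.sub_apply, Pi.smul_apply, smul_eq_mul]
    nlinarith
  have h2 := Submodule.finrank_mono hle
  rw [h1 r hr hr0 ψ hψ _ hg, hd] at h2
  change _ ≤ finrank ℂ (D.W ρ r ψ T)
  rw [hd]
  exact Nat.le_mul_of_pos_right _ (Nat.pos_of_mul_pos_left h2)

/-- the multiplicity -/
theorem exists_mult {θ : R} (hθ : D.L θ) {g : R → ℤ} (hg : D.Gen θ g) {β : R} (hβ : D.L β) (h : D.ip θ β = 1)
    (hne : ∃ t, ρ (D.x θ t) ≠ 1) : ∃ m, 0 < m ∧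
      (∀ ψ : AddChar F ℂ, ψ ≠ 1 → finrank ℂ (Eg ρ (D.x θ) ψ) = Nat.card F ^ (∑ γ ∈ D.Lam θ g, D.e γ) * m) ∧
      finrank ℂ (Fix ρ (D.Y θ)) + (Nat.card F - 1) * (Nat.card F ^ (∑ γ ∈ D.Lam θ g, D.e γ) * m) = finrank ℂ V ∧
      (Nat.card F - 1) * (Nat.card F + 1) * (Nat.card F ^ (∑ γ ∈ D.Lam θ g, D.e γ) * m) ≤
        Nat.card F * finrank ℂ V := by
  obtain ⟨ψ0, hψ0⟩ := H65.exists_addChar (F := F) (K := ℂ)
    (Nat.cast_ne_zero.2 (CharP.ringChar_ne_zero_of_finite F))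
  have h1 : ∀ ψ : AddChar F ℂ, ψ ≠ 1 → finrank ℂ (Eg ρ (D.x θ) ψ) =
      Nat.card F ^ (∑ γ ∈ D.Lam θ g, D.e γ) * finrank ℂ (D.W ρ θ ψ0 (D.Lam θ g)) := fun ψ hψ => by
    rw [dim_conj hθ hβ h hψ hψ0, ← dim_conj hθ hβ h hψ0 hψ0, dim_Eg hθ hψ0 hg]
  have h2 := (dim_split (ρ := ρ) hθ (U := ⊤) (fun _ _ _ _ => trivial)).2 fun ψ hψ => by rw [top_inf_eq]; exact h1 ψ hψ
  rw [top_inf_eq, finrank_top] at h2
  refine ⟨_, Nat.pos_of_ne_zero fun h0 => ?_, h1, h2, ?_⟩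
  · rw [h0, mul_zero, mul_zero, add_zero] at h2
    obtain ⟨t, ht⟩ := hne
    have := Submodule.eq_top_of_finrank_eq h2
    exact ht (LinearMap.ext fun v => (this ▸ Submodule.mem_top : v ∈ Fix ρ (D.Y θ)) _ (x_mem hθ t))
  · have h' : D.ip β θ = 1 := by rw [D.ip_symm hβ hθ, h]
    have h3 : ∀ ψ : AddChar F ℂ, ψ ≠ 1 → Nat.card F * finrank ℂ (Fix ρ (D.Y θ) ⊓ Eg ρ (D.x β) ψ : Submodule ℂ V) =
        Nat.card F ^ (∑ γ ∈ D.Lam θ g, D.e γ) * finrank ℂ (D.W ρ θ ψ0 (D.Lam θ g)) := fun ψ hψ => by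
      rw [← h1 ψ0 hψ0, dim_conj hθ hβ h hψ0 hψ, step hβ h' hψ le_rfl (Q_le_St hβ h' ψ) (Q_le_St hβ (ip_st hβ h') ψ),
        D.e_long hθ, pow_one, inf_comm]
    have h4 := (dim_split (ρ := ρ) hβ (U := Fix ρ (D.Y θ)) (fun y hy v hv a ha => by
      simpa using act_comm (c := 1) (cm_Q_r hθ h v _ (inv_mem hy) a ha) (by rw [one_smul]; exact hv a ha))).2
      fun ψ hψ => Nat.eq_of_mul_eq_mul_left Nat.card_pos ((h3 ψ hψ).trans (h3 ψ0 hψ0).symm)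
    rw [← h2, ← h4, ← h3 ψ0 hψ0]
    nlinarith [Nat.zero_le (Nat.card F * finrank ℂ (Fix ρ (D.Y θ) ⊓ Fix ρ (D.Y β) : Submodule ℂ V))]

open Classical in
/-- the main bound -/
theorem main {f : R → ℤ} (hf : f ∈ D.A) (hgen : ∀ r, D.L r → 0 < f r → ∀ γ, D.ip r γ = 1 → 2 * f γ ≠ f r)
    (c0 : ∀ r δ, D.L r → D.L δ → D.ip r δ = 0 → ∃ δ', D.ip δ δ' = 1 ∧ D.ip r δ' = 0)
    (c1 : ∀ r s, D.L r → D.L s → D.ip r s = -1 → ∃ δ, D.L δ ∧ D.ip r δ = 0 ∧ D.ip s δ = 1)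
    {θ : R} (hθ : D.L θ) (hθ0 : 0 < f θ)
    (c2 : ∀ r, D.L r → 0 < f r → ∃ γ, D.L γ ∧ D.ip r γ = 1 ∧ (γ = θ ∨ D.ip θ γ = 1)) {a : ℕ}
    (ha : ∀ r, D.L r → 0 < f r → ∑ γ ∈ Finset.univ.filter fun γ => D.ip r γ = 1, D.e γ = 2 * a)
    (hne : ∃ t, ρ (D.x θ t) ≠ 1) :
    (Nat.card F - 1) * (Nat.card F + 1) * (Nat.card F ^ a * 2) ≤ Nat.card F * finrank ℂ V ∨
    (finrank ℂ (Fix ρ (D.Y θ)) + (Nat.card F - 1) * Nat.card F ^ a = finrank ℂ V ∧
      ∑ r ∈ Finset.univ.filter fun r => 0 < f r ∧ D.L r, (Nat.card F - 1) * Nat.card F ^ D.dd f r ≤ finrank ℂ V) := by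
  have hs : ∀ r, D.L r → 0 < f r → ∀ g, D.Gen r g → ∑ γ ∈ D.Lam r g, D.e γ = a := fun r hr h0 g hg => by
    have := sum_Lam hr hg
    rw [ha r hr h0] at this
    omega
  obtain ⟨β, hβ, h, -⟩ := c2 θ hθ hθ0
  obtain ⟨m, hm, h1, h2, h3⟩ := exists_mult (ρ := ρ) hθ (gen_f hf hθ (hgen θ hθ hθ0)) hβ h hne
  rw [hs θ hθ hθ0 _ (gen_f hf hθ (hgen θ hθ hθ0))] at h1 h2 h3
  by_cases hm2 : 2 ≤ m
  · exact .inl (le_trans (by gcongr) h3)
  obtain rfl : m = 1 := by omega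
  refine .inr ⟨by simpa using h2, ?_⟩
  have := filt (ρ := ρ) hf hgen (fun r hr h0 ψ hψ g hg => ?_) c0 c1 (Finset.univ.filter fun r => 0 < f r)
    (fun r h => (Finset.mem_filter.1 h).2) fun r h s hs =>
      Finset.mem_filter.2 ⟨Finset.mem_univ _, (Finset.mem_filter.1 h).2.trans hs⟩
  · rw [Finset.filter_filter] at this
    omega
  · obtain ⟨γ, hγ, h4, h5⟩ := c2 r hr h0
    have h6 : finrank ℂ (Eg ρ (D.x r) ψ) = Nat.card F ^ a * 1 := by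
      rw [dim_conj hr hγ h4 hψ hψ]
      rcases h5 with rfl | h5
      · exact h1 ψ hψ
      · rw [← dim_conj hθ hγ h5 hψ hψ, h1 ψ hψ]
    rw [dim_Eg hr hψ hg, hs r hr h0 g hg] at h6
    exact Nat.eq_of_mul_eq_mul_left (pow_pos Nat.card_pos _) h6

end Cfsg.Agent.H37.Md.LR
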