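import Cfsg.Agent.H37.MdC
import Cfsg.Agent.H64.BorelTits
import Cfsg.Agent.H39.CextChev
set_option autoImplicit false

/-! Fixed points of a twist of a simply laced root group: root subgroups. -/

namespace Cfsg.Agent.H37.Md

open H38 H39
open scoped commutatorElement

/-- a simply laced root group with a twist of order dividing `2` or `3` -/
structure TS {ι R : Type} [Fintype ι] [DecidableEq ι] (P : RS ι R) (K : Type*) [Field K] (G : Type*) [Group G] where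
  X : RG0 P K G
  Pr : Pairing P
  long : ∀ r, Pr.Long r
  sep : X.Sep
  sub : R → R → R
  sub_cf : ∀ r s, Pr.p r s = 1 → P.cf (sub r s) = P.cf r - P.cf s
  single : ∀ c e k, Pr.p c e = -1 → P.cf k = P.cf c + P.cf e → Single X c e k
  h_conj : ∀ r a, a ≠ 0 → ∀ s u, X.h r a * X.x s u * (X.h r a)⁻¹ = X.x s (a ^ Pr.p r s * u)
  n_conj : ∀ δ r s, Pr.p δ r = 1 → P.cf s = P.cf r - P.cf δ → ∃ η : K, (η = 1 ∨ η = -1) ∧ ∀ c, c ≠ 0 → ∀ u,
    X.n δ c * X.x r u * (X.n δ c)⁻¹ = X.x s (η * c⁻¹ * u)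
  σ : G →* G
  τ : R → R
  γ : R → K
  φ : K →+* K
  m : ℕ
  hm : m = 2 ∨ m = 3
  γ_neg : ∀ r, γ (P.neg r) * γ r = 1
  σ_x : ∀ r t, σ (X.x r t) = X.x (τ r) (γ r * φ t)
  τ_p : ∀ r s, Pr.p (τ r) (τ s) = Pr.p r s
  τ_cf : ∀ r s k (a b : ℤ), P.cf k = a • P.cf r + b • P.cf s → P.cf (τ k) = a • P.cf (τ r) + b • P.cf (τ s)
  τ2 : m = 2 → ∀ r, τ (τ r) = r
  τ3 : m = 3 → ∀ r, τ (τ (τ r)) = r
  σ2 : m = 2 → ∀ r t, σ (σ (X.x r t)) = X.x r t
  σ3 : m = 3 → ∀ r t, σ (σ (σ (X.x r t))) = X.x r t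
  φ_surj : Function.Surjective φ
  γ_fix : ∀ r, τ r = r → γ r = 1
  orth : ∀ r, τ r ≠ r → Pr.p r (τ r) = 0
  card : ∀ r, τ r ≠ r → Nat.card K = Nat.card (φ.eqLocusField (RingHom.id K)) ^ m
  tr : ∀ r, τ r ≠ r → ∀ s, φ s = s → ∃ u, (if m = 2 then u + φ u else u + φ u + φ (φ u)) = s
  nrm : ∀ r, τ r ≠ r → ∃ a, a ≠ 0 ∧ a ^ 2 ≠ 1 ∧ (if m = 2 then a * φ a else a * φ a * φ (φ a)) = 1
  rep : R → R
  rep_mem : ∀ r, rep r = r ∨ rep r = τ r ∨ rep r = τ (τ r)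
  rep_τ : ∀ r, rep (τ r) = rep r
  f0 : (ι → ℤ) →ₗ[ℤ] ℤ
  f0_τ : ∀ r, f0 (P.cf (τ r)) = f0 (P.cf r)
  f0_inj : ∀ r s, rep r = r → rep s = s → f0 (P.cf r) = f0 (P.cf s) → r = s

namespace TS

variable {ι R : Type} [Fintype ι] [DecidableEq ι] {P : RS ι R} {K : Type*} [Field K] {G : Type*} [Group G]
  (T : TS P K G)

/-- the orbit of a root -/
def orb (r : R) : Set R := {r, T.τ r, T.τ (T.τ r)}

theorem mem_orb {r a : R} : a ∈ T.orb r ↔ a = r ∨ a = T.τ r ∨ a = T.τ (T.τ r) := Iff.rfl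

theorem self_mem (r : R) : r ∈ T.orb r := .inl rfl

theorem τ_cases (r : R) : T.τ (T.τ r) = r ∨ T.τ (T.τ (T.τ r)) = r := T.hm.imp (fun h => T.τ2 h r) fun h => T.τ3 h r

theorem τ_surj (r : R) : ∃ k, T.τ k = r := (T.τ_cases r).elim (fun h => ⟨_, h⟩) fun h => ⟨_, h⟩

theorem τ_inj {r s : R} (h : T.τ r = T.τ s) : r = s := by
  rcases T.hm with h2 | h3
  · rw [← T.τ2 h2 r, h, T.τ2 h2]
  · rw [← T.τ3 h3 r, h, T.τ3 h3]

theorem orb_τ (r : R) : T.orb (T.τ r) = T.orb r := by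
  ext a
  rcases T.τ_cases r with h | h <;> simp only [mem_orb, h] <;> tauto

theorem orb_eq {r a : R} (h : a ∈ T.orb r) : T.orb a = T.orb r := by
  rcases h with rfl | rfl | rfl
  · rfl
  · exact T.orb_τ r
  · rw [orb_τ, orb_τ]

theorem τ_mem {r a : R} : T.τ a ∈ T.orb r ↔ a ∈ T.orb r :=
  ⟨fun h => by rw [← T.orb_eq h, orb_τ]; exact T.self_mem a, fun h => by rw [← T.orb_eq h]; exact .inr (.inl rfl)⟩

theorem orb_rep (r : R) : T.orb (T.rep r) = T.orb r := T.orb_eq (T.rep_mem r)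

theorem rep_eq {r a : R} (h : a ∈ T.orb r) : T.rep a = T.rep r := by
  rcases h with rfl | rfl | rfl
  · rfl
  · exact T.rep_τ r
  · rw [T.rep_τ, T.rep_τ]

theorem rep_rep (r : R) : T.rep (T.rep r) = T.rep r := T.rep_eq (T.rep_mem r)

theorem orb_fix {r : R} (h : T.τ r = r) : T.orb r = {r} := by
  ext a; simp [mem_orb, h]

theorem fix_iff {r a : R} (h : a ∈ T.orb r) : T.τ a = a ↔ T.τ r = r :=
  ⟨fun e => by
    have := T.self_mem r
    rw [← T.orb_eq h, T.orb_fix e] at this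
    rw [this, e], fun e => by rw [T.orb_fix e] at h; rw [h, e]⟩

theorem rep_fix {r : R} (h : T.τ r = r) : T.rep r = r := by
  have : T.rep r ∈ T.orb r := T.rep_mem r
  rwa [T.orb_fix h] at this

theorem f_orb {f : (ι → ℤ) →ₗ[ℤ] ℤ} (hf : ∀ r, f (P.cf (T.τ r)) = f (P.cf r)) {r a : R} (h : a ∈ T.orb r) :
    f (P.cf a) = f (P.cf r) := by
  rcases h with rfl | rfl | rfl
  · rfl
  · exact hf r
  · rw [hf, hf]

theorem p_le {r s : R} (h : s ≠ r) : T.Pr.p r s ≤ 1 := T.long r s h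

theorem eq_of_two {r s : R} (h : 2 ≤ T.Pr.p r s) : s = r := by
  by_contra hs
  have := T.p_le hs
  omega

theorem eq_neg_of {r s : R} (h : T.Pr.p r s ≤ -2) : s = P.neg r :=
  T.eq_of_two (by rw [T.Pr.neg_left]; omega)

theorem p_symm (r s : R) : T.Pr.p r s = T.Pr.p s r := by
  by_cases h1 : s = r
  · rw [h1]
  by_cases h2 : s = P.neg r
  · rw [h2, T.Pr.neg_left, T.Pr.neg_right]
  have a := T.p_le h1
  have b : ¬T.Pr.p r s ≤ -2 := fun h => h2 (T.eq_neg_of h)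
  obtain h | h | h : T.Pr.p r s = 1 ∨ T.Pr.p r s = 0 ∨ T.Pr.p r s = -1 := by omega
  · rw [h, (T.long s).eq_one h]
  · rw [h, T.Pr.zero_comm h]
  · rw [h, (T.long s).eq_neg_one h]

theorem p_lin {k r s : R} {a b : ℤ} (h : P.cf k = a • P.cf r + b • P.cf s) (q : R) :
    T.Pr.p q k = a * T.Pr.p q r + b * T.Pr.p q s := by
  obtain ⟨f, hf⟩ := T.Pr.lin q
  rw [hf, hf, hf, h, map_add, map_zsmul, map_zsmul]; rfl

theorem p_sub {r s : R} (h : T.Pr.p r s = 1) (q : R) : T.Pr.p q (T.sub r s) = T.Pr.p q r - T.Pr.p q s := by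
  rw [T.p_lin (a := 1) (b := -1) (r := r) (s := s) (by rw [T.sub_cf r s h]; simp [sub_eq_add_neg])]; ring

theorem τ_neg (r : R) : T.τ (P.neg r) = P.neg (T.τ r) :=
  T.eq_neg_of (by rw [T.τ_p, T.Pr.neg_right, T.Pr.self])

theorem cf_τ_sub {r s : R} (h : T.Pr.p r s = 1) : P.cf (T.τ (T.sub r s)) = P.cf (T.τ r) - P.cf (T.τ s) := by
  rw [T.τ_cf r s _ 1 (-1) (by rw [T.sub_cf r s h]; simp [sub_eq_add_neg])]; simp [sub_eq_add_neg]

theorem sub_fix {r s : R} (hr : T.τ r = r) (h : T.Pr.p r s = 1) : T.τ (T.sub r s) = T.sub r s ↔ T.τ s = s := by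
  have := T.cf_τ_sub h
  rw [hr] at this
  exact ⟨fun e => P.cf_inj (by rw [e, T.sub_cf r s h] at this; exact (sub_right_inj.1 this).symm),
    fun e => P.cf_inj (by rw [this, e, T.sub_cf r s h])⟩

theorem orth2 {r : R} (h : T.τ (T.τ r) ≠ r) : T.Pr.p r (T.τ (T.τ r)) = 0 := by
  have h3 := (T.τ_cases r).resolve_left h
  rw [← T.τ_p, h3, p_symm]
  exact T.orth r fun e => h (by rw [e, e])

theorem orb_p {r a b : R} (ha : a ∈ T.orb r) (hb : b ∈ T.orb r) : b = a ∨ T.Pr.p a b = 0 := by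
  rw [← T.orb_eq ha] at hb
  rcases hb with rfl | rfl | rfl
  · exact .inl rfl
  · exact (eq_or_ne _ _).imp_right (T.orth a)
  · exact (eq_or_ne _ _).imp_right T.orth2

theorem orb_p' {r a b : R} (ha : a ∈ T.orb r) (hb : b ∈ T.orb r) : 0 ≤ T.Pr.p a b := by
  rcases T.orb_p ha hb with rfl | h
  · rw [T.Pr.self]; omega
  · omega

theorem cl_orb {f : (ι → ℤ) →ₗ[ℤ] ℤ} {r : R} {S : Set R} (hS : S ⊆ T.orb r) (h : ∀ a ∈ S, 0 < f (P.cf a)) :
    P.Cl f S :=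
  ⟨fun _ ha _ hb _ hk => absurd hk ((T.long _).not_comb (T.orb_p' (hS ha) (hS hb))), h⟩

theorem exists_cl (r : R) : ∃ f : (ι → ℤ) →ₗ[ℤ] ℤ, ∀ a ∈ T.orb r, 0 < f (P.cf a) := by
  obtain ⟨f1, h1⟩ := T.Pr.lin r
  obtain ⟨f2, h2⟩ := T.Pr.lin (T.τ r)
  obtain ⟨f3, h3⟩ := T.Pr.lin (T.τ (T.τ r))
  refine ⟨f1 + f2 + f3, fun a ha => ?_⟩
  have a1 := T.orb_p' (T.self_mem r) ha
  have a2 := T.orb_p' (.inr (.inl rfl)) ha
  have a3 := T.orb_p' (.inr (.inr rfl)) ha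
  simp only [LinearMap.add_apply, ← h1, ← h2, ← h3]
  rcases ha with rfl | rfl | rfl <;> rw [T.Pr.self] <;> omega

theorem x_eq_one {r : R} {t : K} (h : T.X.x r t = 1) : t = 0 := by
  obtain ⟨f, hf⟩ := T.Pr.lin r
  exact T.sep f r t (by rw [← hf, T.Pr.self]; omega) (h ▸ one_mem _)

theorem x_inj {r : R} {t u : K} (h : T.X.x r t = T.X.x r u) : t = u :=
  sub_eq_zero.1 (T.x_eq_one (r := r) (by rw [sub_eq_add_neg, T.X.add, T.X.x_neg, h, mul_inv_cancel]))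

theorem σ_US {S S' : Set R} (h : ∀ s ∈ S, T.τ s ∈ S') {g : G} (hg : g ∈ T.X.US S) : T.σ g ∈ T.X.US S' :=
  (T.X.US_le (K := (T.X.US S').comap T.σ)).2 (fun s hs t => by
    simpa [T.σ_x] using T.X.x_mem (h s hs) _) hg

theorem commute_US {S S' : Set R} (h : ∀ a ∈ S, ∀ b ∈ S', 0 ≤ T.Pr.p a b) {g g' : G} (hg : g ∈ T.X.US S)
    (hg' : g' ∈ T.X.US S') : Commute g g' := by
  induction hg using T.X.US_induction with
  | h1 => exact Commute.one_left _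
  | hm g _ a ha t ih =>
    refine ih.mul_left ?_
    clear ih
    induction hg' using T.X.US_induction with
    | h1 => exact Commute.one_right _
    | hm g' _ b hb u ih => exact ih.mul_right ((T.long a).commute T.X (h a ha b hb) t u)

theorem σσ {S : Set R} {g : G} (hg : g ∈ T.X.US S) :
    (T.m = 2 → T.σ (T.σ g) = g) ∧ (T.m = 3 → T.σ (T.σ (T.σ g)) = g) := by
  induction hg using T.X.US_induction with
  | h1 => simp
  | hm g _ a _ t ih =>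
    exact ⟨fun h => by rw [map_mul, map_mul, ih.1 h, T.σ2 h],
      fun h => by rw [map_mul, map_mul, map_mul, ih.2 h, T.σ3 h]⟩

/-- the norm of an element -/
def nm (g : G) : G := if T.m = 2 then g * T.σ g else g * T.σ g * T.σ (T.σ g)

/-- a set of roots whose images under the twist commute -/
def Blk (S : Set R) : Prop :=
  ∀ a ∈ S, ∀ b ∈ S, 0 ≤ T.Pr.p a (T.τ b) ∧ (T.m = 3 → 0 ≤ T.Pr.p a (T.τ (T.τ b)))

variable {T}

theorem Blk.c1 {S : Set R} (h : T.Blk S) {g g' : G} (hg : g ∈ T.X.US S) (hg' : g' ∈ T.X.US S) :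
    Commute g (T.σ g') :=
  T.commute_US (S' := T.τ '' S) (by rintro a ha _ ⟨b, hb, rfl⟩; exact (h a ha b hb).1) hg
    (T.σ_US (fun s hs => Set.mem_image_of_mem _ hs) hg')

theorem Blk.c2 {S : Set R} (h : T.Blk S) (h3 : T.m = 3) {g g' : G} (hg : g ∈ T.X.US S) (hg' : g' ∈ T.X.US S) :
    Commute g (T.σ (T.σ g')) :=
  T.commute_US (S' := T.τ '' (T.τ '' S)) (by rintro a ha _ ⟨_, ⟨b, hb, rfl⟩, rfl⟩; exact (h a ha b hb).2 h3) hg
    (T.σ_US (fun s hs => Set.mem_image_of_mem _ hs)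
      (T.σ_US (S' := T.τ '' S) (fun s hs => Set.mem_image_of_mem _ hs) hg'))

theorem Blk.nm_fix {S : Set R} (h : T.Blk S) {g : G} (hg : g ∈ T.X.US S) : T.σ (T.nm g) = T.nm g := by
  unfold nm
  split_ifs with h2
  · rw [map_mul, (T.σσ hg).1 h2, (h.c1 hg hg).eq]
  · have h3 := T.hm.resolve_left h2
    rw [map_mul, map_mul, (T.σσ hg).2 h3, mul_assoc g, ((h.c1 hg hg).mul_right (h.c2 h3 hg hg)).eq]

theorem Blk.nm_mul {S : Set R} (h : T.Blk S) {g g' : G} (hg : g ∈ T.X.US S) (hg' : g' ∈ T.X.US S) :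
    T.nm (g * g') = T.nm g * T.nm g' := by
  unfold nm
  split_ifs with h2
  · rw [map_mul, (h.c1 hg' hg).mul_mul_mul_comm]
  · have h3 := T.hm.resolve_left h2
    rw [map_mul, map_mul, (h.c1 hg' hg).mul_mul_mul_comm,
      ((h.c2 h3 hg' hg).mul_left ((h.c1 hg' hg).map T.σ)).mul_mul_mul_comm]

variable (T) in
theorem nm_one : T.nm 1 = 1 := by simp [nm]

theorem Blk.nm_inv {S : Set R} (h : T.Blk S) {g : G} (hg : g ∈ T.X.US S) : T.nm g⁻¹ = (T.nm g)⁻¹ :=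
  eq_inv_of_mul_eq_one_left (by rw [← h.nm_mul (inv_mem hg) hg, inv_mul_cancel, nm_one])

theorem Blk.nm_comm {S : Set R} (h : T.Blk S) {g g' : G} (hg : g ∈ T.X.US S) (hg' : g' ∈ T.X.US S) :
    T.nm ⁅g, g'⁆ = ⁅T.nm g, T.nm g'⁆ := by
  rw [commutatorElement_def, commutatorElement_def,
    h.nm_mul (mul_mem (mul_mem hg hg') (inv_mem hg)) (inv_mem hg'), h.nm_mul (mul_mem hg hg') (inv_mem hg),
    h.nm_mul hg hg', h.nm_inv hg, h.nm_inv hg']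

theorem nm_conj {h : G} (hh : T.σ h = h) (g : G) : T.nm (h * g * h⁻¹) = h * T.nm g * h⁻¹ := by
  unfold nm
  split_ifs <;> simp [hh, mul_assoc]

theorem ne2 {r : R} (h : T.τ r ≠ r) (h3 : T.m = 3) : T.τ (T.τ r) ≠ r := fun e => by
  have := T.τ3 h3 r
  rw [e] at this
  exact h this

theorem blk_pm {r : R} (h : T.τ r ≠ r) : T.Blk {r, P.neg r} := by
  have h1 := T.orth r h
  rintro a (rfl | rfl) b (rfl | rfl) <;>
  · refine ⟨by simp only [T.τ_neg, T.Pr.neg_left, T.Pr.neg_right, h1]; omega, fun h3 => ?_⟩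
    have h2 := T.orth2 (ne2 h h3)
    simp only [T.τ_neg, T.Pr.neg_left, T.Pr.neg_right, h2]; omega

theorem blk_pair {r c : R} (hr : T.τ r = r) (h : T.Pr.p r c = 1) (hc : T.τ c ≠ c) : T.Blk {c, T.sub r c} := by
  have key : ∀ a b : R, T.Pr.p r a = 1 → T.Pr.p r b = 1 → P.cf b ≠ P.cf r - P.cf a → 0 ≤ T.Pr.p a b := by
    intro a b ha hb hne
    by_contra hlt
    have h2 : ¬T.Pr.p a b ≤ -2 := fun e => by rw [T.eq_neg_of e, T.Pr.neg_right] at hb; omega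
    have h1 : T.Pr.p a (P.neg b) = 1 := by rw [T.Pr.neg_right]; omega
    have h3 := T.sub_cf _ _ h1
    rw [T.eq_of_two (r := r) (s := T.sub a (P.neg b)) (by rw [T.p_sub h1, T.Pr.neg_right]; omega), P.cf_neg] at h3
    exact hne (by rw [h3]; simp)
  have hτ : ∀ a, T.Pr.p r (T.τ a) = T.Pr.p r a := fun a => by conv_lhs => rw [← hr, T.τ_p]
  have h' : T.Pr.p r (T.sub r c) = 1 := by rw [T.p_sub h, T.Pr.self, h]; rfl
  have hc' : T.τ (T.sub r c) ≠ T.sub r c := fun e => hc ((T.sub_fix hr h).1 e)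
  rintro a (rfl | rfl) b (rfl | rfl)
  · exact ⟨T.orb_p' (T.self_mem _) (.inr (.inl rfl)), fun _ => T.orb_p' (T.self_mem _) (.inr (.inr rfl))⟩
  · exact ⟨key _ _ h (by rw [hτ, h']) fun e => hc' (P.cf_inj (by rw [e, T.sub_cf _ _ h])),
      fun h3 => key _ _ h (by rw [hτ, hτ, h']) fun e => ne2 hc' h3 (P.cf_inj (by rw [e, T.sub_cf _ _ h]))⟩
  · exact ⟨key _ _ h' (by rw [hτ, h]) fun e => hc (P.cf_inj (by rw [e, T.sub_cf _ _ h]; simp)),
      fun h3 => key _ _ h' (by rw [hτ, hτ, h]) fun e => ne2 hc h3 (P.cf_inj (by rw [e, T.sub_cf _ _ h]; simp))⟩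
  · exact ⟨T.orb_p' (T.self_mem _) (.inr (.inl rfl)), fun _ => T.orb_p' (T.self_mem _) (.inr (.inr rfl))⟩

theorem nm_x_eq {r : R} (h : T.τ r ≠ r) (t : K) :
    ∃ b ∈ T.X.US (T.orb r \ {r}), T.nm (T.X.x r t) = T.X.x r t * b := by
  have h1 : T.σ (T.X.x r t) ∈ T.X.US (T.orb r \ {r}) := by
    rw [T.σ_x]; exact T.X.x_mem (S := T.orb r \ {r}) ⟨.inr (.inl rfl), h⟩ _
  unfold nm
  split_ifs with h2
  · exact ⟨_, h1, rfl⟩
  · refine ⟨_, mul_mem h1 ?_, mul_assoc _ _ _⟩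
    rw [T.σ_x, T.σ_x]; exact T.X.x_mem (S := T.orb r \ {r}) ⟨.inr (.inr rfl), ne2 h (T.hm.resolve_left h2)⟩ _

theorem nm_x_mem {r : R} (h : T.τ r ≠ r) (t : K) : T.nm (T.X.x r t) ∈ T.X.US (T.orb r) := by
  obtain ⟨b, hb, e⟩ := nm_x_eq h t
  rw [e]
  exact mul_mem (T.X.x_mem (T.self_mem r) t) (T.X.US_mono Set.diff_subset hb)

theorem nm_x_fix {r : R} (h : T.τ r ≠ r) (t : K) : T.σ (T.nm (T.X.x r t)) = T.nm (T.X.x r t) :=
  (blk_pm h).nm_fix (T.X.x_mem (.inl rfl) t)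

theorem nm_x_add {r : R} (h : T.τ r ≠ r) (t u : K) :
    T.nm (T.X.x r (t + u)) = T.nm (T.X.x r t) * T.nm (T.X.x r u) := by
  rw [T.X.add, (blk_pm h).nm_mul (T.X.x_mem (.inl rfl) t) (T.X.x_mem (.inl rfl) u)]

theorem nm_x_fixed {r : R} (h : T.τ r = r) (t : K) :
    T.nm (T.X.x r t) = T.X.x r (if T.m = 2 then t + T.φ t else t + T.φ t + T.φ (T.φ t)) := by
  unfold nm
  split_ifs <;> simp [T.σ_x, h, T.γ_fix r h, T.X.add]

variable [Fintype R]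

theorem inter_orb {r : R} {S S' : Set R} (hS : S ⊆ T.orb r) (hS' : S' ⊆ T.orb r) {g : G} (h : g ∈ T.X.US S)
    (h' : g ∈ T.X.US S') : g ∈ T.X.US (S ∩ S') := by
  obtain ⟨f, hf⟩ := T.exists_cl r
  exact H64.mem_US_inter T.sep (T.cl_orb subset_rfl hf) (T.cl_orb hS fun a ha => hf a (hS ha))
    (T.cl_orb hS' fun a ha => hf a (hS' ha)) hS hS' h h'

theorem nm_x_eq_one {r : R} (h : T.τ r ≠ r) {t : K} (e : T.nm (T.X.x r t) = 1) : t = 0 := by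
  obtain ⟨b, hb, e'⟩ := nm_x_eq h t
  rw [e, eq_comm, mul_eq_one_iff_eq_inv] at e'
  have := inter_orb (Set.singleton_subset_iff.2 (T.self_mem r)) Set.diff_subset
    (T.X.x_mem (Set.mem_singleton r) t) (by rw [e']; exact inv_mem hb)
  rw [Set.inter_diff_self, T.X.US_empty, Subgroup.mem_bot] at this
  exact T.x_eq_one this

theorem exists_nm {r : R} (h : T.τ r ≠ r) {g : G} (hg : g ∈ T.X.US (T.orb r)) (hf : T.σ g = g) :
    ∃ t, g = T.nm (T.X.x r t) := by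
  obtain ⟨f, hf0⟩ := T.exists_cl r
  obtain ⟨a, ha, b, hb, rfl⟩ := T.X.exists_mul_of_mem_US (T.cl_orb subset_rfl hf0) (S₁ := {r})
    (S₂ := T.orb r \ {r}) (by rw [Set.union_diff_cancel (Set.singleton_subset_iff.2 (T.self_mem r))]) hg
  obtain ⟨t, rfl⟩ := T.X.mem_US_singleton.1 ha
  obtain ⟨b', hb', e⟩ := nm_x_eq h t
  refine ⟨t, ?_⟩
  have h1 : (T.nm (T.X.x r t))⁻¹ * (T.X.x r t * b) ∈ T.X.US (T.orb r \ {r}) := by
    rw [e, mul_inv_rev, mul_assoc, inv_mul_cancel_left]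
    exact mul_mem (inv_mem hb') hb
  have h2 : T.σ ((T.nm (T.X.x r t))⁻¹ * (T.X.x r t * b)) = (T.nm (T.X.x r t))⁻¹ * (T.X.x r t * b) := by
    rw [map_mul, map_inv, nm_x_fix h, hf]
  generalize hc : (T.nm (T.X.x r t))⁻¹ * (T.X.x r t * b) = c at h1 h2
  have st : ∀ a, c ∈ T.X.US (T.orb r \ {a}) → c ∈ T.X.US (T.orb r \ {T.τ a}) := fun a ha => by
    rw [← h2]
    exact T.σ_US (S' := T.orb r \ {T.τ a}) (fun s hs => ⟨T.τ_mem.2 hs.1, fun e => hs.2 (T.τ_inj e)⟩) ha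
  have h3 := inter_orb (Set.inter_subset_left.trans Set.diff_subset) Set.diff_subset
    (inter_orb Set.diff_subset Set.diff_subset h1 (st _ h1)) (st _ (st _ h1))
  have h4 : (T.orb r \ {r}) ∩ (T.orb r \ {T.τ r}) ∩ (T.orb r \ {T.τ (T.τ r)}) = ∅ := by
    ext a; simp only [mem_orb, Set.mem_inter_iff, Set.mem_diff, Set.mem_singleton_iff, Set.mem_empty_iff_false]
    tauto
  rw [h4, T.X.US_empty, Subgroup.mem_bot] at h3
  rw [h3, inv_mul_eq_one] at hc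
  exact hc.symm

end TS

end Cfsg.Agent.H37.Md
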