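import Cfsg.Agent.H37.MdI
set_option autoImplicit false

/-! The long root structure of the fixed points of a twist. -/

namespace Cfsg.Agent.H37.Md.TS

open H38 H39
open scoped commutatorElement

variable {ι R : Type} [Fintype ι] [DecidableEq ι] {P : RS ι R} {K : Type*} [Field K] {G : Type*} [Group G]
  (T : TS P K G)

/-- the group of fixed points -/
def Fix : Subgroup G := T.σ.eqLocus (MonoidHom.id G)

theorem mem_Fix {g : G} : g ∈ T.Fix ↔ T.σ g = g := Iff.rfl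

/-- the fixed field -/
abbrev F0 : Subfield K := T.φ.eqLocusField (RingHom.id K)

theorem mem_F0 {t : K} : t ∈ T.F0 ↔ T.φ t = t := Iff.rfl

/-- orbit representatives -/
abbrev Rp : Type := {r : R // T.rep r = r}

/-- the representative -/
def rp (r : R) : T.Rp := ⟨T.rep r, T.rep_rep r⟩

/-- the relative root subgroups -/
def Y (r : R) : Subgroup T.Fix := (T.X.US (T.orb r)).subgroupOf T.Fix

theorem mem_Y {r : R} {g : T.Fix} : g ∈ T.Y r ↔ g.1 ∈ T.X.US (T.orb r) := Iff.rfl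

theorem Y_rep (r : R) : T.Y (T.rep r) = T.Y r := by rw [Y, T.orb_rep, Y]

/-- the invariant functionals -/
def A : Submodule ℤ (T.Rp → ℤ) where
  carrier := {g | ∃ f : (ι → ℤ) →ₗ[ℤ] ℤ, (∀ k, f (P.cf (T.τ k)) = f (P.cf k)) ∧ ∀ r, g r = f (P.cf r.1)}
  add_mem' := by
    rintro g g' ⟨f, h1, h2⟩ ⟨f', h1', h2'⟩
    exact ⟨f + f', fun k => by simp [h1, h1'], fun r => by simp [h2, h2']⟩
  zero_mem' := ⟨0, by simp, by simp⟩
  smul_mem' := by
    rintro c g ⟨f, h1, h2⟩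
    exact ⟨c • f, fun k => by simp [h1], fun r => by simp [h2]⟩

theorem x_fix {r : R} (h : T.τ r = r) {t : K} (ht : T.φ t = t) : T.X.x r t ∈ T.Fix := by
  rw [mem_Fix, T.σ_x, h, T.γ_fix r h, ht, one_mul]

open Classical in
/-- the long root elements -/
noncomputable def xx (r : R) (t : T.F0) : T.Fix := if h : T.τ r = r then ⟨T.X.x r t, T.x_fix h t.2⟩ else 1

theorem xx_val {r : R} (h : T.τ r = r) (t : T.F0) : (T.xx r t : G) = T.X.x r t := by rw [xx, dif_pos h]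

theorem mem_Y_fix {r : R} (h : T.τ r = r) (y : T.Fix) : y ∈ T.Y r ↔ ∃ t, T.xx r t = y := by
  rw [mem_Y, T.orb_fix h, T.X.mem_US_singleton]
  refine ⟨fun ⟨t, ht⟩ => ⟨⟨t, T.x_inj (r := r) ?_⟩, Subtype.ext (by rw [T.xx_val h, ht])⟩,
    fun ⟨t, ht⟩ => ⟨t, by rw [← ht, T.xx_val h]⟩⟩
  have := y.2
  rwa [mem_Fix, ht, T.σ_x, h, T.γ_fix r h, one_mul] at this

theorem γ_ne (r : R) : T.γ r ≠ 0 := right_ne_zero_of_mul_eq_one (T.γ_neg r)

theorem σ_n (r : R) (t : K) : T.σ (T.X.n r t) = T.X.n (T.τ r) (T.γ r * T.φ t) := by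
  simp only [RG0.n, map_mul, T.σ_x, T.τ_neg, map_neg, map_inv₀, mul_inv, mul_neg,
    eq_inv_of_mul_eq_one_left (T.γ_neg r)]

theorem comm_x {r c : R} (h : T.Pr.p r c = 1) :
    ∃ e, e ≠ 0 ∧ ∀ s u, ⁅T.X.x c s, T.X.x (T.sub r c) u⁆ = T.X.x r (e * s * u) := by
  have h1 : T.Pr.p c r = 1 := by rw [T.p_symm, h]
  obtain ⟨e, he, h2⟩ := T.single c (T.sub r c) r (by rw [T.p_sub h, T.Pr.self, h1]; rfl)
    (by rw [T.sub_cf r c h]; simp)
  refine ⟨-e, neg_ne_zero.2 he, fun s u => ?_⟩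
  have c1 := (T.long r).commute T.X (s := c) (by omega) (e * s * u) s
  have c2 := (T.long r).commute T.X (s := T.sub r c) (by rw [T.p_sub h, T.Pr.self, h]; omega) (e * s * u) u
  rw [neg_mul, neg_mul, T.X.x_neg, eq_inv_iff_mul_eq_one, commutatorElement_def, mul_assoc, ← c2.inv_right.eq,
    ← mul_assoc, mul_assoc _ _ (T.X.x r _), ← c1.inv_right.eq, ← mul_assoc, ← h2]
  simp

/-- conjugation multiplies the parameter of a root group -/
def Ac (g : G) (k : R) (c : K) : Prop := c ≠ 0 ∧ ∀ u, g * T.X.x k u * g⁻¹ = T.X.x k (c * u)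

variable {T}

theorem Ac.σ {g : G} {k : R} {c : K} (h : T.Ac g k c) : T.Ac (T.σ g) (T.τ k) (T.φ c) :=
  ⟨(map_ne_zero _).2 h.1, fun w => by
    obtain ⟨u, hu⟩ := T.φ_surj ((T.γ k)⁻¹ * w)
    have : w = T.γ k * T.φ u := by rw [hu, mul_inv_cancel_left₀ (T.γ_ne k)]
    rw [this, ← T.σ_x, ← map_inv, ← map_mul, ← map_mul, h.2, T.σ_x, map_mul, mul_left_comm]⟩

theorem Ac.mul {g g' : G} {k : R} {c c' : K} (h : T.Ac g k c) (h' : T.Ac g' k c') : T.Ac (g * g') k (c * c') :=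
  ⟨mul_ne_zero h.1 h'.1, fun u => by rw [mul_assoc c, ← h.2, ← h'.2]; group⟩

theorem Ac.inv {g : G} {k : R} {c : K} (h : T.Ac g k c) (u : K) : g⁻¹ * T.X.x k u * g = T.X.x k (c⁻¹ * u) := by
  conv_lhs => rw [← mul_inv_cancel_left₀ h.1 u, ← h.2]
  group

theorem ac_h (s : R) {a : K} (ha : a ≠ 0) (k : R) : T.Ac (T.X.h s a) k (a ^ T.Pr.p s k) :=
  ⟨zpow_ne_zero _ ha, T.h_conj s a ha k⟩

theorem ac_nm (s : R) {a : K} (ha : a ≠ 0) (k : R) :
    T.Ac (T.nm (T.X.h s a)) (T.τ (T.τ k)) (if T.m = 2 then a ^ T.Pr.p s (T.τ (T.τ k)) * T.φ (a ^ T.Pr.p s (T.τ k))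
      else a ^ T.Pr.p s (T.τ (T.τ k)) * T.φ (a ^ T.Pr.p s (T.τ k)) * T.φ (T.φ (a ^ T.Pr.p s k))) := by
  unfold nm
  split_ifs
  · exact (ac_h s ha _).mul (ac_h s ha _).σ
  · exact ((ac_h s ha _).mul (ac_h s ha _).σ).mul (ac_h s ha _).σ.σ

theorem h_mem (s : R) (a : K) : T.X.h s a ∈ T.X.US {s, P.neg s} := by
  have h1 := fun t => T.X.x_mem (S := {s, P.neg s}) (.inl rfl) t
  have h2 := fun t => T.X.x_mem (S := {s, P.neg s}) (.inr rfl) t
  exact mul_mem (mul_mem (mul_mem (h1 _) (h2 _)) (h1 _)) (mul_mem (mul_mem (h1 _) (h2 _)) (h1 _))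

theorem ac_long {r s : R} (hr : T.τ r = r) {a : K} (ha : a ≠ 0)
    (hn : (if T.m = 2 then a * T.φ a else a * T.φ a * T.φ (T.φ a)) = 1) : T.Ac (T.nm (T.X.h s a)) r 1 := by
  have := ac_nm (T := T) s ha r
  rw [hr, hr] at this
  split_ifs at hn this
  · rwa [map_zpow₀, ← mul_zpow, hn, one_zpow] at this
  · rwa [map_zpow₀, map_zpow₀, ← mul_zpow, ← mul_zpow, hn, one_zpow] at this

theorem ac_short {s : R} (hs : T.τ s ≠ s) {a : K} (ha : a ≠ 0) : T.Ac (T.nm (T.X.h s a)) s (a ^ 2) := by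
  rcases T.hm with hm | hm
  · have := ac_nm (T := T) s ha s
    rwa [if_pos hm, T.τ2 hm, T.Pr.self, T.orth _ hs, zpow_zero, map_one, mul_one, zpow_ofNat] at this
  · have := ac_nm (T := T) s ha (T.τ s)
    rwa [if_neg (by omega), T.τ3 hm, T.Pr.self, T.orth _ hs, T.orth2 (ne2 hs hm), zpow_zero, map_one, map_one,
      mul_one, mul_one, zpow_ofNat] at this

theorem conj_Y {h : T.Fix} (h1 : ∀ k, ∃ c, T.Ac h k c) (k : R) (y : T.Fix) (hy : y ∈ T.Y k) :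
    h⁻¹ * y * h ∈ T.Y k := by
  have := T.X.conj_mem_US (g := (h : G)⁻¹) (K := T.X.US (T.orb k)) (fun j hj u => by
    obtain ⟨c, hc⟩ := h1 j
    rw [inv_inv, hc.inv]; exact T.X.x_mem hj _) (T.mem_Y.1 hy)
  rwa [inv_inv] at this

theorem exists_ac_nm (s : R) {a : K} (ha : a ≠ 0) (k : R) : ∃ c, T.Ac (T.nm (T.X.h s a)) k c := by
  obtain ⟨k, rfl⟩ := T.τ_surj k
  obtain ⟨k, rfl⟩ := T.τ_surj k
  exact ⟨_, ac_nm s ha k⟩

variable [Fintype R]

theorem tor {r s : R} (hr : T.τ r = r) (hs : T.τ s ≠ s) : ∃ h : T.Fix,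
    (∀ k : T.Rp, ∀ y ∈ T.Y k, h⁻¹ * y * h ∈ T.Y k) ∧ (∀ t, h⁻¹ * T.xx r t * h = T.xx r t) ∧
      ∀ y ∈ T.Y s, ∃ y' ∈ T.Y s, ⁅h, y'⁆ = y := by
  obtain ⟨a, ha, ha2, hn⟩ := T.nrm s hs
  have hfix := (blk_pm hs).nm_fix (h_mem s a)
  refine ⟨⟨_, T.mem_Fix.2 hfix⟩, fun k => conj_Y (h := ⟨_, T.mem_Fix.2 hfix⟩) (exists_ac_nm s ha) k.1, fun t => Subtype.ext ?_, fun y hy => ?_⟩
  · have := (ac_long (s := s) hr ha hn).inv t
    rw [inv_one, one_mul, ← T.xx_val hr] at this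
    exact this
  · obtain ⟨t, ht⟩ := exists_nm hs (T.mem_Y.1 hy) y.2
    refine ⟨⟨_, nm_x_fix hs ((a ^ 2 - 1)⁻¹ * t)⟩, nm_x_mem hs _, Subtype.ext ?_⟩
    rw [ht]
    change T.nm (T.X.h s a) * T.nm (T.X.x s _) * (T.nm (T.X.h s a))⁻¹ * (T.nm (T.X.x s _))⁻¹ = _
    rw [← nm_conj hfix, (ac_short hs ha).2, mul_inv_eq_iff_eq_mul, ← nm_x_add hs]
    congr 2
    have := sub_ne_zero.2 ha2
    field_simp
    ring

theorem gen {f : (ι → ℤ) →ₗ[ℤ] ℤ} (hf : ∀ r, f (P.cf (T.τ r)) = f (P.cf r)) {H : Subgroup T.Fix} (S : Set R)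
    (hS : P.Cl f S) (hτ : ∀ k ∈ S, T.τ k ∈ S) (hH : ∀ k ∈ S, T.Y k ≤ H) (g : T.Fix) (hg : g.1 ∈ T.X.US S) :
    g ∈ H := by
  induction hn : S.ncard using Nat.strong_induction_on generalizing S g with
  | _ n ih =>
  rcases S.eq_empty_or_nonempty with rfl | hne
  · rw [T.X.US_empty, Subgroup.mem_bot] at hg
    rw [show g = 1 from Subtype.ext hg]; exact one_mem _
  obtain ⟨k, hk, hmin⟩ := S.exists_min_image (fun r => f (P.cf r)) S.toFinite hne
  have ho : T.orb k ⊆ S := by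
    rintro _ (rfl | rfl | rfl)
    exacts [hk, hτ _ hk, hτ _ (hτ _ hk)]
  have hS' : P.Cl f (S \ T.orb k) := ⟨fun r hr s hs j hj => ⟨hS.cl r hr.1 s hs.1 j hj, fun h => by
    have h1 := hS.lt_of_comb hr.1 hs.1 hj
    have h2 := hmin r hr.1
    have h3 := hS.pos s hs.1
    rw [T.f_orb hf h] at h1
    omega⟩, fun r hr => hS.pos r hr.1⟩
  have hτ' : ∀ j ∈ S \ T.orb k, T.τ j ∈ S \ T.orb k := fun j hj => ⟨hτ j hj.1, fun h => hj.2 (T.τ_mem.1 h)⟩
  obtain ⟨a, ha, b, hb, e⟩ := T.X.exists_mul_of_mem_US hS (S₁ := T.orb k) (S₂ := S \ T.orb k)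
    (by rw [Set.union_diff_cancel ho]) hg
  have h1 : a⁻¹ * T.σ a = b * (T.σ b)⁻¹ := by
    have := g.2
    rw [mem_Fix, e, map_mul] at this
    rw [inv_mul_eq_iff_eq_mul, ← mul_assoc, ← this]; simp
  have h2 := H64.mem_US_inter T.sep hS (T.cl_orb subset_rfl fun a ha => hS.pos a (ho ha)) hS' ho Set.diff_subset
    (mul_mem (inv_mem ha) (T.σ_US (fun s hs => T.τ_mem.2 hs) ha)) (by
      rw [h1]; exact mul_mem hb (inv_mem (T.σ_US hτ' hb)))
  rw [Set.inter_diff_self, T.X.US_empty, Subgroup.mem_bot] at h2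
  have h3 : a ∈ T.Fix := (inv_mul_eq_one.1 h2).symm
  have h4 : b ∈ T.Fix := by rw [h2, eq_comm, mul_inv_eq_one] at h1; exact h1.symm
  rw [show g = ⟨a, h3⟩ * ⟨b, h4⟩ from Subtype.ext e]
  refine mul_mem (hH k hk ha) (ih _ ?_ _ hS' hτ' (fun j hj => hH j hj.1) _ hb rfl)
  rw [← hn]
  exact Set.ncard_lt_ncard ⟨Set.diff_subset, fun h => (h hk).2 (T.self_mem k)⟩ S.toFinite

variable (T)

open Classical in
/-- the long root structure -/
noncomputable def lr : LR T.Rp T.Fix T.F0 where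
  Y r := T.Y r
  L r := T.τ r = r
  A := T.A
  ip r s := T.Pr.p r s
  st r c := T.rp (T.sub r c)
  x r := T.xx r
  e r := if T.τ r = r then 1 else T.m
  x_add h s t := Subtype.ext (by simp [T.xx_val h, T.X.add])
  mem_Y h := T.mem_Y_fix h
  card_Y r := by
    split_ifs with h
    · rw [pow_one]
      refine (Nat.card_eq_of_bijective (fun t => (⟨T.xx r t, (T.mem_Y_fix h _).2 ⟨t, rfl⟩⟩ : T.Y r))
        ⟨fun t u e => Subtype.ext (T.x_inj (r := r) ?_), fun y => ?_⟩).symm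
      · rw [← T.xx_val h, ← T.xx_val h]; exact congrArg (fun y : T.Y r => y.1.1) e
      · obtain ⟨t, ht⟩ := (T.mem_Y_fix h _).1 y.2
        exact ⟨t, Subtype.ext ht⟩
    · rw [← T.card r h]
      refine (Nat.card_eq_of_bijective (fun t => (⟨⟨T.nm (T.X.x r t), nm_x_fix h t⟩, nm_x_mem h t⟩ : T.Y r))
        ⟨fun t u e => sub_eq_zero.1 (nm_x_eq_one h ?_), fun y => ?_⟩).symm
      · have e' : T.nm (T.X.x r t) = T.nm (T.X.x r u) := congrArg (fun y : T.Y r => y.1.1) e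
        rw [sub_eq_add_neg, nm_x_add h, e', ← nm_x_add h, add_neg_cancel, T.X.x_zero, nm_one]
      · obtain ⟨t, ht⟩ := exists_nm h (T.mem_Y.1 y.2) y.1.2
        exact ⟨t, Subtype.ext (Subtype.ext ht.symm)⟩
  e_pos r := by
    split_ifs
    · exact one_pos
    · rcases T.hm with h | h <;> omega
  e_long h := if_pos h
  sep r s h := Subtype.ext (T.f0_inj _ _ r.2 s.2 (h (fun r => T.f0 (P.cf r.1)) ⟨T.f0, T.f0_τ, fun _ => rfl⟩))
  ip_mem {r} h := by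
    obtain ⟨f, hf⟩ := T.Pr.lin r
    exact ⟨f, fun k => by rw [← hf, ← hf]; conv_lhs => rw [← h, T.τ_p], fun s => hf s⟩
  ip_self _ := T.Pr.self _
  ip_le _ s h := T.p_le fun e => h (Subtype.ext e)
  ip_neg _ s h := by
    rintro g ⟨f, -, hf⟩
    rw [hf, hf, T.eq_neg_of h, P.cf_neg, map_neg]
  ip_symm _ _ := T.p_symm _ _
  st_val _ h := by
    rintro g ⟨f, hf, hg⟩
    rw [hg, hg, hg, ← map_sub, ← T.sub_cf _ _ h]
    exact T.f_orb hf (T.rep_mem _)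
  st_e hr h := by
    simp only [rp, T.fix_iff (T.rep_mem _), T.sub_fix hr h]
  st_long hr hc h := (T.fix_iff (T.rep_mem _)).2 ((T.sub_fix hr h).2 hc)
  cm := by
    rintro g ⟨f, hf, hg⟩ r s hr hs a ha b hb
    rw [hg] at hr hs
    let S : Set R := {k | ∃ i j : ℤ, 0 < i ∧ 0 < j ∧ ∀ f' : (ι → ℤ) →ₗ[ℤ] ℤ,
      (∀ k, f' (P.cf (T.τ k)) = f' (P.cf k)) → f' (P.cf k) = i * f' (P.cf r.1) + j * f' (P.cf s.1)}
    have hpos : ∀ k ∈ S, 0 < f (P.cf k) := fun k ⟨i, j, hi, hj, e⟩ => by rw [e f hf]; positivity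
    have hne : ∀ k l, 0 < f (P.cf k) → 0 < f (P.cf l) → l ≠ P.neg k := fun k l hk hl e => by
      rw [e, P.cf_neg, map_neg] at hl; omega
    have hrs : ∀ k ∈ T.orb r.1 ∪ T.orb s.1, 0 < f (P.cf k) := by
      rintro k (hk | hk) <;> rwa [T.f_orb hf hk]
    have hlin : ∀ {k l j : R}, P.Comb k l j → ∃ a b : ℤ, 0 < a ∧ 0 < b ∧ ∀ f' : (ι → ℤ) →ₗ[ℤ] ℤ,
        f' (P.cf j) = a * f' (P.cf k) + b * f' (P.cf l) := fun ⟨a, b, ha, hb, e⟩ =>
      ⟨a, b, ha, hb, fun f' => by rw [e, map_add, map_zsmul, map_zsmul]; rfl⟩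
    refine gen hf S ⟨fun k hk l hl j hj => ?_, hpos⟩ (fun k ⟨i, j, hi, hj, e⟩ => ⟨i, j, hi, hj, fun f' h => ?_⟩)
      (fun k ⟨i, j, hi, hj, e⟩ => ?_) _ ?_
    · obtain ⟨i, i', hi, hi', e⟩ := hk
      obtain ⟨n, n', hn, hn', e'⟩ := hl
      obtain ⟨a, b, ha, hb, e''⟩ := hlin hj
      exact ⟨a * i + b * n, a * i' + b * n', by positivity, by positivity, fun f' h => by
        rw [e'', e f' h, e' f' h]; ring⟩
    · rw [h, e f' h]
    · rw [← T.Y_rep]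
      refine le_iSup₂_of_le (f := fun k (_ : Comb T.A r s k) => T.Y k.1) (T.rp k) ⟨i, j, hi, hj, ?_⟩ le_rfl
      rintro g' ⟨f', h1, h2⟩
      rw [h2, h2, h2, ← e f' h1]
      exact T.f_orb h1 (T.rep_mem _)
    · have := T.X.US_comm_mem (S := T.orb r.1 ∪ T.orb s.1) (T := T.orb r.1) (T' := S) Set.subset_union_left
        (fun k hk l hl => ⟨hne _ _ (hrs k hk) (hrs l (.inl hl)), fun j hj => ?_⟩)
        (fun k hk l hl => ⟨hne _ _ (hrs k hk) (hpos l hl), fun j hj => ?_⟩)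
        (inv_mem (T.X.US_mono Set.subset_union_right hb)) (inv_mem ha)
      · simpa [commutatorElement_def] using this
      · rcases hk with hk | hk
        · exact absurd hj ((T.long _).not_comb (T.orb_p' hk hl))
        · obtain ⟨a, b, ha, hb, e⟩ := hlin hj
          exact ⟨b, a, hb, ha, fun f' h => by rw [e, T.f_orb h hk, T.f_orb h hl]; ring⟩
      · obtain ⟨i, i', hi, hi', e⟩ := hl
        obtain ⟨a, b, ha, hb, e'⟩ := hlin hj
        rcases hk with hk | hk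
        · exact ⟨a + b * i, b * i', by positivity, by positivity, fun f' h => by
            rw [e', e f' h, T.f_orb h hk]; ring⟩
        · exact ⟨b * i, a + b * i', by positivity, by positivity, fun f' h => by
            rw [e', e f' h, T.f_orb h hk]; ring⟩
  heis {r c} hr h a ha ha1 t := by
    obtain ⟨e, he, hc⟩ := T.comm_x h
    change ∃ b ∈ T.Y (T.rep _), _
    rw [T.Y_rep]
    by_cases hf : T.τ c = c
    · obtain ⟨s, rfl⟩ := (T.mem_Y_fix hf a).1 ha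
      have hf' := (T.sub_fix hr h).2 hf
      have hs : (s : K) ≠ 0 := fun e => ha1 (Subtype.ext (by rw [T.xx_val hf, e, T.X.x_zero]; rfl))
      have he' : T.φ e = e := by
        have h1 := hc 1 1
        have h2 := congrArg T.σ h1
        rw [map_commutatorElement, T.mem_Fix.1 (T.x_fix hf (map_one _)), T.mem_Fix.1 (T.x_fix hf' (map_one _)),
          h1, T.σ_x, hr, T.γ_fix _ hr] at h2
        simpa using (T.x_inj h2).symm
      refine ⟨T.xx _ ((⟨e, he'⟩ * s)⁻¹ * t), (T.mem_Y_fix hf' _).2 ⟨_, rfl⟩, Subtype.ext ?_⟩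
      rw [← Subgroup.coe_subtype, map_commutatorElement, Subgroup.coe_subtype, T.xx_val hf, T.xx_val hf',
        T.xx_val hr, hc]
      congr 1
      push_cast
      field_simp
    · obtain ⟨s, hs⟩ := exists_nm hf (T.mem_Y.1 ha) a.2
      have hf' : T.τ (T.sub r c) ≠ T.sub r c := fun e => hf ((T.sub_fix hr h).1 e)
      have hs0 : s ≠ 0 := fun e => ha1 (Subtype.ext (by rw [hs, e, T.X.x_zero, nm_one]; rfl))
      obtain ⟨w, hw⟩ := T.tr c hf t t.2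
      refine ⟨⟨_, nm_x_fix hf' ((e * s)⁻¹ * w)⟩, nm_x_mem hf' _, Subtype.ext ?_⟩
      rw [← Subgroup.coe_subtype, map_commutatorElement, Subgroup.coe_subtype, hs, T.xx_val hr,
        ← (blk_pair hr h hf).nm_comm (T.X.x_mem (.inl rfl) _) (T.X.x_mem (.inr rfl) _), hc,
        mul_inv_cancel_left₀ (mul_ne_zero he hs0), nm_x_fixed hr, hw]
  tor hr hs := tor hr hs
  conj {r s} hr hs h c hc := by
    have h1 : T.τ (T.sub r s) = T.sub r s := (T.sub_fix hr h).2 hs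
    obtain ⟨η, hη, e⟩ := T.n_conj (T.sub r s) r s (by rw [T.p_symm, T.p_sub h, T.Pr.self, h]; rfl)
      (by rw [T.sub_cf _ _ h]; simp)
    have hc' : (c : K) ≠ 0 := fun e => hc (Subtype.ext e)
    have hη0 : η ≠ 0 := by rcases hη with rfl | rfl <;> simp
    have hη1 : T.φ η = η := by rcases hη with rfl | rfl <;> simp
    refine ⟨⟨T.X.n (T.sub r s) (η * (c : K)⁻¹), ?_⟩, fun t => Subtype.ext ?_⟩
    · rw [mem_Fix, T.σ_n, h1, T.γ_fix _ h1, one_mul, map_mul, map_inv₀, hη1, show T.φ c = c from c.2]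
    · simp only [Subgroup.coe_mul, Subgroup.coe_inv, T.xx_val hr, T.xx_val hs]
      rw [e _ (mul_ne_zero hη0 (inv_ne_zero hc'))]
      congr 1
      push_cast
      field_simp

end Cfsg.Agent.H37.Md.TS
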