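import Cfsg.Agent.H37.MdJ
import Cfsg.Agent.H38.StMat
import Cfsg.Agent.H40.Rel
import Cfsg.Agent.H37.Tab
set_option autoImplicit false

/-! The degree bound for twists of the simply laced Chevalley groups. -/

namespace Cfsg.Agent.H37.Md

open H38 H39 Module Cfsg.Lie Chev
open scoped commutatorElement

namespace TS

variable {ι R : Type} [Fintype ι] [DecidableEq ι] {P : RS ι R} {K : Type*} [Field K] {G : Type*} [Group G]
  (T : TS P K G) [Fintype R] [DecidableEq R]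

theorem sum_Rp (p : T.Rp → Prop) [DecidablePred p] (p' : R → Prop) [DecidablePred p'] (h : ∀ r, p r ↔ p' r.1)
    (g : T.Rp → ℕ) (g' : R → ℕ) (hg : ∀ r, g r = g' r.1) :
    ∑ r ∈ Finset.univ.filter p, g r = ∑ r : R, if T.rep r = r ∧ p' r then g' r else 0 := by
  rw [← Finset.sum_filter]
  exact Finset.sum_bij (fun r _ => r.1) (fun r hr => by simpa [r.2, h] using hr) (fun _ _ _ _ => Subtype.ext)
    (fun r hr => ⟨⟨r, (Finset.mem_filter.1 hr).2.1⟩, by simpa [h] using (Finset.mem_filter.1 hr).2.2, rfl⟩)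
    fun r _ => hg r

theorem p_rep {r : R} (h : T.τ r = r) (s : R) : T.Pr.p r (T.rep s) = T.Pr.p r s := by
  obtain ⟨f, hf⟩ := T.Pr.lin r
  rw [hf, hf]
  exact T.f_orb (fun k => by rw [← hf, ← hf]; conv_lhs => rw [← h, T.τ_p]) (T.rep_mem s)

/-- the functional on representatives -/
def ff (r : T.Rp) : ℤ := T.f0 (P.cf r.1)

omit [DecidableEq R] in
theorem ff_mem : T.ff ∈ T.lr.A := ⟨T.f0, T.f0_τ, fun _ => rfl⟩

omit [DecidableEq R] in
theorem hgen (r : T.Rp) (hr : T.lr.L r) (c : T.Rp) (h : T.lr.ip r c = 1) : 2 * T.ff c ≠ T.ff r := fun e => by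
  have h1 := T.lr.st_val hr h _ T.ff_mem
  have h2 : T.rep (T.sub r c) = c := T.f0_inj _ _ (T.rep_rep _) c.2 (by
    change T.ff (T.lr.st r c) = T.ff c
    omega)
  have h3 := T.orb_p' (r := T.sub r c) (h2 ▸ T.rep_mem _) (T.self_mem _)
  rw [T.p_sub h, T.Pr.self, T.p_symm, show T.Pr.p r c = 1 from h] at h3
  omega

/-- multiplicity of a relative root -/
def ee (r : R) : ℕ := if T.τ r = r then 1 else T.m

/-- number of Heisenberg steps -/
def dd (r : R) : ℕ := ∑ k : R, if T.rep k = k ∧ T.Pr.p r k = 1 ∧ T.f0 (P.cf r) < 2 * T.f0 (P.cf k) ∧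
  T.f0 (P.cf k) < T.f0 (P.cf r) then T.ee k else 0

theorem lr_e (r : T.Rp) : T.lr.e r = T.ee r := by
  unfold ee
  split_ifs with h
  · exact if_pos h
  · exact if_neg h

theorem main [Finite K] [Finite G] {V : Type*} [AddCommGroup V] [Module ℂ V] [FiniteDimensional ℂ V]
    (ρ : Representation ℂ T.Fix V)
    (c0 : ∀ r δ, T.τ r = r → T.τ δ = δ → T.Pr.p r δ = 0 → ∃ δ', T.Pr.p δ δ' = 1 ∧ T.Pr.p r δ' = 0)
    (c1 : ∀ r s, T.τ r = r → T.τ s = s → T.Pr.p r s = -1 → ∃ δ, T.τ δ = δ ∧ T.Pr.p r δ = 0 ∧ T.Pr.p s δ = 1)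
    {θ : R} (hθ : T.τ θ = θ) (hθ0 : 0 < T.f0 (P.cf θ))
    (c2 : ∀ r, T.τ r = r → 0 < T.f0 (P.cf r) → ∃ c, T.τ c = c ∧ T.Pr.p r c = 1 ∧ (c = θ ∨ T.Pr.p θ c = 1)) {a : ℕ}
    (ha : ∀ r, T.τ r = r → 0 < T.f0 (P.cf r) →
      (∑ k : R, if T.rep k = k ∧ T.Pr.p r k = 1 then T.ee k else 0) = 2 * a)
    (hne : ∃ t, ρ (T.xx θ t) ≠ 1) :
    (Nat.card T.F0 - 1) * (Nat.card T.F0 + 1) * (Nat.card T.F0 ^ a * 2) ≤ Nat.card T.F0 * finrank ℂ V ∨
    (finrank ℂ (Md.Fix ρ (T.Y θ)) + (Nat.card T.F0 - 1) * Nat.card T.F0 ^ a = finrank ℂ V ∧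
      (∑ r : R, if T.τ r = r ∧ 0 < T.f0 (P.cf r) then (Nat.card T.F0 - 1) * Nat.card T.F0 ^ T.dd r else 0) ≤
        finrank ℂ V) := by
  classical
  refine (LR.main (D := T.lr) (ρ := ρ) T.ff_mem (fun r hr _ => T.hgen r hr) (fun r δ hr hδ h => ?_)
    (fun r s hr hs h => ?_) (θ := ⟨θ, T.rep_fix hθ⟩) hθ hθ0 (fun r hr h => ?_) (a := a) (fun r hr h => ?_)
    hne).imp_right fun h => ⟨h.1, le_of_eq_of_le ?_ h.2⟩
  · obtain ⟨δ', h1, h2⟩ := c0 r δ hr hδ h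
    exact ⟨T.rp δ', (T.p_rep hδ _).trans h1, (T.p_rep hr _).trans h2⟩
  · obtain ⟨δ, h1, h2, h3⟩ := c1 r s hr hs h
    exact ⟨⟨δ, T.rep_fix h1⟩, h1, h2, h3⟩
  · obtain ⟨c, h1, h2, h3⟩ := c2 r hr h
    exact ⟨⟨c, T.rep_fix h1⟩, h1, h2, h3.imp_left Subtype.ext⟩
  · rw [← ha r hr h]
    exact T.sum_Rp _ (fun k => T.Pr.p r k = 1) (fun _ => Iff.rfl) _ _ T.lr_e
  · have hd : ∀ r : T.Rp, T.lr.dd T.ff r = T.dd r := fun r =>
      T.sum_Rp _ (fun k => T.Pr.p r k = 1 ∧ T.f0 (P.cf r) < 2 * T.f0 (P.cf k) ∧ T.f0 (P.cf k) < T.f0 (P.cf r))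
        (fun _ => Iff.rfl) _ _ T.lr_e
    refine Eq.trans ?_ (@TS.sum_Rp _ _ _ _ _ _ _ _ _ T _ _ (fun r => 0 < T.ff r ∧ T.lr.L r) _
      (fun r => 0 < T.f0 (P.cf r) ∧ T.τ r = r) _ (fun _ => Iff.rfl)
      (fun r => (Nat.card T.F0 - 1) * Nat.card T.F0 ^ T.lr.dd T.ff r)
      (fun r => (Nat.card T.F0 - 1) * Nat.card T.F0 ^ T.dd r) fun r => by rw [hd]).symm
    exact Finset.sum_congr rfl fun r _ =>
      if_congr ⟨fun h => ⟨T.rep_fix h.1, h.2, h.1⟩, fun h => ⟨h.2.2, h.2.1⟩⟩ rfl rfl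

end TS

section field
variable {K : Type*} [Field K] {φ : K →+* K}

theorem exists_tr2 (h2 : ∀ t, φ (φ t) = t) {a : K} (ha : φ a ≠ a) (s : K) (hs : φ s = s) : ∃ u, u + φ u = s := by
  obtain ⟨u, hu⟩ : ∃ u, u + φ u ≠ 0 := by
    by_contra! h
    have h1 := h 1
    have h3 := h a
    rw [map_one] at h1
    exact ha (by linear_combination h3 - a * h1)
  refine ⟨s / (u + φ u) * u, ?_⟩
  rw [map_mul, map_div₀, map_add, h2, hs, add_comm (φ u)]
  field_simp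

theorem exists_tr3 (h3 : ∀ t, φ (φ (φ t)) = t) {a : K} (ha : φ a ≠ a) (s : K) (hs : φ s = s) :
    ∃ u, u + φ u + φ (φ u) = s := by
  obtain ⟨u, hu⟩ : ∃ u, u + φ u + φ (φ u) ≠ 0 := by
    by_contra! h
    have hb : φ (φ a) ≠ a := fun e => ha (by have := h3 a; rwa [e] at this)
    have hc : φ (φ a) ≠ φ a := fun e => ha (φ.injective e)
    have h0 := h 1
    have h1 := h a
    have h2 := h (a * a)
    simp only [map_one, map_mul] at h0 h2
    exact mul_ne_zero (sub_ne_zero.2 hb) (sub_ne_zero.2 hc) (by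
      linear_combination h2 - (a + φ a) * h1 + a * φ a * h0)
  refine ⟨s / (u + φ u + φ (φ u)) * u, ?_⟩
  have e : φ (u + φ u + φ (φ u)) = u + φ u + φ (φ u) := by rw [map_add, map_add, h3]; ring
  simp only [map_mul, map_div₀, e, hs]
  field_simp

theorem exists_quot {a : K} (ha : φ a ≠ a) : ∃ k, k ≠ 0 ∧ (φ k / k) ^ 2 ≠ 1 := by
  by_contra! h
  have key : ∀ k, φ k = k ∨ φ k = -k := fun k => by
    by_cases hk : k = 0
    · simp [hk]
    · have := h k hk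
      rw [div_pow, div_eq_one_iff_eq (pow_ne_zero 2 hk)] at this
      exact sq_eq_sq_iff_eq_or_eq_neg.1 this
  have h1 := (key a).resolve_left ha
  rcases key (a + 1) with e | e <;> rw [map_add, map_one, h1] at e
  · exact ha (by rw [h1]; linear_combination e)
  · exact ha (by rw [h1]; linear_combination -a * e)

theorem exists_ne_of_card [Finite K] {m : ℕ} (hm : 2 ≤ m)
    (h : Nat.card K = Nat.card (φ.eqLocusField (RingHom.id K)) ^ m) : ∃ a, φ a ≠ a := by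
  by_contra! h1
  rw [show φ.eqLocusField (RingHom.id K) = ⊤ from eq_top_iff.2 fun t _ => h1 t,
    Nat.card_congr Subfield.topEquiv.toEquiv] at h
  have h2 : 1 < Nat.card K := Finite.one_lt_card
  have := Nat.pow_lt_pow_right h2 (show 1 < m by omega)
  rw [pow_one] at this
  omega

end field

/-- the value of a coweight on a root -/
def fv (D : ChevalleyDatum) (w : ℕ → ℤ) (r : ℕ) : ℤ := ∑ i ∈ Finset.range D.rank, w i * D.cartan i r

/-- numerical data of a twist -/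
structure TwN (D : ChevalleyDatum) where
  τ : ℕ → ℕ
  γ : ℕ → ℤ
  m : ℕ
  rep : ℕ → ℕ
  w : ℕ → ℤ
  hm : m = 2 ∨ m = 3
  τ_lt : ∀ r < D.nroots, τ r < D.nroots
  γ_neg : ∀ r < D.nroots, γ (D.neg r) * γ r = 1
  τ_p : ∀ r < D.nroots, ∀ s < D.nroots, D.pairing (τ r) (τ s) = D.pairing r s
  τ2 : m = 2 → ∀ r < D.nroots, τ (τ r) = r ∧ γ (τ r) * γ r = 1
  τ3 : m = 3 → ∀ r < D.nroots, τ (τ (τ r)) = r ∧ γ (τ (τ r)) * (γ (τ r) * γ r) = 1
  γ_fix : ∀ r < D.nroots, τ r = r → γ r = 1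
  orth : ∀ r < D.nroots, τ r ≠ r → D.pairing r (τ r) = 0
  rep_mem : ∀ r < D.nroots, rep r = r ∨ rep r = τ r ∨ rep r = τ (τ r)
  rep_τ : ∀ r < D.nroots, rep (τ r) = rep r
  f_τ : ∀ r < D.nroots, fv D w (τ r) = fv D w r
  f_inj : ∀ r < D.nroots, ∀ s < D.nroots, rep r = r → rep s = s → fv D w r = fv D w s → r = s

variable {D : ChevalleyDatum}

theorem TwN.rep_lt (C : TwN D) (r : ℕ) (hr : r < D.nroots) : C.rep r < D.nroots := by
  rcases C.rep_mem r hr with h | h | h <;> rw [h]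
  exacts [hr, C.τ_lt r hr, C.τ_lt _ (C.τ_lt r hr)]

variable [Chev D]

/-- the coweight as a linear form -/
def fL (D : ChevalleyDatum) (w : ℕ → ℤ) : (Fin D.rank → ℤ) →ₗ[ℤ] ℤ :=
  ∑ i : Fin D.rank, ∑ j : Fin D.rank, (w i * D.cartan i (D.simple j)) • LinearMap.proj j

theorem fL_cf (w : ℕ → ℤ) (r : Fin D.nroots) : fL D w ((rs D).cf r) = fv D w r := by
  simp only [fL, fv, LinearMap.sum_apply, LinearMap.smul_apply, LinearMap.proj_apply, rs_cf, smul_eq_mul,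
    Finset.sum_range]
  refine Finset.sum_congr rfl fun i _ => ?_
  rw [cartan_eq_fin D i.2 r.2, Finset.mul_sum]
  exact Finset.sum_congr rfl fun _ _ => mul_assoc _ _ _

variable (hD : IsChev D) (hL : ∀ r, (pairD D).Long r) (C : TwN D) {K : Type*} [Field K] [Finite K]
  (σ : D.group K →* D.group K) (φ : K →+* K)
  (hσ : ∀ r t, σ ((mgs hD K).x r t) = (mgs hD K).x ⟨C.τ r, C.τ_lt r r.2⟩ (C.γ r * φ t))
  (h2 : C.m = 2 → ∀ t, φ (φ t) = t) (h3 : C.m = 3 → ∀ t, φ (φ (φ t)) = t)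
  (hc : ∀ r < D.nroots, C.τ r ≠ r → Nat.card K = Nat.card (φ.eqLocusField (RingHom.id K)) ^ C.m)

/-- the twisted structure of a simply laced Chevalley group -/
noncomputable def mkTS : TS (rs D) K (D.group K) where
  X := (mgs hD K).toRG0
  Pr := pairD D
  long := hL
  sep := ((mg_faithful hD K).sub _).sep
  sub r s := ⟨refl D s r, refl_lt s.2 r.2⟩
  sub_cf r s h := funext fun j => by
    rw [Pi.sub_apply, rs_cf, rs_cf, rs_cf, vec_refl s.2 r.2 j.2, show D.pairing s r = 1 from (hL s).eq_one h, one_mul]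
  single c e k h hk := by
    obtain ⟨a, ha, h⟩ := single_of_long (matRel hD K) c e k (hL c) (hL e) h hk
    exact ⟨a, ha, fun t u => Subtype.ext (h t u)⟩
  h_conj r a ha s u := Subtype.ext (by
    have := H40.h_conj (matRel hD K) r.2 s.2 ha u
    rw [← rg_h] at this
    exact this)
  n_conj δ r s h hs := by
    refine ⟨eta D δ r, by rcases eta_eq_or δ.2 r.2 with e | e <;> simp [e], fun c hc u => Subtype.ext ?_⟩
    have := H40.n_conj' (matRel hD K) δ.2 r.2 hc u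
    rw [← rg_n, show D.pairing δ r = 1 from h, zpow_neg_one, show refl D δ r = s from
      vec_inj (refl_lt δ.2 r.2) s.2 fun j hj => by
        rw [vec_refl δ.2 r.2 hj, show D.pairing δ r = 1 from h, one_mul]
        exact (congrFun hs ⟨j, hj⟩).symm] at this
    exact this
  σ := σ
  τ r := ⟨C.τ r, C.τ_lt r r.2⟩
  γ r := C.γ r
  φ := φ
  m := C.m
  hm := C.hm
  γ_neg r := by exact_mod_cast congrArg (Int.cast : ℤ → K) (C.γ_neg r r.2)
  σ_x := hσ
  τ_p r s := C.τ_p r r.2 s s.2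
  τ_cf r s k a b h := funext fun j => vec_lin_of_cartan (C.τ_lt k k.2) (C.τ_lt r r.2) (C.τ_lt s s.2) (fun i hi => by
    have hi' := simple_lt (D := D) i hi
    obtain ⟨q, hq, e⟩ : ∃ q < D.nroots, C.τ q = D.simple i := C.hm.elim
      (fun h => ⟨_, C.τ_lt _ hi', (C.τ2 h _ hi').1⟩) fun h => ⟨_, C.τ_lt _ (C.τ_lt _ hi'), (C.τ3 h _ hi').1⟩
    simp only [← pairing_simple hi, ← e, C.τ_p q hq _ (Fin.is_lt _)]
    exact pairing_lin k.2 r.2 s.2 (fun j hj => congrFun h ⟨j, hj⟩) q) j.2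
  τ2 h r := Fin.ext (C.τ2 h r r.2).1
  τ3 h r := Fin.ext (C.τ3 h r r.2).1
  σ2 h r t := by
    have := congrArg (Int.cast : ℤ → K) (C.τ2 h r r.2).2
    push_cast at this
    rw [hσ, hσ, map_mul, map_intCast, h2 h, ← mul_assoc, this, one_mul]
    congr 1; exact Fin.ext (C.τ2 h r r.2).1
  σ3 h r t := by
    have := congrArg (Int.cast : ℤ → K) (C.τ3 h r r.2).2
    push_cast at this
    rw [hσ, hσ, hσ]
    simp only [map_mul, map_intCast, h3 h]
    rw [← mul_assoc (C.γ (C.τ r) : K), ← mul_assoc, this, one_mul]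
    congr 1; exact Fin.ext (C.τ3 h r r.2).1
  φ_surj t := C.hm.elim (fun h => ⟨_, h2 h t⟩) fun h => ⟨_, h3 h t⟩
  γ_fix r h := by rw [C.γ_fix r r.2 (congrArg Fin.val h), Int.cast_one]
  orth r h := C.orth r r.2 fun e => h (Fin.ext e)
  card r h := hc r r.2 fun e => h (Fin.ext e)
  tr r h s hs := by
    obtain ⟨a, ha⟩ := exists_ne_of_card (by have := C.hm; omega) (hc r r.2 fun e => h (Fin.ext e))
    split_ifs with hm
    · exact exists_tr2 (h2 hm) ha s hs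
    · exact exists_tr3 (h3 (C.hm.resolve_left hm)) ha s hs
  nrm r h := by
    obtain ⟨a, ha⟩ := exists_ne_of_card (by have := C.hm; omega) (hc r r.2 fun e => h (Fin.ext e))
    obtain ⟨k, hk, hk2⟩ := exists_quot ha
    have h0 : φ k ≠ 0 := (map_ne_zero φ).2 hk
    have h1 : φ (φ k) ≠ 0 := (map_ne_zero φ).2 h0
    refine ⟨φ k / k, div_ne_zero h0 hk, hk2, ?_⟩
    split_ifs with hm
    · rw [map_div₀, h2 hm]; field_simp
    · rw [map_div₀, map_div₀, h3 (C.hm.resolve_left hm)]; field_simp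
  rep r := ⟨C.rep r, C.rep_lt r r.2⟩
  rep_mem r := (C.rep_mem r r.2).imp Fin.ext (Or.imp Fin.ext Fin.ext)
  rep_τ r := Fin.ext (C.rep_τ r r.2)
  f0 := fL D C.w
  f0_τ r := by rw [fL_cf, fL_cf]; exact C.f_τ r r.2
  f0_inj r s hr hs h := Fin.ext (C.f_inj r r.2 s s.2 (congrArg Fin.val hr) (congrArg Fin.val hs)
    (by rwa [fL_cf, fL_cf] at h))

/-- bounded sum of naturals -/
noncomputable def nsum (n : ℕ) (f : ℕ → ℕ) : ℕ := @Nat.rec (fun _ => ℕ) 0 (fun k ih => Nat.add ih (f k)) n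

theorem nsum_eq (n : ℕ) (f : ℕ → ℕ) : nsum n f = ∑ k : Fin n, f k := by
  rw [Fin.sum_univ_eq_sum_range]
  induction n with
  | zero => rfl
  | succ n ih => rw [Finset.sum_range_succ, ← ih]; rfl

/-- lazy conditional -/
noncomputable def cnd (b : Bool) (x : ℕ) : ℕ := @Bool.rec (fun _ => ℕ) 0 x b

theorem cnd_eq (b : Bool) (x : ℕ) : cnd b x = if b = true then x else 0 := by cases b <;> rfl

/-- comparison of integers -/
def ilt (a b : ℤ) : Bool := @decide (a < b) (Int.decLt a b)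

theorem ilt_iff {a b : ℤ} : ilt a b = true ↔ a < b := decide_eq_true_iff

theorem ieq_iff {a b : ℤ} : ieq a b = true ↔ a = b := decide_eq_true_iff

namespace TwN

omit [Chev D]
variable (T : Tab)

/-- fast coweight -/
noncomputable def fT (r : ℕ) : ℤ := sumLt T.l fun i => Int.mul (C.w i) (T.car i r)
/-- fast multiplicity -/
noncomputable def eT (k : ℕ) : ℕ := @Bool.rec (fun _ => ℕ) C.m 1 (Nat.beq (C.τ k) k)
/-- fast dimension of the radical -/
noncomputable def aT (r : ℕ) : ℕ := nsum T.n fun k => cnd (band (Nat.beq (C.rep k) k) (ieq (T.pair r k) 1)) (C.eT k)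
/-- fast number of steps -/
noncomputable def dT (r : ℕ) : ℕ := nsum T.n fun k => cnd (band (Nat.beq (C.rep k) k) (band (ieq (T.pair r k) 1)
  (band (ilt (C.fT T r) (Int.mul 2 (C.fT T k))) (ilt (C.fT T k) (C.fT T r))))) (C.eT k)
/-- positive long roots -/
noncomputable def pl (r : ℕ) : Bool := band (Nat.beq (C.τ r) r) (ilt 0 (C.fT T r))
/-- the check of the numerical data -/
noncomputable def chk (θ a : ℕ) (cw dt : ℕ → ℕ) : Bool := allLt T.n fun r =>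
  @Bool.rec (fun _ => Bool) (Nat.beq (dt r) 0) (band (Nat.beq (C.aT T r) (Nat.mul 2 a))
    (band (Nat.beq (dt r) (Nat.succ (C.dT T r))) (band (Nat.blt (cw r) T.n) (band (Nat.beq (C.τ (cw r)) (cw r))
      (band (ieq (T.pair r (cw r)) 1) (Nat.beq (cw r) θ || ieq (T.pair θ (cw r)) 1)))))) (C.pl T r)

variable {T}

theorem fT_eq (A : Agree D T) {r : ℕ} (hr : r < D.nroots) : C.fT T r = fv D C.w r := by
  rw [fT, sumLt_eq, fv, A.l_eq]
  exact Finset.sum_congr rfl fun i hi => by rw [A.car_eq i (Finset.mem_range.1 hi) r hr]; rfl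

end TwN

theorem mkTS_ee (k : Fin D.nroots) : (mkTS hD hL C σ φ hσ h2 h3 hc).ee k = C.eT k := by
  rw [TS.ee, TwN.eT]
  split_ifs with h
  · have : Nat.beq (C.τ k) k = true := by
      rw [Nat.beq_eq]; exact congrArg Fin.val h
    rw [this]
  · have : Nat.beq (C.τ k) k = false := by
      rw [← Bool.not_eq_true, Nat.beq_eq]; exact fun e => h (Fin.ext e)
    rw [this]; rfl

theorem mainN {T : Tab} (A : Agree D T) {V : Type*} [AddCommGroup V] [Module ℂ V] [FiniteDimensional ℂ V]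
    (ρ : Representation ℂ (mkTS hD hL C σ φ hσ h2 h3 hc).Fix V)
    (c0 : ∀ r < D.nroots, ∀ δ < D.nroots, C.τ r = r → C.τ δ = δ → D.pairing r δ = 0 →
      ∃ δ' < D.nroots, D.pairing δ δ' = 1 ∧ D.pairing r δ' = 0)
    (c1 : ∀ r < D.nroots, ∀ s < D.nroots, C.τ r = r → C.τ s = s → D.pairing r s = -1 →
      ∃ δ < D.nroots, C.τ δ = δ ∧ D.pairing r δ = 0 ∧ D.pairing s δ = 1)
    (θ : Fin D.nroots) {a : ℕ} {cw dt : ℕ → ℕ} (hθ : C.pl T θ = true) (hk : C.chk T θ a cw dt = true)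
    (hne : ∃ t, ρ ((mkTS hD hL C σ φ hσ h2 h3 hc).xx θ t) ≠ 1) {q : ℕ}
    (hq : Nat.card (φ.eqLocusField (RingHom.id K)) = q) :
    (q - 1) * (q + 1) * (q ^ a * 2) ≤ q * finrank ℂ V ∨
    (finrank ℂ (Md.Fix ρ ((mkTS hD hL C σ φ hσ h2 h3 hc).Y θ)) + (q - 1) * q ^ a = finrank ℂ V ∧
      (q - 1) * ((((List.range D.nroots).map dt).filter (· ≠ 0)).map fun d => q ^ (d - 1)).sum ≤ finrank ℂ V) := by
  have hpl : ∀ r : Fin D.nroots, C.pl T r = true ↔ (mkTS hD hL C σ φ hσ h2 h3 hc).τ r = r ∧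
      0 < (mkTS hD hL C σ φ hσ h2 h3 hc).f0 ((rs D).cf r) := fun r => by
    rw [TwN.pl, band_eq_true, Nat.beq_eq, ilt_iff, C.fT_eq A r.2, ← fL_cf, Fin.ext_iff]; rfl
  have hk' := fun r : Fin D.nroots => allLt_spec hk r (by rw [A.n_eq]; exact r.2)
  have hk1 : ∀ r : Fin D.nroots, C.pl T r = true → C.aT T r = 2 * a ∧ dt r = C.dT T r + 1 ∧ cw r < D.nroots ∧
      C.τ (cw r) = cw r ∧ T.pair r (cw r) = 1 ∧ (cw r = θ ∨ T.pair θ (cw r) = 1) := fun r h => by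
    have := hk' r
    rw [h] at this
    simp only [band_eq_true, Nat.beq_eq, Nat.blt_eq, ieq_iff, Bool.or_eq_true, A.n_eq] at this
    exact this
  have hf : Finite (D.group K) := inferInstance
  refine hq ▸ ((mkTS hD hL C σ φ hσ h2 h3 hc).main ρ (fun r δ hr hδ h => ?_) (fun r s hr hs h => ?_)
    ((hpl θ).1 hθ).1 ((hpl θ).1 hθ).2 (fun r hr h => ?_) (a := a) (fun r hr h => ?_) hne).imp_right
    fun h => ⟨h.1, le_of_eq_of_le ?_ h.2⟩
  · obtain ⟨δ', h0, h1⟩ := c0 r r.2 δ δ.2 (congrArg Fin.val hr) (congrArg Fin.val hδ) h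
    exact ⟨⟨δ', h0⟩, h1⟩
  · obtain ⟨δ, h0, h1, h2⟩ := c1 r r.2 s s.2 (congrArg Fin.val hr) (congrArg Fin.val hs) h
    exact ⟨⟨δ, h0⟩, Fin.ext h1, h2⟩
  · obtain ⟨-, -, a1, a2, a3, a4⟩ := hk1 r ((hpl r).2 ⟨hr, h⟩)
    rw [A.pair r.2 a1] at a3
    rw [A.pair θ.2 a1] at a4
    exact ⟨⟨_, a1⟩, Fin.ext a2, a3, a4.imp_left Fin.ext⟩
  · rw [← (hk1 r ((hpl r).2 ⟨hr, h⟩)).1, TwN.aT, A.n_eq, nsum_eq]
    refine Finset.sum_congr rfl fun k _ => ?_
    rw [cnd_eq, mkTS_ee]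
    refine if_congr ?_ rfl rfl
    rw [band_eq_true, Nat.beq_eq, ieq_iff, A.pair r.2 k.2, Fin.ext_iff]; rfl
  · have hd : ∀ r : Fin D.nroots, (mkTS hD hL C σ φ hσ h2 h3 hc).dd r = C.dT T r := fun r => by
      rw [TwN.dT, A.n_eq, nsum_eq]
      refine Finset.sum_congr rfl fun k _ => ?_
      rw [cnd_eq, mkTS_ee]
      refine if_congr ?_ rfl rfl
      rw [band_eq_true, band_eq_true, band_eq_true, Nat.beq_eq, ieq_iff, ilt_iff, ilt_iff, A.pair r.2 k.2,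
        C.fT_eq A r.2, C.fT_eq A k.2, ← fL_cf, ← fL_cf, Fin.ext_iff]; rfl
    have key : ∀ (c x : ℕ) (L : List ℕ), c * ((L.filter (· ≠ 0)).map fun d => x ^ (d - 1)).sum =
        (L.map fun d => if d = 0 then 0 else c * x ^ (d - 1)).sum := fun c x L => by
      induction L with
      | nil => simp
      | cons d L ih => by_cases h : d = 0 <;> simp [h, mul_add, ← ih]
    have key2 : ∀ (n : ℕ) (f : ℕ → ℕ), ((List.range n).map f).sum = ∑ i ∈ Finset.range n, f i := fun _ _ => rfl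
    rw [key, List.map_map, key2, ← Fin.sum_univ_eq_sum_range]
    refine Finset.sum_congr rfl fun r _ => ?_
    rw [Function.comp_apply, hd, if_congr (hpl r).symm rfl rfl]
    by_cases h : C.pl T r = true
    · rw [(hk1 r h).2.1, if_pos h, if_neg (Nat.succ_ne_zero _)]; rfl
    · have := hk' r
      rw [Bool.not_eq_true] at h
      rw [h] at this
      rw [if_pos (Nat.eq_of_beq_eq_true this), if_neg (by simp [h])]

end Cfsg.Agent.H37.Md
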