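import Cfsg.Agent.H37.MdK
import Cfsg.Agent.H38.Order
import Cfsg.Agent.H38.Simple
import Cfsg.Agent.H39.PoinData
import Cfsg.Agent.H5.Central
import Cfsg.Agent.H65.SpLS
set_option autoImplicit false

/-! The degree bound for the simply laced Chevalley groups. -/

namespace Cfsg.Agent.H37.Md

open H38 H39 Module Cfsg.Lie Chev

theorem dvd_index {G : Type*} [Group G] [Finite G] {n : ℕ} (ρ : Representation ℂ G (Fin n → ℂ))
    (hρ : ρ.IsIrreducible) {Z P : Subgroup G} (hP : P ≤ Subgroup.normalizer (Z : Set G)) :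
    n ∣ P.index * (Nat.card Z * finrank ℂ (Fix ρ Z)) := by
  classical
  have := Fintype.ofFinite G
  have hw : ∀ {x y : G}, (x : G ⧸ P) = y → ∀ g, x⁻¹ * g * x ∈ Z ↔ y⁻¹ * g * y ∈ Z := fun {x y} h g => by
    have := Subgroup.mem_normalizer_iff''.1 (hP (QuotientGroup.eq.1 h)) (x⁻¹ * g * x)
    rw [this]; simp [mul_assoc]
  let f : G → ℂ := fun g => ∑ c : G ⧸ P, if c.out⁻¹ * g * c.out ∈ Z then 1 else 0
  have hf : IsClassFunction G f := fun g h => by
    refine Fintype.sum_equiv (MulAction.toPerm h⁻¹) _ _ fun c => if_congr ?_ rfl rfl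
    rw [hw (x := (MulAction.toPerm h⁻¹ c).out) (y := h⁻¹ * c.out) (by
      rw [QuotientGroup.out_eq', MulAction.toPerm_apply, ← smul_eq_mul, ← MulAction.Quotient.smul_mk,
        QuotientGroup.out_eq'])]
    simp [mul_assoc]
  have h1 := H5.isIntegral_sum_mul_div_degree ⟨n, ρ, hρ, rfl⟩ hf fun g => IsIntegral.sum _ fun c _ => by
    split_ifs
    exacts [isIntegral_one, isIntegral_zero]
  have hc : (Nat.card Z : ℂ) ≠ 0 := Nat.cast_ne_zero.2 Nat.card_pos.ne'
  letI := invertibleOfNonzero hc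
  have h2 := Representation.card_inv_mul_sum_char_eq_finrank (ρ.comp Z.subtype)
  rw [show Representation.invariants (ρ.comp Z.subtype) = Fix ρ Z from Submodule.ext fun v =>
    ⟨fun h y hy => h ⟨y, hy⟩, fun h y => h y y.2⟩, inv_mul_eq_iff_eq_mul₀ hc] at h2
  have h3 : ∑ g, f g * ρ.character g = (P.index * (Nat.card Z * finrank ℂ (Fix ρ Z)) : ℕ) := by
    simp only [f, Finset.sum_mul]
    rw [Finset.sum_comm, Finset.sum_congr rfl (g := fun _ => (Nat.card Z * finrank ℂ (Fix ρ Z) : ℂ)) fun c _ => ?_]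
    · simp [Subgroup.index, Nat.card_eq_fintype_card]
    · rw [← h2, ← Equiv.sum_comp (MulAut.conj c.out).toEquiv]
      simp only [ite_mul, one_mul, zero_mul]
      rw [← Finset.sum_filter]
      refine (Finset.sum_subtype _ (p := (· ∈ Z)) (fun x => by simp [mul_assoc]) _).trans
        (Finset.sum_congr rfl fun z _ => ρ.char_conj _ _)
  rw [h3, ρ.char_one, finrank_fin_fun] at h1
  refine H5.dvd_of_isIntegral_div ?_ h1
  rintro rfl
  have := H5.nontrivial_of_isIrreducible ρ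
  exact not_subsingleton (Fin 0 → ℂ) inferInstance

theorem inj_of_mono {n : ℕ} {f : ℕ → ℤ} (h : ∀ r, r + 1 < n → f r < f (r + 1)) {r s : ℕ} (hr : r < n) (hs : s < n)
    (e : f r = f s) : r = s := by
  have key : ∀ s < n, ∀ r < s, f r < f s := fun s => by
    induction s with
    | zero => omega
    | succ s ih =>
      intro hs r hr
      rcases Nat.lt_succ_iff_lt_or_eq.1 hr with h1 | rfl
      · exact (ih (by omega) r h1).trans (h s hs)
      · exact h r hs
  rcases lt_trichotomy r s with h1 | h1 | h1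
  · exact absurd e (key s hs r h1).ne
  · exact h1
  · exact absurd e (key r hr s h1).ne'

variable {D : ChevalleyDatum}

/-- the trivial twist -/
def triv (w : ℕ → ℤ) (h : ∀ r, r + 1 < D.nroots → fv D w r < fv D w (r + 1)) : TwN D where
  τ r := r
  γ _ := 1
  m := 2
  rep r := r
  w := w
  hm := .inl rfl
  τ_lt _ h := h
  γ_neg _ _ := rfl
  τ_p _ _ _ _ := rfl
  τ2 _ _ _ := ⟨rfl, rfl⟩
  τ3 _ _ _ := ⟨rfl, rfl⟩
  γ_fix _ _ _ := rfl
  orth _ _ h := absurd rfl h
  rep_mem _ _ := .inl rfl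
  rep_τ _ _ := rfl
  f_τ _ _ := rfl
  f_inj _ hr _ hs _ _ := inj_of_mono h hr hs

theorem mono_of_chk {T : Tab} (A : Agree D T) {w : ℕ → ℤ} (h : (allLt (T.n - 1) fun r =>
    ilt (sumLt T.l fun i => Int.mul (w i) (T.car i r)) (sumLt T.l fun i => Int.mul (w i) (T.car i (r + 1)))) = true)
    (r : ℕ) (hr : r + 1 < D.nroots) : fv D w r < fv D w (r + 1) := by
  have := allLt_spec h r (by rw [A.n_eq]; omega)
  have e : ∀ s < D.nroots, (sumLt T.l fun i => Int.mul (w i) (T.car i s)) = fv D w s := fun s hs => by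
    rw [sumLt_eq, fv, A.l_eq]
    exact Finset.sum_congr rfl fun i hi => by rw [A.car_eq i (Finset.mem_range.1 hi) s hs]; rfl
  rwa [ilt_iff, e r (by omega), e _ hr] at this

theorem split_bound [Chev D] (hD : IsChev D) (hL : ∀ r, (pairD D).Long r)
    (hQ : ∀ r s, s ≠ r → s ≠ (rs D).neg r → ∃ q, (pairD D).p q s = 1 ∧ (pairD D).p q r = 0)
    (hD2 : ¬(D = chevG2 ∨ D = chevB2)) {T : Tab} (A : Agree D T) {w : ℕ → ℤ}
    (hw : ∀ r, r + 1 < D.nroots → fv D w r < fv D w (r + 1)) (θ : Fin D.nroots) {a : ℕ} {cw dt : ℕ → ℕ}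
    (hθ : (triv w hw).pl T θ = true) (hk : (triv w hw).chk T θ a cw dt = true) {J : Set (Fin D.rank)}
    (hJ : ∀ j : Fin D.rank, 0 ≤ D.cartan j θ ∧ (j ∈ J → D.cartan j θ = 0))
    {F : Type*} [Field F] [Finite F] {I : ℕ}
    (hI : (RD hD).poin Set.univ (Nat.card F) = I * (RD hD).poin J (Nat.card F)) {k : ℕ}
    (ρ : Representation ℂ (D.group F) (Fin k → ℂ)) (hρ : ρ.IsIrreducible) (h2 : 2 ≤ k) :
    (Nat.card F - 1) * (Nat.card F + 1) * (Nat.card F ^ a * 2) ≤ Nat.card F * k ∨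
    (k ∣ I * (Nat.card F - 1) * Nat.card F ^ (a + 1) ∧ (Nat.card F - 1) *
      ((((List.range D.nroots).map dt).filter (· ≠ 0)).map fun d => Nat.card F ^ (d - 1)).sum ≤ k) := by
  let S := mkTS hD hL (triv w hw) (MonoidHom.id (D.group F)) (RingHom.id F) (fun r t => by simp [triv])
    (fun _ _ => rfl) (fun _ _ => rfl) (fun _ _ h => absurd rfl h)
  have hsym := S.p_symm
  have hs := (isSimpleGroup_group hD F fun h => absurd h hD2).1
  have hx : S.X.x θ 1 ≠ 1 := fun h => one_ne_zero (S.x_eq_one h)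
  have := mainN hD hL (triv w hw) (MonoidHom.id (D.group F)) (RingHom.id F) (fun r t => by simp [triv])
    (fun _ _ => rfl) (fun _ _ => rfl) (fun _ _ h => absurd rfl h) A (ρ.comp S.Fix.subtype)
    (fun r hr δ hδ _ _ h => ?_) (fun r hr s hs _ _ h => ?_) θ hθ hk ⟨1, ?_⟩ (q := Nat.card F) ?_
  · rw [finrank_fin_fun] at this
    refine this.imp_right fun h => ⟨?_, h.2⟩
    have h1 := dvd_index ρ hρ (Z := S.X.US {θ}) (P := (mgs hD F).PJ J) ?_
    · have h3 : ((mgs hD F).PJ J).index = I := by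
        have e1 := ((mgs hD F).PJ J).index_mul_card
        rw [card_group hD, hI, RG.sub_PJ, Nat.card_congr (Subgroup.subgroupOfEquivOfLe
          (mg_grp hD F ▸ (mg hD F).PJ_le_grp J)).toEquiv] at e1
        rw [RG.sub_PJ]
        refine Nat.eq_of_mul_eq_mul_right (Nat.card_pos (α := (mg hD F).PJ J)) (e1.trans ?_)
        rw [card_parabolic]; ring
      obtain ⟨f, hf⟩ := S.Pr.lin θ
      have h4 : Nat.card (S.X.US {θ}) = Nat.card F := by
        rw [S.X.card_US S.sep (S.cl_orb (f := f) (r := θ) (Set.singleton_subset_iff.2 (S.self_mem θ))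
          (by rintro _ rfl; rw [← hf, S.Pr.self]; omega)), Set.ncard_singleton, pow_one]
      have h5 : Fix (ρ.comp S.Fix.subtype) (S.Y θ) = Fix ρ (S.X.US {θ}) := by
        ext v
        rw [← S.orb_fix (r := θ) rfl]
        exact ⟨fun h y hy => h ⟨y, rfl⟩ hy, fun h y hy => h y hy⟩
      have h6 := h.1
      rw [h3, h4, ← h5] at h1
      refine (Nat.dvd_add_right h1).1 ⟨I * Nat.card F, ?_⟩
      conv_rhs => rw [← h6]
      ring
    · rw [RG.PJ_eq]
      refine sup_le (fun g hg => ((mgs hD F).acts_of_mem_H hg).mem_normalizer (one_mem _) fun _ => Iff.rfl)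
        (S.X.US_le_normalizer fun r hr s hs => ?_)
      obtain rfl : s = θ := hs
      have : 0 ≤ S.Pr.p r s := by
        rw [hsym]
        change 0 ≤ D.pairing s r
        rw [H40.pairing_eq_vec _ r.2, Finset.sum_range]
        refine Finset.sum_nonneg fun j _ => ?_
        have e : D.pairing s (D.simple j) = D.cartan j s :=
          (hsym s ((rs D).sp j)).trans (pairing_simple j.2 s)
        rw [e]
        rcases hr with hr | hr
        · exact mul_nonneg (hr j) (hJ j).1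
        · by_cases hj : j ∈ J
          · rw [(hJ j).2 hj, mul_zero]
          · rw [show vec D r j = 0 from hr j hj, zero_mul]
      exact ⟨S.Pr.ne_neg_of (by omega), fun k hk => absurd hk ((hL r).not_comb this)⟩
  · obtain ⟨q, h1, h2⟩ := hQ ⟨r, hr⟩ ⟨δ, hδ⟩ (fun e => by
      rw [show δ = r from congrArg Fin.val e, pairing_self r hr] at h; omega)
      ((pairD D).ne_neg_of (show -1 ≤ D.pairing r δ by omega))
    exact ⟨q, q.2, (hsym ⟨δ, hδ⟩ q).trans h1, (hsym ⟨r, hr⟩ q).trans h2⟩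
  · obtain ⟨q, h1, h2⟩ := hQ ⟨r, hr⟩ ⟨s, hs⟩ (fun e => by
      rw [show s = r from congrArg Fin.val e, pairing_self r hr] at h; omega)
      ((pairD D).ne_neg_of (show -1 ≤ D.pairing r s by omega))
    exact ⟨q, q.2, rfl, (hsym ⟨r, hr⟩ q).trans h2, (hsym ⟨s, hs⟩ q).trans h1⟩
  · change ρ (S.xx θ 1 : D.group F) ≠ 1
    rw [S.xx_val rfl]
    refine H65.ne_one_of_irr ρ hρ (by rwa [finrank_fin_fun]) (fun N hN => hN.eq_bot_or_eq_top.imp_left
      fun e => e.le.trans bot_le) _ fun h => hx ?_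
    rcases (Subgroup.center (D.group F)).normal_of_characteristic.eq_bot_or_eq_top with e | e
    · rwa [e] at h
    · exact absurd ⟨⟨fun a b => ((Subgroup.mem_center_iff.1 (e ▸ Subgroup.mem_top a)) b).symm⟩⟩
        (isSimpleGroup_group hD F fun h => absurd h hD2).2
  · rw [show (RingHom.id F).eqLocusField (RingHom.id F) = ⊤ from eq_top_iff.2 fun _ _ => rfl]
    exact Nat.card_congr Subfield.topEquiv.toEquiv

/-- the arithmetic of the last step -/
theorem excl {q M l j h a n : ℕ} (hq : IsPrimePow q) (hj : j < q) (hj0 : 0 < j) (hjl : j ≤ l) (hn : n + j = q * M)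
    (hd : n ∣ M * (q ^ h - 1) * q ^ (a + 1)) {R : ℕ} (hR : q * n + 1 = q ^ h + R) (hR0 : 0 < R) : n ≤ l ^ 2 * R := by
  obtain ⟨p, e, hp, he, rfl⟩ := (isPrimePow_nat_iff q).1 hq
  have h1 : n ∣ (j * ((p ^ e) ^ h - 1)) * (p ^ e) ^ a := by
    refine (Nat.dvd_add_right (b := _) (Dvd.intro (((p ^ e) ^ h - 1) * (p ^ e) ^ a) rfl)).1 ?_
    convert hd using 1
    rw [pow_succ, ← mul_assoc, ← add_mul, ← add_mul, hn]; ring
  have h2 : Nat.gcd n ((p ^ e) ^ a) ∣ j := by
    obtain ⟨i, -, hi⟩ := (Nat.dvd_prime_pow hp).1 (show Nat.gcd n ((p ^ e) ^ a) ∣ p ^ (e * a) by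
      rw [pow_mul]; exact Nat.gcd_dvd_right _ _)
    have h3 := Nat.gcd_dvd_left n ((p ^ e) ^ a)
    rw [hi] at h3 ⊢
    rcases le_total i e with h4 | h4
    · exact (Nat.dvd_add_right h3).1 (hn ▸ (pow_dvd_pow p h4).mul_right M)
    · exact absurd (Nat.le_of_dvd hj0 ((Nat.dvd_add_right ((pow_dvd_pow p h4).trans h3)).1
        (hn ▸ Dvd.intro M rfl))) (by omega)
  have h3 : n ∣ j * ((p ^ e) ^ h - 1) * j :=
    (dvd_mul_gcd_of_dvd_mul h1).trans (Nat.mul_dvd_mul_left _ h2)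
  have h4 : n ∣ j * j * R := by
    refine (Nat.dvd_add_right h3).1 ⟨j * j * p ^ e, ?_⟩
    have : 1 ≤ (p ^ e) ^ h := Nat.one_le_pow _ _ (pow_pos hp.pos _)
    zify [this] at hR ⊢
    linear_combination (-j * j : ℤ) * hR
  exact (Nat.le_of_dvd (by positivity) h4).trans (by rw [sq]; gcongr)

end Cfsg.Agent.H37.Md
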