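import Cfsg.Agent.H37.MdK
set_option autoImplicit false

/-! The degree bound when the long roots form a system of type `A₂`. -/

namespace Cfsg.Agent.H37.Md

open H38 H39 Module

theorem LR.gen_pair {R G F : Type*} [Group G] [Field F] {D : LR R G F} {r s : R} (hr : D.L r) (hs : D.L s)
    (h : D.ip s r = 1) : D.Gen r ((2 : ℤ) • D.ip s - D.ip r) :=
  ⟨sub_mem (D.A.smul_mem 2 (D.ip_mem hs)) (D.ip_mem hr), by simp [h, D.ip_self hr], fun γ hγ => by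
    simp only [Pi.sub_apply, Pi.smul_apply, smul_eq_mul, hγ]; omega⟩

theorem LR.three {R G F V : Type*} [Group G] [Field F] {D : LR R G F} [AddCommGroup V] [Module ℂ V]
    {ρ : Representation ℂ G V} [Fintype R] [Finite G] [FiniteDimensional ℂ V] [Finite F] {θ β b : R}
    (hθ : D.L θ) (hβ : D.L β) (hb : D.L b) (h1 : D.ip θ β = 1) (h2 : D.ip θ b = 1)
    (h3 : D.ip b β = -1) (c0 : ∀ δ, D.L δ → D.ip b δ ≠ 0) {a : ℕ}
    (ha : ∀ r, r = θ ∨ r = b → ∑ γ ∈ Finset.univ.filter fun γ => D.ip r γ = 1, D.e γ = 2 * a)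
    (hy : ∀ c : F, c ≠ 0 → ∃ y : G, (∀ t, Commute y (D.x b t)) ∧ (∀ t, Commute y (D.x θ t)) ∧ ∀ u,
      ∀ H : Subgroup G, (∀ k, 1 ≤ D.ip θ k → 0 ≤ D.ip b k → k ≠ b → D.Y k ≤ H) →
        (D.x b (c * u))⁻¹ * (D.x β u)⁻¹ * (y⁻¹ * D.x β u * y) ∈ H)
    (hne : ∃ t, ρ (D.x θ t) ≠ 1) :
    (Nat.card F - 1) * (Nat.card F + 1) * (Nat.card F ^ a * 2) ≤ Nat.card F * finrank ℂ V ∨
    (Nat.card F - 1) * (Nat.card F ^ (a + 1) + Nat.card F ^ a + Nat.card F) ≤ Nat.card F * finrank ℂ V := by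
  classical
  have hs : ∀ r, r = θ ∨ r = b → D.L r → ∀ g, D.Gen r g → ∑ γ ∈ D.Lam r g, D.e γ = a := fun r h hr g hg => by
    have := sum_Lam hr hg
    rw [ha r h] at this
    omega
  have h2' : D.ip b θ = 1 := by rw [D.ip_symm hb hθ, h2]
  have h1' : D.ip β θ = 1 := by rw [D.ip_symm hβ hθ, h1]
  obtain ⟨m, hm, e1, e2, e3⟩ := exists_mult (ρ := ρ) hθ (gen_pair hθ hb h2') hβ h1 hne
  rw [hs θ (.inl rfl) hθ _ (gen_pair hθ hb h2')] at e1 e2 e3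
  by_cases hm2 : 2 ≤ m
  · exact .inl (le_trans (by gcongr) e3)
  obtain rfl : m = 1 := by omega
  have hQ : ∀ γ, D.ip θ γ = 1 → D.Y γ ≤ St ρ (Fix ρ (D.Y θ)) := fun γ h y hy v hv a ha => by
    simpa using act_comm (c := 1) (cm_Q_r hθ h v _ (inv_mem hy) a ha) (by rw [one_smul]; exact hv a ha)
  obtain ⟨ψ0, hψ0⟩ := H65.exists_addChar (F := F) (K := ℂ)
    (Nat.cast_ne_zero.2 (CharP.ringChar_ne_zero_of_finite F))
  have e4 : ∀ ψ : AddChar F ℂ, ψ ≠ 1 → Nat.card F * finrank ℂ (Fix ρ (D.Y θ) ⊓ Eg ρ (D.x β) ψ : Submodule ℂ V) =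
      Nat.card F ^ a * 1 := fun ψ hψ => by
    rw [← e1 ψ hψ, dim_conj hθ hβ h1 hψ hψ, step hβ h1' hψ le_rfl (Q_le_St hβ h1' ψ) (Q_le_St hβ (ip_st hβ h1') ψ),
      D.e_long hθ, pow_one, inf_comm]
  have e5 := (dim_split (ρ := ρ) hβ (hQ β h1)).2
    fun ψ hψ => Nat.eq_of_mul_eq_mul_left Nat.card_pos ((e4 ψ hψ).trans (e4 ψ0 hψ0).symm)
  have e6 := (dim_split (ρ := ρ) hb (U := Fix ρ (D.Y θ) ⊓ Fix ρ (D.Y β)) (d := 1) (fun y hy v hv =>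
    ⟨hQ b h2 hy v hv.1, fun a ha => ?_⟩)).1 fun ψ hψ => ?_
  · right
    have e7 := e4 ψ0 hψ0
    rw [← e2, ← e5, pow_succ]
    generalize Nat.card F - 1 = p at *
    rw [mul_one] at e7 ⊢
    nlinarith [Nat.mul_le_mul_left (Nat.card F) (le_of_add_le_right e6)]
  · refine (act_comm (c := 1) (cm_of (D.ip_mem hθ) (by omega) (by omega) (fun k ⟨i, j, hi, hj, e⟩ => ?_) _
      (inv_mem hy) a ha) (by rw [one_smul]; exact hv.2 a ha)).trans (one_smul _ _)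
    have := e _ (D.ip_mem hθ)
    rw [h1, h2] at this
    rw [eq_of_two hθ (k := k) (by omega)]
    exact hv.1
  have hg := gen_pair hb hθ h2
  have hl : ∀ g, D.Gen b g → finrank ℂ (D.W ρ b ψ (D.Lam b g)) = 1 := fun g hg => by
    have := e1 ψ hψ
    rw [dim_conj hθ hb h2 hψ hψ, dim_Eg hb hψ hg, hs b (.inr rfl) hb g hg] at this
    exact Nat.eq_of_mul_eq_mul_left (pow_pos Nat.card_pos _) this
  have hv0 : ∀ k, ((2 : ℤ) • D.ip θ - D.ip b) k = 2 * D.ip θ k - D.ip b k := fun k => rfl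
  have hst := stab_long hb hψ hl (fun δ h h' => absurd h' (c0 δ h)) hg (by rw [hv0]; omega) h3 hβ
  have := Fintype.ofFinite F
  have hd := dim_decomp ρ (D.x_add hβ) fun t => hst (x_mem hβ t)
  rw [hl _ hg] at hd
  obtain ⟨μ, -, hμ⟩ := Finset.exists_ne_zero_of_sum_ne_zero (hd ▸ one_ne_zero)
  obtain ⟨v, hv, hv1⟩ := Submodule.exists_mem_ne_zero_of_ne_bot
    (p := D.W ρ b ψ (D.Lam b ((2 : ℤ) • D.ip θ - D.ip b)) ⊓ Eg ρ (D.x β) μ) fun e => hμ (by rw [e, finrank_bot])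
  have hf : ∀ k, 1 ≤ D.ip θ k → 0 ≤ D.ip b k → k ≠ b → D.Y k ≤ Sv ρ v := fun k a1 a2 a3 => by
    have a4 := D.ip_le hb k a3
    rcases a2.eq_or_lt with a2 | a2
    · exact fv_zero hb hψ hl (fun δ h h' => absurd h' (c0 δ h)) hg (by rw [hv0]; omega) a2.symm hv.1
    · exact fv_one hb hg (by rw [hv0]; omega) a2 hv.1
  obtain ⟨c, hc⟩ := H65.exists_mulShift hψ μ
  obtain ⟨y, y1, y2, y3⟩ : ∃ y : G, (∀ t, Commute y (D.x b t)) ∧ (∀ t, Commute y (D.x θ t)) ∧ ∀ u,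
      (D.x b (-c * u))⁻¹ * (D.x β u)⁻¹ * (y⁻¹ * D.x β u * y) ∈ Sv ρ v := by
    by_cases h : c = 0
    · refine ⟨1, fun _ => Commute.one_left _, fun _ => Commute.one_left _, fun u => ?_⟩
      have := D.x_add hb 0 0
      rw [add_zero, left_eq_mul] at this
      simp [h, this]
    · obtain ⟨y, y1, y2, y3⟩ := hy _ (neg_ne_zero.2 h)
      exact ⟨y, y1, y2, fun u => y3 u _ hf⟩
  refine Nat.one_le_iff_ne_zero.2 fun e => hv1 ?_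
  have : ρ y v ∈ Fix ρ (D.Y θ) ⊓ Fix ρ (D.Y β) ⊓ Eg ρ (D.x b) ψ := by
    refine ⟨⟨fun z hz => ?_, fun z hz => ?_⟩, (mem_Eg ρ).2 fun t => ?_⟩
    · obtain ⟨t, rfl⟩ := (D.mem_Y hθ z).1 hz
      rw [← rho_mul, ← (y2 t).eq, rho_mul, hf θ (by rw [D.ip_self hθ]; omega) (by omega)
        (fun e => by rw [e, D.ip_self hb] at h2; omega) hz]
    · obtain ⟨u, rfl⟩ := (D.mem_Y hβ z).1 hz
      rw [← rho_mul, show D.x β u * y = y * (D.x β u * (D.x b (-c * u) *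
        ((D.x b (-c * u))⁻¹ * (D.x β u)⁻¹ * (y⁻¹ * D.x β u * y)))) by group, rho_mul, rho_mul, rho_mul, y3 u,
        (mem_W.1 hv.1).2, map_smul, (mem_Eg ρ).1 hv.2, smul_smul, hc, ← AddChar.map_add_eq_mul]
      simp [mul_comm]
    · rw [← rho_mul, ← (y1 t).eq, rho_mul, (mem_W.1 hv.1).2, map_smul]
  rw [Submodule.finrank_eq_zero.1 e, Submodule.mem_bot] at this
  simpa [← rho_mul] using congrArg (ρ y⁻¹) this

namespace TS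

variable {ι R : Type} [Fintype ι] [DecidableEq ι] {P : RS ι R} {K : Type*} [Field K] {G : Type*} [Group G]
  (T : TS P K G)

theorem eq_sub {θ b k : R} (h : T.Pr.p θ b = 1) (h1 : T.Pr.p θ k = 1) (h2 : T.Pr.p b k = -1) : k = T.sub θ b :=
  T.eq_of_two (by rw [T.p_symm, T.p_sub h, T.p_symm, h1, T.p_symm, h2]; omega)

theorem ac_n {δ r : R} (h : T.Pr.p δ r = 1) : ∃ η, T.φ η = η ∧ η ≠ 0 ∧ ∀ c, c ≠ 0 → ∀ u,
    T.X.n δ c * T.X.x r u * (T.X.n δ c)⁻¹ = T.X.x (T.sub r δ) (η * c⁻¹ * u) := by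
  obtain ⟨η, hη, e⟩ := T.n_conj δ r (T.sub r δ) h (T.sub_cf _ _ (by rw [T.p_symm, h]))
  exact ⟨η, by rcases hη with rfl | rfl <;> simp, by rcases hη with rfl | rfl <;> simp, e⟩

theorem p_orb {r : R} (h : T.τ r = r) {s a : R} (ha : a ∈ T.orb s) : T.Pr.p r a = T.Pr.p r s := by
  obtain ⟨f, hf⟩ := T.Pr.lin r
  rw [hf, hf]
  exact T.f_orb (fun k => by rw [← hf, ← hf]; conv_lhs => rw [← h, T.τ_p]) ha

theorem nm_n (hm : T.m = 3) (hγ : ∀ r, T.φ (T.γ r) = T.γ r) {θ β b s : R} (hθ : T.τ θ = θ) (hb : T.τ b = b)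
    (hs : T.τ s ≠ s) (h1 : T.Pr.p θ β = 1) (h2 : T.Pr.p θ b = 1) (h3 : T.Pr.p b β = -1) (h4 : T.Pr.p θ s = 0)
    (h5 : T.Pr.p b s = 1) : ∃ E, T.φ E = E ∧ E ≠ 0 ∧ ∀ c, c ≠ 0 → ∀ u, T.nm (T.X.n s c) *
      T.X.x b (E * (c * T.φ c * T.φ (T.φ c)) * u) * (T.nm (T.X.n s c))⁻¹ = T.X.x β u := by
  have m1 : T.τ s ∈ T.orb s := .inr (.inl rfl)
  have m2 : T.τ (T.τ s) ∈ T.orb s := .inr (.inr rfl)
  have a1 : T.Pr.p b (T.τ (T.τ s)) = 1 := by rw [T.p_orb hb m2, h5]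
  have a2 : T.Pr.p (T.sub b (T.τ (T.τ s))) (T.τ s) = 1 := by
    rw [T.p_symm, T.p_sub a1, T.p_symm, T.p_orb hb m1, h5, T.τ_p, T.orth s hs]; rfl
  have a3 : T.Pr.p (T.sub (T.sub b (T.τ (T.τ s))) (T.τ s)) s = 1 := by
    rw [T.p_symm, T.p_sub a2, T.p_sub a1, T.p_symm, h5, T.orth s hs, T.orth2 (ne2 hs hm)]; rfl
  obtain ⟨η1, b1, c1, e1⟩ := T.ac_n ((T.p_symm _ _).trans a1)
  obtain ⟨η2, b2, c2, e2⟩ := T.ac_n ((T.p_symm _ _).trans a2)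
  obtain ⟨η3, b3, c3, e3⟩ := T.ac_n ((T.p_symm _ _).trans a3)
  have g1 := T.γ_ne s
  have g2 := T.γ_ne (T.τ s)
  refine ⟨T.γ s * T.γ s * T.γ (T.τ s) / (η1 * η2 * η3), by simp [hγ, b1, b2, b3], by simp [g1, g2, c1, c2, c3],
    fun c hc u => ?_⟩
  have d1 := (map_ne_zero T.φ).2 hc
  have d2 := (map_ne_zero T.φ).2 d1
  rw [nm, if_neg (by omega), T.σ_n, T.σ_n, map_mul, hγ, mul_inv_rev, mul_inv_rev, mul_assoc, mul_assoc,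
    ← mul_assoc (T.X.x b _), ← mul_assoc (T.X.n (T.τ (T.τ s)) _), ← mul_assoc (T.X.n (T.τ (T.τ s)) _),
    e1 _ (by simp [g1, g2, d2]), mul_assoc, ← mul_assoc (T.X.x _ _), ← mul_assoc (T.X.n (T.τ s) _),
    ← mul_assoc (T.X.n (T.τ s) _), e2 _ (by simp [g1, d1]), ← mul_assoc, e3 _ hc, T.eq_sub h2 h1 h3,
    ← T.eq_sub (k := T.sub (T.sub (T.sub b (T.τ (T.τ s))) (T.τ s)) s) h2 (by
      rw [T.p_sub a3, T.p_sub a2, T.p_sub a1, T.p_orb hθ m1, T.p_orb hθ m2, h2, h4]; rfl) (by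
      rw [T.p_sub a3, T.p_sub a2, T.p_sub a1, T.p_orb hb m1, a1, T.Pr.self, h5]; rfl)]
  congr 1
  field_simp

theorem comb_p (θ b : R) {r l k : R} (h : P.Comb r l k) : ∃ i j : ℤ, 0 < i ∧ 0 < j ∧
    T.Pr.p θ k = i * T.Pr.p θ r + j * T.Pr.p θ l ∧ T.Pr.p b k = i * T.Pr.p b r + j * T.Pr.p b l :=
  let ⟨i, j, hi, hj, e⟩ := h
  ⟨i, j, hi, hj, T.p_lin e _, T.p_lin e _⟩

theorem comb_top {θ b : R} (h2 : T.Pr.p θ b = 1) {r l k : R} (h : P.Comb r l k) (hr : 1 ≤ T.Pr.p θ r)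
    (hl : 1 ≤ T.Pr.p θ l) : 1 ≤ T.Pr.p θ k ∧ T.Pr.p b k = 1 := by
  obtain ⟨i, j, hi, hj, e, -⟩ := T.comb_p θ b h
  have : 2 ≤ T.Pr.p θ k := by nlinarith
  exact ⟨by omega, by rw [T.eq_of_two this, T.p_symm, h2]⟩

theorem comm_Q {θ b : R} (hθ : T.τ θ = θ) (hb : T.τ b = b) (h2 : T.Pr.p θ b = 1) (p : ℤ → Prop) {r l : R} (hp : p 1)
    (hr : T.Pr.p θ r = 1) (hl : T.Pr.p θ l = 0)
    (h : ∀ i x : ℤ, 0 < i → p x ∨ x = T.Pr.p b r → p (i * T.Pr.p b l + x)) {g : G} (hg : g ∈ T.X.US (T.orb l))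
    (t : K) : (T.X.x r t)⁻¹ * g⁻¹ * T.X.x r t * g ∈ T.X.US {k | 1 ≤ T.Pr.p θ k ∧ p (T.Pr.p b k)} := by
  have k1 : ∀ k ∈ T.orb l ∪ {r}, ∀ k', 1 ≤ T.Pr.p θ k' → p (T.Pr.p b k') ∨ T.Pr.p b k' = T.Pr.p b r →
      k' ≠ P.neg k ∧ ∀ j, P.Comb k k' j → 1 ≤ T.Pr.p θ j ∧ p (T.Pr.p b j) := fun k hk k' a1 a2 => by
    have a3 : T.Pr.p θ k = 0 ∧ T.Pr.p b k = T.Pr.p b l ∨ T.Pr.p θ k = 1 :=
      hk.imp (fun hk => ⟨by rw [T.p_orb hθ hk, hl], T.p_orb hb hk⟩) fun hk => by rw [hk, hr]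
    refine ⟨fun e => by rw [e, T.Pr.neg_right] at a1; omega, fun j hj => ?_⟩
    rcases a3 with ⟨a3, a4⟩ | a3
    · obtain ⟨i, i', hi, hi', b1, b2⟩ := T.comb_p θ b hj
      rw [a3, mul_zero, zero_add] at b1
      by_cases b3 : 2 ≤ T.Pr.p θ j
      · exact ⟨by omega, by rwa [T.eq_of_two b3, T.p_symm, h2]⟩
      obtain rfl : i' = 1 := by nlinarith
      exact ⟨by omega, by rw [b2, a4, one_mul]; exact h i _ hi a2⟩
    · have := T.comb_top h2 hj a3.ge a1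
      exact ⟨this.1, by rwa [this.2]⟩
  exact T.X.US_comm_mem (S := T.orb l ∪ {r}) (T := {r}) Set.subset_union_right
    (fun k hk k' hk' => k1 k hk k' (by rw [hk', hr]) (.inr (by rw [hk'])))
    (fun k hk k' hk' => k1 k hk k' hk'.1 (.inl hk'.2)) (T.X.US_mono Set.subset_union_left hg) (T.X.x_mem (Set.mem_singleton r) t)

variable [Fintype R]

theorem exists_y (hm : T.m = 3) (hγ : ∀ r, T.φ (T.γ r) = T.γ r)
    (hN : ∀ k, T.φ k = k → k ≠ 0 → ∃ c, c * T.φ c * T.φ (T.φ c) = k) {θ β b s : R} (hθ : T.τ θ = θ)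
    (hβ : T.τ β = β) (hb : T.τ b = b) (hs : T.τ s ≠ s) (h1 : T.Pr.p θ β = 1) (h2 : T.Pr.p θ b = 1)
    (h3 : T.Pr.p b β = -1) (h4 : T.Pr.p θ s = 0) (h5 : T.Pr.p b s = 1) (c : T.F0) (hc : c ≠ 0) :
    ∃ y : T.Fix, (∀ t, Commute y (T.xx b t)) ∧ (∀ t, Commute y (T.xx θ t)) ∧ ∀ u,
      ∀ H : Subgroup T.Fix, (∀ k, 1 ≤ T.Pr.p θ k → 0 ≤ T.Pr.p b k → k ≠ b → T.Y k ≤ H) →
        (T.xx b (c * u))⁻¹ * (T.xx β u)⁻¹ * (y⁻¹ * T.xx β u * y) ∈ H := by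
  obtain ⟨E, e1, e2, e3⟩ := T.nm_n hm hγ hθ hb hs h1 h2 h3 h4 h5
  have hc' : (c : K) ≠ 0 := fun e => hc (Subtype.ext e)
  obtain ⟨a, ha⟩ := hN (c / E) (by rw [map_div₀, e1, show T.φ c = c from c.2]) (div_ne_zero hc' e2)
  have ha0 : a ≠ 0 := by
    rintro rfl
    exact div_ne_zero hc' e2 (by simpa using ha.symm)
  have hs' : T.τ (P.neg s) ≠ P.neg s := fun e => hs (by simpa [T.τ_neg, P.neg_neg] using congrArg P.neg e)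
  have hcm : ∀ r, T.τ r = r → 0 ≤ T.Pr.p r s → ∀ t, Commute (T.nm (T.X.x s a)) (T.X.x r t) := fun r hr h t =>
    T.commute_US (S' := {r}) (fun k hk l hl => by rw [hl, T.p_symm, T.p_orb hr hk]; exact h) (nm_x_mem hs a)
      (T.X.x_mem (Set.mem_singleton r) t)
  refine ⟨⟨_, nm_x_fix hs a⟩, fun t => Subtype.ext ?_, fun t => Subtype.ext ?_, fun u H hH => ?_⟩
  · simpa [T.xx_val hb] using (hcm b hb (by omega) t).eq
  · simpa [T.xx_val hθ] using (hcm θ hθ (by omega) t).eq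
  obtain ⟨f, hf⟩ := T.Pr.lin θ
  have cl : ∀ p : ℤ → Prop, p 1 → P.Cl f {k | 1 ≤ T.Pr.p θ k ∧ p (T.Pr.p b k)} := fun p hp =>
    ⟨fun r hr l hl k hk => ⟨(T.comb_top h2 hk hr.1 hl.1).1, by rwa [(T.comb_top h2 hk hr.1 hl.1).2]⟩,
      fun r hr => by rw [← hf]; exact hr.1⟩
  have e4 := e3 a ha0 u
  rw [ha, mul_div_cancel₀ _ e2, RG0.n, (blk_pm hs).nm_mul (mul_mem (T.X.x_mem (.inl rfl) _) (T.X.x_mem (.inr rfl) _))
    (T.X.x_mem (.inl rfl) _), (blk_pm hs).nm_mul (T.X.x_mem (.inl rfl) _) (T.X.x_mem (.inr rfl) _),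
    mul_assoc _ _ (T.X.x b _), (hcm b hb (by omega) _).eq] at e4
  have z1 := mul_mem (inv_mem (T.X.x_mem (show b ∈ {k | 1 ≤ T.Pr.p θ k ∧ 0 ≤ T.Pr.p b k} from
    ⟨h2.ge, by rw [T.Pr.self]; omega⟩) (c * u)))
    (T.comm_Q hθ hb h2 (0 ≤ ·) zero_le_one h1 h4 (fun i x hi hx => by rw [h5]; omega) (nm_x_mem hs a) u)
  have z2 := mul_mem (T.X.x_conj_mem (r := b) (T := {k | 1 ≤ T.Pr.p θ k ∧ T.Pr.p b k ≤ 1}) (fun k hk =>
      ⟨fun e => by have := hk.1; rw [e, T.Pr.neg_right] at this; omega, fun j hj =>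
        ⟨(T.comb_top h2 hj h2.ge hk.1).1, (T.comb_top h2 hj h2.ge hk.1).2.le⟩⟩) (-(c * u)) (inv_mem (T.X.x_mem (r := β) (And.intro h1.ge (by omega)) u)))
    (T.comm_Q hθ hb h2 (· ≤ 1) le_rfl h2 (l := P.neg s) (by rw [T.Pr.neg_right, h4]; rfl)
      (fun i x hi hx => by rw [T.Pr.neg_right, h5]; rw [T.Pr.self] at hx; omega)
      (inv_mem (nm_x_mem hs' (-a⁻¹))) (c * u))
  have z3 := H64.mem_US_inter T.sep (cl (fun _ => True) trivial) (cl (0 ≤ ·) zero_le_one) (cl (· ≤ 1) le_rfl)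
    (fun k hk => ⟨hk.1, trivial⟩) (fun k hk => ⟨hk.1, trivial⟩) z1 (by
      convert z2 using 1
      rw [← e4, T.X.x_neg b]; group)
  refine gen (f := f) (fun k => by rw [← hf, ← hf, T.p_orb hθ (.inr (.inl rfl))])
    {k | 1 ≤ T.Pr.p θ k ∧ (0 ≤ T.Pr.p b k ∧ T.Pr.p b k ≤ 1)} (cl (fun x => 0 ≤ x ∧ x ≤ 1) ⟨zero_le_one, le_rfl⟩)
    (fun k hk => by simpa only [Set.mem_setOf_eq, T.p_orb hθ (.inr (.inl rfl)), T.p_orb hb (.inr (.inl rfl))] using hk)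
    (fun k hk => hH k hk.1 hk.2.1 fun e => by have := hk.2.2; rw [e, T.Pr.self] at this; omega) _ ?_
  convert T.X.US_mono (T := {k | 1 ≤ T.Pr.p θ k ∧ (0 ≤ T.Pr.p b k ∧ T.Pr.p b k ≤ 1)})
    (fun k hk => ⟨hk.1.1, hk.1.2, hk.2.2⟩) z3 using 1
  simp [T.xx_val hb, T.xx_val hβ, mul_assoc]

theorem three [DecidableEq R] [Finite G] [Finite K] {V : Type*} [AddCommGroup V] [Module ℂ V] [FiniteDimensional ℂ V]
    (ρ : Representation ℂ T.Fix V) (hm : T.m = 3) (hγ : ∀ r, T.φ (T.γ r) = T.γ r)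
    (hN : ∀ k, T.φ k = k → k ≠ 0 → ∃ c, c * T.φ c * T.φ (T.φ c) = k) {θ β b s : R} (hθ : T.τ θ = θ)
    (hβ : T.τ β = β) (hb : T.τ b = b) (hs : T.τ s ≠ s) (h1 : T.Pr.p θ β = 1) (h2 : T.Pr.p θ b = 1)
    (h3 : T.Pr.p b β = -1) (h4 : T.Pr.p θ s = 0) (h5 : T.Pr.p b s = 1) (c0 : ∀ δ, T.τ δ = δ → T.Pr.p b δ ≠ 0)
    {a : ℕ} (ha : ∀ r, r = θ ∨ r = b → (∑ k : R, if T.rep k = k ∧ T.Pr.p r k = 1 then T.ee k else 0) = 2 * a)
    (hne : ∃ t, ρ (T.xx θ t) ≠ 1) :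
    (Nat.card T.F0 - 1) * (Nat.card T.F0 + 1) * (Nat.card T.F0 ^ a * 2) ≤ Nat.card T.F0 * finrank ℂ V ∨
    (Nat.card T.F0 - 1) * (Nat.card T.F0 ^ (a + 1) + Nat.card T.F0 ^ a + Nat.card T.F0) ≤
      Nat.card T.F0 * finrank ℂ V := by
  classical
  refine LR.three (D := T.lr) (ρ := ρ) (θ := ⟨θ, T.rep_fix hθ⟩) (β := ⟨β, T.rep_fix hβ⟩) (b := ⟨b, T.rep_fix hb⟩)
    hθ hβ hb h1 h2 h3 (fun δ => c0 δ) (fun r hr => ?_) (fun c hc => ?_) hne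
  · rw [← ha r (hr.imp (congrArg Subtype.val) (congrArg Subtype.val))]
    exact T.sum_Rp _ (fun k => T.Pr.p r k = 1) (fun _ => Iff.rfl) _ _ T.lr_e
  · obtain ⟨y, y1, y2, y3⟩ := T.exists_y hm hγ hN hθ hβ hb hs h1 h2 h3 h4 h5 c hc
    refine ⟨y, y1, y2, fun u H hH => y3 u H fun k a1 a2 a3 => ?_⟩
    rw [← T.Y_rep]
    refine hH (T.rp k) (a1.trans_eq (T.p_rep hθ k).symm) (a2.trans_eq (T.p_rep hb k).symm) fun e => a3 ?_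
    have := T.self_mem k
    rwa [← T.orb_rep, show T.rep k = b from congrArg Subtype.val e, T.orb_fix hb] at this

end TS

end Cfsg.Agent.H37.Md
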