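import Cfsg.Agent.H37.MdT
import Cfsg.Agent.H40.Orb2
import Cfsg.Agent.H5.Central
import Cfsg.Agent.H65.SpLS
set_option autoImplicit false

/-! The degree bound for the twisted groups: passage to the matrix groups. -/

namespace Cfsg.Agent.H37.Md

open H38 H39 H40 Module Cfsg.Lie Chev

variable {D : ChevalleyDatum} [Chev D] (hD : IsChev D) (hL : ∀ r, (pairD D).Long r) (C : TwN D)
  {K : Type*} [Field K] [Finite K] {φ : K →+* K}
  (h2 : C.m = 2 → ∀ t, φ (φ t) = t) (h3 : C.m = 3 → ∀ t, φ (φ (φ t)) = t)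
  (hc : ∀ r < D.nroots, C.τ r ≠ r → Nat.card K = Nat.card (φ.eqLocusField (RingHom.id K)) ^ C.m)

theorem exists_tw {I : Type} {C' : TwC D I} (T : TwD (matRel hD K) C') (hτ : C'.τ = C.τ) (hγ : C'.γ = C.γ)
    (he : T.e = fun _ => φ) (hs : IsSimpleGroup T.mt.Fix ∧ ¬IsMulCommutative T.mt.Fix) {k : ℕ}
    (ρ : Representation ℂ T.mt.Fix (Fin k → ℂ)) (hρ : ρ.IsIrreducible) (hk : 2 ≤ k) :
    ∃ σ hσ, ∃ ρ' : Representation ℂ (mkTS hD hL C σ φ hσ h2 h3 hc).Fix (Fin k → ℂ),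
      ∀ θ : Fin D.nroots, C.τ θ = θ → ∃ t, ρ' ((mkTS hD hL C σ φ hσ h2 h3 hc).xx θ t) ≠ 1 := by
  have a1 : ∀ g : D.group K, (g : GL D.Idx K) ∈ (matRel hD K).grp := fun g => (matRel_grp hD K).ge g.2
  have a2 : ∀ g ∈ (mg hD K).grp, T.σ g ∈ (mg hD K).grp := fun g hg => by
    induction hg using RG0.US_induction with
    | h1 => rw [show T.σ 1 = 1 from T.mt.σ_one]; exact one_mem _
    | hm g hg r _ t ih =>
      rw [T.σ_mul _ (rg_grp (matRel hD K) ▸ hg) _ (rg_grp (matRel hD K) ▸ (mg hD K).x_mem_grp r t)]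
      refine mul_mem ih ?_
      rw [show (mg hD K).x r t = (matRel hD K).x r t from rfl, T.σ_x r r.2]
      exact (mg hD K).x_mem_grp ⟨_, C'.τ_lt r r.2⟩ _
  let σ : D.group K →* D.group K := MonoidHom.mk' (fun g => ⟨T.σ g, (mg_grp hD K).le (a2 _ ((mg_grp hD K).ge g.2))⟩)
    fun a b => Subtype.ext (T.σ_mul _ (a1 a) _ (a1 b))
  have hσ : ∀ r t, σ ((mgs hD K).x r t) = (mgs hD K).x ⟨C.τ r, C.τ_lt r r.2⟩ (C.γ r * φ t) := fun r t =>
    Subtype.ext ((T.σ_x r r.2 t).trans (by rw [he, hτ, hγ]; rfl))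
  let S := mkTS hD hL C σ φ hσ h2 h3 hc
  let f : S.Fix →* T.mt.Fix := ((D.group K).subtype.comp S.Fix.subtype).codRestrict _ fun g =>
    T.mem_mt_Fix.2 ⟨a1 g, congrArg Subtype.val g.2⟩
  refine ⟨σ, hσ, ρ.comp f, fun θ hθ => ⟨1, ?_⟩⟩
  have := hs.1
  refine H65.ne_one_of_irr ρ hρ (by rwa [finrank_fin_fun]) (fun N hN => hN.eq_bot_or_eq_top.imp_left
    fun e => e.le.trans bot_le) _ fun h => ?_
  rcases (Subgroup.center T.mt.Fix).normal_of_characteristic.eq_bot_or_eq_top with e | e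
  · rw [e, Subgroup.mem_bot] at h
    have h' : (S.xx θ 1 : D.group K) = 1 := Subtype.ext (congrArg (fun g : T.mt.Fix => g.1) h)
    rw [S.xx_val (Fin.ext hθ)] at h'
    exact one_ne_zero (S.x_eq_one h')
  · exact hs.2 ⟨⟨fun a b => ((Subgroup.mem_center_iff.1 (e ▸ Subgroup.mem_top a)) b).symm⟩⟩

theorem threeN (σ : D.group K →* D.group K)
    (hσ : ∀ r t, σ ((mgs hD K).x r t) = (mgs hD K).x ⟨C.τ r, C.τ_lt r r.2⟩ (C.γ r * φ t)) {T : Tab} (A : Agree D T)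
    {V : Type*} [AddCommGroup V] [Module ℂ V] [FiniteDimensional ℂ V]
    (ρ : Representation ℂ (mkTS hD hL C σ φ hσ h2 h3 hc).Fix V) (hm : C.m = 3)
    (hN : ∀ k, φ k = k → k ≠ 0 → ∃ c, c * φ c * φ (φ c) = k) (θ β b s : Fin D.nroots) {a : ℕ}
    (h : C.τ θ = θ ∧ C.τ β = β ∧ C.τ b = b ∧ C.τ s ≠ s ∧ D.pairing θ β = 1 ∧ D.pairing θ b = 1 ∧
      D.pairing b β = -1 ∧ D.pairing θ s = 0 ∧ D.pairing b s = 1 ∧ (∀ δ < D.nroots, C.τ δ = δ → D.pairing b δ ≠ 0) ∧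
      C.aT T θ = 2 * a ∧ C.aT T b = 2 * a)
    (hne : ∃ t, ρ ((mkTS hD hL C σ φ hσ h2 h3 hc).xx θ t) ≠ 1) {q : ℕ}
    (hq : Nat.card (φ.eqLocusField (RingHom.id K)) = q) :
    (q - 1) * (q + 1) * (q ^ a * 2) ≤ q * finrank ℂ V ∨ (q - 1) * (q ^ (a + 1) + q ^ a + q) ≤ q * finrank ℂ V := by
  obtain ⟨a1, a2, a3, a4, a5, a6, a7, a8, a9, b1, b2, b3⟩ := h
  have hf : Finite (D.group K) := inferInstance
  refine hq ▸ (mkTS hD hL C σ φ hσ h2 h3 hc).three ρ hm (fun r => map_intCast φ _) hN (Fin.ext a1) (Fin.ext a2)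
    (Fin.ext a3) (fun e => a4 (congrArg Fin.val e)) a5 a6 a7 a8 a9 (fun δ e => b1 δ δ.2 (congrArg Fin.val e))
    (fun r hr => ?_) hne
  rw [← show C.aT T r = 2 * a by rcases hr with rfl | rfl <;> assumption, TwN.aT, A.n_eq, nsum_eq]
  refine Finset.sum_congr rfl fun k _ => ?_
  rw [cnd_eq, mkTS_ee]
  refine if_congr ?_ rfl rfl
  rw [band_eq_true, Nat.beq_eq, ieq_iff, A.pair r.2 k.2, Fin.ext_iff]; rfl

end Cfsg.Agent.H37.Md

namespace Cfsg.Agent.H37.Md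

theorem norm_surj {K : Type*} [Field K] [Fintype K] {q : ℕ} (hq : IsPrimePow q) (hK : Fintype.card K = q ^ 3)
    {φ : K →+* K} (hφ : ∀ t, φ t = t ^ q) (k : K) (h : φ k = k) (h0 : k ≠ 0) : ∃ c, c * φ c * φ (φ c) = k := by
  obtain ⟨g, hg⟩ := IsCyclic.exists_monoid_generator (α := Kˣ)
  obtain ⟨j, hj⟩ := hg (Units.mk0 k h0)
  obtain ⟨r, rfl⟩ := Nat.exists_eq_add_one.2 hq.pos
  have h1 : orderOf g = r * ((r + 1) ^ 2 + (r + 1) + 1) := by
    rw [orderOf_eq_card_of_forall_mem_powers hg, Nat.card_units, Nat.card_eq_fintype_card, hK]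
    exact Nat.sub_eq_of_eq_add (by ring)
  have h2 : orderOf g ∣ r * j := by
    rw [orderOf_dvd_iff_pow_eq_one, mul_comm, pow_mul, show g ^ j = _ from hj]
    rw [hφ, pow_succ, mul_eq_right₀ h0] at h
    exact Units.ext (by simpa using h)
  obtain ⟨i, rfl⟩ := Nat.dvd_of_mul_dvd_mul_left (by have := hq.two_le; omega) (h1 ▸ h2)
  refine ⟨g ^ i, ?_⟩
  rw [show k = (g : K) ^ _ from by simpa using (congrArg Units.val hj).symm, hφ, hφ]
  ring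

theorem card_F0 {K : Type*} [Field K] [Fintype K] {q n : ℕ} (hq : IsPrimePow q) (hK : Fintype.card K = q ^ n)
    {φ : K →+* K} (hφ : ∀ t, φ t = t ^ q) : Nat.card (φ.eqLocusField (RingHom.id K)) = q :=
  H40.card_fix_one hq hK hφ

/-- the arithmetic of the last step -/
theorem excl2 {q M j a n X c : ℕ} (hq : IsPrimePow q) (hj : j < q) (hj0 : 0 < j) (hn : n + j = q * M)
    (hd : n ∣ q ^ a * X) (hc : 0 < c) (s t : ℤ) (h : s * n + t * X = c) : n ≤ j * c := by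
  obtain ⟨p, e, hp, he, rfl⟩ := (isPrimePow_nat_iff q).1 hq
  have h2 : Nat.gcd n ((p ^ e) ^ a) ∣ j := by
    obtain ⟨i, -, hi⟩ := (Nat.dvd_prime_pow hp).1 (show Nat.gcd n ((p ^ e) ^ a) ∣ p ^ (e * a) by
      rw [pow_mul]; exact Nat.gcd_dvd_right _ _)
    have h3 := Nat.gcd_dvd_left n ((p ^ e) ^ a)
    rw [hi] at h3 ⊢
    rcases le_total i e with h4 | h4
    · exact (Nat.dvd_add_right h3).1 (hn ▸ (pow_dvd_pow p h4).mul_right M)
    · exact absurd (Nat.le_of_dvd hj0 ((Nat.dvd_add_right ((pow_dvd_pow p h4).trans h3)).1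
        (hn ▸ Dvd.intro M rfl))) (by omega)
  have h3 : (n : ℤ) ∣ (j * X : ℕ) :=
    Int.natCast_dvd_natCast.2 ((dvd_gcd_mul_of_dvd_mul hd).trans (Nat.mul_dvd_mul_right h2 _))
  refine Nat.le_of_dvd (Nat.mul_pos hj0 hc) (Int.natCast_dvd_natCast.1 ?_)
  push_cast at h3 ⊢
  rw [← h, mul_add, mul_left_comm _ t]
  exact dvd_add (Dvd.intro_left (j * s) (mul_assoc _ _ _)) (h3.mul_left t)

end Cfsg.Agent.H37.Md
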