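import Cfsg.Agent.H37.Gow
import Cfsg.Agent.H13.ReeCls
import Cfsg.Agent.H13.ReeGen

/-!
Gow's theorem for the small Ree groups.
-/

set_option autoImplicit false
set_option linter.style.haveILetI false
set_option linter.unusedSectionVars false

namespace Cfsg.Agent.H37

open Finset H13 H38

variable {G K : Type*} [Group G] [Field K] (M : Ree G K) [Finite K]

theorem univ_finset_unit : (univ : Finset (Finset Unit)) = {∅, {()}} := by decide

theorem finset_unit_cases (J : Finset Unit) : J = ∅ ∨ J = {()} := by revert J; decide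

theorem ree_inf_cj : M.B ⊓ cj M.n M.B = M.H := by
  ext g
  rw [Subgroup.mem_inf, mem_cj, M.n_inv]
  constructor
  · rintro ⟨⟨t, b, c, k, rfl⟩, h⟩
    obtain ⟨rfl, rfl, rfl⟩ := M.eq_zero_of_n_conj h
    exact ⟨k, by simp⟩
  · rintro ⟨k, rfl⟩
    exact ⟨M.h_mem_B k, by rw [M.n_h_n]; exact M.h_mem_B _⟩

theorem ree_res [Fintype G] {g : G} (hg : g ∈ M.B) : pc ⊤ M.B g - pc ⊤ ⊤ g = pc M.B M.H g := by
  rw [pc_mackey (K := M.B) (M := M.B) (univ : Finset Bool) (fun d => if d then M.n else 1) (fun x => ?_) hg]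
  · have h1 : pc M.B (M.B ⊓ cj 1 M.B) g = 1 := by
      rw [show M.B ⊓ cj 1 M.B = M.B by ext; simp [mem_cj], pc, sum_congr rfl fun x _ => ind_mul_congr (b := 1)
        fun hx => ind_of_mem (mul_mem (mul_mem (inv_mem hx) hg) hx)]
      simp [sum_ind, inv_mul_cancel₀ (card_ne M.B)]
    have h2 : pc (⊤ : Subgroup G) ⊤ g = 1 := by
      simp only [pc, ind_top, mul_one]
      rw [← sum_congr rfl fun x _ => ind_top (G := G) x, sum_ind, inv_mul_cancel₀ (card_ne _)]
    simp [h1, h2, ree_inf_cj]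
  · by_cases hx : x ∈ M.B
    · refine ⟨false, ⟨mem_univ _, x, hx, 1, one_mem _, by simp⟩, fun d hd => ?_⟩
      obtain ⟨-, a, ha, y, hy, rfl⟩ := hd
      cases d
      · rfl
      · exact absurd ((M.B.mul_mem_cancel_left ha).1 ((M.B.mul_mem_cancel_right hy).1 hx)) M.n_not_mem_B
    · obtain ⟨t, b, c, k, t', b', c', rfl⟩ := M.exists_big hx
      refine ⟨true, ⟨mem_univ _, _, ⟨t, b, c, k, rfl⟩, _, M.u_mem_B t' b' c', rfl⟩, fun d hd => ?_⟩
      obtain ⟨-, a, ha, y, hy, e⟩ := hd
      cases d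
      · exact absurd (e ▸ mul_mem (mul_mem ha (one_mem _)) hy) hx
      · rfl

/-- the Steinberg data of the small Ree group -/
noncomputable def reeSt [Fintype G] : StData 3 G Unit where
  P J := if () ∈ J then ⊤ else M.B
  U J := if () ∈ J then ⊥ else M.U
  M J I := if () ∈ J then (if () ∈ I then ⊤ else M.B) else M.H
  P_univ := by simp
  P_mono I J h := by
    rcases finset_unit_cases J with rfl | rfl
    · rw [subset_empty.1 h]
    · simp
  norm J := by
    rcases finset_unit_cases J with rfl | rfl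
    · exact fun g hg => Subgroup.mem_normalizer_fintype fun x hx => M.conj_mem_U hg hx
    · exact (Subgroup.normalizer_eq_top (⊥ : Subgroup G)).ge
  pgrp J := by
    rcases finset_unit_cases J with rfl | rfl
    · exact M.isPGroup_U
    · exact IsPGroup.of_bot
  dec J I h g := by
    rcases finset_unit_cases J with rfl | rfl
    · rw [subset_empty.1 h]
      simp only [notMem_empty, if_false]
      constructor
      · rintro ⟨t, b, c, k, rfl⟩
        exact ⟨_, M.h_mem_H k, _, M.conj_mem_U (inv_mem (M.h_mem_B k)) (M.u_mem_U t b c), by group⟩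
      · rintro ⟨m, hm, u, hu, rfl⟩
        exact mul_mem (M.H_le_B hm) (M.U_le_B hu)
    · simp
  disj J := by
    rcases finset_unit_cases J with rfl | rfl
    · simp only [notMem_empty, if_false]
      rw [eq_bot_iff]
      rintro _ ⟨⟨k, rfl⟩, t, b, c, e⟩
      have := (M.uh_inj (t := 0) (b := 0) (c := 0) (t' := t) (b' := b) (c' := c) (k := k) (k' := 1)
        (by simpa using e)).2.2.2
      simp [this]
    · simp
  res J g hg := by
    rcases finset_unit_cases J with rfl | rfl
    · simp only [notMem_empty, if_false] at hg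
      simp [univ_finset_unit, ← ree_res M hg, sub_eq_add_neg]
    · rw [show powerset ({()} : Finset Unit) = univ by decide]
      simp
  sylow := by simpa using M.not_dvd_index_U

theorem ree_center_U {x : G} (hx : x ∈ Subgroup.centralizer (M.U : Set G)) (h3 : ¬ 3 ∣ orderOf x) : x = 1 := by
  obtain ⟨t, b, c, k, rfl⟩ := M.mem_B_of_comm (M.u_mem_U 0 0 1) (by simp [M.u_eq_one])
    (hx _ (M.u_mem_U 0 0 1)).symm
  have h1 := hx _ (M.u_mem_U 0 0 1)
  rw [mul_assoc, M.h_mul_u, ← mul_assoc, ← mul_assoc, mul_left_inj, M.u_mul, M.u_mul, M.u_inj] at h1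
  obtain rfl : k = 1 := Units.ext (by have := h1.2.2; simp at this; simpa using (by linear_combination -this : (k : K) = 1))
  rw [map_one, mul_one] at h3 ⊢
  exact M.eq_one_of_mem_U (M.u_mem_U t b c) h3 (pow_orderOf_eq_one _)

include M in
theorem ree_bt : H33.BT 3 G := fun Q hQ hne => by
  haveI := M.finite
  obtain ⟨g, hg⟩ := M.exists_conj_le_U hQ
  obtain ⟨⟨x, hx⟩, h1⟩ := Subgroup.ne_bot_iff_exists_ne_one.1 hne
  refine ⟨(M.conj g).U, (M.conj g).isPGroup_U, fun y hy => ?_, fun x hx h3 => ?_⟩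
  · have := (M.conj g).mem_B_of_conj (g := y) (hg hx) (fun e => h1 (Subtype.ext e))
      ((M.conj g).U_le_B (hg ((Subgroup.mem_normalizer_iff''.1 hy x).1 hx)))
    exact Subgroup.mem_normalizer_fintype fun z hz => (M.conj g).conj_mem_U this hz
  · rw [ree_center_U _ hx h3]; exact one_mem _

include M in
theorem ree_gen : Subgroup.closure {g : G | ∃ k, orderOf g = 3 ^ k} = ⊤ := by
  haveI := M.finite
  haveI : Fact (Nat.Prime 3) := ⟨Nat.prime_three⟩
  haveI : (Subgroup.closure {g : G | ∃ k, orderOf g = 3 ^ k}).Normal := by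
    refine ⟨fun x hx g => ?_⟩
    have : Subgroup.closure {g : G | ∃ k, orderOf g = 3 ^ k} ≤
        (Subgroup.closure {g : G | ∃ k, orderOf g = 3 ^ k}).comap (MulAut.conj g).toMonoidHom :=
      (Subgroup.closure_le _).2 fun y hy => Subgroup.subset_closure
        (hy.imp fun _ hk => (orderOf_cj g y).trans hk)
    exact this hx
  refine M.eq_top_of_normal fun t b c => Subgroup.subset_closure ?_
  obtain ⟨k, -, hk⟩ := (Nat.dvd_prime_pow Nat.prime_three).1
    (orderOf_dvd_of_pow_eq_one (n := 3 ^ 2) (M.u_pow_nine t b c))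
  exact ⟨k, hk⟩

include M in
theorem ree_gow {a b g : G} (ha : ¬ 3 ∣ Nat.card (Subgroup.centralizer ({a} : Set G)))
    (hb : ¬ 3 ∣ Nat.card (Subgroup.centralizer ({b} : Set G))) (hg : ¬ 3 ∣ orderOf g) (h1 : g ≠ 1) :
    ∃ x y, IsConj a x ∧ IsConj b y ∧ x * y = g := by
  haveI := M.finite
  haveI := Fintype.ofFinite G
  haveI : Fact (Nat.Prime 3) := ⟨Nat.prime_three⟩
  exact gow (reeSt M) (ree_gen M) (ree_bt M) ha hb hg fun h =>
    h1 (ree_center_U M (fun y _ => Subgroup.mem_center_iff.1 h y) hg)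

end Cfsg.Agent.H37
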