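import Cfsg.Agent.H37.ReA

/-!
Small Ree groups: regular semisimple classes are determined by the trace.
-/

set_option autoImplicit false
set_option linter.style.haveILetI false
set_option linter.unusedSectionVars false

namespace Cfsg.Agent.H37

open Finset H13

/-- order greater than two and prime to three -/
def RReg {G : Type*} [Group G] (g : G) : Prop := 2 < orderOf g ∧ ¬ 3 ∣ orderOf g

theorem tor_card_dvd {G : Type*} [Group G] [Finite G] {A T : Subgroup G} (h : Tor A T) {g : G}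
    (hg : ¬ (orderOf g).Coprime (Nat.card A)) : Nat.card (Subgroup.centralizer ({g} : Set G)) ∣ Nat.card T := by
  obtain ⟨p, hp, h1, h2⟩ := Nat.Prime.not_coprime_iff_dvd.1 hg
  obtain ⟨k, hk⟩ := h.exists_conj_mem_T hp h2 h1
  rw [← card_map_conj _ k, ← centralizer_conj]
  rw [← orderOf_cj k] at h1
  generalize k * g * k⁻¹ = t at hk h1
  have ho : orderOf (t ^ (orderOf t / p)) = p := orderOf_pow_orderOf_div (orderOf_pos t).ne' h1
  refine Subgroup.card_dvd_of_le fun y hy => h.mem (x := t ^ (orderOf t / p))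
    (h.mem_of_pow (T.pow_mem hk _) (orderOf_dvd_iff_pow_eq_one.1 (by rwa [ho]))) (fun e => hp.one_lt.ne' ?_)
    (Commute.pow_right (Subgroup.mem_centralizer_singleton_iff.1 hy) _).eq
  rw [← ho, e, orderOf_one]

theorem sum_cent_eq {G : Type*} [Group G] [Fintype G] [DecidableEq (ConjClasses G)] (S : Finset G)
    (hS : ∀ g ∈ S, ∀ x, IsConj g x → x ∈ S) :
    ∑ g ∈ S, Nat.card (Subgroup.centralizer ({g} : Set G)) = (S.image ConjClasses.mk).card * Nat.card G := by
  classical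
  rw [← sum_fiberwise_of_maps_to (t := S.image ConjClasses.mk) (g := ConjClasses.mk)
    fun g hg => mem_image_of_mem _ hg, ← smul_eq_mul, ← sum_const]
  refine sum_congr rfl fun X hX => ?_
  obtain ⟨g, hg, rfl⟩ := mem_image.1 hX
  have h1 : S.filter (fun x => ConjClasses.mk x = ConjClasses.mk g) = univ.filter (IsConj g) := by
    ext x
    simp only [mem_filter, mem_univ, true_and, ConjClasses.mk_eq_mk_iff_isConj]
    exact ⟨fun h => h.2.symm, fun h => ⟨hS g hg x h, h.symm⟩⟩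
  rw [h1, sum_congr rfl (g := fun _ => Nat.card (Subgroup.centralizer ({g} : Set G))) fun x hx => by
    obtain ⟨k, rfl⟩ := isConj_iff.1 (mem_filter.1 hx).2
    rw [centralizer_conj, card_map_conj], sum_const, H5.card_filter_isConj, smul_eq_mul, Subgroup.index_mul_card]

variable {G K : Type*} [Group G] [Field K] (M : Ree G K) [Finite K]

theorem ree_tr_uh (t b c : K) (k : Kˣ) : M.tr (M.u t b c * M.h k) = ∑ i, rD (k : K) (M.ψ k) i := by
  simp only [Ree.tr, Matrix.trace, Matrix.diag, M.ρ_uh]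
  refine sum_congr rfl fun i _ => ?_
  fin_cases i <;> simp [rUM]

theorem ree_tr_u (t b c : K) : M.tr (M.u t b c) = 1 := by
  have := ree_tr_uh M t b c 1
  rw [map_one, mul_one] at this
  rw [this, Fin.sum_univ_seven]
  simp [rD]
  linear_combination 2 * M.three

theorem ree_tr_ua (t b c : K) : M.tr (M.u t b c * M.a) = -1 := by
  rw [Ree.a, ree_tr_uh, Fin.sum_univ_seven]
  simp [rD]

theorem ree_tr_of_not_reg {g : G} (h : ¬ RReg g) : M.tr g = 1 ∨ M.tr g = -1 := by
  haveI := M.finite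
  by_cases h3 : 3 ∣ orderOf g
  · obtain ⟨k, hk⟩ := M.exists_conj_mem_B h3
    rw [M.mem_conj_B] at hk
    rw [← orderOf_cj k⁻¹, inv_inv] at h3
    rw [← M.tr_conj k⁻¹, inv_inv]
    rcases M.mem_B_cases hk with ⟨t, b, c, e⟩ | ⟨y, -, ⟨l, -, e⟩ | ⟨b, -, e⟩⟩ <;> rw [e] at h3 ⊢
    · exact Or.inl (ree_tr_u M ..)
    · rw [orderOf_cj] at h3
      have := h3.trans (M.card_H ▸ Subgroup.orderOf_dvd_natCard _ (M.h_mem_H l))
      have := M.three_dvd_card
      have := Nat.card_pos (α := K)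
      omega
    · rw [M.tr_conj]; exact Or.inr (ree_tr_ua M ..)
  have h2 : orderOf g ≤ 2 := by by_contra h'; exact h ⟨by omega, h3⟩
  by_cases h1 : g = 1
  · left; rw [h1, ← M.u_zero, ree_tr_u]
  · have := orderOf_pos g
    have := mt orderOf_eq_one_iff.1 h1
    obtain ⟨k, rfl⟩ := M.exists_conj_a h1 (by rw [← sq, ← show orderOf g = 2 by omega, pow_orderOf_eq_one])
    right; rw [M.tr_conj, ← one_mul M.a, ← M.u_zero, ree_tr_ua]

theorem ree_tr_hz (k : Kˣ) (c : K) : M.tr (M.h k * M.n * M.u 0 0 c) = -1 + c ^ 2 / k := by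
  simp [M.tr_hnu, rTr]

variable (hq : 3 < Nat.card K) {m : ℕ} (hK : Nat.card K = 3 ^ (2 * m + 1)) (hψ : ∀ t, M.ψ t = t ^ 3 ^ (m + 1))
include hq

include M in
theorem cent_H {g : G} (h : orderOf g ∣ Nat.card K - 1 ∧ 2 < orderOf g) :
    Nat.card (Subgroup.centralizer ({g} : Set G)) ∣ Nat.card K - 1 := by
  haveI := M.finite
  have h8 := M.card_mod_eight
  rw [← M.card_H]
  refine tor_card_dvd (M.tor_H0 hq) fun hc => ?_
  rw [M.card_H0] at hc
  have := Nat.le_of_dvd two_pos (hc.dvd_of_dvd_mul_right (m := 2) (by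
    rw [Nat.mul_div_cancel' (by omega)]; exact h.1))
  omega

include M in
theorem cent_T1 {g : G} (h : orderOf g ∣ (Nat.card K + 1) / 2 ∧ 2 < orderOf g) :
    Nat.card (Subgroup.centralizer ({g} : Set G)) ∣ Nat.card K + 1 := by
  haveI := M.finite
  have h8 := M.card_mod_eight
  obtain ⟨y, hy, -⟩ := H66.exists_nonsplit (F := K)
  rw [← M.card_T1 hq hy]
  refine tor_card_dvd (M.tor_A1 hq hy) fun hc => ?_
  rw [Nat.card_zpowers, M.orderOf_fy_sq hy] at hc
  have := Nat.le_of_dvd two_pos (hc.dvd_of_dvd_mul_right (m := 2) (by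
    rw [show 2 * ((Nat.card K + 1) / 4) = (Nat.card K + 1) / 2 by omega]; exact h.1))
  omega

omit hq in
theorem cent_tor [Finite G] {A : Subgroup G} (h : Tor A A) {g : G} (hg : g ≠ 1 ∧ g ^ Nat.card A = 1) :
    Nat.card (Subgroup.centralizer ({g} : Set G)) ∣ Nat.card A :=
  tor_card_dvd h fun hc => hg.1 (orderOf_eq_one_iff.1
    (Nat.eq_one_of_dvd_coprimes hc dvd_rfl (orderOf_dvd_of_pow_eq_one hg.2)))

include hK hψ

theorem reg_cases {g : G} (h : RReg g) : (orderOf g ∣ Nat.card K - 1 ∧ 2 < orderOf g) ∨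
    (orderOf g ∣ (Nat.card K + 1) / 2 ∧ 2 < orderOf g) ∨ (g ≠ 1 ∧ g ^ (Nat.card K - 3 ^ (m + 1) + 1) = 1) ∨
      (g ≠ 1 ∧ g ^ (Nat.card K + 3 ^ (m + 1) + 1) = 1) := by
  have h1 : g ≠ 1 := by rintro rfl; simp [RReg] at h
  obtain ⟨h2, h3⟩ := h
  rcases M.orderOf_cases hq hK hψ g with h | h | h | h | h | h
  · have := Nat.le_of_dvd (by norm_num) h
    interval_cases orderOf g <;> omega
  · have := Nat.le_of_dvd (by norm_num) h
    interval_cases orderOf g <;> omega
  · exact Or.inl ⟨h, h2⟩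
  · exact Or.inr (Or.inl ⟨h, h2⟩)
  · exact Or.inr (Or.inr (Or.inl ⟨h1, orderOf_dvd_iff_pow_eq_one.1 h⟩))
  · exact Or.inr (Or.inr (Or.inr ⟨h1, orderOf_dvd_iff_pow_eq_one.1 h⟩))

theorem reg_cent {g : G} (h : RReg g) : ¬ 3 ∣ Nat.card (Subgroup.centralizer ({g} : Set G)) ∧
    Nat.card (Subgroup.centralizer ({g} : Set G)) ≤ 2 * Nat.card K := by
  haveI := M.finite
  obtain ⟨Am, Ap, T1, T2, c1, c2, -⟩ := M.exists_tor hq hK hψ
  have h3 := M.three_dvd_card
  have hr := Ree.r_le hq hK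
  have hr2 := Ree.r_sq hK
  have hr3 : 3 ∣ 3 ^ (m + 1) := dvd_pow_self 3 (by omega)
  have hr4 : 3 ^ (m + 1) ≠ Nat.card K := fun e => by rw [e] at hr2; nlinarith
  have key : ∀ d, 0 < d → ¬ 3 ∣ d → d ≤ 2 * Nat.card K → Nat.card (Subgroup.centralizer ({g} : Set G)) ∣ d →
      ¬ 3 ∣ Nat.card (Subgroup.centralizer ({g} : Set G)) ∧
        Nat.card (Subgroup.centralizer ({g} : Set G)) ≤ 2 * Nat.card K := fun d h0 h1 h2 h =>
    ⟨fun h' => h1 (h'.trans h), (Nat.le_of_dvd h0 h).trans h2⟩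
  rcases reg_cases M hq hK hψ h with h | h | h | h
  · exact key _ (by omega) (by omega) (by omega) (cent_H M hq h)
  · exact key _ (by omega) (by omega) (by omega) (cent_T1 M hq h)
  · refine key _ Nat.card_pos ?_ ?_ (cent_tor T1 (c1 ▸ h)) <;> rw [c1] <;> generalize 3 ^ (m + 1) = r at * <;> omega
  · refine key _ Nat.card_pos ?_ ?_ (cent_tor T2 (c2 ▸ h)) <;> rw [c2] <;> generalize 3 ^ (m + 1) = r at * <;> omega

open Classical in
theorem reg_classes [Fintype G] : ((univ.filter RReg : Finset G).image ConjClasses.mk).card ≤ Nat.card K - 2 := by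
  obtain ⟨Am, Ap, T1, T2, c1, c2, n1, n2⟩ := M.exists_tor hq hK hψ
  have e := sum_cent_eq (univ.filter RReg : Finset G) fun g hg x hx => by
    obtain ⟨k, rfl⟩ := isConj_iff.1 hx
    simpa only [mem_filter, mem_univ, true_and, RReg, orderOf_cj] using hg
  set f : G → ℕ := fun g => Nat.card (Subgroup.centralizer ({g} : Set G))
  have key : ∀ (P : G → Prop) [DecidablePred P] (d : ℕ), 0 < d → (∀ g, P g → f g ∣ d) →
      ∑ g ∈ univ.filter P, f g ≤ Nat.card {g // P g} * d := fun P _ d h0 h => by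
    rw [Nat.card_eq_fintype_card, Fintype.card_subtype, ← smul_eq_mul]
    exact sum_le_card_nsmul _ _ _ fun g hg => Nat.le_of_dvd h0 (h g (mem_filter.1 hg).2)
  have k1 := key _ _ (by omega) fun g => cent_H M hq (g := g)
  have k2 := key _ _ (by omega) fun g => cent_T1 M hq (g := g)
  have k3 := key _ _ Nat.card_pos fun g => cent_tor T1 (g := g)
  have k4 := key _ _ Nat.card_pos fun g => cent_tor T2 (g := g)
  have l1 := M.cnt_H hq (P := fun n => n ∣ Nat.card K - 1 ∧ 2 < n) fun n hn => hn.symm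
  have l2 := M.cnt_T1 hq
  have l3 := T1.card_pow_eq_one
  have l4 := T2.card_pow_eq_one
  rw [M.cnt_H_all hq, cnt] at l1
  rw [cnt] at l2
  rw [n1] at l3
  rw [n2] at l4
  have hle : ∑ g ∈ univ.filter RReg, f g ≤ ∑ g ∈ univ.filter (fun g => orderOf g ∣ Nat.card K - 1 ∧ 2 < orderOf g), f g +
      (∑ g ∈ univ.filter (fun g => orderOf g ∣ (Nat.card K + 1) / 2 ∧ 2 < orderOf g), f g +
      (∑ g ∈ univ.filter (fun g => g ≠ 1 ∧ g ^ Nat.card Am = 1), f g +
      ∑ g ∈ univ.filter (fun g => g ≠ 1 ∧ g ^ Nat.card Ap = 1), f g)) := by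
    simp only [sum_filter, ← sum_add_distrib]
    refine sum_le_sum fun g _ => ?_
    by_cases h : RReg g
    · rw [c1, c2]
      rcases reg_cases M hq hK hψ h with h' | h' | h' | h' <;> rw [if_pos h, if_pos h'] <;> omega
    · simp [h]
  have hr := Ree.r_le hq hK
  have hG := M.card_G
  rw [c1] at k3 l3
  rw [c2] at k4 l4
  rw [c1, c2] at hle
  obtain ⟨s, hs⟩ : ∃ s, Nat.card K = 3 ^ (m + 1) + s := ⟨_, (Nat.add_sub_cancel' hr).symm⟩
  obtain ⟨w, hw⟩ : ∃ w, Nat.card K = w + 3 := ⟨Nat.card K - 3, by omega⟩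
  have l1' : 2 * Nat.card {g : G // orderOf g ∣ Nat.card K - 1 ∧ 2 < orderOf g} * (Nat.card K - 1) =
      Nat.card G * (Nat.card K - 3) := by rw [l1, hG]; ring
  refine Nat.le_of_mul_le_mul_right (c := 6 * Nat.card G) ?_ (by have := Nat.card_pos (α := G); omega)
  rw [show Nat.card K - 3 ^ (m + 1) = s by omega] at k3 l3 hle
  rw [Nat.add_sub_cancel] at l3 l4
  rw [show Nat.card K - 3 = w by omega] at l1' l2
  rw [show Nat.card K - 2 = w + 1 by omega]
  have h6 : s + (Nat.card K + 3 ^ (m + 1)) = 2 * w + 6 := by omega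
  have h7 : Nat.card G * s + Nat.card G * (Nat.card K + 3 ^ (m + 1)) = Nat.card G * (2 * w + 6) := by
    rw [← mul_add, h6]
  have h8 := e.symm.le.trans (hle.trans (add_le_add k1 (add_le_add k2 (add_le_add k3 k4))))
  nlinarith

theorem tr_class {x : G} (hx : RReg x) : M.tr x ≠ 1 ∧ M.tr x ≠ -1 ∧ ∀ y, M.tr y = M.tr x → IsConj x y := by
  classical
  haveI := M.finite
  haveI := Fintype.ofFinite G
  haveI := Fintype.ofFinite K
  let φ : ConjClasses G → K := Quotient.lift M.tr fun a b h => by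
    obtain ⟨k, rfl⟩ := isConj_iff.1 h
    exact (M.tr_conj k a).symm
  set R := (univ.filter RReg : Finset G).image ConjClasses.mk
  have h1 : (univ.erase 1).erase (-1) ⊆ R.image φ := fun τ hτ => by
    simp only [mem_erase] at hτ
    have h0 : τ + 1 ≠ 0 := fun e => hτ.1 (by linear_combination e)
    have e : M.tr (M.h (Units.mk0 _ h0)⁻¹ * M.n * M.u 0 0 1) = τ := by rw [ree_tr_hz]; simp
    refine mem_image.2 ⟨ConjClasses.mk _, mem_image_of_mem _ (mem_filter.2 ⟨mem_univ _, ?_⟩), e⟩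
    by_contra h
    rcases ree_tr_of_not_reg M h with h | h <;> rw [e] at h
    · exact hτ.2.1 h
    · exact hτ.1 h
  have h2 : ((univ.erase (1 : K)).erase (-1)).card = Nat.card K - 2 := by
    rw [card_erase_of_mem (by simp [M.neg_one_ne]), card_erase_of_mem (mem_univ _), card_univ,
      Nat.card_eq_fintype_card]
    rfl
  have h3 : R.card ≤ Nat.card K - 2 := by convert reg_classes M hq hK hψ
  have h4 := card_le_card h1
  have h5 := card_image_le (s := R) (f := φ)
  have h6 := eq_of_subset_of_card_le h1 (by omega)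
  have h7 := card_image_iff.1 (show (R.image φ).card = R.card by omega)
  have hxR : ConjClasses.mk x ∈ R := mem_image_of_mem _ (mem_filter.2 ⟨mem_univ _, hx⟩)
  have h8 : M.tr x ∈ (univ.erase (1 : K)).erase (-1) := h6 ▸ mem_image_of_mem φ hxR
  simp only [mem_erase] at h8
  refine ⟨h8.2.1, h8.1, fun y hy => ConjClasses.mk_eq_mk_iff_isConj.1 (h7 hxR (mem_image_of_mem _
    (mem_filter.2 ⟨mem_univ _, ?_⟩)) hy.symm)⟩
  by_contra h
  rcases ree_tr_of_not_reg M h with h | h <;> rw [hy] at h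
  · exact h8.2.1 h
  · exact h8.1 h

end Cfsg.Agent.H37
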