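import Cfsg.Agent.H37.ReB

/-!
Small Ree groups: many solutions of the trace equation in the big cell.
-/

set_option autoImplicit false
set_option linter.style.haveILetI false
set_option linter.unusedSectionVars false

namespace Cfsg.Agent.H37

open Finset H13

variable {G K : Type*} [Group G] [Field K] (M : Ree G K) [Finite K]

/-- the trace equation -/
def Sol (τ : K) (k : Kˣ) (t b c : K) : Prop := M.tr (M.h k * M.n * M.u t b c) = τ

theorem sol_fiber (h27 : 27 ≤ Nat.card K) (τ : K) (k : Kˣ) (t b : K) (Z : Finset K)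
    (hZ : ∀ c ∈ Z, Sol M τ k t b c) : Z.card ≤ Nat.card K / 5 := by
  classical
  haveI := Fintype.ofFinite K
  have h1 : Z.offDiag.card ≤ (univ.erase (0 : K)).card := by
    refine card_le_card_of_injOn (fun x => x.2 - x.1) (fun x hx => ?_) fun x hx y hy e => ?_
    · simp only [coe_offDiag, Set.mem_offDiag] at hx
      simpa using sub_ne_zero.2 hx.2.2.symm
    · simp only [coe_offDiag, Set.mem_offDiag] at hx hy
      obtain ⟨x, x'⟩ := x
      obtain ⟨y, y'⟩ := y
      obtain ⟨d, rfl⟩ : ∃ d, x' = x + d := ⟨x' - x, by ring⟩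
      obtain rfl : y' = y + d := by simp only at e; linear_combination -e
      have hd : d ≠ 0 := fun h => hx.2.2 (by simp [h])
      have e1 := hZ _ hx.1
      have e2 := hZ _ hx.2.1
      have e3 := hZ _ hy.1
      have e4 := hZ _ hy.2.1
      simp only [Sol, M.tr_hnu, rTr, map_add] at e1 e2 e3 e4
      have : 2 * d * (k : K)⁻¹ * (x - y) = 0 := by linear_combination e2 - e1 - e4 + e3
      obtain rfl : x = y := sub_eq_zero.1
        ((mul_eq_zero.1 this).resolve_left (mul_ne_zero (mul_ne_zero M.two_ne hd) (inv_ne_zero k.ne_zero)))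
      rfl
  rw [offDiag_card, card_erase_of_mem (mem_univ _), card_univ, ← Nat.card_eq_fintype_card] at h1
  rw [Nat.le_div_iff_mul_le (by norm_num)]
  by_contra h
  have h6 : 6 ≤ Z.card := by omega
  have := Nat.mul_le_mul_left Z.card h6
  omega

theorem exists_conj_h {t b c : K} {k : Kˣ} (h1 : M.tr (M.u t b c * M.h k) ≠ 1) (h2 : M.tr (M.u t b c * M.h k) ≠ -1) :
    k ≠ 1 ∧ IsConj (M.u t b c * M.h k) (M.h k) := by
  have hk : k ≠ 1 := by rintro rfl; exact h1 (by rw [map_one, mul_one, ree_tr_u])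
  have hk' : k ≠ -1 := by rintro rfl; exact h2 (ree_tr_ua M ..)
  obtain ⟨y, -, b', e, h⟩ := M.exists_conj_uh t b c hk
  rw [e, h hk', M.u_zero, one_mul]
  exact ⟨hk, (isConj_iff.2 ⟨y, rfl⟩).symm⟩

theorem isConj_h {k l : Kˣ} (hk : k ≠ 1) (h : IsConj (M.h k) (M.h l)) : l = k ∨ l = k⁻¹ := by
  obtain ⟨g, hg⟩ := isConj_iff.1 h
  exact (M.conj_h_cases hk (g := g) (l := l) (by rw [← hg]; group)).imp (·.1) (·.1)

variable (hq : 3 < Nat.card K) {m : ℕ} (hK : Nat.card K = 3 ^ (2 * m + 1)) (hψ : ∀ t, M.ψ t = t ^ 3 ^ (m + 1))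
include hq hK hψ

open Classical in
theorem sol_card [Fintype K] {x : G} (hx : RReg x) : (Nat.card K - 1) * (Nat.card K ^ 3 + 1) ≤ 2 * Nat.card K *
    ((univ.filter fun z : Kˣ × K × K × K => Sol M (M.tr x) z.1 z.2.1 z.2.2.1 z.2.2.2).card + 2) := by
  haveI := M.finite
  haveI := Fintype.ofFinite G
  set S := univ.filter fun z : Kˣ × K × K × K => Sol M (M.tr x) z.1 z.2.1 z.2.2.1 z.2.2.2
  obtain ⟨t1, t2, -⟩ := tr_class M hq hK hψ hx
  have htr : ∀ g, IsConj x g → M.tr g = M.tr x := fun g hg => by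
    obtain ⟨k, rfl⟩ := isConj_iff.1 hg
    exact M.tr_conj ..
  have hc : (univ : Finset (K × K × K)).card = Nat.card K ^ 3 := by simp [pow_succ, mul_assoc]
  have h1 : ((univ.filter (IsConj x)).filter (· ∉ M.B)).card ≤ Nat.card K ^ 3 * S.card := by
    rw [← hc, ← card_product]
    refine le_trans (card_le_card fun g hg => ?_) (card_image_le (f := fun z : (K × K × K) × Kˣ × K × K × K =>
      M.u z.1.1 z.1.2.1 z.1.2.2 * (M.h z.2.1 * M.n * M.u z.2.2.1 z.2.2.2.1 z.2.2.2.2) * (M.u z.1.1 z.1.2.1 z.1.2.2)⁻¹))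
    simp only [mem_filter, mem_univ, true_and] at hg
    obtain ⟨t, b, c, k, t', b', c', rfl⟩ := M.exists_big hg.2
    obtain ⟨p, q, r, e⟩ := M.U.mul_mem (M.u_mem_U t' b' c') (M.u_mem_U t b c)
    have e' : M.u t b c * (M.h k * M.n * M.u p q r) * (M.u t b c)⁻¹ = M.u t b c * M.h k * M.n * M.u t' b' c' := by
      rw [← e]; group
    refine mem_image.2 ⟨((t, b, c), k, p, q, r), mem_product.2 ⟨mem_univ _, mem_filter.2 ⟨mem_univ _, ?_⟩⟩, e'⟩
    exact (M.tr_conj ..).symm.trans (e' ▸ htr _ hg.1)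
  have h2 : ((univ.filter (IsConj x)).filter (· ∈ M.B)).card ≤ Nat.card K ^ 3 * 2 := by
    rcases ((univ.filter (IsConj x)).filter (· ∈ M.B)).eq_empty_or_nonempty with h | ⟨g, hg⟩
    · rw [h]; simp
    simp only [mem_filter, mem_univ, true_and] at hg
    obtain ⟨hg, t, b, c, k, rfl⟩ := hg
    obtain ⟨hk, h3⟩ := exists_conj_h M (htr _ hg ▸ t1) (htr _ hg ▸ t2)
    refine le_trans (card_le_card fun g' hg' => ?_) ((card_image_le (s := univ ×ˢ {k, k⁻¹})
      (f := fun z : (K × K × K) × Kˣ => M.u z.1.1 z.1.2.1 z.1.2.2 * M.h z.2)).trans ?_)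
    · simp only [mem_filter, mem_univ, true_and] at hg'
      obtain ⟨hg', t', b', c', l, rfl⟩ := hg'
      obtain ⟨-, h4⟩ := exists_conj_h M (htr _ hg' ▸ t1) (htr _ hg' ▸ t2)
      exact mem_image.2 ⟨((t', b', c'), l), by
        simpa using isConj_h M hk (h3.symm.trans (hg.symm.trans (hg'.trans h4))), rfl⟩
    · rw [card_product, hc]
      exact Nat.mul_le_mul_left _ card_le_two
  have h3 := card_filter_add_card_filter_not (s := univ.filter (IsConj x)) (· ∈ M.B)
  rw [H5.card_filter_isConj] at h3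
  have h4 := (Subgroup.centralizer ({x} : Set G)).card_mul_index
  have h5 := (reg_cent M hq hK hψ hx).2
  rw [M.card_G] at h4
  refine Nat.le_of_mul_le_mul_left (c := Nat.card K ^ 3) ?_ (by positivity)
  calc _ = _ := by rw [← mul_assoc, ← h4]
    _ ≤ 2 * Nat.card K * (Nat.card K ^ 3 * S.card + Nat.card K ^ 3 * 2) := Nat.mul_le_mul h5 (by omega)
    _ = _ := by ring

theorem exists_many (h27 : 27 ≤ Nat.card K) {x : G} (hx : RReg x) : ∃ (k : Kˣ) (S : Finset (K × K)),
    2 * Nat.card K < S.card ∧ ∀ z ∈ S, ∃ c, Sol M (M.tr x) k z.1 z.2 c := by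
  classical
  haveI := Fintype.ofFinite K
  by_contra hne
  push Not at hne
  have h1 := sol_card M hq hK hψ hx
  set S := univ.filter fun z : Kˣ × K × K × K => Sol M (M.tr x) z.1 z.2.1 z.2.2.1 z.2.2.2
  have h2 := card_le_mul_card_image (f := fun z : Kˣ × K × K × K => (z.1, z.2.1, z.2.2.1)) S (Nat.card K / 5)
    fun w _ => by
      rw [← card_image_of_injOn (f := fun z : Kˣ × K × K × K => z.2.2.2) fun z hz z' hz' e => by
        have := (mem_filter.1 hz).2.trans (mem_filter.1 hz').2.symm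
        simp only [Prod.mk.injEq] at this
        exact Prod.ext this.1 (Prod.ext this.2.1 (Prod.ext this.2.2 e))]
      refine sol_fiber M h27 (M.tr x) w.1 w.2.1 w.2.2 _ fun c hc => ?_
      obtain ⟨z, hz, rfl⟩ := mem_image.1 hc
      obtain ⟨hz', rfl⟩ := mem_filter.1 hz
      exact (mem_filter.1 hz').2
  set S' := S.image fun z : Kˣ × K × K × K => (z.1, z.2.1, z.2.2.1)
  have h3 := card_le_mul_card_image (f := Prod.fst) S' (2 * Nat.card K) fun k _ => by
    rw [← card_image_of_injOn (f := Prod.snd) fun z hz z' hz' e =>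
      Prod.ext ((mem_filter.1 hz).2.trans (mem_filter.1 hz').2.symm) e]
    by_contra h
    obtain ⟨w, hw, h⟩ := hne k _ (not_le.1 h)
    obtain ⟨z, hz, rfl⟩ := mem_image.1 hw
    obtain ⟨hz', rfl⟩ := mem_filter.1 hz
    obtain ⟨v, hv, rfl⟩ := mem_image.1 hz'
    exact h _ (mem_filter.1 hv).2
  have h4 : (S'.image Prod.fst).card ≤ Nat.card K - 1 := by
    rw [← Nat.card_units, Nat.card_eq_fintype_card]; exact card_le_univ _
  have h5 := h2.trans (Nat.mul_le_mul_left _ (h3.trans (Nat.mul_le_mul_left _ h4)))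
  have h6 : Nat.card K / 5 * 5 ≤ Nat.card K := Nat.div_mul_le_self _ _
  generalize Nat.card K / 5 = d at *
  obtain ⟨w, hw⟩ : ∃ w, Nat.card K = w + 1 := ⟨Nat.card K - 1, by omega⟩
  rw [hw, Nat.add_sub_cancel] at h1 h5
  rw [hw] at h6 h27
  have h7 : 5 * S.card ≤ (w + 1) * (2 * (w + 1) * w) := by
    have := Nat.mul_le_mul_right (2 * (w + 1) * w) h6
    linarith
  have h8 : (w + 1) * 26 ≤ (w + 1) ^ 3 * w :=
    Nat.mul_le_mul (Nat.le_self_pow (by norm_num) _) (by omega)
  have h9 := Nat.mul_le_mul_left (2 * (w + 1)) h7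
  linarith

end Cfsg.Agent.H37
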