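import Cfsg.Agent.H37.ReC

/-!
Small Ree groups: the classes of elements of order nine and a duality bound.
-/

set_option autoImplicit false
set_option linter.style.haveILetI false
set_option linter.unusedSectionVars false

namespace Cfsg.Agent.H37

open Finset H13 Module

variable {G K : Type*} [Group G] [Field K] (M : Ree G K) [Finite K] [Algebra (ZMod 3) K]

local notation "Tr" => Algebra.trace (ZMod 3) K

instance fact_three : Fact (Nat.Prime 3) := ⟨Nat.prime_three⟩

theorem tr_ψ (s : K) : Tr (M.ψ s) = Tr s :=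
  Algebra.trace_eq_of_algEquiv (AlgEquiv.ofBijective
    ({ M.ψ with commutes' := fun r => by simp [← RingHom.comp_apply, Subsingleton.elim (M.ψ.comp _) (algebraMap (ZMod 3) K)] } :
      K →ₐ[ZMod 3] K) (Finite.injective_iff_bijective.1 M.ψ.injective)) s

theorem exists_ψ_sub {b : K} (h : Tr b = 0) : ∃ s, M.ψ s - s = b := by
  classical
  let D : K →+ K := M.ψ.toAddMonoidHom - AddMonoidHom.id K
  let T : K →+ ZMod 3 := (Algebra.trace (ZMod 3) K).toAddMonoidHom
  have h1 : D.range ≤ T.ker := by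
    rintro _ ⟨s, rfl⟩
    simp [D, T, tr_ψ]
  have h2 := D.ker.card_mul_index
  have h3 := T.ker.card_mul_index
  rw [AddSubgroup.index_ker] at h2 h3
  rw [AddMonoidHom.range_eq_top.2 (Algebra.trace_surjective (ZMod 3) K), AddSubgroup.card_top, Nat.card_zmod] at h3
  have h4 : Nat.card D.ker ≤ 3 := by
    refine le_trans (Set.ncard_le_ncard (t := ({0, 1, -1} : Finset K)) fun s hs => ?_) ?_
    · simpa using M.ψ_eq_self (sub_eq_zero.1 hs)
    · rw [Set.ncard_coe_finset]; exact card_le_three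
  have h5 := AddSubgroup.eq_of_le_of_card_ge h1 (by nlinarith)
  exact h5.ge (show b ∈ T.ker from h)

theorem dual_bound (A V : Finset K) (h : ∀ a ∈ A, ∀ v ∈ V, Tr (a * v) = 0) : A.card * V.card ≤ Nat.card K := by
  set W := Submodule.span (ZMod 3) (V : Set K)
  have hnd := traceForm_nondegenerate (ZMod 3) K
  have h1 := LinearMap.BilinForm.finrank_orthogonal hnd W
  have h2 : V.card ≤ Nat.card W := by
    rw [← Set.ncard_coe_finset]; exact Set.ncard_le_ncard Submodule.subset_span
  have h3 : A.card ≤ Nat.card ((Algebra.traceForm (ZMod 3) K).orthogonal W) := by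
    rw [← Set.ncard_coe_finset]
    refine Set.ncard_le_ncard fun a ha w hw => ?_
    refine Submodule.span_induction (fun v hv => ?_) (by simp [LinearMap.BilinForm.IsOrtho])
      (fun x y _ _ hx hy => ?_) (fun r x _ hx => ?_) hw
    · simpa [LinearMap.BilinForm.IsOrtho, mul_comm] using h a ha v hv
    · simp only [LinearMap.BilinForm.IsOrtho, map_add, LinearMap.add_apply] at hx hy ⊢
      rw [hx, hy, add_zero]
    · simp only [LinearMap.BilinForm.IsOrtho, map_smul, LinearMap.smul_apply] at hx ⊢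
      rw [hx, smul_zero]
  rw [natCard_eq_pow_finrank (K := ZMod 3)] at h2 h3
  rw [natCard_eq_pow_finrank (K := ZMod 3) (V := K), ← Nat.sub_add_cancel W.finrank_le, ← h1, pow_add]
  exact Nat.mul_le_mul h3 h2

theorem norm_cases {x y : K} (h : x * M.ψ x = y * M.ψ y) : x = y ∨ x = -y := by
  by_cases hy : y = 0
  · simpa [hy] using h
  have h1 := M.ψ_ne hy
  have h2 : x / y * M.ψ (x / y) = 1 := by rw [map_div₀]; field_simp; exact h
  have h3 := congrArg M.ψ h2
  rw [map_mul, M.ψψ, map_one] at h3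
  have h4 : (x / y) ^ 2 = 1 := by linear_combination h3 - (x / y) ^ 2 * h2
  rcases mul_self_eq_one_iff.1 ((sq _).symm.trans h4) with h | h
  · exact Or.inl (by rwa [div_eq_one_iff_eq hy] at h)
  · exact Or.inr (by rw [div_eq_iff hy] at h; linear_combination h)

theorem clique (S : Finset (K × K)) (hS : 2 * Nat.card K < S.card) : ∃ z ∈ S, ∃ w ∈ S, z.1 ≠ w.1 ∧
    Tr ((w.2 - z.2 + z.1 * M.ψ (w.1 - z.1)) / ((w.1 - z.1) * M.ψ (w.1 - z.1)) - 1) ≠ 0 := by
  classical
  by_contra hne
  push Not at hne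
  set D := S.image Prod.fst
  have h1 : ∀ t ∈ D, (S.filter (·.1 = t)).card * D.card ≤ 2 * Nat.card K := fun t ht => by
    obtain ⟨z, hz, rfl⟩ := mem_image.1 ht
    have h2 := dual_bound ((S.filter (·.1 = z.1)).image fun w => w.2 - z.2)
      (D.image fun s => ((s - z.1) * M.ψ (s - z.1))⁻¹) fun a ha v hv => by
        obtain ⟨w, hw, rfl⟩ := mem_image.1 ha
        obtain ⟨hw, e⟩ := mem_filter.1 hw
        obtain ⟨_, hs, rfl⟩ := mem_image.1 hv
        obtain ⟨y, hy, rfl⟩ := mem_image.1 hs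
        by_cases h : z.1 = y.1
        · simp [h]
        have e1 := hne z hz y hy h
        have e2 := hne w hw y hy (e ▸ h)
        rw [e] at e2
        rw [← sub_zero 0]
        nth_rewrite 1 [← e1]
        rw [← e2, ← map_sub]
        congr 1; ring
    rw [card_image_of_injOn fun w hw w' hw' e =>
      Prod.ext ((mem_filter.1 hw).2.trans (mem_filter.1 hw').2.symm) (sub_left_inj.1 e)] at h2
    have h3 := card_le_mul_card_image (f := fun s => ((s - z.1) * M.ψ (s - z.1))⁻¹) D 2 fun a ha => by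
      obtain ⟨s, -, rfl⟩ := mem_image.1 ha
      refine (card_le_card (t := {s, 2 * z.1 - s}) fun s' hs' => ?_).trans card_le_two
      rcases norm_cases M (inv_inj.1 (mem_filter.1 hs').2) with h | h
      · simp [sub_left_inj.1 h]
      · simp [show s' = 2 * z.1 - s by linear_combination h]
    nlinarith
  have h2 := card_eq_sum_card_image Prod.fst S
  have h3 : S.card * D.card ≤ D.card * (2 * Nat.card K) := by
    rw [h2, sum_mul, ← smul_eq_mul]; exact sum_le_card_nsmul _ _ _ h1
  have h4 : 0 < D.card := card_pos.2 ((card_pos.1 (by omega)).image _)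
  nlinarith

theorem isConj_u1 (b c c' : K) : IsConj (M.u 1 b c) (M.u 1 b c') :=
  isConj_iff.2 ⟨M.u 0 (c - c') 0, by
    rw [mul_inv_eq_iff_eq_mul, M.u_mul, M.u_mul, M.u_inj]; refine ⟨by ring, by simp [add_comm], by simp⟩⟩

theorem isConj_u_norm {t : K} (ht : t ≠ 0) (b c : K) : IsConj (M.u t b c) (M.u 1 (b / (t * M.ψ t)) 0) := by
  obtain ⟨k, hk⟩ := M.exists_wt_t (inv_ne_zero ht)
  refine (isConj_iff.2 ⟨M.h k, M.h_conj ..⟩).trans ?_
  have h1 := congrArg M.ψ hk
  have h2 := M.ψu_ne k
  have h3 := M.ψ_ne ht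
  rw [map_div₀, map_pow, M.ψψ, map_inv₀] at h1
  have h4 : M.ψ k / k * b = b / (t * M.ψ t) := by
    rw [div_eq_mul_inv b, mul_inv, ← hk, ← h1]; field_simp
  rw [hk, inv_mul_cancel₀ ht, h4]
  exact isConj_u1 M ..

theorem isConj_u {t t' b b' : K} (ht : t ≠ 0) (ht' : t' ≠ 0)
    (h : Tr (b / (t * M.ψ t) - 1) = Tr (b' / (t' * M.ψ t') - 1)) (c c' : K) : IsConj (M.u t b c) (M.u t' b' c') := by
  refine (isConj_u_norm M ht b c).trans (IsConj.trans ?_ (isConj_u_norm M ht' b' c').symm)
  obtain ⟨s, hs⟩ := exists_ψ_sub M (b := b' / (t' * M.ψ t') - b / (t * M.ψ t)) (by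
    rw [← sub_eq_zero, ← map_sub] at h
    rw [← neg_eq_zero, ← map_neg, ← h]; congr 1; ring)
  generalize b / (t * M.ψ t) = x at hs
  generalize b' / (t' * M.ψ t') = y at hs
  refine IsConj.trans (isConj_iff.2 ⟨M.u s 0 0, rfl⟩) ?_
  rw [M.u_inv, M.u_mul, M.u_mul]
  convert isConj_u1 M y _ 0 using 2
  · ring
  · simp only [map_neg, map_one]; linear_combination hs

end Cfsg.Agent.H37
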