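import Cfsg.Agent.H37.ReD

/-!
Small Ree groups: the square of a regular semisimple class contains every non-identity element.
-/

set_option autoImplicit false
set_option linter.style.haveILetI false
set_option linter.unusedSectionVars false

namespace Cfsg.Agent.H37

open Finset H13

variable {G K : Type*} [Group G] [Field K] (M : Ree G K) [Finite K]

theorem ree_tr_inv (g : G) : M.tr g⁻¹ = M.tr g := by
  haveI := M.charP
  by_cases hg : g ∈ M.B
  · obtain ⟨t, b, c, k, rfl⟩ := hg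
    rw [mul_inv_rev, ← map_inv, M.tr_mul_comm, M.u_inv, ree_tr_uh, ree_tr_uh, Fin.sum_univ_seven, Fin.sum_univ_seven]
    have := M.ψu_ne k
    simp [rD]
    field_simp
    ring
  · obtain ⟨y, k, t, b, c, rfl⟩ := M.exists_conj_hnu hg
    rw [conj_inv, M.tr_conj, M.tr_conj, mul_inv_rev, mul_inv_rev, M.tr_mul_comm, M.n_inv, ← map_inv, M.n_mul_h,
      inv_inv, M.u_inv, M.tr_hnu, M.tr_hnu]
    simp only [rTr, map_sub, map_neg, map_mul, map_pow, M.ψψ, map_ofNat]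
    grind

/-- a quotient of two elements of trace `τ` -/
def Quo (τ : K) (g : G) : Prop := ∃ y z, M.tr y = τ ∧ M.tr z = τ ∧ g = y⁻¹ * z

variable {M} {τ : K}

theorem Quo.conj {g g' : G} (h : Quo M τ g) (e : IsConj g g') : Quo M τ g' := by
  obtain ⟨k, rfl⟩ := isConj_iff.1 e
  obtain ⟨y, z, h1, h2, rfl⟩ := h
  exact ⟨k * y * k⁻¹, k * z * k⁻¹, by rwa [M.tr_conj], by rwa [M.tr_conj], by group⟩

theorem Quo.inv {g : G} (h : Quo M τ g) : Quo M τ g⁻¹ := by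
  obtain ⟨y, z, h1, h2, rfl⟩ := h
  exact ⟨z, y, h2, h1, by group⟩

theorem Sol.quo {k : Kˣ} {t b c t' b' c' : K} (h : Sol M τ k t b c) (h' : Sol M τ k t' b' c') :
    Quo M τ ((M.u t b c)⁻¹ * M.u t' b' c') := ⟨_, _, h, h', by group⟩

theorem Sol.quo_a {k : Kˣ} {t b c t' b' c' : K} (h : Sol M τ k t b c) (h' : Sol M τ (-1 * k) t' b' c') :
    Quo M τ ((M.u t b c)⁻¹ * M.a * M.u t' b' c') :=
  ⟨_, _, h, h', by
    rw [mul_comm (-1) k, map_mul, ← Ree.a, mul_assoc (M.h k) M.a, ← M.n_mul_a]; group⟩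

theorem Sol.conj {k : Kˣ} {t b c : K} (h : Sol M τ k t b c) (j : Kˣ) :
    Sol M τ (j ^ 2 * k) (j ^ 2 / M.ψ j * t) (M.ψ j / j * b) (j * c) := by
  rw [Sol, ← h, ← M.h_conj, ← M.tr_conj (M.h j) (_ * M.u t b c)]
  congr 1
  have : M.n * M.h j⁻¹ = M.h j * M.n := by rw [M.n_mul_h, inv_inv]
  rw [sq, mul_assoc j, map_mul, mul_comm j k, map_mul, mul_assoc (M.h j * _), mul_assoc (M.h j),
    mul_assoc (M.h k), ← mul_assoc (M.h j) M.n, ← this, map_inv]
  group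

theorem quo_u0 {b c : K} (hb : b ≠ 0) (h : Quo M τ (M.u 0 b c)) {b' : K} (hb' : b' ≠ 0) (c' : K) :
    Quo M τ (M.u 0 b' c') := by
  have key : ∀ {x : K}, x ≠ 0 → ∀ y z, IsConj (M.u 0 x y) (M.u 0 x z) := fun {x} hx y z =>
    isConj_iff.2 ⟨M.u ((z - y) / x) 0 0, by rw [M.u_conj_u0]; congr 1; field_simp; ring⟩
  obtain ⟨k, hk⟩ := M.exists_wt_b (div_ne_zero hb' hb)
  have h1 := h.conj (isConj_iff.2 ⟨M.h k, M.h_conj ..⟩)
  rcases hk with hk | hk <;> rw [hk, mul_zero] at h1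
  · rw [div_mul_cancel₀ _ hb] at h1
    exact h1.conj (key hb' _ _)
  · have h2 := h1.inv
    rw [M.u0_inv, neg_mul, neg_neg, div_mul_cancel₀ _ hb] at h2
    exact h2.conj (key hb' _ _)

theorem quo_ua {b : K} (hb : b ≠ 0) (h : Quo M τ (M.u 0 b 0 * M.a)) {b' : K} (hb' : b' ≠ 0) :
    Quo M τ (M.u 0 b' 0 * M.a) := by
  obtain ⟨k, hk⟩ := M.exists_wt_b (div_ne_zero hb' hb)
  have h1 := h.conj (g' := M.u 0 (M.ψ k / k * b) 0 * M.a) (isConj_iff.2 ⟨M.h k, by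
    rw [← mul_assoc, M.h_mul_u, mul_assoc (M.u ..), ← M.a_mul_h]; simp [mul_assoc]⟩)
  rcases hk with hk | hk <;> rw [hk] at h1
  · rwa [div_mul_cancel₀ _ hb] at h1
  · have h2 := h1.inv
    rwa [mul_inv_rev, M.u0_inv, neg_mul, neg_neg, div_mul_cancel₀ _ hb, neg_zero, M.a_inv, M.a_comm_u0] at h2

variable (M) (h27 : 27 ≤ Nat.card K) {m : ℕ} (hK : Nat.card K = 3 ^ (2 * m + 1)) (hψ : ∀ t, M.ψ t = t ^ 3 ^ (m + 1))
  {x : G} (hx : RReg x)
include h27 hK hψ hx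

theorem quo_ss {g : G} (h3 : ¬ 3 ∣ orderOf g) (h1 : g ≠ 1) : Quo M (M.tr x) g := by
  have := (reg_cent M (by omega) hK hψ hx).1
  obtain ⟨y, z, hy, hz, rfl⟩ := ree_gow M this this h3 h1
  obtain ⟨k, rfl⟩ := isConj_iff.1 hy
  obtain ⟨l, rfl⟩ := isConj_iff.1 hz
  exact ⟨(k * x * k⁻¹)⁻¹, l * x * l⁻¹, by rw [ree_tr_inv, M.tr_conj], M.tr_conj .., by rw [inv_inv]⟩

theorem sol_all (k : Kˣ) : ∃ t b c, Sol M (M.tr x) k t b c := by
  obtain ⟨t1, t2, t3⟩ := tr_class M (by omega) hK hψ hx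
  obtain ⟨y, z, h1, h2, e⟩ := quo_ss M h27 hK hψ hx (g := M.a) (by rw [M.orderOf_a]; norm_num) M.a_ne_one
  obtain rfl : z = y * M.a := by rw [e]; group
  by_cases hy : y ∈ M.B
  · obtain ⟨t, b, c, l, rfl⟩ := hy
    rw [mul_assoc, Ree.a, ← map_mul] at h2
    obtain ⟨h3, h4⟩ := exists_conj_h M (h1 ▸ t1) (h1 ▸ t2)
    obtain ⟨-, h5⟩ := exists_conj_h M (h2 ▸ t1) (h2 ▸ t2)
    rcases isConj_h M h3 (h4.symm.trans ((t3 _ h1).symm.trans ((t3 _ h2).trans h5))) with h | h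
    · exact absurd (mul_left_cancel (h.trans (mul_one l).symm)) M.neg_one_ne'
    · refine absurd ⟨l, ?_⟩ M.not_isSquare_neg_one
      have := congrArg Units.val (eq_inv_iff_mul_eq_one.1 h)
      simp only [Units.val_mul, Units.val_neg, Units.val_one] at this
      linear_combination this
  obtain ⟨t, b, c, l, t', b', c', rfl⟩ := M.exists_big hy
  have key : ∀ {l : Kˣ} {t' b' c' : K}, M.tr (M.u t b c * M.h l * M.n * M.u t' b' c') = M.tr x →
      ∀ j, ∃ t b c, Sol M (M.tr x) (j ^ 2 * l) t b c := fun {l t' b' c'} h j => by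
    obtain ⟨p, q, r, e⟩ := M.U.mul_mem (M.u_mem_U t' b' c') (M.u_mem_U t b c)
    refine ⟨_, _, _, Sol.conj (t := p) (b := q) (c := r) ?_ j⟩
    rw [Sol, ← e, ← h, ← mul_assoc, M.tr_mul_comm]
    simp only [mul_assoc]
  have h3 : M.u t b c * M.h l * M.n * M.u t' b' c' * M.a = M.u t b c * M.h (l * -1) * M.n * M.u (-t') b' (-c') := by
    have := M.a_mul_u (-t') b' (-c')
    rw [neg_neg, neg_neg] at this
    rw [mul_assoc, ← this, map_mul, ← Ree.a, ← mul_assoc, mul_assoc _ M.n, M.n_mul_a]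
    simp only [mul_assoc]
  obtain ⟨j, h | h⟩ := M.sq_or_neg_sq (k * l⁻¹)
  · simpa [← h] using key h1 j
  · convert key (h3 ▸ h2) j using 4
    rw [mul_inv_eq_iff_eq_mul] at h
    rw [h]; simp [mul_comm]

theorem exists_pair : ∃ k t b c b' c', b ≠ b' ∧ Sol M (M.tr x) k t b c ∧ Sol M (M.tr x) k t b' c' := by
  classical
  haveI := Fintype.ofFinite K
  obtain ⟨k, S, h1, h2⟩ := exists_many M (by omega) hK hψ h27 hx
  obtain ⟨z, hz, w, hw, h3, h4⟩ := exists_ne_map_eq_of_card_lt_of_maps_to (s := S) (t := univ) (f := Prod.fst)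
    (by rw [card_univ, ← Nat.card_eq_fintype_card]; omega) fun _ _ => mem_univ _
  obtain ⟨c, hc⟩ := h2 z hz
  obtain ⟨c', hc'⟩ := h2 w hw
  exact ⟨k, z.1, z.2, c, w.2, c', fun e => h3 (Prod.ext h4 e), hc, h4 ▸ hc'⟩

theorem quo_T {b : K} (hb : b ≠ 0) (c : K) : Quo M (M.tr x) (M.u 0 b c) := by
  obtain ⟨k, t, b₁, c₁, b₂, c₂, h, h1, h2⟩ := exists_pair M h27 hK hψ hx
  have := h1.quo h2
  rw [M.u_inv, M.u_mul, neg_add_cancel] at this
  exact quo_u0 (fun e => h (by linear_combination -e)) this hb c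

theorem quo_JT {b : K} (hb : b ≠ 0) : Quo M (M.tr x) (M.u 0 b 0 * M.a) := by
  obtain ⟨k, t, b₁, c₁, b₂, c₂, h, h1, h2⟩ := exists_pair M h27 hK hψ hx
  obtain ⟨t', b', c', h3⟩ := sol_all M h27 hK hψ hx (-1 * k)
  have key : ∀ {b₀ c₀ : K}, Sol M (M.tr x) k t b₀ c₀ → Quo M (M.tr x) (M.u 0 b 0 * M.a) ∨
      b' - b₀ - t * M.ψ t - t' * M.ψ (-t) = (t' - t) * M.ψ (t' - t) := fun {b₀ c₀} h0 => by
    classical
    have h4 := (h0.quo_a h3).conj (g' := M.u t' b' c' * (M.u t b₀ c₀)⁻¹ * M.a) (isConj_iff.2 ⟨M.u t' b' c', by group⟩)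
    rw [M.u_inv, M.u_mul] at h4
    generalize c' + (-c₀ - t * b₀ - 2 * t ^ 2 * M.ψ t) - b' * -t + t' * -t * M.ψ (-t) - t' ^ 2 * M.ψ (-t) = γ at h4
    obtain ⟨y, -, β, e, -⟩ := M.exists_conj_uh (t' + -t) (b' + (-b₀ - t * M.ψ t) - t' * M.ψ (-t)) γ M.neg_one_ne'
    rw [← Ree.a] at e
    by_cases hβ : β = 0
    · right
      have h5 := congrArg orderOf e
      rw [orderOf_cj, hβ, M.u_zero, one_mul, M.orderOf_a, M.orderOf_ua'] at h5
      split_ifs at h5 with h6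
      · rw [← sub_eq_add_neg t'] at h6; linear_combination h6
      · omega
    · rw [e] at h4
      exact Or.inl (quo_ua hβ (h4.conj (isConj_iff.2 ⟨y, rfl⟩).symm) hb)
  rcases key h1 with h4 | h4
  · exact h4
  · exact (key h2).resolve_right fun h5 => h (by linear_combination h5 - h4)

theorem quo_Y {t : K} (ht : t ≠ 0) (b c : K) : Quo M (M.tr x) (M.u t b c) := by
  classical
  haveI := M.charP
  letI := ZMod.algebra K 3
  haveI := Fintype.ofFinite K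
  obtain ⟨k, S, h1, h2⟩ := exists_many M (by omega) hK hψ h27 hx
  by_cases h0 : Algebra.trace (ZMod 3) K (b / (t * M.ψ t) - 1) = 0
  · obtain ⟨z, hz, h3⟩ : ∃ z ∈ S, z.1 ≠ 0 := by
      by_contra h
      push Not at h
      have := card_le_card_of_injOn (s := S) (t := univ) Prod.snd (fun _ _ => mem_univ _) fun z hz w hw e =>
        Prod.ext ((h z hz).trans (h w hw).symm) e
      rw [card_univ, ← Nat.card_eq_fintype_card] at this
      omega
    obtain ⟨c', hc⟩ := h2 z hz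
    have h4 := hc.conj (-1)
    simp only [Units.val_neg, Units.val_one, even_two, Even.neg_pow, one_pow, one_mul, map_neg, map_one] at h4
    have h5 := hc.quo h4
    rw [M.u_inv, M.u_mul] at h5
    have e : -z.1 + 1 / -1 * z.1 = z.1 := by linear_combination (-z.1) * M.three
    refine h5.conj (isConj_u M (e.symm ▸ h3) ht ?_ _ _)
    have := M.ψ_ne h3
    rw [h0, e, ← map_zero (Algebra.trace (ZMod 3) K)]
    congr 1
    simp only [map_mul, map_div₀, map_neg, map_one]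
    field_simp
    linear_combination (-z.1 * M.ψ z.1) * M.three
  · obtain ⟨z, hz, w, hw, h3, h4⟩ := clique M S h1
    obtain ⟨c₁, hc₁⟩ := h2 z hz
    obtain ⟨c₂, hc₂⟩ := h2 w hw
    have h5 := hc₁.quo hc₂
    rw [M.u_inv, M.u_mul, neg_add_eq_sub] at h5
    have h6 := sub_ne_zero.2 h3.symm
    rw [show w.2 - z.2 + z.1 * M.ψ (w.1 - z.1) = -z.2 - z.1 * M.ψ z.1 + w.2 - -z.1 * M.ψ w.1 by
      rw [map_sub]; ring] at h4
    generalize w.1 - z.1 = s at h4 h5 h6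
    generalize -z.2 - z.1 * M.ψ z.1 + w.2 - -z.1 * M.ψ w.1 = β at h4 h5
    rcases (by decide : ∀ u v : ZMod 3, u ≠ 0 → v ≠ 0 → u = v ∨ -u = v) _ _ h4 h0 with h | h
    · exact h5.conj (isConj_u M h6 ht h _ _)
    · have h7 := h5.inv
      rw [M.u_inv] at h7
      refine h7.conj (isConj_u M (neg_ne_zero.2 h6) ht ?_ _ _)
      have := M.ψ_ne h6
      rw [← h, ← map_neg (Algebra.trace (ZMod 3) K)]
      congr 1
      simp only [map_neg]
      field_simp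
      linear_combination (-s * M.ψ s) * M.three

theorem quo_all {g : G} (h1 : g ≠ 1) : Quo M (M.tr x) g := by
  haveI := M.finite
  by_cases h3 : 3 ∣ orderOf g
  swap
  · exact quo_ss M h27 hK hψ hx h3 h1
  obtain ⟨k, hk⟩ := M.exists_conj_mem_B h3
  rw [M.mem_conj_B] at hk
  refine Quo.conj ?_ (isConj_iff.2 ⟨k, show k * (k⁻¹ * g * k) * k⁻¹ = g by group⟩)
  rw [← orderOf_cj k⁻¹, inv_inv] at h3
  rcases M.mem_B_cases hk with ⟨t, b, c, e⟩ | ⟨y, -, ⟨l, -, e⟩ | ⟨b, hb, e⟩⟩ <;> rw [e] at h3 ⊢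
  · by_cases ht : t = 0
    · by_cases hb : b = 0
      · subst ht hb
        have hc : c ≠ 0 := by rintro rfl; simp at h3
        have h0 : M.tr x + 1 ≠ 0 := fun e => (tr_class M (by omega) hK hψ hx).2.1 (by linear_combination e)
        have key : ∀ d, d ^ 2 = c ^ 2 → Sol M (M.tr x) (Units.mk0 _ (div_ne_zero (pow_ne_zero 2 hc) h0)) 0 0 d :=
          fun d hd => by rw [Sol, ree_tr_hz, hd, Units.val_mk0]; field_simp; ring
        convert (key c rfl).quo (key (-c) (by ring)) using 1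
        rw [M.u0_inv, M.u0_mul, M.u_inj]
        exact ⟨rfl, by simp, by linear_combination c * M.three⟩
      · exact ht ▸ quo_T M h27 hK hψ hx hb c
    · exact quo_Y M h27 hK hψ hx ht b c
  · rw [orderOf_cj] at h3
    have := h3.trans (M.card_H ▸ Subgroup.orderOf_dvd_natCard _ (M.h_mem_H l))
    have := M.three_dvd_card
    omega
  · exact (quo_JT M h27 hK hψ hx hb).conj (isConj_iff.2 ⟨y, rfl⟩)

theorem ree_cover {g : G} (h1 : g ≠ 1) : ∃ u v : G, g = (u * x * u⁻¹) * (v * x * v⁻¹) := by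
  obtain ⟨y, z, hy, hz, rfl⟩ := quo_all M h27 hK hψ hx h1
  obtain ⟨-, -, h⟩ := tr_class M (by omega) hK hψ hx
  obtain ⟨u, hu⟩ := isConj_iff.1 (h y⁻¹ (by rwa [ree_tr_inv]))
  obtain ⟨v, hv⟩ := isConj_iff.1 (h z hz)
  exact ⟨u, v, by rw [hu, hv]⟩

end Cfsg.Agent.H37
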