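import Mathlib

/-! Representations of `SL₂(q)` in the defining characteristic: the modules of polynomial functions. -/

set_option autoImplicit false

namespace Cfsg.Agent.H37.S2

open Matrix Finset Polynomial

variable {K : Type*} [Field K]

theorem exists_ker {V ι : Type*} [AddCommGroup V] [Module K V] [Nontrivial V] (n : ι → Module.End K V)
    (hc : ∀ i j, Commute (n i) (n j)) (hn : ∀ i, IsNilpotent (n i)) (s : Finset ι) :
    ∃ v ≠ (0 : V), ∀ i ∈ s, n i v = 0 := by
  classical
  induction s using Finset.induction_on with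
  | empty => exact (exists_ne 0).imp fun v hv => ⟨hv, by simp⟩
  | insert i s _ ih =>
    obtain ⟨v, hv, h⟩ := ih
    have h1 : ∃ k, (n i ^ k) v = 0 := (hn i).imp fun k hk => by rw [hk]; rfl
    have h2 : Nat.find h1 ≠ 0 := fun e => hv (by simpa [e] using Nat.find_spec h1)
    obtain ⟨k, hk⟩ := Nat.exists_eq_succ_of_ne_zero h2
    refine ⟨(n i ^ k) v, Nat.find_min h1 (by omega), fun j hj => ?_⟩
    rcases mem_insert.1 hj with rfl | hj
    · have := Nat.find_spec h1
      rwa [hk, pow_succ', Module.End.mul_apply] at this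
    · rw [← Module.End.mul_apply, ((hc j i).pow_right k).eq, Module.End.mul_apply, h j hj, map_zero]

theorem exists_fixed {V ι G : Type*} [AddCommGroup V] [Module K V] [Nontrivial V] [Finite ι] [Group G]
    (p : ℕ) [Fact p.Prime] [CharP K p] (ρ : Representation K G V) (u : ι → G) (hc : ∀ i j, Commute (u i) (u j))
    (hp : ∀ i, u i ^ p = 1) : ∃ v ≠ (0 : V), ∀ i, ρ (u i) v = v := by
  have := Fintype.ofFinite ι
  have : CharP (Module.End K V) p := charP_of_injective_algebraMap (algebraMap K _).injective p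
  obtain ⟨v, hv, h⟩ := exists_ker (fun i => ρ (u i) - 1)
    (fun i j => (((hc i j).map ρ).sub_right (Commute.one_right _)).sub_left (Commute.one_left _))
    (fun i => ⟨p, by rw [sub_pow_char_of_commute p (Commute.one_right _), ← map_pow, hp, map_one, one_pow, sub_self]⟩)
    univ
  exact ⟨v, hv, fun i => sub_eq_zero.1 (h i (mem_univ _))⟩

theorem det_eq_of_intertwine {S L X : Type*} [AddCommGroup S] [Module K S] [AddCommGroup L] [Module K L]
    [AddCommGroup X] [Module K X] {Φ : S →ₗ[K] X} {Ψ : L →ₗ[K] X} (h1 : Function.Injective Φ)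
    (h2 : Function.Injective Ψ) (h : LinearMap.range Φ = LinearMap.range Ψ) {R : X → X} {f : Module.End K S}
    {f' : Module.End K L} (e1 : ∀ s, Φ (f s) = R (Φ s)) (e2 : ∀ s, Ψ (f' s) = R (Ψ s)) (x : K) :
    LinearMap.det (x • (1 : Module.End K S) - f) = LinearMap.det (x • (1 : Module.End K L) - f') := by
  let E : S ≃ₗ[K] L := (LinearEquiv.ofInjective Φ h1).trans
    ((LinearEquiv.ofEq _ _ h).trans (LinearEquiv.ofInjective Ψ h2).symm)
  have hE : ∀ s, Ψ (E s) = Φ s := fun s =>
    congrArg Subtype.val ((LinearEquiv.ofInjective Ψ h2).apply_symm_apply _)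
  rw [← LinearMap.det_conj _ E]
  congr 1
  ext l
  obtain ⟨s, rfl⟩ := E.surjective l
  apply h2
  simp [hE, e1, e2]

/-- substitution of a matrix in a function of a row vector -/
def act (γ : Matrix (Fin 2) (Fin 2) K) : ((Fin 2 → K) → K) →ₗ[K] (Fin 2 → K) → K :=
  LinearMap.funLeft K K (· ᵥ* γ)

theorem act_apply (γ : Matrix (Fin 2) (Fin 2) K) (f : (Fin 2 → K) → K) (v : Fin 2 → K) : act γ f v = f (v ᵥ* γ) := rfl

theorem act_mul (γ δ : Matrix (Fin 2) (Fin 2) K) (f : (Fin 2 → K) → K) : act (γ * δ) f = act γ (act δ f) :=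
  funext fun v => by simp only [act_apply, vecMul_vecMul]

theorem act_one (f : (Fin 2 → K) → K) : act 1 f = f := funext fun v => by simp only [act_apply, vecMul_one]

/-- the exponents -/
def ex (p l : ℕ) : Finset ℕ := (range (l + 1)).filter fun k => ¬ p ∣ l.choose k

/-- linear combinations of the monomials -/
def mon (K : Type*) [Field K] (p l : ℕ) : (ex p l → K) →ₗ[K] (Fin 2 → K) → K where
  toFun c v := ∑ k, c k * (v 0 ^ k.1 * v 1 ^ (l - k))
  map_add' a b := funext fun v => by simp only [Pi.add_apply, add_mul, sum_add_distrib]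
  map_smul' a b := funext fun v => by simp only [Pi.smul_apply, smul_eq_mul, RingHom.id_apply, mul_sum, mul_assoc]

theorem mon_apply {p l : ℕ} (c : ex p l → K) (v : Fin 2 → K) :
    mon K p l c v = ∑ k, c k * (v 0 ^ k.1 * v 1 ^ (l - k)) := rfl

variable (p : ℕ) [CharP K p]

theorem pw_mem (l : ℕ) (a b : K) : (fun v : Fin 2 → K => (a * v 0 + b * v 1) ^ l) ∈ LinearMap.range (mon K p l) := by
  refine ⟨fun k => l.choose k * a ^ k.1 * b ^ (l - k), funext fun v => ?_⟩
  rw [mon_apply, add_pow, sum_coe_sort (ex p l) fun k => l.choose k * a ^ k * b ^ (l - k) * (v 0 ^ k * v 1 ^ (l - k)),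
    ex, sum_filter]
  refine sum_congr rfl fun k _ => ?_
  split_ifs with h
  · rw [(CharP.cast_eq_zero_iff K p _).2 h, mul_zero]
  · ring

variable {F : Type*} [Field F] [Fintype F] (j : F →+* K)

theorem mon_mem {l : ℕ} (hl : l < Fintype.card F) (c : ex p l → K) :
    mon K p l c ∈ Submodule.span K (Set.range fun (a : F) (v : Fin 2 → K) => (j a * v 0 + v 1) ^ l) := by
  classical
  have h1 : mon K p l c = ∑ k : ex p l, ∑ a : F, (c k * (l.choose k : K)⁻¹ * (Lagrange.basis univ j a).coeff k) •
      fun v : Fin 2 → K => (j a * v 0 + v 1) ^ l := by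
    funext v
    rw [mon_apply, Finset.sum_apply]
    refine sum_congr rfl fun k _ => ?_
    have hk := mem_filter.1 k.2
    have h2 := Lagrange.eq_interpolate (s := univ) (v := j) (f := (C (v 0) * X + C (v 1)) ^ l) j.injective.injOn
      ((degree_pow_le_of_le l (degree_linear_le (a := v 0) (b := v 1))).trans_lt (by simpa using hl))
    have h3 := congrArg (coeff · k) h2
    have h4 : ((C (v 0) * X + C (v 1)) ^ l).coeff k = l.choose k * (v 0 ^ k.1 * v 1 ^ (l - k)) := by
      rw [add_pow, finset_sum_coeff, sum_eq_single k.1]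
      · rw [mul_pow, ← C_pow, ← C_pow, ← C_eq_natCast, coeff_mul_C, coeff_mul_C, coeff_C_mul, coeff_X_pow_self]; ring
      · intro i _ hi
        rw [mul_pow, ← C_pow, ← C_pow, ← C_eq_natCast, coeff_mul_C, coeff_mul_C, coeff_C_mul, coeff_X_pow, if_neg hi.symm]
        simp
      · exact fun h => (h hk.1).elim
    have h5 : (l.choose k : K) ≠ 0 := fun h => hk.2 ((CharP.cast_eq_zero_iff K p _).1 h)
    simp only [h4, Lagrange.interpolate_apply, finset_sum_coeff, coeff_C_mul, eval_pow, eval_add, eval_mul, eval_C,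
      eval_X] at h3
    simp only [Finset.sum_apply, Pi.smul_apply, smul_eq_mul, mul_assoc, ← mul_sum]
    rw [← (inv_mul_eq_iff_eq_mul₀ h5).2 h3.symm]
    congr 2
    exact sum_congr rfl fun a _ => by ring
  rw [h1]
  exact Submodule.sum_mem _ fun k _ => Submodule.sum_mem _ fun a _ =>
    Submodule.smul_mem _ _ (Submodule.subset_span ⟨a, rfl⟩)

include j in
theorem act_mem {l : ℕ} (hl : l < Fintype.card F) (γ : Matrix (Fin 2) (Fin 2) K) (c : ex p l → K) :
    act γ (mon K p l c) ∈ LinearMap.range (mon K p l) := by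
  refine (Submodule.span_le (p := (LinearMap.range (mon K p l)).comap (act γ))).2 ?_ (mon_mem p j hl c)
  rintro _ ⟨a, rfl⟩
  change act γ _ ∈ LinearMap.range _
  convert pw_mem p l (j a * γ 0 0 + γ 0 1) (j a * γ 1 0 + γ 1 1) using 1
  funext v
  simp only [act_apply, vecMul, dotProduct, Fin.sum_univ_two]
  congr 1; ring

omit [CharP K p] in
theorem mon_eq_zero {l : ℕ} (hl : l < Fintype.card F) {c : ex p l → K} (h : ∀ a : F, mon K p l c ![j a, 1] = 0) :
    c = 0 := by
  classical
  have h1 : ∑ k : ex p l, monomial k.1 (c k) = 0 := by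
    refine eq_zero_of_degree_lt_of_eval_index_eq_zero (s := univ) (v := j) j.injective.injOn
      ((degree_sum_le _ _).trans_lt ((Finset.sup_lt_iff (WithBot.bot_lt_coe _)).2 fun k _ =>
        (degree_monomial_le _ _).trans_lt ?_)) fun a _ => ?_
    · have := mem_range.1 (mem_filter.1 k.2).1
      simpa using (by omega : k.1 < Fintype.card F)
    · simpa [mon_apply, eval_finset_sum] using h a
  funext k
  have := congrArg (coeff · k) h1
  simp only [finset_sum_coeff, coeff_monomial, Subtype.val_inj, sum_ite_eq', mem_univ, if_true, coeff_zero] at this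
  exact this

omit [CharP K p] in
theorem act_diag {l : ℕ} (a b : K) (c : ex p l → K) :
    act (diagonal ![a, b]) (mon K p l c) =
      mon K p l (Matrix.toLin' (diagonal fun k : ex p l => a ^ k.1 * b ^ (l - k)) c) := by
  funext v
  simp only [act_apply, mon_apply, vecMul_diagonal, Matrix.toLin'_apply, mulVec_diagonal, cons_val_zero, cons_val_one]
  exact sum_congr rfl fun k _ => by ring

end Cfsg.Agent.H37.S2
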