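import Cfsg.Agent.H37.Spect

/-! Orders of the elements of `G₂(q)`. -/

set_option autoImplicit false

namespace Cfsg.Agent.H37

open Cfsg.Lie Cfsg.Lie.ChevalleyDatum Cfsg.Agent.H38 Finset H39 Chev
open scoped Matrix

universe u

/-- a coefficient of a power of a product of root elements -/
def coefW (D : ChevalleyDatum) (L : List ℕ) (n b b' : ℕ) : ℤ :=
  (((appW D ((List.replicate n L).flatten.map fun r => (r, [(1, 0, 0)])) [(Sum.inr b, 1, 0, 0)]).filter
    fun q => q.1 = Sum.inr b').map fun q => q.2.1).sum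

theorem Cov.pow_ne_one {D : ChevalleyDatum} [Chev D] {hD : IsChev D} {k : Type*} [Field k] {Γ : Type*} [Group Γ]
    (A : Cov hD k Γ) (p : ℕ) [CharP k p] (L : List (Fin D.nroots)) {n : ℕ} {b b' : Fin D.nroots} (hb : b ≠ b')
    (h : ¬ (p : ℤ) ∣ coefW D (L.map Fin.val) n b b') : (L.map fun r => A.X.x r 1).prod ^ n ≠ 1 := fun e => by
  have h1 := congrFun (word_evV (Chev.pre D) (1 : k) 1
    (w := (List.replicate n (L.map Fin.val)).flatten.map fun r => (r, [(1, 0, 0)])) (by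
      simp only [List.mem_map, List.mem_flatten, List.mem_replicate]
      rintro _ ⟨_, ⟨_, ⟨-, rfl⟩, h⟩, rfl⟩
      obtain ⟨r, -, rfl⟩ := List.mem_map.1 h
      exact r.2) (v := [(Sum.inr b, 1, 0, 0)]) (by simp [Valid])) (Sum.inr b')
  have h2 : ((L.map Fin.val).map fun r => xR D k r 1).prod ^ n = 1 := by
    have := congrArg (fun g => ((Units.coeHom _).comp A.θ) g) e
    simp only [map_pow, map_list_prod, List.map_map, map_one] at this
    rw [← this, List.map_map]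
    congr 2
    exact List.map_congr_left fun r _ => by
      simp [A.θ_X, mg_x, x_eq_xR r.2 (Chev.chain_nodup r r.2) (Chev.neg_ne r.2)]
  have h3 : ∀ v : SV, evV D (1 : k) 1 v (Sum.inr b') =
      (((v.filter fun q => q.1 = Sum.inr (b' : ℕ)).map fun q => q.2.1).sum : ℤ) := fun v => by
    induction v with
    | nil => simp [evV]
    | cons q v ih =>
      rw [evV, List.map_cons, List.sum_cons, Pi.add_apply, ← evV, ih, List.filter_cons]
      by_cases hq : q.1 = Sum.inr (b' : ℕ) <;> simp [hq, bv, enc]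
  rw [List.map_map, List.map_flatten, List.map_replicate, List.prod_flatten, List.map_replicate,
    List.prod_replicate, show ((fun a : ℕ × Poly => xR D k a.1 (evP 1 1 a.2)) ∘ fun r => (r, [(1, 0, 0)])) =
      fun r => xR D k r 1 from funext fun r => by simp [evP], h2, Matrix.one_mulVec, h3, h3] at h1
  exact h ((CharP.intCast_eq_zero_iff k p _).1 (h1.symm.trans (by simp [Fin.val_inj, hb])))

theorem zpow_det {A : Type*} [CommGroup A] {x y : A} {a b c d : ℤ} (h : x ^ a * y ^ b = 1) (h' : x ^ c * y ^ d = 1) :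
    x ^ (a * d - b * c) = 1 ∧ y ^ (a * d - b * c) = 1 := by
  rw [mul_eq_one_iff_eq_inv, ← zpow_neg] at h h'
  constructor
  · rw [zpow_sub, mul_comm b, zpow_mul, zpow_mul, h, h', ← zpow_mul, ← zpow_mul, mul_inv_eq_one]; congr 1; ring
  · rw [zpow_sub, mul_inv_eq_one, ← inv_inj, ← zpow_neg, ← zpow_neg, show -(a * d) = -d * a by ring, ← neg_mul,
      zpow_mul, zpow_mul, ← h, ← h', zpow_comm]

/-- the elements as permutations -/
def wG2T : ℕ := 0x53271a4986b0123456789ab1024365879ba164280b3975a5a7390b2841650372a1948b661482b0937a56b8491a27305ab9785634201a5793b082461b6894a172350ba9876543210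

/-- the products with the generators -/
def wG2C : ℕ := 0x8a9ba6b74859627304152031

/-- an element -/
def wG2e (i r : ℕ) : ℕ := fld (fld wG2T 48 0x1000000000000 i) 4 16 r

theorem wG2_gc : gcOK chevG2 G2.w G2.co = true := by decide +kernel

theorem wG2_clos : closOK chevG2.rank chevG2.nroots 12 G2.w wG2e
    (fun i j => fld wG2C 4 16 (Nat.add (Nat.mul 2 i) j)) = true := by decide +kernel

theorem g2Aw : wordOK chevG2 [0] [[-1, 0], [1, 1]] = true := by decide +kernel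

theorem g2Ae : Cov.eigOK chevG2.rank [[-1, 0], [1, 1]]
    [[-1, 0], [-1, -1]] [-1, 0] [-1, 0, 1] [-1, -1] (1) = true := by decide +kernel

theorem g2Bw : wordOK chevG2 [1, 0, 1, 0] [[-2, -3], [1, 1]] = true := by decide +kernel

theorem g2Be : Cov.eigOK chevG2.rank [[-2, -3], [1, 1]]
    [[1, 1], [2, 1]] [-1, 1] [1, 1, 1] [-1, -2] (1) = true := by decide +kernel

theorem g2Cw : wordOK chevG2 [1, 0] [[-1, -3], [1, 2]] = true := by decide +kernel

theorem g2Ce : Cov.eigOK chevG2.rank [[-1, -3], [1, 2]]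
    [[1, 0], [2, -1]] [-1, 0] [1, -1, 1] [-1, -2] (-1) = true := by decide +kernel

theorem g2Xw : wordOK chevG2 [] [[1, 0], [0, 1]] = true := by decide +kernel

theorem g2Xe : Cov.eigOK chevG2.rank [[1, 0], [0, 1]]
    [[-1], [-2]] [-1, 0] [-1, 1] [-1, -2] (1) = true := by decide +kernel

theorem g2Xm : mixOK chevG2 [] [[-1], [-2]] 7 = true := by decide +kernel

theorem g2Yw : wordOK chevG2 [0] [[-1, 0], [1, 1]] = true := by decide +kernel

theorem g2Ye : Cov.eigOK chevG2.rank [[-1, 0], [1, 1]]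
    [[1], [0]] [-1, 0] [1, 1] [-1, 0] (-1) = true := by decide +kernel

theorem g2Ym : mixOK chevG2 [0] [[1], [0]] 11 = true := by decide +kernel

/-- the determinant of two roots -/
def ddG (r s : ℕ) : ℤ := chevG2.cartan 0 r * chevG2.cartan 1 s - chevG2.cartan 1 r * chevG2.cartan 0 s

theorem wG2_poly : ∀ i < 12, (hornOK chevG2 (wG2e i) G2.co [-1, 0, 1] = true ∨
    hornOK chevG2 (wG2e i) G2.co [1, 1, 1] = true ∨ hornOK chevG2 (wG2e i) G2.co [1, -1, 1] = true) ∧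
    (i % 2 = 0 → hornOK chevG2 (wG2e i) G2.co [-1, 1] = true ∨ hornOK chevG2 (wG2e i) G2.co [1, 1] = true ∨
      ∀ r < 12, ddG r (wG2e i r) ∣ 3) := by decide +kernel

set_option synthInstance.maxSize 4000 in
theorem ddG_spec : ∀ r < 12, ∀ s < 12, 6 ≤ r → 6 ≤ s → -3 ≤ ddG r s ∧ ddG r s ≤ 3 ∧ (ddG r s = 0 → r = s) ∧
    (ddG r s ∣ 1 ∨ 2 ≤ ddG r s ∨ ddG r s ≤ -2 ∨ r = s) := by decide +kernel

set_option synthInstance.maxSize 4000 in
theorem ddG_add : ∀ r < 12, ∀ s < 12, ∀ k < 12, 6 ≤ r ∧ 6 ≤ s ∧ 6 ≤ k ∧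
    chevG2.cartan 0 k = chevG2.cartan 0 r + chevG2.cartan 0 s ∧ chevG2.cartan 1 k = chevG2.cartan 1 r + chevG2.cartan 1 s →
    ddG r s ∣ 1 ∨ (ddG r s ∣ 3 ∧ k = 11 ∧ r ≠ 11 ∧ s ≠ 11) := by decide +kernel

variable [Chev chevG2]

section tor

variable {k : Type*} [Field k] {c : Fin chevG2.rank → kˣ}

omit [Chev chevG2] in
theorem pow_ddG {r s : ℕ} (hr : rootChar chevG2 r c = 1) (hs : rootChar chevG2 s c = 1) {m : ℤ} (h : ddG r s ∣ m) :
    c ^ m = 1 := by
  obtain ⟨m, rfl⟩ := h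
  have := zpow_det ((Fin.prod_univ_two fun i => c i ^ chevG2.cartan i r).symm.trans hr)
    ((Fin.prod_univ_two fun i => c i ^ chevG2.cartan i s).symm.trans hs)
  rw [zpow_mul, show c ^ ddG r s = 1 from funext (Fin.forall_fin_two.2 this), one_zpow]

theorem comb_G2 {r s u : Fin chevG2.nroots} (hr : (rs chevG2).Pos r ∧ rootChar chevG2 r c = 1)
    (hs : (rs chevG2).Pos s ∧ rootChar chevG2 s c = 1) (h : (rs chevG2).Comb r s u) (hc : c ≠ 1) :
    c ^ 3 = 1 ∧ (u : ℕ) = 11 ∧ (r : ℕ) ≠ 11 ∧ (s : ℕ) ≠ 11 := by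
  have h0 := (rs chevG2).cl_pos.lt_of_comb hr.1 hs.1 h
  have h1 := (rs chevG2).cl_pos.pos _ hs.1
  have h1' := (rs chevG2).cl_pos.pos _ hr.1
  have hu := (rs_pos_iff _).1 (h.pos hr.1 hs.1)
  have hr' := (rs_pos_iff _).1 hr.1
  have hs' := (rs_pos_iff _).1 hs.1
  obtain ⟨a, b, ha, hb, e⟩ := h
  have e0 := (rs chevG2).A_of_cf e (⟨0, by decide⟩ : Fin chevG2.rank)
  have e1 := (rs chevG2).A_of_cf e (⟨1, by decide⟩ : Fin chevG2.rank)
  simp only [rs_A] at e0 e1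
  have d1 : ddG r u = b * ddG r s := by rw [ddG, ddG, e0, e1]; ring
  have d2 : ddG u s = a * ddG r s := by rw [ddG, ddG, e0, e1]; ring
  obtain ⟨-, -, -, a1⟩ := ddG_spec r r.2 s s.2 hr' hs'
  obtain ⟨b1, b2, b3, -⟩ := ddG_spec r r.2 u u.2 hr' hu
  obtain ⟨c1, c2, -⟩ := ddG_spec u u.2 s s.2 hu hs'
  have h2 : ¬ ddG r s ∣ 1 := fun h => hc (by simpa using pow_ddG hr.2 hs.2 h)
  have h3 : (r : ℕ) ≠ s := fun h => by
    have := b3 (by rw [d1, h, ddG, mul_comm (chevG2.cartan 0 s), sub_self, mul_zero])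
    rw [← Fin.ext this] at h0; omega
  obtain rfl : a = 1 := by rcases a1 with h | h | h | h <;> first | contradiction | nlinarith
  obtain rfl : b = 1 := by rcases a1 with h | h | h | h <;> first | contradiction | nlinarith
  obtain ⟨h4, h5⟩ := (ddG_add r r.2 s s.2 u u.2 ⟨hr', hs', hu, by rw [e0]; ring, by rw [e1]; ring⟩).resolve_left h2
  exact ⟨by exact_mod_cast pow_ddG hr.2 hs.2 h4, h5⟩

theorem torus_G2 {w : Equiv.Perm (Fin chevG2.nroots)} (hw : w ∈ (rs chevG2).W) {q : ℤ} (hc : zact (q • wM w) c = c)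
    (hq : IsCoprime (orderOf c : ℤ) q) :
    ((orderOf c : ℤ) ∣ q ^ 2 - 1 ∨ (orderOf c : ℤ) ∣ q ^ 2 + q + 1 ∨ (orderOf c : ℤ) ∣ q ^ 2 - q + 1) ∧
    ((wM w).det = 1 → ∀ r : Fin chevG2.nroots, rootChar chevG2 r c = 1 →
      (orderOf c : ℤ) ∣ q - 1 ∨ (orderOf c : ℤ) ∣ q + 1 ∨ c ^ 3 = 1) := by
  obtain ⟨i, hi, e, e'⟩ := exists_ent wG2_gc wG2_clos hw
  have key : ∀ {P : List ℤ}, hornOK chevG2 (wG2e i) G2.co P = true → (orderOf c : ℤ) ∣ ev q P.reverse := fun h =>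
    hq.dvd_of_dvd_mul_left (orderOf_dvd_iff_zpow_eq_one.2 (pow_eq_one_of_hornM hc (hornM_eq_zero wG2_gc hw e h)))
  obtain ⟨h1, h2⟩ := wG2_poly i hi
  refine ⟨h1.imp (fun h => ?_) (Or.imp (fun h => ?_) fun h => ?_), fun h r hr => (h2 ?_).imp (fun h => ?_)
    (Or.imp (fun h => ?_) fun h => ?_)⟩
  · refine (dvd_neg.2 (key h)).trans (dvd_of_eq ?_); simp [ev_cons, ev_nil]; ring
  · convert key h using 1; simp [ev_cons, ev_nil]; ring
  · convert key h using 1; simp [ev_cons, ev_nil]; ring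
  · rw [e', neg_one_pow_eq_one_iff_even (by decide)] at h; exact Nat.even_iff.1 h
  · refine (dvd_neg.2 (key h)).trans (dvd_of_eq ?_); simp [ev_cons, ev_nil]; ring
  · convert key h using 1; simp [ev_cons, ev_nil]; ring
  · have h3 := rootChar_zact hw r c
    have h4 : rootChar chevG2 (w r) c = 1 := by rw [← hc, zact_smul, map_zpow, h3, hr, one_zpow]
    exact_mod_cast pow_ddG hr h4 (e r ▸ h r r.2)

end tor

section uni

variable {hD : IsChev chevG2} {k : Type*} [Field k] {Γ : Type*} [Group Γ] (A : Cov hD k Γ) (p : ℕ) [Fact p.Prime]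
  [CharP k p]

theorem Cov.U_pow_G2 {n : ℕ} (hn : 6 ≤ p ^ n) {u : Γ} (hu : u ∈ A.X.U) : u ^ p ^ n = 1 := by
  have h : ∀ r : Fin chevG2.nroots, 6 ≤ (r : ℕ) → 0 < pr r (toF chevG2.rank [3, 5]) ∧ pr r (toF chevG2.rank [3, 5]) < 6 := by decide +kernel
  have h' := fun r (hr : (rs chevG2).Pos r) => h r ((rs_pos_iff r).1 hr)
  refine US_pow_eq_one A.X.toRG0 p (fun r => (pr r (toF chevG2.rank [3, 5])).toNat) (fun r hr s hs =>
    ⟨(rs chevG2).cl_pos.ne_neg hr hs, fun u hu => ⟨hu.pos hr hs, ?_⟩⟩) (fun r hr => by have := h' r hr; omega)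
    (fun r hr => by have := h' r hr; omega) hu
  obtain ⟨a, b, ha, hb, e⟩ := hu
  have h1 : pr u (toF chevG2.rank [3, 5]) = a * pr r (toF chevG2.rank [3, 5]) + b * pr s (toF chevG2.rank [3, 5]) := by
    simp only [pr_eq_sum u, pr_eq_sum r, pr_eq_sum s, e, mul_sum, ← sum_add_distrib]
    exact sum_congr rfl fun _ _ => by simp; ring
  have h2 := h' r hr
  have h3 := h' s hs
  have : pr r (toF chevG2.rank [3, 5]) + pr s (toF chevG2.rank [3, 5]) ≤ pr u (toF chevG2.rank [3, 5]) := by nlinarith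
  omega

theorem Cov.US_pow_G2 {c : Fin chevG2.rank → kˣ} (hc : c ≠ 1) {u : Γ}
    (hu : u ∈ A.X.US {r | (rs chevG2).Pos r ∧ rootChar chevG2 r c = 1}) :
    (∀ n, 3 ≤ p ^ n → u ^ p ^ n = 1) ∧ (c ^ 3 ≠ 1 → u ^ p = 1) := by
  have h0 : ∀ {r s u}, (rs chevG2).Pos r ∧ rootChar chevG2 r c = 1 → (rs chevG2).Pos s ∧ rootChar chevG2 s c = 1 →
      (rs chevG2).Comb r s u → (rs chevG2).Pos u ∧ rootChar chevG2 u c = 1 := fun hr hs hu => ⟨hu.pos hr.1 hs.1, by
    obtain ⟨a, b, -, -, e⟩ := hu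
    rw [rootChar_comb e, hr.2, hs.2]; simp⟩
  refine ⟨fun n hn => US_pow_eq_one A.X.toRG0 p (fun r => if (r : ℕ) = 11 then 2 else 1) (fun r hr s hs =>
    ⟨(rs chevG2).cl_pos.ne_neg hr.1 hs.1, fun u hu => ⟨h0 hr hs hu, ?_⟩⟩) (fun r _ => by split_ifs <;> omega)
    (fun r _ => by split_ifs <;> omega) hu, fun h => ?_⟩
  · obtain ⟨-, a, b, d⟩ := comb_G2 hr hs hu hc
    simp [a, b, d]
  · simpa using US_pow_eq_one A.X.toRG0 p (fun _ => 1) (fun r hr s hs => ⟨(rs chevG2).cl_pos.ne_neg hr.1 hs.1,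
      fun u hu => absurd (comb_G2 hr hs hu hc).1 h⟩) (fun _ _ => le_rfl) (n := 1)
      (fun _ _ => by simpa using (Fact.out : p.Prime).one_lt) hu

end uni

variable (F : Type u) [Field F] [Finite F] (p : ℕ) [Fact p.Prime] [CharP F p]

theorem orderOf_dvd_G2 (x : chevG2.group F) {a b : ℕ} (ha : 6 ≤ p ^ a) (hb : 3 ≤ p ^ b) :
    (orderOf x : ℤ) ∣ Nat.card F ^ 2 - 1 ∨ (orderOf x : ℤ) ∣ Nat.card F ^ 2 + Nat.card F + 1 ∨
    (orderOf x : ℤ) ∣ Nat.card F ^ 2 - Nat.card F + 1 ∨ (orderOf x : ℤ) ∣ p * (Nat.card F - 1) ∨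
    (orderOf x : ℤ) ∣ p * (Nat.card F + 1) ∨ orderOf x ∣ p ^ a ∨ (p ≠ 3 ∧ orderOf x ∣ 3 * p ^ b) := by
  obtain ⟨w, hw, c, h1, h2, u, hu, -, h3⟩ := exists_jordan_group (by simp) F p H39.centT_G2 x
  obtain ⟨m, -, hm⟩ := exists_card_eq_pow F p
  have hq : IsCoprime (orderOf c : ℤ) (Nat.card F) := Nat.isCoprime_iff_coprime.2 (hm ▸ h2.pow_right m)
  have key : ∀ n, u ^ n = 1 → orderOf x ∣ n * orderOf c := fun n h => orderOf_dvd_of_pow_eq_one ((h3 _).2
    ⟨by rw [pow_mul', pow_orderOf_eq_one, one_pow], by rw [pow_mul, h, one_pow]⟩)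
  by_cases h5 : ∃ r : Fin chevG2.nroots, rootChar chevG2 r c = 1
  swap
  · rw [Set.eq_empty_of_forall_notMem (s := {r | _}) fun r hr => h5 ⟨r, hr.2⟩, RG0.US_empty, Subgroup.mem_bot] at hu
    have := Int.natCast_dvd_natCast.2 (one_mul (orderOf c) ▸ key 1 (by rw [hu, one_pow]))
    rcases (torus_G2 hw h1 hq).1 with h | h | h
    exacts [.inl (this.trans h), .inr (.inl (this.trans h)), .inr (.inr (.inl (this.trans h)))]
  refine .inr (.inr (.inr ?_))
  by_cases hc : c = 1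
  · have := key _ (Cov.U_pow_G2 _ p ha (RG0.US_mono _ (fun r hr => hr.1) hu))
    rw [hc, orderOf_one, mul_one] at this
    exact .inr (.inr (.inl this))
  obtain ⟨h6, h7⟩ := Cov.US_pow_G2 _ p hc hu
  by_cases h8 : c ^ 3 = 1
  · have h9 := @orderOf_eq_prime _ _ c 3 ⟨Nat.prime_three⟩ h8 hc
    refine .inr (.inr (.inr ⟨?_, by rw [mul_comm, ← h9]; exact key _ (h6 b hb)⟩))
    rintro rfl; rw [h9] at h2; exact absurd h2 (by decide)
  obtain ⟨r, hr⟩ := h5
  have h9 : (orderOf c : ℤ) ∣ Nat.card F - 1 ∨ (orderOf c : ℤ) ∣ Nat.card F + 1 ∨ c ^ 3 = 1 := by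
    rcases Int.natAbs_eq_iff.1 (natAbs_det_W hw) with h | h
    · exact (torus_G2 hw h1 hq).2 h r hr
    · refine (torus_G2 (mul_mem hw (reflPerm_mem r)) ?_ hq).2 ?_ r hr
      · rw [wM_mul hw, ← Matrix.mul_smul, zact_mul, zact_refl, hr, expY_one, div_one, h1]
      · rw [wM_mul hw, Matrix.det_mul, h, det_refl]; rfl
  have h10 := Int.natCast_dvd_natCast.2 (key _ (h7 h8))
  rw [Nat.cast_mul] at h10
  rcases h9 with h | h | h
  exacts [.inl (h10.trans (mul_dvd_mul_left _ h)), .inr (.inl (h10.trans (mul_dvd_mul_left _ h))), absurd h h8]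

include p in
theorem exists_orderOf_G2 {N : ℕ} (h : (N : ℤ) = Nat.card F ^ 2 - 1 ∨ (N : ℤ) = Nat.card F ^ 2 + Nat.card F + 1 ∨
    (N : ℤ) = Nat.card F ^ 2 - Nat.card F + 1) : ∃ x : chevG2.group F, orderOf x = N := by
  have hD : IsChev chevG2 := by simp
  rcases h with h | h | h
  · exact (exists_orderOf_group hD F p H39.centT_G2 g2Aw g2Ae
      (Dvd.intro 1 (by simp [h, ev_cons, ev_nil]; ring)) isCoprime_one_right).1
  · exact (exists_orderOf_group hD F p H39.centT_G2 g2Bw g2Be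
      (Dvd.intro 1 (by simp [h, ev_cons, ev_nil]; ring)) isCoprime_one_right).1
  · exact (exists_orderOf_group hD F p H39.centT_G2 g2Cw g2Ce
      (Dvd.intro 1 (by simp [h, ev_cons, ev_nil]; ring)) isCoprime_one_right.neg_right).1

theorem exists_mixed_G2 {N : ℕ} (h : (N : ℤ) = Nat.card F - 1 ∨ (N : ℤ) = Nat.card F + 1) :
    ∃ x : chevG2.group F, orderOf x = p * N := by
  have hD : IsChev chevG2 := by simp
  rw [mul_comm]
  rcases h with h | h
  · exact (exists_orderOf_group hD F p H39.centT_G2 g2Xw g2Xe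
      (Dvd.intro 1 (by simp [h, ev_cons, ev_nil]; ring)) isCoprime_one_right).2 _ g2Xm
  · exact (exists_orderOf_group hD F p H39.centT_G2 g2Yw g2Ye
      (Dvd.intro 1 (by simp [h, ev_cons, ev_nil]; ring)) isCoprime_one_right.neg_right).2 _ g2Ym

omit [Finite F] in
theorem exists_unip_G2 {n : ℕ} (hn : 6 ≤ p ^ (n + 1)) (h : ¬ (p : ℤ) ∣ coefW chevG2 [7, 6] (p ^ n) 5 10) :
    ∃ x : chevG2.group F, orderOf x = p ^ (n + 1) := by
  have hD : IsChev chevG2 := by simp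
  refine ⟨_, orderOf_eq_prime_pow ((adjCov hD F).pow_ne_one p [⟨7, by decide⟩, ⟨6, by decide⟩]
    (b := ⟨5, by decide⟩) (b' := ⟨10, by decide⟩) (by decide) h) ((adjCov hD F).U_pow_G2 p hn (list_prod_mem fun y hy => ?_))⟩
  obtain ⟨r, hr, rfl⟩ := List.mem_map.1 hy
  refine RG0.x_mem _ ((rs_pos_iff r).2 ?_) _
  clear hy; revert r; decide

theorem Cov.exists_twelve {hD : IsChev chevG2} {k : Type u} [Field k] [IsAlgClosed k] [CharP k 2] {Γ : Type*} [Group Γ]
    {A : Cov hD k Γ} (hA : A.SC) {Φ : A.Frob} {G : Type*} [Group G] (μ : Φ.Model G) {φ : k →+* k} (h4 : Φ.Split 2 φ) :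
    ∃ x : G, orderOf x = 12 := by
  obtain ⟨w, hw, e⟩ := exists_wN (D := chevG2) [0] (by decide)
  have e' : wM w = Matrix.of fun i j : Fin chevG2.rank => gl [[-1, 0], [1, 1]] i j :=
    Matrix.ext fun i j => by rw [wM, cv, e, rs_sp_val, Matrix.of_apply]; revert i j; decide +kernel
  obtain ⟨n, hn⟩ := A.X.exists_rep hw
  obtain ⟨μ'⟩ := μ.exists_twist hn
  obtain ⟨ζ, h6, h7⟩ := Cov.exists_eig (k := k) 2 dvd_rfl g2Ye (N := 3) (by decide) isCoprime_one_right.neg_right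
  rw [← e', ← one_mul (wM w), ← Matrix.smul_mul, ← h4.M_eq, ← Φ.twist_M hn] at h7
  set c := expY (D := chevG2) ζ fun i => ev (2 : ℕ) (List.getD [[1], [0]] i []) with hc
  let b : Fin chevG2.nroots := ⟨6, by decide⟩
  let b' : Fin chevG2.nroots := ⟨10, by decide⟩
  have hb : w b = b' := Fin.ext ((e _).trans (by decide +kernel))
  have hb' : w b' = b := Fin.ext ((e _).trans (by decide +kernel))
  have h8 : ζ ^ (3 : ℤ) = 1 := by
    have : (ζ ^ (1 : ℤ)) ^ 3 = 1 := congrFun (h6 ▸ pow_orderOf_eq_one c) ⟨0, by decide⟩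
    simpa using this
  have h9 : ∀ r : Fin chevG2.nroots, 3 ∣ pr r (fun i => ev (2 : ℕ) (List.getD [[1], [0]] i [])) →
      rootChar chevG2 r c = 1 := fun r ⟨a, ha⟩ => by rw [hc, rootChar_expY, ha, zpow_mul, h8, one_zpow]
  have h10 := h9 b (by decide +kernel)
  have h11 := h9 b' (by decide +kernel)
  have hH := Cov.H_le_cent (Set.singleton_subset_iff.2 (A.torus_mem c))
  have hx : ∀ {r : Fin chevG2.nroots}, rootChar chevG2 r c = 1 → ∀ t, A.X.x r t ∈ Subgroup.centralizer {A.T c} := fun h t =>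
    Subgroup.mem_centralizer_singleton_iff.2 ((A.comm_x_iff c _).2 h t).symm
  obtain ⟨a, ha, e1⟩ := hn.acts.exists_conj b
  obtain ⟨a', ha', e2⟩ := hn.acts.exists_conj b'
  obtain ⟨z, hz⟩ := IsAlgClosed.exists_pow_nat_eq (a / a') (n := 3) (by decide)
  have hz0 : z ≠ 0 := by rintro rfl; exact div_ne_zero ha ha' (by simpa using hz.symm)
  let d := expY (D := chevG2) (Units.mk0 z hz0) (toF _ [2, 3]) * expY (Units.mk0 a' ha') (toF _ [1, 2])
  have hp : pr b (toF _ [2, 3]) = 0 ∧ pr b (toF _ [1, 2]) = 1 ∧ pr b' (toF _ [2, 3]) = 3 ∧ pr b' (toF _ [1, 2]) = 1 := by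
    decide +kernel
  have e3 : (Φ.twist hn).σ (A.X.x b 1 * A.X.x b' 1) =
      (A.X.x b' a * A.T d) * (A.X.x b 1 * A.X.x b' 1) * (A.X.x b' a * A.T d)⁻¹ := by
    have a1 := A.torus_x d b 1
    have a2 := A.torus_x d b' 1
    rw [show (rootChar chevG2 b d : k) * 1 = a' by simp [d, rootChar_expY, hp]] at a1
    rw [show (rootChar chevG2 b' d : k) * 1 = a by simp [d, rootChar_expY, hp, zpow_ofNat, hz, ha']] at a2
    rw [map_mul, Φ.twist_σ, Φ.twist_σ, h4.σ_x, h4.σ_x, e1, e2, hb, hb', map_one, mul_one, mul_one, ← a1, ← a2]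
    group
  have h12 : (Φ.twist hn).σ (A.T c) = A.T c := by rw [Cov.Frob.σ_T, h7]
  obtain ⟨g, hg, e4⟩ := (Φ.twist hn).lang_cent hA (A.torus_mem c) h12
    (inv_mem (mul_mem (hx h11 a) (hH (A.torus_mem d))))
  have h13 := mul_mem (hx h10 1) (hx h11 1)
  obtain ⟨x, hx'⟩ := (μ'.fix_iff (g * (A.T c * (A.X.x b 1 * A.X.x b' 1)) * g⁻¹)).1 (by
    rw [map_mul, map_mul, map_mul, h12, e3, map_inv, ← inv_inv (A.X.x b' a * A.T d), e4, ← mul_assoc g, hg _ rfl |>.symm,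
      ← mul_assoc (Cov.Frob.σ _ g), ← h12, ← map_mul, (hg _ rfl).symm, map_mul, h12]
    group)
  have h14 : orderOf (A.X.x b 1 * A.X.x b' 1) = 2 ^ (1 + 1) := orderOf_eq_prime_pow
    (by simpa using A.pow_ne_one 2 [b, b'] (n := 2) (b := ⟨5, by decide⟩) (b' := b') (by decide) (by decide +kernel))
    ((A.US_pow_G2 2 (c := c) (fun h => by rw [h, orderOf_one] at h6; omega)
      (mul_mem (A.X.x_mem (And.intro ((rs_pos_iff _).2 (by decide)) h10) 1)
        (A.X.x_mem (And.intro ((rs_pos_iff _).2 (by decide)) h11) 1))).1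
      2 (by decide))
  have h15 : orderOf (A.T c) = 3 := (orderOf_injective _ hA c).trans h6
  refine ⟨x, ?_⟩
  rw [← orderOf_injective _ μ'.inj, hx', ← MulAut.conj_apply, MulEquiv.orderOf_eq,
    Commute.orderOf_mul_eq_mul_orderOf_of_coprime (h13 _ rfl) (by rw [h14, h15]; decide), h14, h15]; rfl

omit [Finite F] in
theorem exists_twelve [CharP F 2] : ∃ x : chevG2.group F, orderOf x = 12 := by
  obtain ⟨Φ, φ, μ, h, -⟩ := exists_split_adj (D := chevG2) (by simp) (ZMod 2) 2 H39.centT_G2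
  obtain ⟨x, hx⟩ := Cov.exists_twelve (Cov.sc_of_centT _ H39.centT_G2) μ (Nat.card_zmod 2 ▸ h)
  refine ⟨groupMap _ (ZMod.castHom dvd_rfl F) x, (orderOf_injective _ (fun a b e => ?_) x).trans hx⟩
  exact Subtype.ext (Units.ext (Matrix.map_injective (ZMod.castHom dvd_rfl F).injective
    (congrArg (fun g => g.1.1) e)))

end Cfsg.Agent.H37
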