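import Cfsg.Agent.H38.SBN2
set_option autoImplicit false

/-! The Hecke algebra modulo `p` of a split BN-pair: no element maps all points to opposite points. -/

namespace Cfsg.Agent.H37.Th

open H38 H12 Matrix

variable {p : ℕ} {G : Type*} [Group G] {I : Type} (S : SBN p G I)

/-- the simple reflections -/
abbrev rf (j : I) : Weyl S.bn := H12.refl S.bn (S.s j)

/-- the length function -/
noncomputable abbrev ln (w : Weyl S.bn) : ℕ := len (H12.refl S.bn) w

/-- the longest element -/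
noncomputable abbrev w0 : Weyl S.bn := cw S.bn S.n0

theorem cw_l {b : G} (hb : b ∈ S.B) (g : G) : cw S.bn (b * g) = cw S.bn g := cw_mul_left (P := S.bn) hb g

theorem cw_r {b : G} (hb : b ∈ S.B) (g : G) : cw S.bn (g * b) = cw S.bn g := cw_mul_right (P := S.bn) hb g

theorem ln_pos {j : I} {w : Weyl S.bn} (h : Pos (S.s j) w) : ln S (rf S j * w) = ln S w + 1 := by
  have h1 := h.len_lt
  have h2 := (weyl_exchangeSystem S.bn).len_simple_mul (S.s j) w
  simp only [ln, rf]; omega

theorem ln_neg {j : I} {w : Weyl S.bn} (h : ¬ Pos (S.s j) w) : ln S (rf S j * w) + 1 = ln S w := by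
  have h1 := len_lt_of_not_pos h
  have h2 := (weyl_exchangeSystem S.bn).len_simple_mul (S.s j) w
  simp only [ln, rf]; omega

theorem rf_rf (j : I) (w : Weyl S.bn) : rf S j * (rf S j * w) = w := by rw [← mul_assoc, refl_mul_self, one_mul]

open Classical in
/-- left multiplication by a generator of the Hecke algebra -/
noncomputable def Ls (j : I) (φ : Weyl S.bn → ZMod p) (v : Weyl S.bn) : ZMod p :=
  if Pos (S.s j) v then 0 else φ v - φ (rf S j * v)

variable [Fintype G] [hp : Fact p.Prime]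

theorem card_X (j : I) : (Nat.card (S.X j) : ZMod p) = 0 := by
  rw [ZMod.natCast_eq_zero_iff]
  exact ((S.pU.to_le (S.X_le j)).card_eq_or_dvd).resolve_left fun h => S.X_ne j (Subgroup.card_eq_one.1 h)

open Classical in
theorem sumX (j : I) (φ : Weyl S.bn → ZMod p) (g : G) :
    -∑ x : S.X j, φ (cw S.bn ((x * S.n j)⁻¹ * g)) = Ls S j φ (cw S.bn g) := by
  obtain ⟨u, hu, m, hm, u', hu', rfl⟩ := S.bruhat g
  obtain ⟨x, hx, y, hy, rfl⟩ := S.dec' j hu
  have h1 (z : S.X j) : cw S.bn (((⟨x, hx⟩ * z⁻¹ : S.X j) * S.n j)⁻¹ * (x * y * m * u')) =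
      cw S.bn (S.n j * z * m) := by
    rw [← cw_l S (mul_mem (S.H_le_B (inv_mem (S.n_sq j))) (S.U_le_B (S.Q_le j
      (((S.n_Q j).mul (S.U_Q j _ (S.X_le j z.2))) y hy)))) (S.n j * z * m), ← cw_r S (S.U_le_B hu') (_ * (_ * m))]
    congr 1; simp only [Subgroup.coe_mul, Subgroup.coe_inv]; group
  rw [← ((Equiv.inv _).trans (Equiv.mulLeft (⟨x, hx⟩ : S.X j))).sum_comp]
  simp only [Equiv.trans_apply, Equiv.inv_apply, Equiv.coe_mulLeft, h1]
  rw [cw_r S (S.U_le_B hu'), cw_l S (S.U_le_B hu), Ls]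
  have h2 : cw S.bn (S.n j * m) = rf S j * cw S.bn m := by rw [S.cw_mul (S.n_mem j) hm, S.cw_n]
  have h3 := card_X S j
  rw [Nat.card_eq_fintype_card] at h3
  split_ifs with h
  · rw [Finset.sum_congr rfl (g := fun _ => φ (rf S j * cw S.bn m)) fun z _ => by
      rw [← h2, ← cw_r S (S.U_le_B (((S.pos_iff_up hm).1 h).inv' z.2)) (S.n j * m)]; congr 2; group]
    simp [h3]
  · rw [Finset.sum_congr rfl (g := fun z => φ (cw S.bn m) + if z = 1 then φ (rf S j * cw S.bn m) - φ (cw S.bn m) else 0)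
      fun z _ => ?_, Finset.sum_add_distrib]
    · simp [h3]
    split_ifs with e
    · simp [e, h2]
    obtain ⟨u, hu, k, hk, u', hu', e⟩ := S.dn_cell hm (S.dn_of_not_pos hm h) z.2 (by simpa using e)
    rw [e, cw_r S (S.U_le_B hu'), mul_assoc, cw_l S (S.U_le_B hu), cw_l S (S.H_le_B hk), add_zero]

/-- the twisted matrix of a function on the Weyl group -/
noncomputable def Mx (g : G) (φ : Weyl S.bn → ZMod p) : Matrix (G ⧸ S.B) (G ⧸ S.B) (ZMod p) :=
  of fun c d => φ (cw S.bn (c.out⁻¹ * g * d.out))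

open Classical in
/-- the negatives of the generators of the Hecke algebra -/
noncomputable def Tj (j : I) : Matrix (G ⧸ S.B) (G ⧸ S.B) (ZMod p) :=
  of fun c d => -∑ x : S.X j, if ((c.out * x * S.n j : G) : G ⧸ S.B) = d then 1 else 0

omit [Fintype G] hp in
theorem cw_out (x g : G) : cw S.bn ((x : G ⧸ S.B).out⁻¹ * g) = cw S.bn (x⁻¹ * g) := by
  obtain ⟨b, e⟩ := QuotientGroup.mk_out_eq_mul S.B x
  rw [e, _root_.mul_inv_rev, mul_assoc, cw_l S (inv_mem b.2)]

omit [Fintype G] hp in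
theorem cw_out' (x g : G) : cw S.bn (g * (x : G ⧸ S.B).out) = cw S.bn (g * x) := by
  obtain ⟨b, e⟩ := QuotientGroup.mk_out_eq_mul S.B x
  rw [e, ← mul_assoc, cw_r S b.2]

open Classical in
theorem Tj_mul (j : I) (g : G) (φ : Weyl S.bn → ZMod p) : Tj S j * Mx S g φ = Mx S g (Ls S j φ) := by
  ext c d
  simp only [mul_apply, Tj, Mx, of_apply, neg_mul, Finset.sum_neg_distrib, Finset.sum_mul, ite_mul, one_mul, zero_mul]
  rw [Finset.sum_comm, ← sumX]
  simp only [Finset.sum_ite_eq, Finset.mem_univ, if_true, mul_assoc, cw_out, _root_.mul_inv_rev]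

open Classical in
/-- the signed basis -/
noncomputable def sg (w v : Weyl S.bn) : ZMod p := if v = w then (-1) ^ ln S w else 0

open Classical in
/-- one step of the Demazure product -/
noncomputable def dm (j : I) (w : Weyl S.bn) : Weyl S.bn := if Pos (S.s j) w then rf S j * w else w

omit [Fintype G] hp in
theorem dm_pos {j : I} {w : Weyl S.bn} (h : Pos (S.s j) w) : dm S j w = rf S j * w := if_pos h

omit [Fintype G] hp in
theorem dm_neg {j : I} {w : Weyl S.bn} (h : ¬ Pos (S.s j) w) : dm S j w = w := if_neg h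

omit [Fintype G] in
theorem Ls_sg (j : I) (w : Weyl S.bn) : Ls S j (sg S w) = sg S (dm S j w) := by
  ext v
  have h1 : rf S j * v = w ↔ v = rf S j * w := ⟨fun h => by rw [← h, rf_rf], fun h => by rw [h, rf_rf]⟩
  have h2 : rf S j * w ≠ w := by simpa using refl_ne_one (S.s j)
  by_cases h : Pos (S.s j) w
  · have : ¬ Pos (S.s j) (rf S j * w) := h.not_pos
    rw [dm_pos S h]
    by_cases e : v = rf S j * w
    · simp [Ls, sg, e, this, h2, rf_rf, ln_pos S h, pow_succ]
    · by_cases e' : v = w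
      · simp [Ls, sg, e', h, h2.symm]
      · simp [Ls, sg, e, e', h1]
  · have : Pos (S.s j) (rf S j * w) := pos_mul_of_not h
    rw [dm_neg S h]
    by_cases e : v = w
    · simp [Ls, sg, e, h, h2]
    · by_cases e' : v = rf S j * w
      · simp [Ls, sg, e', this, h2]
      · simp [Ls, sg, e, e', h1]

omit [Fintype G] hp in
theorem cw_one_iff (c : G ⧸ S.B) (g : G) : cw S.bn (c.out⁻¹ * g) = 1 ↔ c = g :=
  (cw_eq_one.trans (QuotientGroup.eq (s := S.B)).symm).trans (by rw [QuotientGroup.out_eq'])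

open Classical in
theorem Mx_one : Mx S 1 (sg S 1) = 1 := by
  ext c d
  simp [Mx, sg, cw_one_iff, one_apply, (len_eq_zero_iff weyl_gen).2 rfl]

open Classical in
theorem Mx_mul (g : G) (φ : Weyl S.bn → ZMod p) :
    Mx S 1 φ * Mx S g (sg S 1) = Mx S g φ ∧ Mx S g (sg S 1) * Mx S 1 φ = Mx S g φ := by
  have h0 : ln S 1 = 0 := (len_eq_zero_iff weyl_gen).2 rfl
  refine ⟨ext fun c d => ?_, ext fun c d => ?_⟩
  · simp [mul_apply, Mx, sg, cw_one_iff, h0, cw_out', mul_assoc]
  · have (e : G ⧸ S.B) : cw S.bn (c.out⁻¹ * (g * e.out)) = 1 ↔ e = (g⁻¹ * c.out : G) := by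
      rw [← cw_one_iff, ← inv_eq_one, ← cw_inv]; simp [mul_assoc]
    simp [mul_apply, Mx, sg, this, h0, cw_out, mul_assoc]

/-- the Demazure product -/
noncomputable def dl (l : List I) (w : Weyl S.bn) : Weyl S.bn := l.foldr (dm S) w

open Classical in
theorem prod_mul (l : List I) (w : Weyl S.bn) : (l.map (Tj S)).prod * Mx S 1 (sg S w) = Mx S 1 (sg S (dl S l w)) := by
  induction l with
  | nil => simp [dl]
  | cons j l ih => rw [List.map_cons, List.prod_cons, Matrix.mul_assoc, ih, Tj_mul, Ls_sg]; rfl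

omit [Fintype G] hp in
theorem dl_cases (l : List I) (w : Weyl S.bn) :
    ln S w < ln S (dl S l w) ∨ dl S l w = w ∧ ∀ j ∈ l, ¬ Pos (S.s j) w := by
  induction l with
  | nil => simp [dl]
  | cons j l ih =>
    change _ < ln S (dm S j (dl S l w)) ∨ dm S j (dl S l w) = w ∧ _
    by_cases h : Pos (S.s j) (dl S l w)
    · rw [dm_pos S h, ln_pos S h]; rcases ih with h | ⟨h, -⟩ <;> [omega; exact .inl (by rw [h]; omega)]
    · rw [dm_neg S h]
      exact ih.imp_right fun ⟨h1, h2⟩ => ⟨h1, List.forall_mem_cons.2 ⟨h1 ▸ h, h2⟩⟩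

omit [Fintype G] hp in
theorem ln_le [Finite G] (w : Weyl S.bn) : ln S w ≤ ln S (w0 S) := by
  obtain ⟨v, hv⟩ := Finite.exists_max (ln S)
  exact (hv w).trans_eq (congrArg _ ((S.isTop.iff v).1 fun s h => (hv _).not_gt h.len_lt))

open Classical in
theorem trace_eq {l : List I} (hl : ∀ j, j ∈ l) (g : G) :
    trace (Mx S g (sg S (dl S l 1))) = trace (Mx S g (sg S (w0 S))) := by
  set c := (l.map (Tj S)).prod
  have h1 : c = Mx S 1 (sg S (dl S l 1)) := by rw [← prod_mul, Mx_one, Matrix.mul_one]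
  have h2 : dl S l (w0 S) = w0 S := ((dl_cases S l _).resolve_left (ln_le S _).not_gt).1
  have h3 (w) : ∃ k, c ^ k * Mx S 1 (sg S w) = Mx S 1 (sg S (w0 S)) := by
    induction h : ln S (w0 S) - ln S w using Nat.strong_induction_on generalizing w with | _ n ih
    rcases dl_cases S l w with h4 | h4
    · obtain ⟨k, hk⟩ := ih _ (by have := ln_le S (dl S l w); omega) (dl S l w) rfl
      exact ⟨k + 1, by rw [pow_succ, Matrix.mul_assoc, prod_mul, hk]⟩
    · exact ⟨0, by rw [(S.isTop.iff w).1 fun s => by obtain ⟨j, rfl⟩ := S.s_surj s; exact h4.2 j (hl j)]; simp⟩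
  obtain ⟨k, hk⟩ := h3 1
  rw [Mx_one, Matrix.mul_one] at hk
  have h4 : c * c ^ k = c ^ k := by rw [hk, prod_mul, h2]
  have h5 (n : ℕ) : c ^ n * c ^ k = c ^ k := by
    induction n with
    | zero => simp
    | succ n ih => rw [pow_succ, Matrix.mul_assoc, h4, ih]
  have h6 (n : ℕ) : (c - c ^ k) ^ (n + 1) = c ^ (n + 1) - c ^ k := by
    induction n with
    | zero => simp
    | succ n ih => rw [pow_succ, ih, sub_mul, mul_sub, mul_sub, h5, h5, ← pow_succ, ← pow_succ, pow_succ' c k, h4]; simp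
  have h7 : IsNilpotent ((c - c ^ k) * Mx S g (sg S 1)) := by
    refine Commute.isNilpotent_mul_right ?_ ⟨k + 1, by rw [h6, pow_succ', h4, sub_self]⟩
    rw [hk, h1]
    exact Commute.sub_left ((Mx_mul S g _).1.trans (Mx_mul S g _).2.symm) ((Mx_mul S g _).1.trans (Mx_mul S g _).2.symm)
  have h8 := (isNilpotent_trace_of_isNilpotent h7).eq_zero
  rwa [sub_mul, hk, h1, (Mx_mul S g _).1, (Mx_mul S g _).1, trace_sub, sub_eq_zero] at h8

omit [Fintype G] hp in
theorem dl_red {l : List I} (h : l.length = ln S (wp (H12.refl S.bn) (l.map S.s))) :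
    dl S l 1 = wp (H12.refl S.bn) (l.map S.s) := by
  induction l with
  | nil => rfl
  | cons j l ih =>
    have h1 := reduced_right weyl_gen (l := [S.s j]) (l' := l.map S.s) (by simpa using h)
    rw [List.length_map] at h1
    change dm S j (dl S l 1) = _
    rw [ih h1, dm_pos S (pos_iff.2 (by rw [← wp_cons, ← List.map_cons, ← h1]; exact (Nat.lt_succ_self _).trans_eq h)), List.map_cons, wp_cons]

variable {a b : I} (hab : ∀ j, j = a ∨ j = b)
include hab

open Classical in
theorem trace_two {w : Weyl S.bn} (hw : 2 ≤ ln S w) (g : G) :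
    trace (Mx S g (sg S w)) = trace (Mx S g (sg S (w0 S))) := by
  obtain ⟨l, h1, rfl⟩ := exists_reduced (weyl_gen w)
  obtain ⟨l, rfl⟩ := S.s_surj.list_map l
  rw [← dl_red S (by simpa using h1), trace_eq]
  rw [ln, ← h1] at hw
  match l, h1, hw with
  | i :: j :: l, h1, _ =>
    have : i ≠ j := by
      rintro rfl
      have := len_wp_le (H12.refl S.bn) (l.map S.s)
      simp only [List.map_cons, wp_cons, rf_rf, List.length_cons] at h1
      omega
    intro k
    rcases hab i with rfl | rfl <;> rcases hab j with rfl | rfl <;> rcases hab k with rfl | rfl <;> simp_all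

theorem exists_not_opp (h4 : 3 ≤ ln S (w0 S)) (g : G) :
    ∃ y, cw S.bn (y⁻¹ * g * y) ≠ w0 S ∧ cw S.bn (y⁻¹ * g * y) ≠ rf S a * w0 S := by
  classical
  by_contra! h
  have h1 := ln_neg S (w := w0 S) (S.isTop.not_pos (S.s a))
  have h6 := trace_two S hab (w := rf S a * w0 S) (by omega) g
  have h7 : (-1) ^ ln S (w0 S) * (trace (Mx S g (sg S (w0 S))) - trace (Mx S g (sg S (rf S a * w0 S)))) =
      S.B.index := by
    rw [Subgroup.index, Nat.card_eq_fintype_card, trace, trace, ← Finset.sum_sub_distrib, Finset.mul_sum,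
      Finset.sum_congr rfl (g := fun _ => 1) fun c _ => ?_]
    · simp
    have h8 : w0 S ≠ rf S a * w0 S := fun e => by rw [← e] at h1; omega
    simp only [diag, Mx, of_apply, sg]
    by_cases e' : cw S.bn (c.out⁻¹ * g * c.out) = w0 S
    · simp [e', h8, ← mul_pow]
    · simp [h _ e', h8.symm, ← h1, pow_succ, ← mul_pow]
  rw [h6, sub_self, mul_zero, eq_comm, ZMod.natCast_eq_zero_iff] at h7
  exact S.not_dvd_index (h7.trans (Subgroup.index_dvd_of_le S.U_le_B))

end Cfsg.Agent.H37.Th
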