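import Cfsg.Agent.H37.ThA
set_option autoImplicit false

/-! Conjugacy classes of a split BN-pair of rank two meet the big cell of a parabolic subgroup. -/

namespace Cfsg.Agent.H37.Th

open H38 H12

theorem conj_of_fpf {G : Type*} [Group G] [Finite G] {K : Subgroup G} {y : G} (h1 : Nz y⁻¹ K K)
    (h2 : ∀ u ∈ K, y * u = u * y → u = 1) {u : G} (hu : u ∈ K) : IsConj y (y * u) ∧ IsConj y (u * y) := by
  have key {u} (hu : u ∈ K) : IsConj y (y * u) := by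
    obtain ⟨z, hz⟩ := (Finite.injective_iff_surjective (f := fun z : K =>
      (⟨y⁻¹ * z * y * (z : G)⁻¹, mul_mem (h1.inv' z.2) (inv_mem z.2)⟩ : K))).1 (fun z w e => by
        have e := congrArg Subtype.val e
        refine Subtype.ext (inv_mul_eq_one.1 (h2 _ (mul_mem (inv_mem w.2) z.2) ?_)).symm
        simp only at e
        calc _ = y * ((w : G)⁻¹ * z) := rfl
          _ = (w : G)⁻¹ * y * (y⁻¹ * w * y * (w : G)⁻¹) * z := by group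
          _ = _ := by rw [← e]; group) ⟨u, hu⟩
    exact isConj_iff.2 ⟨z, by rw [← show _ = u from congrArg Subtype.val hz]; group⟩
  exact ⟨key hu, by simpa [mul_assoc] using key (h1.inv' hu)⟩

variable {p : ℕ} {G : Type*} [Group G] {I : Type} (S : SBN p G I)

theorem ln_mul_le (g h : G) : ln S (cw S.bn (g * h)) ≤ ln S (cw S.bn g) + ln S (cw S.bn h) := by
  obtain ⟨l, h1, h2⟩ := exists_reduced (weyl_gen (cw S.bn g))
  obtain ⟨l', h3, h4⟩ := (h2 ▸ cell_cw g).word_mul (cell_cw h)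
  rw [cw_eq h4]
  exact (len_mul_le weyl_gen _ _).trans (Nat.add_le_add_right ((len_wp_le _ _).trans (h3.length_le.trans h1.le)) _)

theorem ln_up {j : I} {m : G} (hm : m ∈ S.N) (h : Nz m (S.X j) S.U) :
    ln S (cw S.bn (m * S.n j)) = ln S (cw S.bn m) + 1 := by
  have := ln_pos S (S.pos_of_up (inv_mem hm) (by rwa [inv_inv]))
  rwa [cw_inv, ln, ln, len_inv', ← len_inv', mul_inv_rev, inv_inv, refl_inv, ← S.cw_n, ← S.cw_mul hm (S.n_mem j)] at this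

theorem exists_gauss (j : I) : ∃ z ∈ S.X j, ∃ v ∈ S.V, ∃ u ∈ S.U, ∃ k ∈ S.H, z * S.n j = v * u * k := by
  obtain ⟨x, hx, h1⟩ := S.exists_X j
  obtain ⟨u, hu, h, hh, x', hx', e⟩ := S.rank_one hx h1
  obtain ⟨z, hz, y, hy, e'⟩ := S.dec' j ((S.H_U _ (inv_mem hh)).inv' hu)
  refine ⟨z, hz, _, (S.H_V (inv_mem hh)).inv' (S.n_dn j x hx), _, (S.H_U _ (inv_mem hh)).inv'
    (inv_mem (mul_mem (S.Q_le j ((S.n_inv_Q j).inv' hy)) (S.X_le j hx'))), _, inv_mem hh, ?_⟩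
  rw [e, show h⁻¹ * (u * h * S.n j * x') = h⁻¹ * u * h * S.n j * x' by group, e']; group

/-- the rank one subgroup -/
def Lv (a : I) : Subgroup G := S.X a ⊔ (S.X a).map (MulAut.conj (S.n a)).toMonoidHom

variable {a b : I}

theorem X_mem {x : G} (hx : x ∈ S.X a) : x ∈ Lv S a := Subgroup.mem_sup_left hx

theorem nX_mem {x : G} (hx : x ∈ S.X a) : S.n a * x * (S.n a)⁻¹ ∈ Lv S a := Subgroup.mem_sup_right ⟨x, hx, rfl⟩

theorem Lv_le {K : Subgroup G} (h1 : S.X a ≤ K) (h2 : Nz (S.n a) (S.X a) K) : Lv S a ≤ K :=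
  sup_le h1 (by rintro _ ⟨x, hx, rfl⟩; exact h2 x hx)

theorem H_Lv {h : G} (hh : h ∈ S.H) : Nz h (Lv S a) (Lv S a) := fun _ hx =>
  Lv_le S (K := (Lv S a).comap (MulAut.conj h).toMonoidHom) (fun x hx => X_mem S (S.H_X a hh x hx)) (fun x hx => by
    have := nX_mem S (S.H_X a (S.N_H _ (inv_mem (S.n_mem a)) h hh) x hx)
    simpa [mul_assoc] using this) hx

theorem LH_le : Lv S a ⊔ S.H ≤ S.P {a} :=
  have h : S.X a ≤ S.P {a} := (S.X_le a).trans (S.U_le_B.trans S.B_le_P)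
  sup_le (Lv_le S h fun _ hx => nz_self ((S.n_mem_P (J := {a})).2 rfl) _ (h hx)) (S.H_le_B.trans S.B_le_P)

theorem P_Q {g : G} (hg : g ∈ S.P {a}) : Nz g (S.Q a) (S.Q a) := nz_of_mem (S.normalizer_Q a ▸ hg)

theorem P_dec {g : G} (hg : g ∈ S.P {a}) : ∃ q ∈ S.Q a, ∃ m ∈ Lv S a, ∃ h ∈ S.H, g = q * (m * h) := by
  have h1 : S.P {a} ≤ S.Q a ⊔ (Lv S a ⊔ S.H) := by
    have hU : S.U ≤ S.Q a ⊔ (Lv S a ⊔ S.H) := fun u hu => by
      obtain ⟨y, hy, x, hx, rfl⟩ := S.dec a u hu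
      exact mul_mem (Subgroup.mem_sup_left hy) (Subgroup.mem_sup_right (Subgroup.mem_sup_left (X_mem S hx)))
    have hH : S.H ≤ S.Q a ⊔ (Lv S a ⊔ S.H) := le_sup_of_le_right le_sup_right
    refine S.P_le_iff.2 ⟨sup_le hU hH, ?_⟩
    rintro _ rfl
    obtain ⟨h, hh, e⟩ := S.exists_n_mem hU fun x hx => Subgroup.mem_sup_right (Subgroup.mem_sup_left (nX_mem S hx))
    exact (mul_mem_cancel_right (hH hh)).1 e
  obtain ⟨q, hq, l, hl, rfl⟩ := (mem_sup_iff_of_nz fun g hg => P_Q S (LH_le S hg)).1 (h1 hg)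
  obtain ⟨m, hm, h, hh, rfl⟩ := (mem_sup_iff_of_nz fun g hg => H_Lv S hg).1 hl
  exact ⟨q, hq, m, hm, h, hh, rfl⟩

variable (a) in
theorem exists_Qm : ∃ R ≤ S.V, Nz (S.n a) R R ∧ (∀ l ∈ Lv S a ⊔ S.H, Nz l R R) ∧
    ∀ v ∈ S.V, ∃ y ∈ R, ∃ x ∈ Lv S a, v = y * x := by
  obtain ⟨t, -, h⟩ := S.isTop.exists_opp (S.s a)
  obtain ⟨c, rfl⟩ := S.s_surj t
  have hN := mul_mem (inv_mem (mul_mem S.n0_mem (S.n_mem c))) (mul_mem (S.n_mem a) S.n0_mem)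
  have h1 := S.B_N (cw_eq_one.1 (by
    rw [S.cw_mul (inv_mem (mul_mem S.n0_mem (S.n_mem c))) (mul_mem (S.n_mem a) S.n0_mem), cw_inv,
      S.cw_mul S.n0_mem (S.n_mem c), S.cw_mul (S.n_mem a) S.n0_mem, S.cw_n, S.cw_n, h, inv_mul_cancel])) hN
  let f := (MulAut.conj S.n0⁻¹).toMonoidHom
  have hf (g) : f g = S.n0⁻¹ * g * S.n0 := by simp [f]
  have hn : S.n a ∈ (S.P {c}).comap f := by
    have := mul_mem (S.n_mem_P (J := {c}).2 rfl) (S.B_le_P (S.H_le_B h1))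
    rwa [show S.n c * ((S.n0 * S.n c)⁻¹ * (S.n a * S.n0)) = f (S.n a) by rw [hf]; group] at this
  have hV : S.V ≤ (S.P {c}).comap f := fun v hv => S.B_le_P (S.U_le_B (S.n0_inv_V v hv))
  refine ⟨(S.Q c).comap f, fun v hv => ?_, (P_Q S hn).comap, fun l hl => Nz.comap (f := f) (P_Q S ?_), fun v hv => ?_⟩
  · simpa [hf, mul_assoc] using S.n0_U _ (S.Q_le c hv)
  · refine sup_le (Lv_le S (fun x hx => ?_) fun x hx => hV (S.n_dn a x hx))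
      (fun h hh => S.B_le_P (S.H_le_B (S.N_H _ (inv_mem S.n0_mem) h hh))) hl
    simpa [mul_assoc] using nz_self (inv_mem hn) _ (hV (S.n_dn a x hx))
  · obtain ⟨y, hy, x, hx, e⟩ := S.dec c _ (S.n0_inv_V.inv' hv)
    have h2 := S.n0_U x (S.X_le c hx)
    have h3 := ((S.n0_V.mul (S.H_V (inv_mem h1))).mul (S.n_inv_dn c)) x hx
    refine ⟨S.n0 * y * S.n0⁻¹, by simpa [hf, mul_assoc] using hy, S.n0 * x * S.n0⁻¹, ?_, ?_⟩
    · have := nX_mem S ((S.mem_X (j := a)).2 ⟨h3, by simpa [mul_assoc] using h2⟩)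
      simpa [mul_assoc] using this
    · rw [show S.n0 * y * S.n0⁻¹ * (S.n0 * x * S.n0⁻¹) = S.n0 * (y * x) * S.n0⁻¹ by group, ← e]; group

variable (hab : ∀ j, j = a ∨ j = b)
  (hθ : ∀ h ∈ S.H, ∃ z ∈ S.X b, ∃ v ∈ S.V, ∃ u ∈ S.U, ∃ k ∈ S.H, z * S.n b = v * u * k ∧ k * h ∈ Lv S a)

include hab hθ in
theorem gauss {m : G} (hm : m ∈ S.N) {h : G} (hh : h ∈ S.H) :
    ∃ u ∈ S.U, ∃ v ∈ S.V, ∃ k ∈ S.H, ∃ u' ∈ S.U, u * m = v * k * u' ∧ (m ∉ S.P {a} → k * h ∈ Lv S a) := by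
  induction e : ln S (cw S.bn m) using Nat.strong_induction_on generalizing m h with | _ n ih
  by_cases h1 : (cw S.bn m)⁻¹ = 1
  · have h2 := cw_eq_one.1 (inv_eq_one.1 h1)
    exact ⟨1, one_mem _, 1, one_mem _, m, S.B_N h2 hm, 1, one_mem _, by simp, fun h => absurd (S.B_le_P h2) h⟩
  obtain ⟨j, hj⟩ := S.exists_not_pos h1
  rw [← cw_inv] at hj
  have h2 := S.dn_of_not_pos (inv_mem hm) hj
  obtain ⟨m, rfl⟩ : ∃ m', m = m' * S.n j := ⟨m * (S.n j)⁻¹, by simp⟩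
  have hm' := (mul_mem_cancel_right (S.n_mem j)).1 hm
  have h3 : Nz m (S.X j) S.U := (S.up_or_dn hm' j).resolve_right fun h => S.not_dn' (S.up_mul hm' h) (by simpa using h2)
  have h4 : ln S (cw S.bn m) < n := by rw [← e, ln_up S hm' h3]; omega
  have key {z v u k} (hz : z ∈ S.X j) (hv : v ∈ S.V) (hu : u ∈ S.U) (hk : k ∈ S.H) (e : z * S.n j = v * u * k)
      {u₁ v₁ k₁ u₂} (hu₁ : u₁ ∈ S.U) (hv₁ : v₁ ∈ S.V) (hk₁ : k₁ ∈ S.H) (hu₂ : u₂ ∈ S.U) (e' : u₁ * m = v₁ * k₁ * u₂) :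
      ∃ u ∈ S.U, ∃ v ∈ S.V, ∃ u' ∈ S.U, u * (m * S.n j) = v * (k₁ * k) * u' := by
    obtain ⟨x, hx, y, hy, rfl⟩ := S.dec' j hu₂
    have h5 := mul_mem (inv_mem hx) hz
    refine ⟨_, mul_mem hu₁ (h3 _ h5), _, mul_mem hv₁ (S.H_V hk₁ v hv), _, mul_mem ((S.H_U _ (inv_mem hk)).inv' hu)
      (S.Q_le j (((S.n_inv_Q j).mul (S.U_Q j _ (inv_mem (S.X_le j h5)))) y hy)), ?_⟩
    calc _ = u₁ * m * (x⁻¹ * z) * S.n j := by group
      _ = v₁ * k₁ * (z * S.n j) * ((S.n j)⁻¹ * (x⁻¹ * z)⁻¹ * y * (x⁻¹ * z) * S.n j) := by rw [e']; group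
      _ = _ := by rw [e]; group
  rcases hab j with rfl | rfl
  · obtain ⟨z, hz, v, hv, u, hu, k, hk, e⟩ := exists_gauss S j
    obtain ⟨u₁, hu₁, v₁, hv₁, k₁, hk₁, u₂, hu₂, e', h5⟩ := ih _ h4 hm' (mul_mem hk hh) rfl
    obtain ⟨u, hu, v, hv, u', hu', e⟩ := key hz hv hu hk e hu₁ hv₁ hk₁ hu₂ e'
    exact ⟨u, hu, v, hv, _, mul_mem hk₁ hk, u', hu', e, fun h =>
      mul_assoc k₁ _ _ ▸ h5 fun h' => h (mul_mem h' (S.n_mem_P.2 rfl))⟩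
  · obtain ⟨u₁, hu₁, v₁, hv₁, k₁, hk₁, u₂, hu₂, e', -⟩ := ih _ h4 hm' hh rfl
    obtain ⟨z, hz, v, hv, u, hu, k, hk, e, h5⟩ := hθ _ (mul_mem hh hk₁)
    obtain ⟨u, hu, v, hv, u', hu', e⟩ := key hz hv hu hk e hu₁ hv₁ hk₁ hu₂ e'
    exact ⟨u, hu, v, hv, _, mul_mem hk₁ hk, u', hu', e, fun _ => by simpa [mul_assoc] using H_Lv S hk₁ _ h5⟩

variable (a) in
/-- the element moves the base point to a point which is not opposite -/
def Good (g : G) : Prop :=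
  ∃ x ∈ S.P {a}, ∃ y ∈ S.P {a}, ∃ m ∈ S.N, m ∉ S.P {a} ∧ Nz m (S.X a) (S.Q a) ∧ g = x * m * y

include hab in
theorem good_of_not_opp {g : G} (h1 : cw S.bn g ≠ w0 S) (h2 : cw S.bn g ≠ rf S a * w0 S) :
    g ∈ S.P {a} ∨ Good S a g := by
  obtain ⟨x, hx, y, hy, h⟩ := exists_dred {S.s a} {S.s a} g
  rw [← S.P_one] at hx hy
  obtain ⟨m, hm, e⟩ := S.exists_cw (cw S.bn (x * g * y))
  obtain ⟨b₁, h3, b₂, h4, e'⟩ := S.exists_of_cw e.symm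
  have hx' := mul_mem (inv_mem hx) (S.B_le_P h3)
  have hy' := mul_mem (S.B_le_P h4) (inv_mem hy)
  obtain rfl : g = x⁻¹ * b₁ * m * (b₂ * y⁻¹) := by rw [← mul_assoc, mul_assoc _ b₁, mul_assoc x⁻¹, ← e']; group
  refine (em (m ∈ S.P {a})).imp (fun h => mul_mem (mul_mem hx' h) hy') fun h5 => ⟨_, hx', _, hy', m, hm, h5, ?_, rfl⟩
  rw [← e] at h
  have h6 : Pos (S.s a) (cw S.bn m) := pos_iff.2 (h.1 _ rfl)
  have h7 : Pos (S.s a) (cw S.bn m⁻¹) := pos_iff.2 (by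
    rw [cw_inv, len_inv', ← len_inv' (_ * _), mul_inv_rev, inv_inv, refl_inv]; exact h.2 _ rfl)
  have h8 : Nz m (S.X a) S.U := by simpa using (S.pos_iff_up (inv_mem hm)).1 h7
  rcases S.up_or_dn (mul_mem (S.n_mem a) hm) a with h9 | h9
  · intro z hz
    obtain ⟨y, hy, x, hx, e⟩ := S.dec a _ (h8 z hz)
    have := mul_mem (inv_mem (S.Q_le a (S.n_Q a y hy))) (h9 z hz)
    rw [show (S.n a * y * (S.n a)⁻¹)⁻¹ * (S.n a * m * z * (S.n a * m)⁻¹) =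
      S.n a * (y⁻¹ * (m * z * m⁻¹)) * (S.n a)⁻¹ by group, e, inv_mul_cancel_left] at this
    rwa [e, SBN.eq_one_of_conj (S.UV this (S.n_dn a x hx)), mul_one]
  exfalso
  have h10 := h7.exchange (t := S.s a) fun h => S.not_dn' ((S.pos_iff_up (inv_mem (mul_mem (S.n_mem a) hm))).1 (by
    rwa [mul_inv_rev, S.cw_mul (inv_mem hm) (inv_mem (S.n_mem a)), cw_inv (S.n a), S.cw_n, refl_inv])) (by simpa using h9)
  rw [cw_inv, ← inv_inj, mul_inv_rev, mul_inv_rev, inv_inv, refl_inv] at h10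
  have h11 : rf S a * cw S.bn m = w0 S := (S.isTop.iff _).1 fun s => by
    obtain ⟨j, hj⟩ := S.exists_not_pos (w := cw S.bn m) fun e => h5 (S.B_le_P (cw_eq_one.1 e))
    obtain ⟨i, rfl⟩ := S.s_surj s
    by_cases e : i = a
    · exact e ▸ h6.not_pos
    obtain rfl : j = i := by rcases hab j with rfl | rfl <;> [exact absurd h6 hj; exact ((hab i).resolve_left e).symm]
    have := len_mul_simple_le weyl_gen (S.s a) (rf S j * cw S.bn m)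
    have := ln_neg S hj
    have := ln_pos S h6
    rw [pos_iff, ← h10, ← mul_assoc]
    rw [← h10] at this
    simp only [ln, rf] at *; omega
  have h12 : cw S.bn (m * (b₂ * y⁻¹)) = w0 S ∨ cw S.bn (m * (b₂ * y⁻¹)) = rf S a * w0 S := by
    have := cw_pJ_mul (S.P_one a ▸ inv_mem hy') m⁻¹
    rw [← mul_inv_rev, cw_inv, cw_inv, inv_inj, inv_eq_iff_eq_inv, mul_inv_rev, inv_inv, refl_inv, h10] at this
    exact this.symm.imp (·.trans h11) fun e => by rw [e, ← h11, rf_rf]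
  rw [mul_assoc] at h1 h2
  rcases cw_pJ_mul (S.P_one a ▸ hx') (m * (b₂ * y⁻¹)) with e | e <;> rcases h12 with e' | e' <;>
    simp_all [rf_rf]

variable [Fintype G] [Fact p.Prime] [IsSimpleGroup G] (hne : b ≠ a) (h5 : 5 ≤ ln S (w0 S))

include hab hne h5 in
theorem exists_good {g : G} (hg : g ≠ 1) : ∃ y, Good S a (y⁻¹ * g * y) := by
  by_contra! h
  obtain ⟨y, h1, h2⟩ := exists_not_opp S hab (by omega) g
  have hP {z} (hz : z ∈ S.P {a}) (y) : y⁻¹ * g * y ∈ S.P {a} ↔ (y * z)⁻¹ * g * (y * z) ∈ S.P {a} := by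
    rw [show (y * z)⁻¹ * g * (y * z) = z⁻¹ * (y⁻¹ * g * y) * z by group, mul_mem_cancel_right hz,
      mul_mem_cancel_left (inv_mem hz)]
  have hb (y) (hy : y⁻¹ * g * y ∈ S.P {a}) : (y * S.n b)⁻¹ * g * (y * S.n b) ∈ S.P {a} := by
    have h3 : ln S (cw S.bn (y⁻¹ * g * y)) ≤ 1 := by
      rcases mem_pJ_one.1 (S.P_one a ▸ hy) with e | e <;> simp [e, len_refl, (len_eq_zero_iff weyl_gen).2 rfl]
    have h4 := ln_mul_le S ((S.n b)⁻¹ * (y⁻¹ * g * y)) (S.n b)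
    have h6 := ln_mul_le S (S.n b)⁻¹ (y⁻¹ * g * y)
    have h7 := ln_neg S (w := w0 S) (S.isTop.not_pos (S.s a))
    rw [cw_inv, S.cw_n, refl_inv, ln, ln, len_refl] at h6
    rw [S.cw_n, ln, ln, ln, len_refl, show (S.n b)⁻¹ * (y⁻¹ * g * y) * S.n b = (y * S.n b)⁻¹ * g * (y * S.n b) by
      group] at h4
    refine (good_of_not_opp S hab (fun e => ?_) fun e => ?_).resolve_right (h _) <;> rw [e] at h4 <;>
      simp only [ln] at * <;> omega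
  let K : Subgroup G :=
    { carrier := {z | ∀ y, y⁻¹ * g * y ∈ S.P {a} ↔ (y * z)⁻¹ * g * (y * z) ∈ S.P {a}}
      one_mem' := by simp
      mul_mem' := fun h1 h2 y => by rw [h1, h2, mul_assoc y]
      inv_mem' := fun {z} h1 y => by rw [h1 (y * z⁻¹), inv_mul_cancel_right] }
  have hK : S.P Set.univ ≤ K := S.P_le_iff.2 ⟨fun _ hz => hP (S.B_le_P hz), fun j _ => by
    rcases hab j with rfl | rfl
    · exact hP (S.n_mem_P.2 rfl)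
    · exact fun y => ⟨hb y, fun h => by rw [hP (S.B_le_P (S.H_le_B (S.n_sq j))), ← mul_assoc y]; exact hb _ h⟩⟩
  have h3 : g ∈ (S.P {a}).normalCore := fun z => by
    have := (hK (S.P_univ.ge (Subgroup.mem_top (y⁻¹ * z⁻¹))) y).1 ((good_of_not_opp S hab h1 h2).resolve_right (h y))
    rwa [mul_inv_cancel_left, inv_inv] at this
  rcases (S.P {a}).normalCore_normal.eq_bot_or_eq_top with e | e
  · exact hg (e.le h3)
  · exact hne ((S.n_mem_P (J := {a})).1 ((S.P {a}).normalCore_le (e.ge trivial)))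

include hab hθ hne h5 in
/-- the covering theorem -/
theorem cover {x : G} (hx : x ∈ Lv S a ⊔ S.H) (hQ : ∀ u ∈ S.Q a, x * u = u * x → u = 1)
    (hV : ∀ v ∈ S.V, S.n a * v * (S.n a)⁻¹ ∈ S.V → x * v = v * x → v = 1) {h : G} (hh : h ∈ S.H)
    (hl : ∀ l, l * h ∈ Lv S a → ∃ s ∈ S.X a, ∃ c ∈ Lv S a, ∃ d ∈ Lv S a, l * s = c * x * c⁻¹ * (d * x * d⁻¹))
    (g : G) (hg : g ≠ 1) : ∃ u v : G, g = u * x * u⁻¹ * (v * x * v⁻¹) := by
  obtain ⟨y, x₁, h1, x₂, h2, m, hm, h3, h4, e⟩ := exists_good S hab hne h5 hg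
  obtain ⟨R, r1, r2, r3, r4⟩ := exists_Qm S a
  obtain ⟨q, hq, m₀, hm₀, h₀, hh₀, e'⟩ := P_dec S (mul_mem h2 h1)
  obtain ⟨u, hu, v, hv, k, hk, u', hu', e'', h6⟩ := gauss S hab hθ hm (mul_mem hh hh₀)
  obtain ⟨x₃, hx₃, y₃, hy₃, rfl⟩ := S.dec' a hu
  obtain ⟨x₄, hx₄, y₄, hy₄, rfl⟩ := S.dec' a hu'
  obtain ⟨v, hv', x₅, hx₅, rfl⟩ := r4 v hv
  obtain ⟨s, hs, c, hc, d, hd, e₁⟩ := hl (m₀ * h₀ * (x₃⁻¹ * x₅ * k * x₄)) (by
    have := mul_mem (mul_mem (mul_mem hm₀ (H_Lv S hh₀ _ (mul_mem (inv_mem (X_mem S hx₃)) hx₅))) (H_Lv S hh₀ _ (h6 h3)))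
      ((H_Lv S (inv_mem hh)).inv' (X_mem S hx₄))
    simpa [mul_assoc] using this)
  have hl₀ := mul_mem (Subgroup.mem_sup_left (T := S.H) hm₀) (Subgroup.mem_sup_right hh₀)
  have hz := mul_mem (P_Q S (LH_le S hl₀) _ (mul_mem hy₃ (h4 s hs))) (inv_mem hq)
  have hc' := Subgroup.mem_sup_left (T := S.H) hc
  have hd' := Subgroup.mem_sup_left (T := S.H) hd
  obtain ⟨α, hα⟩ := isConj_iff.1 (conj_of_fpf (r3 _ (inv_mem hx)) (fun v hv => hV v (r1 hv) (r1 (r2 v hv)))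
    (r3 _ (mul_mem (mul_mem (inv_mem hc') hl₀) (inv_mem (Subgroup.mem_sup_left (X_mem S hx₃)))) v hv')).2
  obtain ⟨β, hβ⟩ := isConj_iff.1 (conj_of_fpf (P_Q S (LH_le S (inv_mem hx))) hQ ((P_Q S (LH_le S (inv_mem hd'))).inv'
    (mul_mem ((S.U_Q a _ (inv_mem (S.X_le a hs))).inv' hy₄) (inv_mem hz)))).1
  generalize hz' : m₀ * h₀ * (y₃ * (m * s * m⁻¹)) * (m₀ * h₀)⁻¹ * q⁻¹ = z at hβ
  refine ⟨y * x₂⁻¹ * z⁻¹ * c * α, y * x₂⁻¹ * z⁻¹ * d * β, ?_⟩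
  calc g = y * x₂⁻¹ * z⁻¹ * (z * (x₂ * x₁) * m * z⁻¹) * (y * x₂⁻¹ * z⁻¹)⁻¹ := by
        rw [show g = y * (y⁻¹ * g * y) * y⁻¹ by group, e]; group
    _ = y * x₂⁻¹ * z⁻¹ * (m₀ * h₀ * x₃⁻¹ * (x₃ * y₃ * m) * s * z⁻¹) * (y * x₂⁻¹ * z⁻¹)⁻¹ := by
        rw [e']; congr 3; rw [← hz']; group
    _ = y * x₂⁻¹ * z⁻¹ * (m₀ * h₀ * x₃⁻¹ * v * (m₀ * h₀ * x₃⁻¹)⁻¹ * (m₀ * h₀ * (x₃⁻¹ * x₅ * k * x₄) * s) *
        (s⁻¹ * y₄ * s * z⁻¹)) * (y * x₂⁻¹ * z⁻¹)⁻¹ := by rw [e'']; group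
    _ = y * x₂⁻¹ * z⁻¹ * (c * (α * x * α⁻¹) * c⁻¹ * (d * (β * x * β⁻¹) * d⁻¹)) * (y * x₂⁻¹ * z⁻¹)⁻¹ := by
        rw [e₁, hα, hβ]; group
    _ = _ := by group

end Cfsg.Agent.H37.Th
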