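import Cfsg.Agent.H90.SL2
set_option autoImplicit false

/-! Products of two conjugates of a nonsplit element of `GL₂`. -/

namespace Cfsg.Agent.H37.Th

open H90 Matrix Polynomial

variable {F : Type*} [Field F]

theorem exists_form [Finite F] {a b c : F} (ha : a ≠ 0) (h : (2 : F) ≠ 0 → b ^ 2 - 4 * a * c ≠ 0) :
    ∃ x y, a * x ^ 2 + b * x * y + c * y ^ 2 = 1 := by
  have := Fintype.ofFinite F
  by_cases h2 : ringChar F = 2
  · obtain ⟨x, hx⟩ := FiniteField.isSquare_of_char_two h2 a⁻¹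
    exact ⟨x, 0, by rw [sq x, ← hx]; simp [ha]⟩
  have h3 := Ring.two_ne_zero h2
  obtain ⟨x, y, e⟩ := FiniteField.exists_root_sum_quadratic (f := (X ^ 2 : F[X]))
    (g := C (-(b ^ 2 - 4 * a * c)) * X ^ 2 + C 0 * X + C (-4 * a)) (by simp)
    (degree_quadratic (neg_ne_zero.2 (h h3))) (FiniteField.odd_card_of_char_ne_two h2)
  refine ⟨(x - b * y) / (2 * a), y, ?_⟩
  simp only [eval_pow, eval_X, eval_add, eval_mul, eval_C] at e
  field_simp
  linear_combination e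

theorem exists_tau [Finite F] {d : F} (hd : d ≠ 0) : ∃ τ : F, ∀ r, r ^ 2 ≠ -d + τ * r := by
  by_contra! h
  choose f hf using h
  have h1 (τ) : f τ ≠ 0 := fun e => hd (by simpa [e] using hf τ)
  obtain ⟨τ, e⟩ := (Finite.injective_iff_surjective (f := f)).1 (fun s t e => mul_right_cancel₀ (h1 t) (by
    have := hf s
    rw [e] at this
    linear_combination hf t - this)) 0
  exact h1 τ e

/-- the underlying matrix -/
def mv : SpecialLinearGroup (Fin 2) F →* Matrix (Fin 2) (Fin 2) F := ⟨⟨Subtype.val, rfl⟩, fun _ _ => rfl⟩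

@[simp] theorem mv_xu (t : F) : mv (xu t) = !![1, t; 0, 1] := rfl
@[simp] theorem mv_xl (t : F) : mv (xl t) = !![1, 0; t, 1] := rfl
@[simp] theorem mv_mk (M : Matrix (Fin 2) (Fin 2) F) (h) : mv ⟨M, h⟩ = M := rfl
@[simp] theorem det_mv (m : SpecialLinearGroup (Fin 2) F) : (mv m).det = 1 := m.2

/-- the companion matrix -/
def cm (d τ : F) : Matrix (Fin 2) (Fin 2) F := !![0, -d; 1, τ]

theorem ne_of_irr {d τ : F} (h : ∀ r, r ^ 2 ≠ -d + τ * r) {M : Matrix (Fin 2) (Fin 2) F} (h1 : M.det = d)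
    (h2 : M.trace = τ) : M 1 0 ≠ 0 := fun e => h (M 0 0) (by
  rw [← h1, ← h2, det_fin_two, trace_fin_two, e]; ring)

theorem exists_conj_cm [Finite F] {d τ : F} (h : ∀ r, r ^ 2 ≠ -d + τ * r) {M : Matrix (Fin 2) (Fin 2) F}
    (h1 : M.det = d) (h2 : M.trace = τ) : ∃ c : SpecialLinearGroup (Fin 2) F, M = mv c * cm d τ * mv c⁻¹ := by
  rw [det_fin_two] at h1
  rw [trace_fin_two] at h2
  obtain ⟨x, y, e⟩ := exists_form (b := M 1 1 - M 0 0) (c := -M 0 1)
    (ne_of_irr h (by rwa [det_fin_two]) (by rwa [trace_fin_two])) fun h3 e => h (τ / 2) (by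
      field_simp
      rw [← h1, ← h2]
      linear_combination -e)
  let c : SpecialLinearGroup (Fin 2) F := ⟨!![x, M 0 0 * x + M 0 1 * y; y, M 1 0 * x + M 1 1 * y], by
    rw [det_fin_two_of]; linear_combination e⟩
  refine ⟨c, ?_⟩
  rw [show mv c * cm d τ = M * mv c by
    ext i j; fin_cases i <;> fin_cases j <;> simp [c, cm, mul_apply, ← h1, ← h2] <;> ring]
  rw [mul_assoc, ← map_mul, mul_inv_cancel, map_one, mul_one]

theorem mat_cover [Finite F] {d τ : F} (h : ∀ r, r ^ 2 ≠ -d + τ * r) {M : Matrix (Fin 2) (Fin 2) F}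
    (hM : M.det = d ^ 2) : ∃ s, ∃ c e : SpecialLinearGroup (Fin 2) F,
      M * mv (xu s) = mv c * cm d τ * mv c⁻¹ * (mv e * cm d τ * mv e⁻¹) := by
  have hd : d ≠ 0 := fun e => h 0 (by simp [e])
  rw [det_fin_two] at hM
  obtain ⟨r, hr⟩ : ∃ r, r * M 1 0 - M 0 0 ≠ 0 := by
    by_contra! h1
    have h2 := h1 0
    have h3 := h1 1
    exact pow_ne_zero 2 hd (by linear_combination -hM - M 0 1 * h3 - (M 1 1 - M 0 1) * h2)
  obtain ⟨s, hs⟩ : ∃ s, s * (r * M 1 0 - M 0 0) = τ * d - (M 0 0 * (τ - r) - M 0 1 + M 1 0 * (d - r * τ + r ^ 2) +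
    M 1 1 * r) := ⟨_, div_mul_cancel₀ _ hr⟩
  obtain ⟨c, hc⟩ := exists_conj_cm h (M := M * mv (xu s) * (d⁻¹ • !![τ - r, d - r * τ + r ^ 2; -1, r]))
    (by simp [det_fin_two, hM]; field_simp; ring)
    (by simp [trace_fin_two, mul_apply, vecMul, dotProduct]; field_simp; linear_combination hs)
  refine ⟨s, c, xu r, ?_⟩
  rw [← hc, ← xu_neg, Matrix.mul_assoc (M * _), show d⁻¹ • !![τ - r, d - r * τ + r ^ 2; -1, r] *
    (mv (xu r) * cm d τ * mv (xu (-r))) = 1 by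
      ext i j; fin_cases i <;> fin_cases j <;> simp [cm] <;> field_simp <;> ring, Matrix.mul_one]

theorem cm_pow [Finite F] {d τ : F} (h : ∀ r, r ^ 2 ≠ -d + τ * r) : cm d τ ^ (Nat.card F ^ 2 - 1) = 1 := by
  have := Fact.mk h
  have : Finite (QuadraticAlgebra F (-d) τ) := .of_equiv _ (QuadraticAlgebra.equivProd _ _).symm
  have := Fintype.ofFinite (QuadraticAlgebra F (-d) τ)
  have h1 := FiniteField.pow_card_sub_one_eq_one (QuadraticAlgebra.omega : QuadraticAlgebra F (-d) τ)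
    (fun e => by simpa using congrArg QuadraticAlgebra.im e)
  rw [← Nat.card_eq_fintype_card, Nat.card_congr (QuadraticAlgebra.equivProd _ _), Nat.card_prod, ← sq] at h1
  have h2 := congrArg (QuadraticAlgebra.lift ⟨cm d τ, by
    ext i j; fin_cases i <;> fin_cases j <;> simp [cm, mul_apply]; ring⟩) h1
  rw [map_pow, map_one] at h2
  simpa using h2

variable {G : Type*} [Group G] (φ : SpecialLinearGroup (Fin 2) F →* G) (h : G) (d : F)

/-- the matrix of an element of the group generated by the image of `SL₂` and a diagonal element -/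
def Rp (g : G) (M : Matrix (Fin 2) (Fin 2) F) (k : ℕ) : Prop :=
  ∃ m, g = φ m * h ^ k ∧ M = mv m * !![d, 0; 0, 1] ^ k

variable {φ h d} (hd : d ≠ 0) (h1 : ∀ t, h * φ (xu t) = φ (xu (d * t)) * h)
  (h2 : ∀ t, h * φ (xl (d * t)) = φ (xl t) * h)

theorem rp_sl (m : SpecialLinearGroup (Fin 2) F) : Rp φ h d (φ m) (mv m) 0 := ⟨m, by simp⟩

theorem rp_h (k : ℕ) : Rp φ h d (h ^ k) (!![d, 0; 0, 1] ^ k) k := ⟨1, by simp⟩

include hd in
theorem Rp.eq {g g' : G} {M : Matrix (Fin 2) (Fin 2) F} {k : ℕ} (e : Rp φ h d g M k) (e' : Rp φ h d g' M k) :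
    g = g' := by
  obtain ⟨m, rfl, rfl⟩ := e
  obtain ⟨m', rfl, e⟩ := e'
  rw [show m = m' from Subtype.ext ((IsUnit.mul_left_inj (IsUnit.pow _ ((isUnit_iff_isUnit_det _).2 (by
    simpa using hd)))).1 e)]

include hd h1 h2

theorem exists_comm (m : SpecialLinearGroup (Fin 2) F) :
    ∃ m', h * φ m = φ m' * h ∧ !![d, 0; 0, 1] * mv m = mv m' * !![d, 0; 0, 1] := by
  let K : Subgroup (SpecialLinearGroup (Fin 2) F) :=
    { carrier := {m | ∃ m', h * φ m = φ m' * h ∧ !![d, 0; 0, 1] * mv m = mv m' * !![d, 0; 0, 1]}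
      one_mem' := ⟨1, by simp⟩
      mul_mem' := fun {a b} ⟨a', e1, e2⟩ ⟨b', e3, e4⟩ => ⟨a' * b', by
        rw [map_mul, map_mul, ← mul_assoc, e1, mul_assoc, e3, mul_assoc], by
        rw [map_mul, map_mul, ← mul_assoc, e2, mul_assoc, e4, mul_assoc]⟩
      inv_mem' := fun {a} ⟨a', e1, e2⟩ => ⟨a'⁻¹, by
        rw [map_inv, map_inv, eq_inv_mul_iff_mul_eq, ← mul_assoc, ← e1, mul_inv_cancel_right], by
        calc _ = mv (a'⁻¹ * a') * !![d, 0; 0, 1] * mv a⁻¹ := by simp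
          _ = mv a'⁻¹ * !![d, 0; 0, 1] * mv (a * a⁻¹) := by
            simp only [map_mul, mul_assoc]; rw [← mul_assoc (mv a'), ← e2, mul_assoc]
          _ = _ := by simp⟩ }
  exact (sl2_eq_top (H := K) (fun t => ⟨_, h1 t, by simp⟩) fun t =>
    ⟨xl (t / d), by rw [← h2, mul_div_cancel₀ _ hd], by simp [hd]⟩).ge trivial

theorem Rp.mul {g g' : G} {M M' : Matrix (Fin 2) (Fin 2) F} {k k' : ℕ} (e : Rp φ h d g M k) (e' : Rp φ h d g' M' k') :
    Rp φ h d (g * g') (M * M') (k + k') := by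
  obtain ⟨m, rfl, rfl⟩ := e
  obtain ⟨m', rfl, rfl⟩ := e'
  induction k generalizing m' k' with
  | zero => exact ⟨m * m', by simp [mul_assoc]⟩
  | succ k ih =>
    obtain ⟨n, e1, e2⟩ := exists_comm hd h1 h2 m'
    have := ih (k' := k' + 1) n
    rwa [pow_succ' h, pow_succ' _ k', ← mul_assoc (φ n), ← mul_assoc (mv n), ← e1, ← e2, mul_assoc h, mul_assoc _ (mv m'),
      ← mul_assoc _ h, ← mul_assoc _ _ (mv m' * _), mul_assoc (φ m), mul_assoc (mv m), ← pow_succ, ← pow_succ,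
      add_comm k', ← add_assoc] at this

omit h1 h2 in
theorem exists_rp (τ : F) : ∃ x, Rp φ h d x (cm d τ) 1 :=
  ⟨_, ⟨!![0, -d; d⁻¹, τ], by simp [hd]⟩, rfl, by simp [cm, hd]⟩

variable {τ : F} (hτ : ∀ r, r ^ 2 ≠ -d + τ * r) {x : G} (hx : Rp φ h d x (cm d τ) 1)
include hτ hx

theorem sl_cover [Finite F] (m : SpecialLinearGroup (Fin 2) F) :
    ∃ s c e, φ m * h ^ 2 * φ (xu s) = φ c * x * (φ c)⁻¹ * (φ e * x * (φ e)⁻¹) := by
  obtain ⟨s, c, e, h3⟩ := mat_cover hτ (M := mv m * !![d, 0; 0, 1] ^ 2) (by simp)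
  refine ⟨s, c, e, Rp.eq hd (Rp.mul hd h1 h2 ⟨m, rfl, rfl⟩ (rp_sl _)) ?_⟩
  rw [h3, ← map_inv, ← map_inv]
  exact (((rp_sl c).mul hd h1 h2 hx).mul hd h1 h2 (rp_sl _)).mul hd h1 h2
    (((rp_sl e).mul hd h1 h2 hx).mul hd h1 h2 (rp_sl _))

theorem sl_pow [Finite F] : x ^ (Nat.card F ^ 2 - 1) = h ^ (Nat.card F ^ 2 - 1) := by
  have h3 (k : ℕ) : Rp φ h d (x ^ k) (cm d τ ^ k) k := by
    induction k with
    | zero => simpa using rp_h 0
    | succ k ih => rw [pow_succ, pow_succ]; exact ih.mul hd h1 h2 hx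
  refine (h3 _).eq hd ?_
  have h4 := rp_h (φ := φ) (h := h) (d := d) (Nat.card F ^ 2 - 1)
  have := Fintype.ofFinite F
  rwa [cm_pow hτ, ← show !![d, 0; 0, 1] ^ (Nat.card F ^ 2 - 1) = 1 by
    rw [show !![d, 0; 0, 1] = diagonal ![d, 1] from (diagonal_fin_two ![d, 1]).symm, diagonal_pow, ← diagonal_one]
    congr 1; ext i; fin_cases i
    · have := Nat.sq_sub_sq (Fintype.card F) 1
      simp_all [pow_mul', FiniteField.pow_card_sub_one_eq_one d hd]
    · simp]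

theorem sl_nonsplit (c : SpecialLinearGroup (Fin 2) F) :
    ∃ s t s', t ≠ 0 ∧ φ c * x * (φ c)⁻¹ = φ (xu s) * φ (xl t) * φ (xu s') * h := by
  obtain ⟨m, e1, e2⟩ := ((rp_sl c).mul hd h1 h2 hx).mul hd h1 h2 (rp_sl c⁻¹)
  have h3 := ne_of_irr hτ (M := mv c * cm d τ * mv c⁻¹) (by simp [cm])
    (by rw [trace_mul_cycle, ← map_mul]; simp [cm, trace_fin_two])
  have h4 : mv m 1 0 ≠ 0 := fun e => h3 (by rw [e2]; simp [mul_apply, e])
  exact ⟨_, _, _, h4, by rw [← map_inv, e1, ← map_mul, ← map_mul, pow_one]; exact congrArg (φ · * h) (sl2_decomp m h4)⟩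

end Cfsg.Agent.H37.Th
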