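import Cfsg.Agent.H64.BorelTits
import Cfsg.Agent.H38.SBN
set_option autoImplicit false

/-! Nonsplit elements of a long root Levi subgroup act without fixed points on the unipotent radical. -/

namespace Cfsg.Agent.H37.Th

open H38

variable {ι R : Type} [Fintype ι] [DecidableEq ι] [Fintype R] {P : RS ι R} {K : Type*} [Field K] {G : Type*} [Group G]
  {X : RG P K G} (hsep : X.Sep) {i : ι}
  (hA : ∀ r, r ≠ P.sp i → r ≠ P.neg (P.sp i) → -1 ≤ P.A i r ∧ P.A i r ≤ 1)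
  {f : (ι → ℤ) →ₗ[ℤ] ℤ} (hf : f (P.cf (P.sp i)) = 0) {m : ℤ} (hm : 0 < m)

variable (P f m) in
/-- the roots of level at least `m` outside `S` -/
def lv (S : Set R) : Set R := {r | m ≤ f (P.cf r) ∧ r ∉ S}

omit [Fintype R] in
include hf in
theorem f_σ (r : R) : f (P.cf (P.σ i r)) = f (P.cf r) := by
  rw [P.cf_σ, map_sub, show Pi.single i (P.A i r) = P.A i r • P.cf (P.sp i) by
    rw [P.cf_sp, ← Pi.single_smul', smul_eq_mul, mul_one], map_smul, hf]; simp

omit [Fintype R] in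
theorem lv_mono {S T : Set R} (h : S ⊆ T) : X.US (lv P f m T) ≤ X.US (lv P f m S) :=
  X.US_mono fun _ hr => ⟨hr.1, fun e => hr.2 (h e)⟩

omit [Fintype R] in
include hf in
theorem n_nz {c : K} (hc : c ≠ 0) {S T : Set R} (h : ∀ s, P.σ i s ∈ T → s ∈ S) :
    Nz (X.n (P.sp i) c) (X.US (lv P f m S)) (X.US (lv P f m T)) := fun _ =>
  (X.acts_n i hc).conj_mem (T := lv P f m T) fun s hs => ⟨(f_σ hf s).ge.trans' hs.1, fun e => hs.2 (h s e)⟩

omit [Fintype R] in
include hm in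
theorem cl_lv {S : Set R} (hS : ∀ r ∈ S, f (P.cf r) = m) : P.Cl f (lv P f m S) :=
  ⟨fun r hr s hs k hk => by
    obtain ⟨a, b, ha, hb, e⟩ := hk.lin f
    have := hr.1
    have := hs.1
    have : 2 * m ≤ f (P.cf k) := by nlinarith
    exact ⟨by omega, fun h => by have := hS k h; omega⟩, fun r hr => hm.trans_le hr.1⟩

omit [Fintype R] in
include hA hf hm in
theorem comb_lv {β s k : R} (hβ : β = P.sp i ∨ β = P.neg (P.sp i)) (hs : m ≤ f (P.cf s)) (hk : P.Comb β s k) :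
    s ≠ P.neg β ∧ m ≤ f (P.cf k) ∧ (f (P.cf k) = m → k = P.σ i s ∧ 2 * P.A i k = P.A i β) := by
  have h0 : f (P.cf (P.neg (P.sp i))) = 0 := by rw [P.cf_neg, map_neg, hf, neg_zero]
  have h1 : f (P.cf β) = 0 := by rcases hβ with rfl | rfl <;> assumption
  have h2 {r} (hr : m ≤ f (P.cf r)) := hA r (by rintro rfl; omega) (by rintro rfl; omega)
  obtain ⟨a, b, ha, hb, e⟩ := hk
  have h3 : f (P.cf k) = b * f (P.cf s) := by rw [e, map_add, map_smul, map_smul, h1]; simp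
  have h4 : m ≤ f (P.cf k) := by nlinarith
  refine ⟨by rintro rfl; rw [P.cf_neg, map_neg, h1] at hs; omega, h4, fun h => ?_⟩
  obtain rfl : b = 1 := by nlinarith
  have h5 := P.A_of_cf e i
  have h6 := h2 hs
  have h7 := h2 h4
  rcases hβ with rfl | rfl
  · rw [P.A_sp_self] at h5 ⊢
    obtain rfl : a = 1 := by omega
    exact ⟨P.cf_inj (by rw [e, P.cf_σ, P.cf_sp, show P.A i s = -1 by omega, Pi.single_neg]; abel_nf), by omega⟩
  · rw [P.A_neg, P.A_sp_self] at h5 ⊢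
    obtain rfl : a = 1 := by omega
    exact ⟨P.cf_inj (by rw [e, P.cf_σ, P.cf_neg, P.cf_sp, show P.A i s = 1 by omega]; abel_nf), by omega⟩

omit [Fintype R] in
include hA hf hm in
theorem x_comm_lv {β : R} (hβ : β = P.sp i ∨ β = P.neg (P.sp i)) {S T : Set R} (hT : ∀ r ∈ T, f (P.cf r) = m)
    (h : ∀ k ∈ T, 2 * P.A i k = P.A i β → P.σ i k ∈ S) {r : R} (hr : r ∈ lv P f m S) (s t : K) :
    (X.x r t)⁻¹ * X.x β s * X.x r t * (X.x β s)⁻¹ ∈ X.US (lv P f m T) := by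
  have := X.comm_mem (r := β) (s := r) (by
    rintro rfl; rcases hβ with rfl | rfl <;> have := hr.1 <;> simp [P.cf_neg, hf] at this <;> omega)
    (T := lv P f m T) (fun k hk => by
      obtain ⟨-, h1, h2⟩ := comb_lv hA hf hm hβ hr.1 hk
      refine ⟨h1, fun h3 => hr.2 ?_⟩
      obtain ⟨rfl, h4⟩ := h2 (hT k h3)
      simpa [P.σ_σ] using h _ h3 h4) (-s) t
  simpa [X.x_neg] using this

omit [Fintype R] in
include hA hf hm in
theorem x_nz {β : R} (hβ : β = P.sp i ∨ β = P.neg (P.sp i)) {T : Set R} (hT : ∀ r ∈ T, f (P.cf r) = m)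
    (h : ∀ k ∈ T, 2 * P.A i k = P.A i β → P.σ i k ∈ T) (s : K) :
    Nz (X.x β s) (X.US (lv P f m T)) (X.US (lv P f m T)) := fun _ => X.conj_mem_US fun r hr t => by
  simpa [mul_assoc] using mul_mem (X.x_mem hr t) (x_comm_lv hA hf hm hβ hT h hr s t)

omit [Fintype R] in
include hA hf hm in
theorem M_nz {r : R} (hr : f (P.cf r) = m) {g : G} (hg : g ∈ X.US {P.sp i, P.neg (P.sp i)}) :
    Nz g (X.US (lv P f m {r, P.σ i r})) (X.US (lv P f m {r, P.σ i r})) := by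
  induction hg using X.US_induction with
  | h1 => exact nz_one
  | hm g _ β hβ t ih =>
    exact ih.mul (x_nz hA hf hm hβ (by rintro _ (rfl | rfl) <;> simp [f_σ hf, hr])
      (by rintro _ (rfl | rfl) <;> simp [P.σ_σ]) t)

include hm in
theorem lv_dec {S : Set R} (hS : ∀ r ∈ S, f (P.cf r) = m) {r : R} (hr : f (P.cf r) = m) {u : G}
    (hu : u ∈ X.US (lv P f m S)) : ∃ t, (X.x r t)⁻¹ * u ∈ X.US (lv P f m (insert r S)) := by
  by_cases h : r ∈ S
  · exact ⟨0, by simpa [X.x_zero, Set.insert_eq_of_mem h] using hu⟩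
  obtain ⟨a, ha, b, hb, rfl⟩ := X.exists_mul_of_mem_US (cl_lv hm hS) (S₁ := {r}) (S₂ := lv P f m (insert r S))
    (by ext k; by_cases e : k = r <;> simp [lv, e, h, hr]) hu
  obtain ⟨t, rfl⟩ := X.mem_US_singleton.1 ha
  exact ⟨t, by simpa using hb⟩

include hsep hm in
theorem lv_inter {S T : Set R} (hS : ∀ r ∈ S, f (P.cf r) = m) (hT : ∀ r ∈ T, f (P.cf r) = m) {u : G}
    (h1 : u ∈ X.US (lv P f m S)) (h2 : u ∈ X.US (lv P f m T)) : u ∈ X.US (lv P f m (S ∪ T)) :=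
  X.US_mono (T := lv P f m (S ∪ T)) (fun _ h => ⟨h.1.1, fun e => e.elim h.1.2 h.2.2⟩) (H64.mem_US_inter hsep (cl_lv hm (S := ∅) (by simp))
    (cl_lv hm hS) (cl_lv hm hT) (fun _ h => ⟨h.1, id⟩) (fun _ h => ⟨h.1, id⟩) h1 h2)

omit [Fintype R] in
include hsep hm in
theorem lv_sep {S : Set R} {r : R} (hr : f (P.cf r) = m) (hS : r ∈ S) {t : K} (h : X.x r t ∈ X.US (lv P f m S)) :
    t = 0 :=
  hsep f r t (hr ▸ hm) (X.US_mono (T := {s | s ≠ r ∧ f (P.cf r) ≤ f (P.cf s)})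
    (fun k hk => ⟨fun e => hk.2 (e ▸ hS), hr ▸ hk.1⟩) h)

variable {y h : G} (hh : h ∈ X.H)
  (hy : ∀ c ∈ X.US {P.sp i, P.neg (P.sp i)}, ∃ s t s', t ≠ 0 ∧
    c * y * c⁻¹ = X.x (P.sp i) s * X.x (P.neg (P.sp i)) t * X.x (P.sp i) s' * h)

include hsep hA hf hm hh hy in
theorem step_two [Finite K] {r : R} (hr : f (P.cf r) = m) (h1 : P.A i r = -1) {u : G} (hu : u ∈ X.US (lv P f m ∅))
    (e : y * u = u * y) : u ∈ X.US (lv P f m {r, P.σ i r}) := by
  have hr' : f (P.cf (P.σ i r)) = m := by rw [f_σ hf, hr]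
  have h2 : P.A i (P.σ i r) = 1 := by rw [P.A_σ, h1, neg_neg]
  have hα {s} : X.x (P.sp i) s ∈ X.US {P.sp i, P.neg (P.sp i)} := X.x_mem (by simp) _
  have hβ {s} : X.x (P.neg (P.sp i)) s ∈ X.US {P.sp i, P.neg (P.sp i)} := X.x_mem (by simp) _
  have hW (s) := x_nz (X := X) hA hf hm (.inl rfl) (T := {r}) (by simpa) (by simp [h1, P.A_sp_self]) s
  have hN {g} (hg) := M_nz (X := X) (g := g) hA hf hm hr hg
  have hle : X.US (lv P f m {r, P.σ i r}) ≤ X.US (lv P f m {r}) := lv_mono (by simp)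
  have key {t w} (ht : t ≠ 0) (hw : w ∈ X.US (lv P f m {r}))
      (h : X.x (P.neg (P.sp i)) t * w * (X.x (P.neg (P.sp i)) t)⁻¹ ∈ X.US (lv P f m {r})) :
      w ∈ X.US (lv P f m {r, P.σ i r}) := by
    have h3 := n_nz hf (c := -t⁻¹) (by simpa) (T := {P.σ i r}) (by simp) _ (hW t⁻¹ w hw)
    have h4 := hW (-t⁻¹) _ h
    have h5 : X.n (P.sp i) (-t⁻¹) * X.x (P.sp i) t⁻¹ = X.x (P.sp i) (-t⁻¹) * X.x (P.neg (P.sp i)) t := by
      simp [RG0.n, X.x_neg]
    rw [show ∀ a b c : G, a * (b * c * b⁻¹) * a⁻¹ = a * b * c * (a * b)⁻¹ by intros; group] at h3 h4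
    simpa [mul_assoc] using hN (inv_mem (mul_mem (hα (s := -t⁻¹)) (hβ (s := t)))) _ (lv_inter hsep hm (S := {r}) (by simpa) (by simpa) h4 (h5 ▸ h3))
  obtain ⟨c, hc, h3⟩ : ∃ c ∈ X.US {P.sp i, P.neg (P.sp i)}, c * u * c⁻¹ ∈ X.US (lv P f m {r}) := by
    obtain ⟨t, ht⟩ := lv_dec hm (by simp) hr' hu
    by_cases h0 : t = 0
    · exact ⟨_, X.n_mem_US (by simp) (by simp) 1, n_nz hf one_ne_zero (S := {P.σ i r})
        (by rintro s rfl; simp [P.σ_σ]) _ (by simpa [h0, X.x_zero] using ht)⟩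
    have hz : X.x (P.σ i r) t ∈ X.US (lv P f m {r}) := X.x_mem (S := lv P f m {r}) ⟨hr'.ge, fun e => by rw [e] at h2; omega⟩ t
    choose c hc using fun s => lv_dec hm (S := {P.σ i r}) (by simpa) hr
      (x_comm_lv (X := X) hA hf hm (.inr rfl) (S := ∅) (by simpa) (by simp [h2, P.A_neg, P.A_sp_self]) ⟨hr'.ge, id⟩ s t)
    obtain ⟨t', ht'⟩ := lv_dec hm (by simpa) hr ht
    obtain ⟨s, hs⟩ := (Finite.injective_iff_surjective (f := c)).1 (fun s s' e => by_contra fun h => h0 (by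
      refine lv_sep hsep hm hr' (S := {r, P.σ i r}) (by simp) (key (t := -s' + s) (by rwa [neg_add_eq_sub, sub_ne_zero]) hz ?_)
      have := mul_mem hz (hle (hN (inv_mem (hβ (s := s'))) _ (mul_mem (inv_mem (hc s')) (e ▸ hc s))))
      simpa [mul_assoc, X.add, X.x_neg] using this)) (-t')
    refine ⟨_, hβ (s := s), ?_⟩
    have h4 := x_comm_lv (X := X) hA hf hm (.inr rfl) (S := {P.σ i r}) (T := {r, P.σ i r})
      (by rintro _ (rfl | rfl) <;> assumption) (by rintro _ (rfl | rfl) <;> simp [h2, P.A_neg, P.A_sp_self])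
      (r := r) ⟨hr.ge, fun e => by rw [← e] at h2; omega⟩ s t'
    have h6 : Nz (X.x r (-t')) (X.US (lv P f m {r, P.σ i r})) (X.US (lv P f m {r, P.σ i r})) := fun _ => X.x_conj_mem (fun k hk =>
      ⟨(cl_lv hm (S := ∅) (by simp)).ne_neg ⟨hr.ge, id⟩ ⟨hk.1, id⟩, fun l hl => by
        have := (cl_lv hm (S := ∅) (by simp)).lt_of_comb ⟨hr.ge, id⟩ ⟨hk.1, id⟩ hl
        have := hk.1
        exact ⟨by omega, by rintro (rfl | rfl) <;> omega⟩⟩) _
    have := mul_mem hz (hle (mul_mem (mul_mem (h6 _ (hs ▸ hc s)) h4) (hN (hβ (s := s)) _ (by simpa using ht'))))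
    simpa [mul_assoc, X.x_neg] using this
  obtain ⟨s, t, s', ht, e'⟩ := hy c hc
  have h4 := key ht (hW s' _ (X.H_conj_mem_US hh h3)) (by
    have := hW (-s) _ h3
    rwa [show c * u * c⁻¹ = c * y * c⁻¹ * (c * u * c⁻¹) * (c * y * c⁻¹)⁻¹ by
      rw [show c * y * c⁻¹ * (c * u * c⁻¹) = c * (y * u) * c⁻¹ by group, e]; group, e', X.x_neg,
      show ∀ a b d h v : G, a⁻¹ * (a * b * d * h * v * (a * b * d * h)⁻¹) * a⁻¹⁻¹ =
        b * (d * (h * v * h⁻¹) * d⁻¹) * b⁻¹ by intros; group] at this)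
  simpa [mul_assoc] using hN (inv_mem hc) _ (X.H_conj_mem_US (inv_mem hh) (hN (inv_mem (hα (s := s'))) _ h4))

variable (hχ : ∀ r, P.A i r = 0 → ∀ t, h * X.x r t * h⁻¹ = X.x r t → t = 0)

include hsep hA hf hm hh hy hχ in
theorem step_one {r : R} (hr : f (P.cf r) = m) (h1 : P.A i r = 0) {u : G} (hu : u ∈ X.US (lv P f m ∅))
    (e : y * u = u * y) : u ∈ X.US (lv P f m {r}) := by
  obtain ⟨t, ht⟩ := lv_dec hm (by simp) hr hu
  rw [insert_empty_eq] at ht
  obtain ⟨s₁, s₂, s₃, -, e'⟩ := hy 1 (one_mem _)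
  obtain ⟨c, -, hc⟩ := (X.acts_of_mem_H hh).exists_conj r
  have hN {β} (hβ) (s) := x_nz (X := X) (β := β) hA hf hm hβ (T := {r}) (by simpa)
    (by rcases hβ with rfl | rfl <;> simp [h1, P.A_neg, P.A_sp_self]) s
  have hC {β} (hβ) (s t) := x_comm_lv (X := X) (β := β) hA hf hm hβ (S := ∅) (T := {r}) (by simpa)
    (by rcases hβ with rfl | rfl <;> simp [h1, P.A_neg, P.A_sp_self]) ⟨hr.ge, id⟩ s t
  have key {β} (hβ : β = P.sp i ∨ β = P.neg (P.sp i)) (s) {t v} (hv : (X.x r t)⁻¹ * v ∈ X.US (lv P f m {r})) :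
      (X.x r t)⁻¹ * (X.x β s * v * (X.x β s)⁻¹) ∈ X.US (lv P f m {r}) := by
    simpa [mul_assoc] using mul_mem (hC hβ s t) (hN hβ s _ hv)
  have h2 := key (.inl rfl) s₁ (key (.inr rfl) s₂ (key (.inl rfl) s₃ (t := c * t) (v := h * u * h⁻¹) (by
    simpa [← show _ = X.x r (c * t) from hc t, mul_assoc] using X.H_conj_mem_US hh ht)))
  rw [show ∀ a b d h v : G, a * (b * (d * (h * v * h⁻¹) * d⁻¹) * b⁻¹) * a⁻¹ =
    a * b * d * h * v * (a * b * d * h)⁻¹ by intros; group, ← e', one_mul, inv_one, mul_one, e, mul_inv_cancel_right] at h2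
  have h3 := lv_sep hsep hm hr (S := {r}) rfl (t := -(c * t) + t) (by
    simpa [X.add, X.x_neg, mul_assoc] using mul_mem h2 (inv_mem ht))
  simpa [hχ r h1 t (by rw [hc, neg_add_eq_zero.1 h3]; rfl), X.x_zero] using ht

omit hm in
include hsep hA hf hh hy hχ in
theorem fpf [Finite K] {u : G} (hu : u ∈ X.US {r | 0 < f (P.cf r)}) (e : y * u = u * y) : u = 1 := by
  classical
  have h1 (n : ℕ) : u ∈ X.US (lv P f (1 + n) ∅) := by
    induction n with
    | zero => exact X.US_mono (T := lv P f (1 + (0 : ℕ)) ∅) (fun r hr => ⟨by simpa using Int.add_one_le_of_lt hr, id⟩) hu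
    | succ n ih =>
      have hm : (0 : ℤ) < 1 + n := by positivity
      have h2 (S : Finset R) (hS : ∀ r ∈ S, f (P.cf r) = 1 + n) : u ∈ X.US (lv P f (1 + n) S) := by
        induction S using Finset.induction_on with
        | empty => simpa using ih
        | insert r S _ ih' =>
          have hr := hS r (by simp)
          have h3 := hA r (by rintro rfl; omega) (by rintro rfl; rw [P.cf_neg, map_neg] at hr; omega)
          rw [Finset.coe_insert, Set.insert_eq]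
          refine lv_inter hsep hm (by simpa) (fun k hk => hS k (by simp [show k ∈ S from hk])) ?_
            (ih' fun k hk => hS k (by simp [hk]))
          rcases (by omega : P.A i r = -1 ∨ P.A i r = 0 ∨ P.A i r = 1) with h4 | h4 | h4
          · exact lv_mono (by simp) (step_two hsep hA hf hm hh hy hr h4 ih e)
          · exact step_one hsep hA hf hm hh hy hχ hr h4 ih e
          · exact lv_mono (by simp [P.σ_σ])
              (step_two hsep hA hf hm hh hy (r := P.σ i r) (by rw [f_σ hf, hr]) (by rw [P.A_σ, h4]) ih e)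
      refine X.US_mono (T := lv P f (1 + (n + 1 : ℕ)) ∅) (fun r hr => ⟨?_, id⟩) (h2 (Finset.univ.filter fun r => f (P.cf r) = 1 + n) (by simp))
      have h3 := hr.1
      have h4 : f (P.cf r) ≠ 1 + n := by simpa using hr.2
      push_cast; omega
  obtain ⟨n, hn⟩ := P.exists_lev_empty f Set.univ
  exact X.US_empty.le (X.US_mono (fun r hr => hn.le ⟨trivial, hr.1⟩) (h1 n))

end Cfsg.Agent.H37.Th
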