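import Cfsg.Agent.H37.ThB
import Cfsg.Agent.H37.ThC
import Cfsg.Agent.H37.ThD
import Cfsg.Agent.H37.SL2Hom
import Cfsg.Agent.H38.SBNLie
set_option autoImplicit false

/-! Squares of semisimple classes in groups of rank two with a long fundamental root. -/

namespace Cfsg.Agent.H37.Th

open H38 H40 H90 Cfsg.Lie Chev Matrix

section
variable {ι R : Type} [Fintype ι] [DecidableEq ι] [Fintype R] {P : RS ι R} {K : Type*} [Field K] [Finite K] {G : Type*}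
  [Group G] {X : RG P K G} (hX : X.Faithful) {i : ι}
  (hA : ∀ r, r ≠ P.sp i → r ≠ P.neg (P.sp i) → -1 ≤ P.A i r ∧ P.A i r ≤ 1) {y h : G} (hh : h ∈ X.H)
  (hy : ∀ c ∈ X.US {P.sp i, P.neg (P.sp i)}, ∃ s t s', t ≠ 0 ∧
    c * y * c⁻¹ = X.x (P.sp i) s * X.x (P.neg (P.sp i)) t * X.x (P.sp i) s' * h)
  (hχ : ∀ r, P.A i r = 0 → ∀ t, h * X.x r t * h⁻¹ = X.x r t → t = 0)

omit [Fintype R] in
theorem lev_pos {r : R} (h1 : P.Pos r) (h2 : r ≠ P.sp i) : 0 < (htL ι - LinearMap.proj i : _ →ₗ[ℤ] ℤ) (P.cf r) := by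
  have h3 : (htL ι - LinearMap.proj i : _ →ₗ[ℤ] ℤ) (P.cf r) = ∑ j ∈ Finset.univ.erase i, P.cf r j := by
    simp [htL]
  rw [h3]
  refine (Finset.sum_nonneg fun j _ => h1 j).lt_of_ne' fun e => ?_
  exact (P.reduced r i fun j hj => (Finset.sum_eq_zero_iff_of_nonneg fun j _ => h1 j).1 e j (by simpa)).elim h2
    fun e => P.not_pos_neg_sp i (e ▸ h1)

include hX hA hh hy hχ

theorem fpf_pos {u : G} (hu : u ∈ X.US {r | P.Pos r ∧ r ≠ P.sp i}) (e : y * u = u * y) : u = 1 :=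
  fpf hX.sep hA (f := htL ι - LinearMap.proj i) (by simp [htL, P.cf_sp]) hh hy hχ
    (X.US_mono (fun _ hr => lev_pos hr.1 hr.2) hu) e

theorem fpf_neg {v : G} (hv : v ∈ X.V) (hv' : X.ns i * v * (X.ns i)⁻¹ ∈ X.V) (e : y * v = v * y) : v = 1 := by
  obtain ⟨a, ha, b, hb, rfl⟩ := X.exists_mul_of_mem_US P.cl_neg (S₁ := {r | ¬ P.Pos r ∧ r ≠ P.neg (P.sp i)})
    (S₂ := {P.neg (P.sp i)}) (by ext r; by_cases h : r = P.neg (P.sp i) <;> simp [h, P.not_pos_neg_sp]) hv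
  have h1 : X.ns i * a * (X.ns i)⁻¹ ∈ X.V := (X.acts_ns i).conj_mem (T := {r | ¬ P.Pos r}) (fun s hs h => by
    have := lev_pos (P.pos_neg_iff.2 hs.1) (fun e => hs.2 (P.neg_eq_iff.1 e))
    have := lev_pos h (fun e => hs.2 (by rw [← P.σ_sp, ← e, P.σ_σ]))
    rw [f_σ (by simp [htL, P.cf_sp])] at this
    simp only [P.cf_neg, map_neg] at *; omega) ha
  obtain rfl : b = 1 := SBN.eq_one_of_conj (hX.eq_one_of_mem_B_V (X.U_le_B ((X.acts_ns i).conj_mem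
    (by rintro _ rfl; rw [P.σ_neg_sp]; exact P.pos_sp i) hb)) (by simpa [mul_assoc] using mul_mem (inv_mem h1) hv'))
  exact fpf hX.sep hA (f := -(htL ι - LinearMap.proj i)) (by simp [htL, P.cf_sp]) hh hy hχ
    (mul_mem (X.US_mono (fun r hr => by
      simpa [P.cf_neg] using lev_pos (P.pos_neg_iff.2 hr.1) fun e => hr.2 (P.neg_eq_iff.1 e)) ha) (one_mem _)) e

end

variable {D : ChevalleyDatum} [Chev D] {hD : IsChev D} {K : Type*} [Field K] {I : Type} {C : TwC D I} {φ : K →+* K}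

theorem on_neg {j : I} (h : OrbJ C j) (t : K) : on hD C φ j t * on hD C φ j (-t) = 1 := by
  have h1 (t u) : oy hD C φ j t * oy hD C φ j u = oy hD C φ j (t + u) :=
    ow_add _ _ (h.map_eq ▸ fun r hr => (h.2.2.1.1 r hr).1) (h.map_eq ▸ h.2.2.1.2.2.1) t u
  have h2 : oy hD C φ j 0 = 1 := mul_left_cancel (a := oy hD C φ j 0) (by rw [h1, add_zero, mul_one])
  rw [on_eq h, on_eq h, mul_assoc, mul_assoc, mul_assoc, ← mul_assoc (ox _ _ _ _ t) (ox _ _ _ _ _), ox_add h,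
    add_neg_cancel, ox_zero h, one_mul, ← mul_assoc (oy _ _ _ _ _), h1, inv_neg, add_neg_cancel, h2, one_mul, ox_add h,
    add_neg_cancel, ox_zero h]

theorem root_fix (h3 : ∀ t, φ (φ (φ t)) = t) {d τ r : K} (hd : φ d = d) (hτ : φ τ = τ) (h : r ^ 2 = -d + τ * r) :
    φ r = r := by
  have h1 := congrArg φ h
  rw [map_pow, map_add, map_neg, map_mul, hd, hτ] at h1
  rcases mul_eq_zero.1 (show (φ r - r) * (φ r + r - τ) = 0 by linear_combination h1 - h) with e | e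
  · exact sub_eq_zero.1 e
  have h2 := congrArg φ e
  rw [map_sub, map_add, hτ, map_zero] at h2
  have h4 := h3 r
  rwa [show φ (φ r) = r by linear_combination h2 - e] at h4

theorem five_le {p : ℕ} {G : Type*} [Group G] [Finite G] (S : SBN p G I) {a b : I} (h1 : Nz (S.n b) (S.X a) S.U)
    (h2 : Nz (S.n b * S.n a) (S.X b) S.U) (h3 : Nz (S.n b * S.n a * S.n b) (S.X a) S.U)
    (h4 : Nz (S.n b * S.n a * S.n b * S.n a) (S.X b) S.U) : 5 ≤ ln S (w0 S) := by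
  have ha := S.n_mem a
  have hb := S.n_mem b
  have := ln_le S (cw S.bn (S.n b * S.n a * S.n b * S.n a * S.n b))
  rwa [ln_up S (mul_mem (mul_mem (mul_mem hb ha) hb) ha) h4, ln_up S (mul_mem (mul_mem hb ha) hb) h3,
    ln_up S (mul_mem hb ha) h2, ln_up S hb h1, S.cw_n, ln, H12.len_refl] at this

/-- the root conditions for a Weyl group of order at least ten -/
def Long5 (C : TwC D I) (a b : I) : Prop := ∀ r < D.nroots,
  (inJ D (C.Js a) r → D.nroots / 2 ≤ wact D (C.word b) r ∧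
    D.nroots / 2 ≤ wact D (C.word b) (wact D (C.word a) (wact D (C.word b) r))) ∧
  (inJ D (C.Js b) r → D.nroots / 2 ≤ wact D (C.word b) (wact D (C.word a) r) ∧
    D.nroots / 2 ≤ wact D (C.word b) (wact D (C.word a) (wact D (C.word b) (wact D (C.word a) r))))

instance (a b : I) : Decidable (Long5 C a b) := inferInstanceAs (Decidable (∀ r < _, _))

variable [Fintype K] (T : TwD (matRel hD K) C) (hw : ∀ i j, j ≠ i → ∀ k ∈ C.word j, k ∉ C.Js i)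
  (p : ℕ) [Fact p.Prime] [CharP K p] {a b : I}

theorem five_mt (hx) (h : Long5 C a b) : 5 ≤ ln (mtSbn T hw p hx) (w0 _) := by
  have ha := T.mt.n_mem a
  have hb := T.mt.n_mem b
  refine five_le _ (a := a) (b := b) (Nz.comap fun _ => T.mt.conj_XS (m := T.mt.n b) hb fun r hr => ?_)
    (Nz.comap fun _ => T.mt.conj_XS (m := T.mt.n b * T.mt.n a) (mul_mem hb ha) fun r hr => ?_)
    (Nz.comap fun _ => T.mt.conj_XS (m := T.mt.n b * T.mt.n a * T.mt.n b) (mul_mem (mul_mem hb ha) hb) fun r hr => ?_)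
    (Nz.comap fun _ => T.mt.conj_XS (m := T.mt.n b * T.mt.n a * T.mt.n b * T.mt.n a)
      (mul_mem (mul_mem (mul_mem hb ha) hb) ha) fun r hr => ?_) <;>
  change D.nroots / 2 ≤ (T.mt.w _ r : ℕ)
  · rw [T.mt_w_n]; exact ((h r r.2).1 hr).1
  · rw [T.mt.w_mul_n hb, T.mt_w_n, T.mt_w_n]; exact ((h r r.2).2 hr).1
  · rw [T.mt.w_mul_n (mul_mem hb ha), T.mt.w_mul_n hb, T.mt_w_n, T.mt_w_n, T.mt_w_n]; exact ((h r r.2).1 hr).2
  · rw [T.mt.w_mul_n (mul_mem (mul_mem hb ha) hb), T.mt.w_mul_n (mul_mem hb ha), T.mt.w_mul_n hb, T.mt_w_n, T.mt_w_n,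
      T.mt_w_n, T.mt_w_n]
    exact ((h r r.2).2 hr).2

include hw in
theorem cover_ox (hT : T.e = fun _ => φ) (hC : ∀ j, OrbJ C j) (hab : ∀ j, j = a ∨ j = b) (hne : b ≠ a)
    (h5 : Long5 C a b) {i : ℕ} (ha : C.word a = [i])
    (hA : ∀ r < D.nroots, r ≠ D.simple i → r ≠ D.neg (D.simple i) → -1 ≤ D.cartan i r ∧ D.cartan i r ≤ 1)
    (hH : ∀ h ∈ T.mt.H, h ∈ T.mt.Fix → ∃ l k : Kˣ, φ l = l ∧ φ^[(C.word b).length] k = k ∧
      h = oh hD C φ a l * oh hD C φ b k)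
    (h3 : ∀ t, φ (φ (φ t)) = t) (κ : Kˣ) (hκ : φ^[(C.word b).length] κ = κ)
    (hχ : ∀ r < D.nroots, D.cartan i r = 0 → chi D (oc φ (C.word b) κ) r ≠ 1) [IsSimpleGroup T.mt.Fix] :
    ∃ x : T.mt.Fix, ¬ p ∣ orderOf x ∧ ∀ g : T.mt.Fix, g ≠ 1 → ∃ u v, g = u * x * u⁻¹ * (v * x * v⁻¹) := by
  have := Fintype.ofFinite T.mt.Fix
  let S := mtSbn T hw p (T.hx_ox hT hC)
  have hi : i < D.rank := C.word_lt a i (by simp [ha])
  have hs := simple_lt i hi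
  obtain ⟨ψ, p1, p2, p3⟩ := (matRel hD K).exists_sl2Hom hs
  have e1 (t) : ox hD C φ a t = ψ (xu t) := by simp [ox, ha, ow, gword, p1]
  have e2 (t) : oy hD C φ a t = ψ (xl t) := by simp [oy, ha, ow, gword, p2]
  have e3 : (C.word a).length = 1 := by rw [ha]; rfl
  let F := φ.eqLocusField (RingHom.id K)
  have m1 (t : F) : SpecialLinearGroup.map F.subtype (xu t) = xu t.1 := by ext i j; fin_cases i <;> fin_cases j <;> simp
  have m2 (t : F) : SpecialLinearGroup.map F.subtype (xl t) = xl t.1 := by ext i j; fin_cases i <;> fin_cases j <;> simp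
  let ρ := (ψ.comp (SpecialLinearGroup.map F.subtype)).codRestrict T.mt.Fix fun m =>
    (sl2_eq_top (H := T.mt.Fix.comap (ψ.comp (SpecialLinearGroup.map F.subtype)))
      (fun t => by simpa [m1, ← e1] using (T.ox_mem_Fix hT (hC a)).2 (by rw [e3]; exact t.2))
      fun t => by simpa [m2, ← e2] using (T.oy_mem_Fix hT (hC a)).2 (by rw [e3]; exact t.2)).ge trivial
  have r0 (m) : (ρ m).1 = ψ (SpecialLinearGroup.map F.subtype m) := rfl
  have r1 (t) : ρ (xu t) ∈ S.X a := show (ρ _).1 ∈ T.mt.XJ a by rw [r0, m1, ← e1]; exact T.ox_mem_XJ (hC a) _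
  have r2 : S.n a = ρ (xu 1 * xl (-1) * xu 1) := Subtype.ext (by
    rw [r0]
    simp only [map_mul, m1, m2, ← e1, ← e2]
    exact (T.n_eq_on (φ := φ) a).trans ((on_eq (hC a) 1).trans (by simp)))
  have r3 : ρ.range = Lv S a := by
    refine le_antisymm ?_ (Lv_le S (fun x hx => ?_) fun x hx => ?_)
    · rintro _ ⟨m, rfl⟩
      refine (sl2_eq_top (H := (Lv S a).comap ρ) (fun t => X_mem S (r1 t)) fun t => ?_).ge (Subgroup.mem_top m)
      have := nX_mem S (r1 (-t))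
      rwa [r2, ← map_inv, ← map_mul, ← map_mul, show xu 1 * xl (-1) * xu 1 * xu (-t) * (xu 1 * xl (-1) * xu 1)⁻¹ = xl t by
        rw [mul_inv_eq_iff_eq_mul]; apply sl2_ext <;> simp [sl2_mul_apply]] at this
    all_goals obtain ⟨t, ht, e⟩ := T.exists_ox hT (hC a) hx x.2
    all_goals obtain rfl : x = ρ (xu ⟨t, by rw [e3] at ht; exact ht⟩) := Subtype.ext (by rw [r0, m1, ← e1]; exact e)
    · exact ⟨_, rfl⟩
    · rw [r2]; exact mul_mem (mul_mem ⟨_, rfl⟩ ⟨_, rfl⟩) (inv_mem ⟨_, rfl⟩)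
  let h : T.mt.Fix := ⟨_, T.oh_mem_Fix hT (hC b) hκ⟩
  have c1 : IsH (matRel hD K) h.1 _ := isH_oh (hC b) κ
  have c2 (t) : h.1 * ψ (xu t) = ψ (xu (chi D (oc φ (C.word b) κ) (D.simple i) * t)) * h.1 := by
    rw [p1, p1, ← c1.2 _ hs, inv_mul_cancel_right]
  have c3 (t) : h.1 * ψ (xl (chi D (oc φ (C.word b) κ) (D.simple i) * t)) = ψ (xl t) * h.1 := by
    rw [p2, p2, ← mul_inv_eq_iff_eq_mul, c1.2 _ (neg_lt hs), chi_neg _ hs, Units.inv_mul_cancel_left]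
  let d : F := ⟨chi D (oc φ (C.word b) κ) (D.simple i), by
    have := mul_mem (mul_mem h.2 (ρ (xu 1)).2) (inv_mem h.2)
    rw [r0, m1, c2, mul_inv_cancel_right, ← e1, T.ox_mem_Fix hT (hC a), e3] at this
    exact (by simpa using this : φ _ = _)⟩
  have hd : d ≠ 0 := fun e => Units.ne_zero _ (congrArg Subtype.val e)
  obtain ⟨τ, hτ⟩ := exists_tau hd
  obtain ⟨x, hx⟩ := exists_rp (φ := ρ) (h := h) hd τ
  have d2 (t) : h * ρ (xu t) = ρ (xu (d * t)) * h := Subtype.ext (by simpa [r0, m1] using c2 t)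
  have d3 (t) : h * ρ (xl (d * t)) = ρ (xl t) * h := Subtype.ext (by simpa [r0, m2] using c3 t)
  have hh : h ∈ S.H := c1.1
  have hy (c) (hc : c ∈ (mg hD K).US {(rs D).sp ⟨i, hi⟩, (rs D).neg ((rs D).sp ⟨i, hi⟩)}) : ∃ s t s', t ≠ 0 ∧
      c * x.1 * c⁻¹ = (mg hD K).x ((rs D).sp ⟨i, hi⟩) s * (mg hD K).x ((rs D).neg ((rs D).sp ⟨i, hi⟩)) t *
        (mg hD K).x ((rs D).sp ⟨i, hi⟩) s' * h.1 := by
    obtain ⟨c, rfl⟩ := ((mg hD K).US_le (K := ψ.range)).2 (by rintro _ (rfl | rfl) t; exacts [⟨_, p1 t⟩, ⟨_, p2 t⟩]) hc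
    obtain ⟨m, rfl, e⟩ := hx
    have := sl_nonsplit (Units.ne_zero _) c2 c3 (τ := τ) (fun r e => hτ ⟨r, root_fix h3 d.2 τ.2 e⟩
      (Subtype.ext e)) ⟨SpecialLinearGroup.map F.subtype m, rfl, by
        have := congrArg F.subtype.mapMatrix e
        rw [map_mul, pow_one] at this
        refine Eq.trans ?_ (this.trans (congrArg (_ * ·) ?_)) <;> ext i j <;> fin_cases i <;> fin_cases j <;>
          simp [cm, d]⟩ c
    simp only [p1, p2] at this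
    exact this
  have hA' (r) (h1 : r ≠ (rs D).sp ⟨i, hi⟩) (h2 : r ≠ (rs D).neg ((rs D).sp ⟨i, hi⟩)) :=
    rs_A (D := D) ⟨i, hi⟩ r ▸ hA r r.2 (fun e => h1 (Fin.ext e)) fun e => h2 (Fin.ext e)
  have hχ' (r) (h1 : (rs D).A ⟨i, hi⟩ r = 0) (t) (e : h.1 * (mg hD K).x r t * h.1⁻¹ = (mg hD K).x r t) : t = 0 :=
    by_contra fun ht => hχ r r.2 (rs_A (D := D) ⟨i, hi⟩ r ▸ h1) (Units.ext ((mul_eq_right₀ ht).1
      (x_inj (matRel_sep hD K) r.2 ((c1.2 r r.2 t).symm.trans e))))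
  refine ⟨x, fun e => ?_, cover S hab (fun g hg => ?_) hne (five_mt T hw p _ h5) ?_ (fun u hu e => Subtype.ext ?_)
    (fun v hv hv' e => Subtype.ext ?_) (inv_mem (pow_mem hh 2)) fun l hl => ?_⟩
  · have h1 : orderOf x ∣ (Nat.card F ^ 2 - 1) * Nat.card S.H := orderOf_dvd_of_pow_eq_one (by
      rw [pow_mul, sl_pow hd d2 d3 hτ hx]
      exact congrArg Subtype.val (pow_card_eq_one' (x := (⟨_, pow_mem hh _⟩ : S.H))))
    refine ((Nat.Prime.dvd_mul Fact.out).1 (e.trans h1)).elim (fun h1 => ?_) S.pH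
    have h2 : p ∣ Nat.card F := (CharP.cast_eq_zero_iff F p _).1 (by
      have := Fintype.ofFinite F
      rw [Nat.card_eq_fintype_card, FiniteField.cast_card_eq_zero])
    exact (Fact.out : p.Prime).not_dvd_one ((Nat.dvd_sub_iff_right (Nat.one_le_pow _ _ Nat.card_pos)
      (h2.trans (dvd_pow_self _ two_ne_zero))).1 h1)
  · have h1 := inv_mem (mul_mem (S.n_sq b) hg)
    obtain ⟨l, k, hl, hk, e⟩ := hH _ h1 (S.n b * S.n b * g)⁻¹.2
    have hk' : φ^[(C.word b).length] (-k) = -k := by rw [← RingHom.coe_pow] at hk ⊢; rw [map_neg, hk]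
    have hk'' : φ^[(C.word b).length] (k⁻¹) = (k : K)⁻¹ := by rw [← RingHom.coe_pow] at hk ⊢; rw [map_inv₀, hk]
    refine ⟨⟨_, (T.ox_mem_Fix hT (hC b)).2 hk⟩, T.ox_mem_XJ (hC b) _, ⟨_, (T.oy_mem_Fix hT (hC b)).2 hk''⟩,
      show _ ∈ T.mt.V from T.mt_V ▸ oy_mem_V (hC b) _, ⟨_, (T.ox_mem_Fix hT (hC b)).2 hk'⟩,
      T.mt.XJ_le b (T.ox_mem_XJ (hC b) _), ⟨_, T.oh_mem_Fix hT (hC b) hk⟩ * (S.n b * S.n b),
      mul_mem (isH_oh (hC b) k).1 (S.n_sq b), Subtype.ext ?_, ?_⟩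
    · have h2 := on_neg (hD := hD) (φ := φ) (hC b) (-1)
      have h4 := on_neg (hD := hD) (φ := φ) (hC b) (-k)
      change ox hD C φ b k * T.mt.n b = oy hD C φ b (k : K)⁻¹ * ox hD C φ b (-k) * (oh hD C φ b k * (T.mt.n b * T.mt.n b))
      rw [neg_neg] at h2 h4
      rw [T.n_eq_on (φ := φ), oh, mul_assoc (on _ _ _ _ _), ← mul_assoc (on _ _ _ _ (-1)), h2, one_mul, ← mul_assoc,
        mul_left_inj, eq_inv_of_mul_eq_one_right h4, eq_mul_inv_iff_mul_eq, on_eq (hC b), ← mul_assoc, ← mul_assoc,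
        ox_add (hC b), add_neg_cancel, ox_zero (hC b), one_mul, inv_neg, neg_neg]
    · obtain ⟨g', h2, e'⟩ := oh_mem (hC a) (M := (Lv S a).map T.mt.Fix.subtype) (fun t ht => by
        rw [← r3, e1, e2]
        rw [e3] at ht
        exact ⟨⟨_, ⟨xu ⟨t, ht⟩, rfl⟩, congrArg ψ (m1 _)⟩, _, ⟨xl ⟨t, ht⟩, rfl⟩, congrArg ψ (m2 _)⟩)
        (t := l) (by rw [e3]; exact hl)
      convert inv_mem h2
      refine Subtype.ext ?_
      rw [mul_assoc, ← inv_inv (S.n b * S.n b * g), Subgroup.coe_mul, Subgroup.coe_inv,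
        show (S.n b * S.n b * g)⁻¹.1 = _ from e, ← e']
      simp
  · obtain ⟨m, rfl, -⟩ := hx
    exact mul_mem (Subgroup.mem_sup_left (r3.le ⟨m, rfl⟩)) (Subgroup.mem_sup_right (pow_mem hh 1))
  · refine fpf_pos (mg_faithful hD K) hA' ((rg_H _).ge c1.1) hy hχ' (XS_le _ (fun r hr g hg => ?_) hu)
      (congrArg Subtype.val e)
    obtain ⟨t, rfl⟩ := (mem_XF _).1 hg
    exact (mg hD K).x_mem (S := {r | (rs D).Pos r ∧ r ≠ (rs D).sp ⟨i, hi⟩}) ⟨(rs_pos_iff r).2 hr.1, fun e =>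
      hr.2 (((hC a).2.2.2 r r.2).1 (by simp [ha, e, rs_sp_val]))⟩ t
  · refine fpf_neg (mg_faithful hD K) hA' ((rg_H _).ge c1.1) hy hχ' ((rg_V _).ge (T.mt_V.le hv)) ((rg_V _).ge ?_)
      (congrArg Subtype.val e)
    simpa [mg, rg_ns, T.mt_n, ha, nw] using T.mt_V.le (show T.mt.n a * v.1 * (T.mt.n a)⁻¹ ∈ _ from hv')
  · obtain ⟨m, e⟩ := r3.ge hl
    obtain ⟨s, c, c', e'⟩ := sl_cover hd d2 d3 hτ hx m
    exact ⟨_, r1 s, _, r3.le ⟨c, rfl⟩, _, r3.le ⟨c', rfl⟩, by rw [← e', e, inv_mul_cancel_right]⟩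

end Cfsg.Agent.H37.Th
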