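import Cfsg.Agent.H37.ThE
import Cfsg.Agent.H37.Cent
set_option autoImplicit false

/-! The square of a semisimple class of a large Ree group. -/

namespace Cfsg.Agent.H37.Th

open H38 H40 H90 Cfsg.Lie Chev
open Matrix (SpecialLinearGroup)

theorem conj_eq_of_chi {D : ChevalleyDatum} [Chev D] {hD : IsChev D} {K : Type*} [Field K] {I : Type} {C : TwC D I}
    (T : TwD (matRel hD K) C) {m h h' : GL D.Idx K} (hm : m ∈ T.mt.N) {c c' : ℕ → Kˣ} (hc : IsH (matRel hD K) h c)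
    (hc' : IsH (matRel hD K) h' c') (e : ∀ r : Fin D.nroots, chi D c' (T.mt.w m r) = chi D c r) : m * h * m⁻¹ = h' := by
  refine IsH.uniq (matRel_adj _ _) ⟨T.mt.H_conj hm hc.1, fun r hr t => ?_⟩ hc'
  obtain ⟨s, hs⟩ := (T.mt.w m).surjective ⟨r, hr⟩
  obtain ⟨a, ha, e'⟩ := (acts_wN _ hm).1 s
  obtain rfl : (T.mt.w m s : ℕ) = r := congrArg Fin.val hs
  have e1 := e' (a⁻¹ * t)
  rw [mul_inv_cancel_left₀ ha] at e1
  calc _ = m * (h * (matRel hD K).x s (a⁻¹ * t) * h⁻¹) * m⁻¹ := by rw [T.mt_w, ← e1]; group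
    _ = _ := by
      rw [hc.2 _ s.2, e', e, T.mt_w]
      congr 1
      field_simp

variable {K : Type*} [Field K] {e : ℕ} (θ : H40.Th K 2 e)

include θ in
theorem cube_one {r : K} (h : r ^ 3 = 1) : r = 1 := by
  have h1 := θ.φφ r
  have h0 : r ≠ 0 := by rintro rfl; simp at h
  rw [θ.φ_def, θ.φ_def, ← pow_mul, ← pow_mul, pow_eq_pow_mod _ h] at h1
  have : e * (e * 2) % 3 = 0 ∨ e * (e * 2) % 3 = 2 := by
    rcases (by omega : e % 3 = 0 ∨ e % 3 = 1 ∨ e % 3 = 2) with h | h | h <;> simp [Nat.mul_mod, h]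
  rcases this with h2 | h2 <;> rw [h2] at h1
  · exact h1.symm.trans (pow_zero _)
  · exact mul_left_cancel₀ h0 (by rw [← sq, h1, mul_one])

theorem chi_cent {k : Kˣ} {r : ℕ} (hr : r < 48) (h : chi chevF4 (fc θ (k, k ^ 2)) r = 1) (hk : k ≠ 1) :
    r ∈ [33, 24, 14, 23] := by
  have h1 : ∀ r < 48, r ∉ [33, 24, 14, 23] → ∃ j < 4, (2 * (2 * chevF4.cartan 2 r + chevF4.cartan 3 r) ^ 2 -
      (chevF4.cartan 0 r + 2 * chevF4.cartan 1 r) ^ 2).natAbs = 2 ^ j := by decide +kernel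
  by_contra h2
  obtain ⟨j, -, hj⟩ := h1 r hr h2
  let f : Kˣ →* Kˣ := Units.map (θ.φ : K →* K)
  have h3 : f (f k) ^ (2 : ℤ) = k := Units.ext (by simpa [f, zpow_ofNat] using θ.φφ k)
  have h4 : f k ^ (chevF4.cartan 0 r + 2 * chevF4.cartan 1 r) * k ^ (2 * chevF4.cartan 2 r + chevF4.cartan 3 r) = 1 := by
    rw [← h, chiF4, zpow_add, zpow_add, zpow_mul, zpow_mul, mul_assoc (_ * _)]
    simp [fc, f, zpow_ofNat]
  generalize chevF4.cartan 0 r + 2 * chevF4.cartan 1 r = A at *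
  generalize 2 * chevF4.cartan 2 r + chevF4.cartan 3 r = B at *
  have h5 : k ^ A * f k ^ (2 * B) = 1 := by
    have := congrArg (fun t => f t ^ (2 : ℤ)) h4
    simp only [map_mul, map_zpow, mul_zpow, map_one, one_zpow] at this
    rwa [← zpow_mul, mul_comm A, zpow_mul, h3, ← zpow_mul, mul_comm B] at this
  have h6 : k ^ (2 * B ^ 2 - A ^ 2) = 1 := by
    have h7 := congrArg (· ^ (2 * B)) h4
    have h8 := congrArg (· ^ A) h5
    simp only [mul_zpow, ← zpow_mul, one_zpow] at h7 h8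
    rw [zpow_sub, mul_inv_eq_one, ← mul_right_inj (f k ^ (A * (2 * B))), show 2 * B ^ 2 = B * (2 * B) by ring, h7,
      mul_comm A, mul_comm, sq, h8]
  have := θ.char
  rw [← orderOf_dvd_iff_zpow_eq_one, Int.natCast_dvd, hj, orderOf_dvd_iff_pow_eq_one, Units.ext_iff,
    Units.val_pow_eq_pow_val, Units.val_one, ← one_pow (2 ^ j), ← sub_eq_zero, ← sub_pow_char_pow] at h6
  exact hk (Units.ext (sub_eq_zero.1 (pow_eq_zero_iff (by positivity) |>.1 h6)))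

theorem cent_le {k : Kˣ} (hk : k ≠ 1) {f} {T : Set (Fin chevF4.nroots)} (hT : (rs chevF4).Cl f T) {u}
    (hu : u ∈ (mg isChev_F4 K).US T) (h : fh θ (k, k ^ 2) * u = u * fh θ (k, k ^ 2)) :
    u ∈ XS (TF θ).mt.X (T ∩ {r | r.1 ∈ [33, 24, 14, 23]}) := by
  refine ((mg isChev_F4 K).US_le.2 ?_) (mem_US_of_comm (mg_faithful _ K) (S := {fh θ (k, k ^ 2)})
    (Set.singleton_subset_iff.2 ((rg_H _).ge (fh_mem_H θ _))) hT hu (by rintro _ rfl; exact h))
  refine fun r hr t => X_le_XS _ (s := T ∩ {r | r.1 ∈ [33, 24, 14, 23]}) ⟨hr.1, chi_cent θ r.2 (Units.ext ?_) hk⟩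
    ((mem_XF _).2 ⟨t, rfl⟩)
  simpa using x_inj (matRel_sep _ K) r.2 (((isH_fh θ _).2 r r.2 1).symm.trans (mul_inv_eq_iff_eq_mul.2 (hr.2 _ rfl 1)))

theorem exists_rho : ∃ ρ : SpecialLinearGroup (Fin 2) K →* GL chevF4.Idx K, (∀ t, ρ (xu t) = H40.pr θ t) ∧
    (∀ t, ρ (xl t) = (TF θ).mt.n 0 * H40.pr θ t * ((TF θ).mt.n 0)⁻¹) ∧ ∀ k : Kˣ, fh θ (k, 1) ∈ ρ.range := by
  obtain ⟨α, a1, a2, -⟩ := (SF K).exists_sl2Hom (r := 33) (by decide)
  obtain ⟨β, b1, b2, -⟩ := (SF K).exists_sl2Hom (r := 24) (by decide)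
  have h1 (m m') : α m * β m' = β m' * α m := by
    refine (sl2_eq_top (H := (Subgroup.centralizer {α m}).comap β) (fun u => ?_) fun u => ?_).ge trivial _ rfl <;>
    refine Subgroup.mem_centralizer_singleton_iff.2
      ((sl2_eq_top (H := (Subgroup.centralizer {β _}).comap α) (fun t => ?_) fun t => ?_).ge trivial _ rfl) <;>
    refine Subgroup.mem_centralizer_singleton_iff.2 ?_ <;> simp only [a1, a2, b1, b2] <;>
    exact x_commute _ (by decide) (by decide) (by decide) (by decide) (by decide +kernel) _ _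
  have m1 (t : K) : SpecialLinearGroup.map θ.φ (xu t) = xu (θ.φ t) := by ext i j; fin_cases i <;> fin_cases j <;> simp
  have m2 (t : K) : SpecialLinearGroup.map θ.φ (xl t) = xl (θ.φ t) := by ext i j; fin_cases i <;> fin_cases j <;> simp
  refine ⟨MonoidHom.mk' (fun m => α (SpecialLinearGroup.map θ.φ m) * β m) fun m m' => ?_, fun t => ?_, fun t => ?_,
    fun k => ⟨xu k.1 * xl (-k.1⁻¹) * xu k.1 * (xu (-1) * xl (-(-1)⁻¹) * xu (-1)), ?_⟩⟩
  · rw [map_mul, map_mul, map_mul, mul_assoc, mul_assoc, ← mul_assoc (α _) (β m), h1, mul_assoc]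
  · simp [m1, a1, b1, H40.pr, g2, gword]
  · rw [H40.pr, n0_conj_g2]; simp [m2, a2, b2, gword]; rfl
  · refine IsH.uniq (matRel_adj _ _) ?_ (isH_fh θ _)
    have := ((isH_simple (SF K) (i := 0) (by decide) (Units.map (θ.φ : K →* K) k)).mul
      (isH_simple (SF K) (i := 3) (by decide) k)).congr (c' := fc θ (k, 1)) fun i hi => by
        obtain rfl | rfl | rfl | rfl := lt_four hi <;> simp [fc]
    rw [show chevF4.simple 0 = 33 by decide, show chevF4.simple 3 = 24 by decide, h_def, h_def, n_def, n_def, n_def,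
      n_def] at this
    rw [MonoidHom.mk'_apply]
    simp only [map_mul, m1, m2, a1, a2, b1, b2, map_neg, map_inv₀, map_one]
    exact this

variable [Fintype K]

theorem cover_F4 (hk : ∃ k : K, k ≠ 0 ∧ k ≠ 1) : ∃ x : (TF θ).mt.Fix, Odd (orderOf x) ∧
    ∀ g : (TF θ).mt.Fix, g ≠ 1 → ∃ u v, g = u * x * u⁻¹ * (v * x * v⁻¹) := by
  have := θ.char
  have := (simple_F4 θ hk).1
  have := Fintype.ofFinite (TF θ).mt.Fix
  obtain ⟨k₀, hk0, hk1⟩ := hk
  let k := Units.mk0 k₀ hk0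
  have hk3 : k ^ 3 ≠ 1 := fun e => hk1 (cube_one θ (congrArg Units.val e))
  let S := mtSbn (TF θ) (by decide) 2 (hx_F4 θ)
  obtain ⟨ψ, p1, p2, p3⟩ := exists_rho θ
  have hn := (TF θ).mt.n_mem_Fix 0
  let ρ := ψ.codRestrict (TF θ).mt.Fix fun m => (sl2_eq_top (H := (TF θ).mt.Fix.comap ψ)
    (fun t => by simpa [p1] using pr_mem_Fix θ t)
    fun t => by simpa only [Subgroup.mem_comap, p2] using mul_mem (mul_mem hn (pr_mem_Fix θ t)) (inv_mem hn)).ge trivial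
  have r1 (t) : ρ (xu t) ∈ S.X 0 := show ψ _ ∈ (TF θ).mt.XJ 0 from p1 t ▸ g2_mem_XJ θ _ _
  have r2 (t) : ρ (xl t) = S.n 0 * ρ (xu t) * (S.n 0)⁻¹ := Subtype.ext ((p2 t).trans (by rw [← p1]; rfl))
  have r3 : ρ.range = Lv S 0 := by
    refine le_antisymm ?_ (Lv_le S (fun x hx => ?_) fun x hx => ?_)
    · rintro _ ⟨m, rfl⟩
      exact (sl2_eq_top (H := (Lv S 0).comap ρ) (fun t => X_mem S (r1 t))
        fun t => by rw [Subgroup.mem_comap, r2]; exact nX_mem S (r1 t)).ge (Subgroup.mem_top m)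
    all_goals obtain ⟨t, e⟩ := exists_pr θ hx x.2
    all_goals obtain rfl : x = ρ (xu t) := Subtype.ext (e.trans (p1 t).symm)
    exacts [⟨_, rfl⟩, ⟨_, r2 t⟩]
  let f := (fh θ).codRestrict _ (fh_mem_Fix θ)
  have hf (c) : f c ∈ S.H := fh_mem_H θ c
  have d2 (t) : f (k, k ^ 2) * ρ (xu t) = ρ (xu (1 * t)) * f (k, k ^ 2) := Subtype.ext (by
    have := fh_conj_pr θ k (k ^ 2) t
    rw [Units.val_pow_eq_pow_val, div_self (pow_ne_zero _ k.ne_zero), mul_inv_eq_iff_eq_mul, ← p1, ← p1] at this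
    exact this)
  have d3 (t) : f (k, k ^ 2) * ρ (xl (1 * t)) = ρ (xl t) * f (k, k ^ 2) := Subtype.ext (by
    have h2 : (chevF4.cartan 0 14 = -2 ∧ chevF4.cartan 1 14 = 1 ∧ chevF4.cartan 2 14 = 0 ∧ chevF4.cartan 3 14 = 0) ∧
        chevF4.cartan 0 23 = 0 ∧ chevF4.cartan 1 23 = 0 ∧ chevF4.cartan 2 23 = 1 ∧ chevF4.cartan 3 23 = -2 := by
      decide +kernel
    change fh θ _ * ψ _ = ψ _ * fh θ _
    rw [one_mul, p2, H40.pr, n0_conj_g2, ← mul_inv_eq_iff_eq_mul,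
      (isH_fh θ _).conj_word (by simp [show chevF4.nroots = 48 from rfl])]
    simp [chiF4, h2, fc, zpow_ofNat, hk0, k])
  have hτ (r : K) : r ^ 2 ≠ -1 + -1 * r := fun e => by
    have := cube_one θ (r := r) (by linear_combination (r - 1) * e)
    rw [this] at e
    exact one_ne_zero (α := K) (by linear_combination e - two_eq_zero θ)
  obtain ⟨x, hx⟩ := exists_rp (φ := ρ) (h := f (k, k ^ 2)) one_ne_zero (-1)
  have h3 : x ^ 3 = f (k ^ 3, (k ^ 3) ^ 2) := by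
    obtain ⟨m, rfl, e⟩ := hx
    have h4 : Commute (ρ m) (f (k, k ^ 2)) := ((sl2_eq_top (H := (Subgroup.centralizer {f (k, k ^ 2)}).comap ρ)
      (fun t => Subgroup.mem_centralizer_singleton_iff.2 (by simpa using (d2 t).symm))
      fun t => Subgroup.mem_centralizer_singleton_iff.2 (by simpa using (d3 t).symm)).ge trivial _ rfl).symm
    have h5 : m ^ 3 = 1 := Subtype.ext (show mv (m ^ 3) = 1 by
      rw [map_pow, show mv m = cm 1 (-1) by rw [e, pow_one, ← Matrix.one_fin_two, mul_one]]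
      simp [cm, pow_succ, Matrix.one_fin_two])
    rw [pow_one, h4.mul_pow, ← map_pow, h5, map_one, one_mul, ← map_pow, Prod.pow_mk, ← pow_mul, ← pow_mul]
  have h6 {u} (e : x * u = u * x) : fh θ (k ^ 3, (k ^ 3) ^ 2) * u.1 = u.1 * fh θ (k ^ 3, (k ^ 3) ^ 2) :=
    congrArg Subtype.val (h3 ▸ Commute.pow_left e 3 :)
  refine ⟨x, ?_, cover S (a := 0) (b := 1) (by decide) (fun g hg => ?_) (by decide)
    (five_mt _ _ 2 (a := 0) (b := 1) _ (by decide +kernel)) ?_ (fun u hu e => Subtype.ext ?_)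
    (fun v hv hv' e => Subtype.ext ?_) (inv_mem (pow_mem (hf (k, k ^ 2)) 2)) fun l hl => ?_⟩
  · refine Odd.of_dvd_nat (Odd.mul (by decide : Odd 3) (Nat.odd_iff.2 (Nat.two_dvd_ne_zero.1 S.pH)))
      (orderOf_dvd_of_pow_eq_one ?_)
    rw [pow_mul, h3]
    exact congrArg Subtype.val (pow_card_eq_one' (x := (⟨_, hf _⟩ : S.H)))
  · obtain ⟨z, hz, v, hv, u, hu, c, hc, e⟩ := exists_gauss S 1
    obtain ⟨⟨a, b⟩, e'⟩ := exists_fh θ (mul_mem hc hg) (c * g).2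
    obtain ⟨l, hl⟩ := θ.perf (b⁻¹ : Kˣ)
    have hl0 : l ≠ 0 := by rintro rfl; exact Units.ne_zero _ (hl.symm.trans (zero_pow two_ne_zero))
    have h7 : S.n 1 * f (1, Units.mk0 l hl0) * (S.n 1)⁻¹ = (f (1, Units.mk0 l hl0))⁻¹ := Subtype.ext
      (conj_eq_of_chi (TF θ) (m := (TF θ).mt.n 1) ((TF θ).mt.n_mem 1) (isH_fh θ _) (isH_fh θ _).inv fun r => by
        have h8 : ∀ r < chevF4.nroots, chevF4.cartan 1 (wact chevF4 (CF4.word 1) r) = -chevF4.cartan 1 r ∧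
          chevF4.cartan 2 (wact chevF4 (CF4.word 1) r) = -chevF4.cartan 2 r := by decide +kernel
        rw [TwD.mt_w_n, chiF4, chiF4, (h8 r r.2).1, (h8 r r.2).2]
        simp [fc])
    refine ⟨_, S.H_X 1 (hf (1, Units.mk0 l hl0)) z hz, _, S.H_V (hf (1, Units.mk0 l hl0)) v hv, _,
      S.H_U _ (hf (1, Units.mk0 l hl0)) u hu, _, mul_mem (mul_mem (hf (1, Units.mk0 l hl0)) hc) (hf (1, Units.mk0 l hl0)),
      ?_, ?_⟩
    · rw [congrArg (_ * z * · * S.n 1) h7.symm,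
        show ∀ a n : (TF θ).mt.Fix, a * z * (n * a * n⁻¹) * n = a * (z * n) * a from fun a n => by group, e]
      group
    · obtain ⟨m, hm⟩ := p3 a
      refine r3.le ⟨m, Subtype.ext (hm.trans ?_)⟩
      change _ = fh θ _ * c.1 * fh θ _ * g.1
      rw [mul_assoc (fh θ _), H_comm (matRel_adj _ _) (h := c.1) hc (fh_mem_H θ _), mul_assoc, mul_assoc,
        show c.1 * g.1 = _ from e', ← map_mul, ← map_mul]
      congr 1
      refine Prod.ext (by simp) (Units.ext ?_)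
      simp [← mul_assoc, ← sq, hl]
  · obtain ⟨m, rfl, -⟩ := hx
    exact mul_mem (Subgroup.mem_sup_left (r3.le ⟨m, rfl⟩)) (Subgroup.mem_sup_right (pow_mem (hf _) 1))
  · refine (TF θ).mt.Up_XJ hu (XS_mono (TF θ).mt.X (t := (TF θ).mt.J 0) (fun r hr => ?_)
      (cent_le θ hk3 (rs _).cl_pos ((rg_U _).ge ((TF θ).mt_U.le ((TF θ).mt.Up_le 0 hu))) (h6 e)))
    exact (by decide +kernel : ∀ r < chevF4.nroots, chevF4.nroots / 2 ≤ r → r ∈ [33, 24, 14, 23] →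
      inJ chevF4 (CF4.Js 0) r) r r.2 ((rs_pos_iff r).1 hr.1) hr.2
  · refine SBN.eq_one_of_conj ((TF θ).mt.UV ((TF θ).mt.conj_XS ((TF θ).mt.n_mem 0) (fun r hr => ?_)
      (cent_le θ hk3 (rs _).cl_neg ((rg_V _).ge ((TF θ).mt_V.le hv)) (h6 e))) hv')
    change chevF4.nroots / 2 ≤ ((TF θ).mt.w _ r : ℕ)
    rw [TwD.mt_w_n]
    exact (by decide +kernel : ∀ r < chevF4.nroots, ¬ chevF4.nroots / 2 ≤ r → r ∈ [33, 24, 14, 23] →
      chevF4.nroots / 2 ≤ wact chevF4 (CF4.word 0) r) r r.2 (fun h => hr.1 ((rs_pos_iff r).2 h)) hr.2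
  · obtain ⟨m, e⟩ := r3.ge hl
    obtain ⟨s, c, c', e'⟩ := sl_cover one_ne_zero d2 d3 hτ hx m
    exact ⟨_, r1 s, _, r3.le ⟨c, rfl⟩, _, r3.le ⟨c', rfl⟩, by rw [← e', e, inv_mul_cancel_right]⟩

end Cfsg.Agent.H37.Th
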