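import Cfsg.Agent.H55.Act4
set_option autoImplicit false

/-! A search through a permutation group up to conjugacy, showing that the square of a class covers the group. -/

namespace Cfsg.Agent.H37.Ti

open H14 H55 H55.AM

/-- a level: base point and orbit, a word moving the origin to the base point, symmetries, edges of their orbits -/
structure LQ where
  L : Lv
  pts : List ℕ
  ub : ℕ
  hs : List ℕ
  chunks : List ℕ

variable {τ : Type}

/-- leaves: the identity, a product of two conjugates, an element moving a point as in an earlier case -/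
noncomputable def leafQ (lk : τ → ℕ → ℕ) (t : TT τ) (B : List ℕ) (fx : ℕ → ℕ) (o M : ℕ) (f : ℕ → ℕ) (k a b : ℕ) :
    Bool :=
  Nat.rec (agree B f fun i => i) (fun k _ => Nat.rec
    (cj lk t fx a fun e => cj lk t fx b fun e' => agree B f fun i => e (e' i))
    (fun _ _ => wf lk t a fun g g' => tb M (g' (f (g o)))) k) k

/-- the search -/
noncomputable def srch (lk : τ → ℕ → ℕ) (t : TT τ) (N : ℕ) (B : List ℕ) (fx : ℕ → ℕ) (o M : ℕ) (cs : List LQ) :
    CT → (ℕ → ℕ) → List ℕ → Bool :=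
  List.rec (fun ct f _ => CT.rec false (fun k a b => leafQ lk t B fx o M f k a b) (fun _ _ _ _ _ _ => false) ct)
    (fun c _ ih ct f prev => (mkL lk t c.hs fun hf =>
      allL hf (fun h => agree (c.L.b :: prev) h (fun i => i) && agree prev (fun i => h (f i)) f) &&
        wf lk t c.ub fun g g' => Nat.beq (g o) c.L.b && bfs hf (nat_lit 65536) c.chunks
          (fun m _ => allD N c.L.D c.pts fun δ => force (f δ) fun γ => Bool.rec (tb M (g' γ)) true (tb m γ))
          (ct.mask (nat_lit 0)) (nat_lit 0)) &&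
      ct.all fun γ u sub => wf lk t u fun g _ => agree prev g (fun i => i) && Nat.beq (f (g c.L.b)) γ &&
        ih sub (fun i => f (g i)) (c.L.b :: prev)) cs

theorem bfs1_inv {R : ℕ → Prop} {fs : List (ℕ → ℕ)} (hfs : ∀ f ∈ fs, ∀ i, R i → R (f i)) {EB : ℕ}
    {fin : ℕ → ℕ → Bool} {F d m n : ℕ} (h : ∀ i, tb m i = true → R i) (hc : bfs1 fs EB fin F d m n = true) :
    ∃ m' n', (∀ i, tb m' i = true → R i) ∧ fin m' n' = true := by
  induction F generalizing d m n with
  | zero => exact absurd hc Bool.false_ne_true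
  | succ F ih =>
    have : bfs1 fs EB fin (F + 1) d m n = Bool.rec (force (Nat.mod d EB) fun e =>
        force (nthF fs (Nat.land e (nat_lit 15)) (Nat.shiftRight e (nat_lit 4))) fun y =>
          Bool.rec false (Bool.rec (force (Nat.lor m (Nat.shiftLeft (nat_lit 1) y)) fun m' =>
              force (Nat.div d EB) fun d' => force (Nat.succ n) fun n' => bfs1 fs EB fin F d' m' n') false (tb m y))
            (tb m (Nat.shiftRight e (nat_lit 4))))
      (fin m n) (Nat.ble d (nat_lit 1)) := rfl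
    rw [this, rec_ble] at hc
    split_ifs at hc
    · exact ⟨m, n, h, hc⟩
    simp only [force_eq] at hc
    generalize Nat.mod d EB = e at hc
    cases h1 : tb m (Nat.shiftRight e (nat_lit 4))
    · rw [h1] at hc; exact absurd hc Bool.false_ne_true
    cases h2 : tb m (nthF fs (Nat.land e (nat_lit 15)) (Nat.shiftRight e (nat_lit 4)))
    swap
    · rw [h1, h2] at hc; exact absurd hc Bool.false_ne_true
    rw [h1, h2] at hc
    refine ih (fun i hi => ((tb_lor _ _ _).1 hi).elim (h i) ?_) hc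
    rintro rfl
    rcases nthF_cases fs (Nat.land e (nat_lit 15)) with h3 | h3
    · exact hfs _ h3 _ (h _ h1)
    · rw [h3]; exact h _ h1

theorem bfs_inv {R : ℕ → Prop} {fs : List (ℕ → ℕ)} (hfs : ∀ f ∈ fs, ∀ i, R i → R (f i)) {EB : ℕ} {chunks : List ℕ}
    {fin : ℕ → ℕ → Bool} {m n : ℕ} (h : ∀ i, tb m i = true → R i) (hc : bfs fs EB chunks fin m n = true) :
    ∃ m' n', (∀ i, tb m' i = true → R i) ∧ fin m' n' = true := by
  induction chunks generalizing m n with
  | nil => exact ⟨m, n, h, hc⟩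
  | cons c cs ih =>
    obtain ⟨m', n', h1, h2⟩ := bfs1_inv hfs h (show bfs1 fs EB (bfs fs EB cs fin) (nat_lit 2000) c m n = true from hc)
    exact ih h1 h2

variable {G Ω : Type*} [Group G] [MulAction G Ω] {N : ℕ} {A : AM G Ω N}

/-- `g` is trivial or a product of two conjugates of `x` -/
def Cv (x g : G) : Prop := g ≠ 1 → ∃ u v, g = u * x * u⁻¹ * (v * x * v⁻¹)

theorem Cv.of_conj {x g : G} (s : G) (h : Cv x (s⁻¹ * g * s)) : Cv x g := fun h1 => by
  obtain ⟨u, v, e⟩ := h fun e => h1 (by simpa [mul_eq_one_iff_eq_inv] using e)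
  exact ⟨s * u, s * v, by rw [show g = s * (s⁻¹ * g * s) * s⁻¹ by group, e]; group⟩

variable (A) in
/-- the elements moving `o` into `M` are covered -/
def Q (x : G) (o M : ℕ) : Prop := ∀ g, ∀ j < N, tb M j = true → g • A.code o = A.code j → Cv x g

variable {lk : τ → ℕ → ℕ} {t : TT τ} (hv : A.Valid lk ⊤ t) {B : List ℕ} (hB : A.IsBase B) {x : G} {fx : ℕ → ℕ}
  (hx : A.Fn x fx) {o M : ℕ} (ho : o < N) (hQ : Q A x o M)
include hv hB hx ho hQ

theorem srch_sound {cs : List LQ} {K : Subgroup G} (hE : A.Ex (cs.map LQ.L) K) {prev : List ℕ}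
    (hp : ∀ q ∈ prev, q < N) (hK : ∀ g, g ∈ K ↔ ∀ q ∈ prev, g • A.code q = A.code q) {U c : G} {f : ℕ → ℕ}
    (hf : A.Fn U f) (hU : U⁻¹ * c ∈ K) {ct : CT} (hc : srch lk t N B fx o M cs ct f prev = true) : Cv x c := by
  have cut {u c : G} {g g' : ℕ → ℕ} (h1 : A.Fn u g) (h2 : A.Fn u⁻¹ g') {j} (hj : j < N)
      (e : c • A.code (g o) = A.code j) (h : tb M (g' j) = true) : Cv x c :=
    .of_conj u (hQ _ _ (h2.lt hj) h (by rw [mul_smul, mul_smul, h1.smul ho, e, h2.smul hj]))
  induction cs generalizing c K prev U f ct with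
  | nil =>
    rw [show K = ⊥ from hE, Subgroup.mem_bot, inv_mul_eq_one] at hU
    subst hU
    match ct, hc with
    | .leaf 0 a b, hc => exact fun h => absurd (hB.eq hf Fn.one hc) h
    | .leaf 1 a b, hc =>
      have h2 : (cj lk t fx a fun e => cj lk t fx b fun e' => agree B f fun i => e (e' i)) = true := hc
      rw [cj_eq, cj_eq] at h2
      obtain ⟨u, -, h3⟩ := hv.cj hx a
      obtain ⟨v, -, h4⟩ := hv.cj hx b
      exact fun _ => ⟨u, v, hB.eq hf (h3.mul h4) h2⟩
    | .leaf (k + 2) a b, hc =>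
      have h2 : (wf lk t a fun g g' => tb M (g' (f (g o)))) = true := hc
      rw [wf_eq] at h2
      obtain ⟨u, -, h3, h4⟩ := hv.wf a
      exact cut h3 h4 (hf.lt (h3.lt ho)) (hf.smul (h3.lt ho)) h2
  | cons L cs ih =>
    have e : srch lk t N B fx o M (L :: cs) ct f prev = ((mkL lk t L.hs fun hf =>
      allL hf (fun h => agree (L.L.b :: prev) h (fun i => i) && agree prev (fun i => h (f i)) f) &&
        wf lk t L.ub fun g g' => Nat.beq (g o) L.L.b && bfs hf (nat_lit 65536) L.chunks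
          (fun m _ => allD N L.L.D L.pts fun δ => force (f δ) fun γ => Bool.rec (tb M (g' γ)) true (tb m γ))
          (ct.mask (nat_lit 0)) (nat_lit 0)) &&
      ct.all fun γ u sub => wf lk t u fun g _ => agree prev g (fun i => i) && Nat.beq (f (g L.L.b)) γ &&
        srch lk t N B fx o M cs sub (fun i => f (g i)) (L.L.b :: prev)) := rfl
    simp only [e, mkL_eq, wf_eq, Bool.and_eq_true, allL_iff, agree_iff, beq_iff] at hc
    obtain ⟨⟨h1, h2, h3⟩, h4⟩ := hc
    obtain ⟨hb, -, hD, hE'⟩ := hE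
    obtain ⟨j, hj, hjD, hjb⟩ := hD _ hU
    have hcb : c • A.code L.L.b = A.code (f j) := by
      rw [← hf.smul hj, ← hjb, ← mul_smul, mul_inv_cancel_left]
    have hcq (q) (hq : q ∈ prev) : c • A.code q = U • A.code q := by
      have := (hK _).1 hU q hq
      rwa [mul_smul, inv_smul_eq_iff] at this
    obtain ⟨m, -, h5, h6⟩ := bfs_inv (R := fun i => ∃ h : G, (∀ q ∈ L.L.b :: prev, h • A.code q = A.code q) ∧
      (∀ q ∈ prev, h • U • A.code q = U • A.code q) ∧ ∃ γ, ct.mem γ = true ∧ (γ < N → i < N ∧ h • A.code γ = A.code i))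
      (fun f' hf' i ⟨h, a1, a2, γ, a3, a4⟩ => by
        obtain ⟨w, -, rfl⟩ := List.mem_map.1 hf'
        obtain ⟨g, -, a5, -⟩ := hv.wf w
        refine ⟨g * h, fun q hq => ?_, fun q hq => ?_, γ, a3, fun h => ⟨a5.lt (a4 h).1, ?_⟩⟩
        · rw [mul_smul, a1 q hq, a5.smul (List.forall_mem_cons (p := (· < N)).2 ⟨hb, hp⟩ q hq), (h1 _ hf').1 q hq]
        · rw [mul_smul, a2 q hq, hf.smul (hp q hq), a5.smul (hf.lt (hp q hq)), (h1 _ hf').2 q hq]
        · rw [mul_smul, (a4 h).2, a5.smul (a4 h).1])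
      (fun i hi => ⟨1, by simp, by simp, i, (CT.tb_mask hi).resolve_left (by rw [tb_eq]; simp),
        fun h => ⟨h, one_smul _ _⟩⟩) h3
    have h7 := allD_spec h6 hj hjD
    rw [force_eq] at h7
    cases h8 : tb m (f j)
    · obtain ⟨u, -, a1, a2⟩ := hv.wf L.ub
      exact cut a1 a2 (hf.lt hj) (h2 ▸ hcb) (by rwa [h8] at h7)
    obtain ⟨h, a1, a2, γ, a3, a4⟩ := h5 _ h8
    obtain ⟨u, sub, a5⟩ := CT.spec a3 h4
    simp only [wf_eq, Bool.and_eq_true, agree_iff, beq_iff] at a5
    obtain ⟨g, -, a6, -⟩ := hv.wf u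
    refine .of_conj h (ih hE' (prev := L.L.b :: prev) (List.forall_mem_cons.2 ⟨hb, hp⟩) (fun g => by
      rw [List.forall_mem_cons, Subgroup.mem_inf, hK, MulAction.mem_stabilizer_iff, and_comm]) (hf.mul a6)
      ⟨(hK _).2 fun q hq => ?_, ?_⟩ a5.2)
    · rw [mul_smul, inv_smul_eq_iff, mul_smul, mul_smul, a1 q (.tail _ hq), hcq q hq, mul_smul, a6.smul (hp q hq),
        a5.1.1 q hq, inv_smul_eq_iff, a2 q hq]
    · change (_ * _) • A.code L.L.b = A.code L.L.b
      rw [mul_smul, inv_smul_eq_iff, mul_smul, mul_smul, a1 _ (.head _), hcb, (hf.mul a6).smul hb, a5.1.2,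
        inv_smul_eq_iff, (a4 (a5.1.2 ▸ hf.lt (a6.lt hb))).2]

theorem Q.step {cs : List LQ} (hE : A.Ex (cs.map LQ.L) (⊤ ⊓ MulAction.stabilizer G (A.code o))) {c D s : ℕ}
    (hO : A.OrbIn (⊤ ⊓ MulAction.stabilizer G (A.code o)) c D s) {u M' : ℕ} {ct : CT}
    (hc : (wf lk t u fun g _ => Nat.beq (g o) c && Nat.beq M' (Nat.lor M D) && srch lk t N B fx o M cs ct g [o]) = true) :
    Q A x o M' := fun g j hj h e => by
  simp only [wf_eq, Bool.and_eq_true, beq_iff] at hc
  rw [hc.1.2, tb_eq, show Nat.lor M D = M ||| D from rfl, Nat.testBit_or, Bool.or_eq_true, ← tb_eq, ← tb_eq] at h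
  refine h.elim (fun h => hQ g j hj h e) fun h => ?_
  obtain ⟨-, k, hk, e'⟩ := hO.1 j h
  obtain ⟨U, -, h1, -⟩ := hv.wf u
  refine .of_conj k (srch_sound hv hB hx ho hQ hE (prev := [o]) (by simpa) (by simp) h1 ⟨trivial, ?_⟩ hc.2)
  change (_ * _) • A.code o = A.code o
  rw [mul_smul, inv_smul_eq_iff, mul_smul, mul_smul, hk.2, e, h1.smul ho, hc.1.1, inv_smul_eq_iff, e']

end Cfsg.Agent.H37.Ti
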