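import Cfsg.Agent.H37.TiD
import Cfsg.Agent.KF.TitsOut
set_option autoImplicit false
set_option maxRecDepth 100000

/-! The square of a class of elements of order 13 covers the Tits group. -/

namespace Cfsg.Agent.H37.Ti

open H14 H55 H55.AM H57.OutTits
open H57Ru (lkR HH AP rho tF equivF)
open scoped commutatorElement

theorem cover_of {G Ω : Type*} [Group G] [MulAction G Ω] (A : AM G Ω 4060) (vt0 : A.Valid lkR ⊤ t0)
    (hc : Nat.card G = 17971200) : ∃ x : G, Odd (orderOf x) ∧ ∀ g, Cv x g := by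
  have : Finite G := Nat.finite_of_card_ne_zero (by rw [hc]; decide)
  have n {l r} := valid_node (A := A) (lk := lkR) (H := ⊤) (l := l) (r := r)
  have v2 := vt0.leaf_of_leafOK _ cl2_0
  have v3 := vt0.leaf_of_leafOK _ cl3_0
  have vt0x : A.Valid lkR ⊤ t0x := (n vt0 (n v2 v3))
  have v4 := vt0x.leaf_of_leafOK _ cl4_0
  have v5 := vt0x.leaf_of_leafOK _ cl5_0
  have vt2 : A.Valid lkR ⊤ t2 := (n v5 (n v4 v4.swap))
  have v6 := vt2.leaf_of_leafOK _ cl6_0
  have v7 := vt2.leaf_of_leafOK _ cl7_0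
  have v8 := vt2.leaf_of_leafOK _ cl8_0
  have v9 := vt2.leaf_of_leafOK _ cl9_0
  have v10 := vt2.leaf_of_leafOK _ cl10_0
  have v11 := vt2.leaf_of_leafOK _ cl11_0
  have v12 := vt2.leaf_of_leafOK _ cl12_0
  have v13 := vt2.leaf_of_leafOK _ cl13_0
  have v14 := vt2.leaf_of_leafOK _ cl14_0
  have v15 := vt2.leaf_of_leafOK _ cl15_0
  have v16 := vt2.leaf_of_leafOK _ cl16_0
  have v17 := vt2.leaf_of_leafOK _ cl17_0
  have v18 := vt2.leaf_of_leafOK _ cl18_0
  have v19 := vt2.leaf_of_leafOK _ cl19_0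
  have v20 := vt2.leaf_of_leafOK _ cl20_0
  have v21 := vt2.leaf_of_leafOK _ cl21_0
  have vt1 : A.Valid lkR ⊤ t1 := (n (n (n (n v6 v7) (n v8 v9)) (n (n v10 v11) (n v12 v13))) (n (n (n v14 v15) (n v16
    v17)) (n (n v18 v19) (n v20 v21))))
  have vt1i : A.Valid lkR ⊤ t1i := (n (n (n (n v6.swap v7.swap) (n v8.swap v9.swap)) (n (n v10.swap v11.swap) (n
    v12.swap v13.swap))) (n (n (n v14.swap v15.swap) (n v16.swap v17.swap)) (n (n v18.swap v19.swap) (n v20.swap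
    v21.swap))))
  have vs0 : A.Valid lkR ⊤ s0 := (n vt1 vt1i)
  obtain ⟨x, -, hx, -⟩ := v4
  have hE := (ex_of_preOK vs0 cA0 (by rw [hc]; decide +kernel)).2
  have hE' := ex_cons vs0 hE.1 hE.2.1 cB0 (by rw [Subgroup.card_top, hc]; decide +kernel)
  have hB : A.IsBase bq := hE.isBase
  have ho : 16 < 4060 := by decide
  have hO {c} (h : levOK lkR s0 4060 65536 (fun _ => true) [16] c = true) := (pre_cons_of_levOK
    (K := ⊤ ⊓ MulAction.stabilizer G (A.code 16)) vs0 (fun g hg f hf _ h =>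
      ⟨hg, (hf.smul_eq_iff ho ho).2 (agree_iff.1 h _ List.mem_cons_self)⟩) h).2
  have q0 : Q A x 16 mA := fun _ _ _ h => by rw [tb_eq] at h; exact absurd h (by simp [mA])
  have q1 := q0.step vs0 hB hx ho (cs := qA) hE.2.2.2 hE.2.2.2.2.1 cA
  have q2 := q1.step vs0 hB hx ho (cs := qB) hE'.2.2.2 hE'.2.2.2.2.1 cB
  have q3 := q2.step vs0 hB hx ho (cs := qC) hE.2.2.2 (hO cC0) cC
  have q4 := q3.step vs0 hB hx ho (cs := qD) hE.2.2.2 (hO cD0) cD
  have q5 := q4.step vs0 hB hx ho (cs := qE) hE.2.2.2 (orbIn_init _ ho) cE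
  refine ⟨x, Odd.of_dvd_nat (by decide : Odd 13) (orderOf_dvd_of_pow_eq_one (hB.eq (hx.iter 13) Fn.one cX)), fun g => ?_⟩
  obtain ⟨j, hj, h1, h2⟩ := hE.2.2.1 g trivial
  exact q5 g j hj h1 h2

attribute [local irreducible] rho tF T0 T1 T2 T3

theorem cover_of_equiv {G : Type*} [Group G] {A : Subgroup G} (e : A ≃* HH) (hc : Nat.card (commutator A) = 17971200) :
    ∃ x : commutator A, Odd (orderOf x) ∧ ∀ g, Cv x g := by
  let _ : MulAction (commutator A) (Fin 4060) :=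
    MulAction.compHom _ (HH.subtype.comp (e.toMonoidHom.comp (commutator A).subtype))
  let B : AM (commutator A) (Fin 4060) 4060 := ⟨AP.code, AP.inj⟩
  have key : ∀ {T T'}, (∃ a b : HH, AP.Fn (⁅a, b⁆ : HH).1 (lkR T) ∧ AP.Fn (⁅a, b⁆ : HH).1⁻¹ (lkR T')) →
      B.Valid lkR ⊤ (.leaf T T') := fun ⟨a, b, h1, h2⟩ => by
    refine ⟨⟨⁅e.symm a, e.symm b⁆, Subgroup.commutator_mem_commutator trivial trivial⟩, trivial, ?_, ?_⟩
    · change AP.Fn (e ⁅e.symm a, e.symm b⁆).1 _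
      rwa [map_commutatorElement, e.apply_symm_apply, e.apply_symm_apply]
    · change AP.Fn (e ⁅e.symm a, e.symm b⁆⁻¹).1 _
      rwa [map_inv, map_commutatorElement, e.apply_symm_apply, e.apply_symm_apply]
  have v0 := key (KF.tits_comm (u := 11458) (v := 17627) KF.tits_c0 (by decide +kernel))
  have v1 := key (KF.tits_comm (u := 9059) (v := 28851) KF.tits_c1 (by decide +kernel))
  exact cover_of B (valid_node (valid_node v0 v0.swap) (valid_node v1 v1.swap)) hc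

theorem cover_tits : ∃ x : Cfsg.Lie.TitsGroup, Odd (orderOf x) ∧ ∀ g, Cv x g :=
  cover_of_equiv equivF S1074.result.2.2.2

end Cfsg.Agent.H37.Ti
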